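import Cfsg.Agent.SectRank.CaseTwoTools

/-!
Harada's theorem when no self-centralising elementary subgroup of order eight contains a normal
four group.
-/

set_option autoImplicit false

namespace CfsgLib.SectRank

universe u

variable {S : Type u} [Group S] [Finite S]

/-- The conclusion of the second case, once a square root `c` of `z` central modulo the four group
is found. -/
theorem hasRK_four_of_root (hG : IsPGroup 2 S) {z w a y c : S} (hz : z ∈ Subgroup.center S)
    (hz1 : z ≠ 1) (hz2 : z ^ 2 = 1) (hw2 : w ^ 2 = 1) (hw1 : w ≠ 1) (hwz : w ≠ z)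
    (hn : (Subgroup.closure ({z, w} : Set S)).Normal) (ha2 : a ^ 2 = 1)
    (haw : a * w * a⁻¹ = w * z) (hidx : (Subgroup.centralizer ({w} : Set S)).index = 2)
    (hy2 : y ^ 2 = 1) (hay : a * y = y * a) (hyw : y * w = w * y)
    (hFy : ∀ x, x * w = w * x → x * a = a * x → x * y = y * x →
      x ∈ Subgroup.closure ({z, y} : Set S))
    (hcw : c * w = w * c) (hca : c * a = a * c) (hc : c ^ 2 = z) (hcy : c * y ≠ y * c)
    (hcC : ∀ x, x * w = w * x → x * c * x⁻¹ * c⁻¹ ∈ Subgroup.closure ({z, w} : Set S)) :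
    HasRK 4 S := by
  have : Fact (Nat.Prime 2) := ⟨Nat.prime_two⟩
  set W := Subgroup.closure ({z, w} : Set S) with hW
  set C := Subgroup.centralizer ({w} : Set S) with hC
  have hCn : C.Normal := Subgroup.normal_of_index_eq_two hidx
  have hzc := Subgroup.mem_center_iff.1 hz
  have hzw : Commute z w := (hzc w).symm
  have hW4 : Nat.card W = 4 := card_closure_pair hz2 hw2 hzw hz1 hw1 hwz
  have hwC : w ∈ C := Subgroup.mem_centralizer_singleton_iff.2 rfl
  have hcCmem : c ∈ C := Subgroup.mem_centralizer_singleton_iff.2 hcw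
  have haC : a ∉ C := fun h => hz1 (by
    rw [Subgroup.mem_centralizer_singleton_iff.1 h, mul_inv_cancel_right] at haw
    exact mul_eq_left.1 haw.symm)
  have hWcomm : ∀ k ∈ W, ∀ g ∈ C, g * k = k * g := by
    intro k hk g hg
    have hgw := Subgroup.mem_centralizer_singleton_iff.1 hg
    rcases (mem_closure_pair hz2 hw2 hzw).1 hk with rfl | rfl | rfl | rfl
    · simp
    · exact hzc g
    · exact hgw
    · exact ((Commute.mul_right (hgw : Commute g w) (hzc g : Commute g z))).eq
  have hzW : z ∈ W := Subgroup.subset_closure (Or.inl rfl)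
  have hwW : w ∈ W := Subgroup.subset_closure (Or.inr rfl)
  -- every element of `S` moves `c` inside `W`
  have hcS : ∀ x, x * c * x⁻¹ * c⁻¹ ∈ W := fun x => by
    by_cases hx : x ∈ C
    · exact hcC x (Subgroup.mem_centralizer_singleton_iff.1 hx)
    · have hxa : x * a ∈ C := by
        rw [Subgroup.mul_mem_iff_of_index_two hidx]
        exact iff_of_false hx haC
      have e : x * c * x⁻¹ * c⁻¹ = x * a * c * (x * a)⁻¹ * c⁻¹ := by
        rw [mul_assoc x a c, ← hca]; group
      rw [e]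
      exact hcC _ (Subgroup.mem_centralizer_singleton_iff.1 hxa)
  set V := C ⊓ Subgroup.centralizer ({c} : Set S) with hV
  have hVn : V.Normal := ⟨fun v hv g => ⟨hCn.conj_mem v hv.1 g, by
    refine Subgroup.mem_centralizer_singleton_iff.2 ?_
    set k := g⁻¹ * c * g⁻¹⁻¹ * c⁻¹ with hk
    have hkv : Commute v (k * c) := Commute.mul_right (hWcomm k (hcS g⁻¹) v hv.1)
      (Subgroup.mem_centralizer_singleton_iff.1 hv.2)
    calc g * v * g⁻¹ * c = g * (v * (k * c)) * g⁻¹ := by rw [hk]; group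
      _ = g * ((k * c) * v) * g⁻¹ := by rw [hkv.eq]
      _ = c * (g * v * g⁻¹) := by rw [hk]; group⟩⟩
  have hzV : z ∈ V := ⟨Subgroup.mem_centralizer_singleton_iff.2 hzw.eq,
    Subgroup.mem_centralizer_singleton_iff.2 (hzc c).symm⟩
  have hwV : w ∈ V := ⟨hwC, Subgroup.mem_centralizer_singleton_iff.2 hcw.symm⟩
  have hcV : c ∈ V := ⟨hcCmem, Subgroup.mem_centralizer_singleton_iff.2 rfl⟩
  have hinvV : ∀ v ∈ V, conjHom a v ∈ V := fun v hv => hVn.conj_mem v hv a
  set σ := subHom (conjHom a) V hinvV with hσ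
  -- the fixed points are cyclic
  have hcyc : IsCyclic (fixSub σ) := by
    set FV := Subgroup.centralizer ({a} : Set S) ⊓ V with hFV
    have hinvy : ∀ v ∈ FV, conjHom y v ∈ FV := fun v hv => by
      refine ⟨?_, hVn.conj_mem v hv.2 y⟩
      have hav : Commute v a := Subgroup.mem_centralizer_singleton_iff.1 hv.1
      have hya : Commute y a := hay.symm
      exact Subgroup.mem_centralizer_singleton_iff.2
        ((hya.mul_left hav).mul_left hya.inv_left).eq
    have hcFV : c ∈ FV := ⟨Subgroup.mem_centralizer_singleton_iff.2 hca, hcV⟩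
    have hyc : y * c * y⁻¹ = c⁻¹ := by
      have hk : y * c * y⁻¹ * c⁻¹ ∈ W := hcS y
      have hfix : Commute (y * c * y⁻¹ * c⁻¹) a :=
        ((Commute.mul_left (hay.symm : Commute y a) (hca : Commute c a)).mul_left
          (Commute.inv_left (hay.symm : Commute y a))).mul_left (Commute.inv_left hca)
      have hci : z * c = c⁻¹ := eq_inv_of_mul_eq_one_left (by
        rw [mul_assoc, ← pow_two, hc, ← pow_two, hz2])
      rcases (mem_closure_pair hz2 hw2 hzw).1 hk with e | e | e | e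
      · exact absurd (mul_inv_eq_iff_eq_mul.1 (mul_inv_eq_one.1 e)).symm hcy
      · rw [mul_inv_eq_iff_eq_mul.1 e, hci]
      · rw [e] at hfix
        exact absurd (Subgroup.mem_centralizer_singleton_iff.2 hfix.eq.symm) haC
      · rw [e] at hfix
        have hwa : Commute w a := by
          simpa using hfix.mul_left (Commute.inv_left (hzc a).symm : Commute z⁻¹ a)
        exact absurd (Subgroup.mem_centralizer_singleton_iff.2 hwa.eq.symm) haC
    set τ := subHom (conjHom y) FV hinvy with hτ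
    have hτfix : Nat.card (fixSub τ) ≤ 2 := by
      rw [hτ, card_fixSub_subHom, fixSub_conjHom]
      refine (Subgroup.card_le_of_le fun v hv => ?_).trans (card_zpowers_le_two hz2)
      have hvy := Subgroup.mem_centralizer_singleton_iff.1 hv.1
      have hva := Subgroup.mem_centralizer_singleton_iff.1 hv.2.1
      have hvw := Subgroup.mem_centralizer_singleton_iff.1 hv.2.2.1
      have hvc := Subgroup.mem_centralizer_singleton_iff.1 hv.2.2.2
      rcases (mem_closure_pair hz2 hy2 (hzc y).symm).1 (hFy v hvw hva hvy) with rfl | rfl | rfl | rfl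
      · exact one_mem _
      · exact Subgroup.mem_zpowers v
      · exact absurd hvc.symm hcy
      · refine absurd ?_ hcy
        have hyc' : Commute y c := by
          simpa using Commute.mul_left (hvc : Commute (y * z) c)
            (Commute.inv_left (hzc c).symm : Commute z⁻¹ c)
        exact hyc'.eq.symm
    have hcycF : IsCyclic FV := isCyclic_of_fix_le_two (hG.to_subgroup FV)
      (involutive_subHom (involutive_conjHom hy2) hinvy) hτfix (c := ⟨c, hcFV⟩)
      (Subgroup.mem_center_iff.2 fun v =>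
        Subtype.ext (Subgroup.mem_centralizer_singleton_iff.1 v.2.2.2))
      (Subtype.ext hyc)
      (fun h => hz1 (hc ▸ congrArg Subtype.val h))
      (Subtype.ext (by
        show c ^ 4 = 1
        rw [show (4 : ℕ) = 2 * 2 from rfl, pow_mul, hc, hz2]))
    let f : fixSub σ →* FV :=
      { toFun := fun v => ⟨((v : V) : S), Subgroup.mem_centralizer_singleton_iff.2
          (mul_inv_eq_iff_eq_mul.1 (congrArg Subtype.val (mem_fixSub.1 v.2))).symm, (v : V).2⟩
        map_one' := rfl
        map_mul' := fun _ _ => rfl }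
    exact isCyclic_of_injective f fun v v' h =>
      Subtype.ext (Subtype.ext (congrArg (fun p : FV => (p : S)) h))
  have hcen : ∀ {k : S} (hk : k ∈ V), (∀ g ∈ V, g * k = k * g) →
      (⟨k, hk⟩ : V) ∈ Subgroup.center V := fun hk h =>
    Subgroup.mem_center_iff.2 fun g => Subtype.ext (h g g.2)
  have hFF : FreeFour σ ⟨z, hzV⟩ ⟨w, hwV⟩ ⟨c, hcV⟩ :=
    { hσ := involutive_subHom (involutive_conjHom ha2) hinvV
      z_ne := fun h => hz1 (congrArg Subtype.val h)
      z_sq := Subtype.ext hz2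
      z_cen := hcen hzV fun g _ => hzc g
      z_fix := Subtype.ext (by
        show a * z * a⁻¹ = z
        rw [hzc a, mul_inv_cancel_right])
      w_sq := Subtype.ext hw2
      w_cen := hcen hwV fun g hg => hWcomm w hwW g hg.1
      w_map := Subtype.ext haw
      c_cen := hcen hcV fun g hg => Subgroup.mem_centralizer_singleton_iff.1 hg.2
      c_fix := Subtype.ext (by
        show a * c * a⁻¹ = c
        rw [← hca, mul_inv_cancel_right])
      c_sq := Subtype.ext hc
      fix_cyclic := hcyc }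
  obtain ⟨hRV, -⟩ := FreeFour.main (hG.to_subgroup V) hFF
  intro H
  refine (gapLE_of_normal V (a := 4) (b := 4) (HasRK.gapLE_of_le hRV inf_le_right).card_inf ?_).mono
    (by norm_num)
  set π := QuotientGroup.mk' V with hπ
  -- the quotient has order at most eight, and is non-abelian if it has order eight
  have hidxV : ∀ K : Subgroup S, (∀ x ∈ C, x * c * x⁻¹ * c⁻¹ ∈ K) →
      V.index ≤ 2 * Nat.card K := by
    intro K hK
    have h := card_le_card_mul_card_centralizer (⟨c, hcCmem⟩ : C) (K.subgroupOf C)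
      (fun g => hK g g.2)
    have h1 : Nat.card (Subgroup.centralizer ({(⟨c, hcCmem⟩ : C)} : Set C)) ≤ Nat.card V :=
      Nat.card_le_card_of_injective (fun g => (⟨((g : C) : S), (g : C).2,
        Subgroup.mem_centralizer_singleton_iff.2 (congrArg Subtype.val
          (Subgroup.mem_centralizer_singleton_iff.1 g.2))⟩ : V))
        fun g g' e => Subtype.ext (Subtype.ext (congrArg (fun p : V => (p : S)) e))
    have h2 : Nat.card (K.subgroupOf C) ≤ Nat.card K :=
      Nat.card_le_card_of_injective (fun g => (⟨((g : C) : S), g.2⟩ : K))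
        fun g g' e => Subtype.ext (Subtype.ext (congrArg (fun p : K => (p : S)) e))
    have h3 := C.index_mul_card
    rw [hidx] at h3
    refine Nat.le_of_mul_le_mul_right ?_ (Nat.card_pos (α := V))
    rw [V.index_mul_card, ← h3]
    calc 2 * Nat.card C ≤ 2 * (Nat.card K * Nat.card V) :=
          Nat.mul_le_mul_left _ (h.trans (Nat.mul_le_mul h2 h1))
      _ = _ := by ring
  have h8 : V.index ≤ 8 := (hidxV W fun x _ => hcS x).trans (by rw [hW4])
  by_cases hsmall : Nat.card (H.map π) ≤ 4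
  · exact gapLE_of_card_le hsmall
  have hcardQ : Nat.card (S ⧸ V) ≤ 8 := by rw [← Subgroup.index_eq_card]; exact h8
  have htop : H.map π = ⊤ := by
    by_contra h
    obtain ⟨q, hq⟩ : ∃ q, q ∉ H.map π := by
      by_contra h'
      push Not at h'
      exact h (eq_top_iff.2 fun q _ => h' q)
    have := two_mul_card_le (le_top : H.map π ≤ ⊤) (Subgroup.mem_top q) hq
    rw [Subgroup.card_top] at this
    omega
  obtain ⟨x, hxC, hx⟩ : ∃ x ∈ C, x * c * x⁻¹ * c⁻¹ ∉ Subgroup.zpowers z := by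
    by_contra h
    push Not at h
    have := (hidxV _ h).trans (Nat.mul_le_mul_left _ (card_zpowers_le_two hz2))
    have := card_map_mk_le H V
    rw [← hπ] at this
    omega
  have hne : π (a * x * a⁻¹ * x⁻¹) ≠ 1 := fun e => by
    set d := a * x * a⁻¹ * x⁻¹
    have hd : d ∈ V := (QuotientGroup.eq_one_iff _).1 e
    have hdc : Commute d c := Subgroup.mem_centralizer_singleton_iff.1 hd.2
    have hxk : x * c * x⁻¹ * c⁻¹ ∈ W := hcS x
    have hk : a * (x * c * x⁻¹ * c⁻¹) * a⁻¹ = x * c * x⁻¹ * c⁻¹ := by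
      calc a * (x * c * x⁻¹ * c⁻¹) * a⁻¹
          = d * (x * (a * c * a⁻¹) * x⁻¹) * d⁻¹ * (a * c * a⁻¹)⁻¹ := by simp only [d]; group
        _ = d * (x * c * x⁻¹) * d⁻¹ * c⁻¹ := by rw [← hca, mul_inv_cancel_right]
        _ = (x * c * x⁻¹ * c⁻¹) * (d * c * d⁻¹) * c⁻¹ := by
          have h := hWcomm _ hxk d hd.1
          calc d * (x * c * x⁻¹) * d⁻¹ * c⁻¹ = d * (x * c * x⁻¹ * c⁻¹) * c * d⁻¹ * c⁻¹ := by group
            _ = _ := by rw [h]; group
        _ = _ := by rw [hdc.eq, mul_inv_cancel_right, mul_inv_cancel_right]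
    rcases (mem_closure_pair hz2 hw2 hzw).1 hxk with e' | e' | e' | e'
    · exact hx (e' ▸ one_mem _)
    · exact hx (e' ▸ Subgroup.mem_zpowers z)
    · rw [e', haw] at hk
      exact hz1 (mul_eq_left.1 hk)
    · rw [e', ← conj_mul, haw, hzc a, mul_inv_cancel_right] at hk
      exact hz1 (mul_eq_left.1 hk)
  unfold GapLE
  have hsq : π (a * x * a⁻¹ * x⁻¹) ∈ sqSub (H.map π) := by
    rw [map_mul, map_mul, map_mul, map_inv, map_inv]
    exact comm_mem_sqSub (htop ▸ Subgroup.mem_top _) (htop ▸ Subgroup.mem_top _)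
  have h2 : 2 ≤ Nat.card (sqSub (H.map π)) := by
    have := two_mul_card_le (bot_le : (⊥ : Subgroup (S ⧸ V)) ≤ _) hsq
      fun h => hne (Subgroup.mem_bot.1 h)
    rwa [Subgroup.card_bot] at this
  have := Subgroup.card_le_card_group (H.map π)
  omega

/-- Harada's theorem in the second case. -/
theorem hasRK_four_case_two (hG : IsPGroup 2 S) {A : Subgroup S} (hA : SelfEight A)
    (hno : ∀ B : Subgroup S, SelfEight B → ∀ U ≤ B, U.Normal → Nat.card U ≠ 4) : HasRK 4 S := by
  have : Fact (Nat.Prime 2) := ⟨Nat.prime_two⟩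
  obtain ⟨z, w, hz, hz1, hz2, hw2, hw1, hwz, hn⟩ := exists_normal_four hG hA
  have hzc := Subgroup.mem_center_iff.1 hz
  have hzw : Commute z w := (hzc w).symm
  set W := Subgroup.closure ({z, w} : Set S) with hW
  have hW4 : Nat.card W = 4 := card_closure_pair hz2 hw2 hzw hz1 hw1 hwz
  have hzW : z ∈ W := Subgroup.subset_closure (Or.inl rfl)
  have hwW : w ∈ W := Subgroup.subset_closure (Or.inr rfl)
  have hW2 : ∀ k ∈ W, k ^ 2 = 1 := fun k hk => by
    rcases (mem_closure_pair hz2 hw2 hzw).1 hk with rfl | rfl | rfl | rfl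
    · exact one_pow 2
    · exact hz2
    · exact hw2
    · rw [hzw.symm.mul_pow, hw2, hz2, one_mul]
  have hwA : w ∉ A := fun h => hno A hA W ((Subgroup.closure_le _).2 (by
    rintro x (rfl | rfl)
    exacts [hA.center_le hz, h])) hn hW4
  obtain ⟨a, haA, haw'⟩ : ∃ a ∈ A, a * w ≠ w * a := by
    by_contra h
    push Not at h
    exact hwA (hA.self ▸ Subgroup.mem_centralizer_iff.2 h)
  have hconjw := conj_mem_four hz hz2 hw2 hw1 hwz hn
  have haw : a * w * a⁻¹ = w * z :=
    (hconjw a).resolve_left fun e => haw' (mul_inv_eq_iff_eq_mul.1 e)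
  have ha2 : a ^ 2 = 1 := hA.sq a haA
  set C := Subgroup.centralizer ({w} : Set S) with hC
  have hmemC : ∀ {x : S}, x ∈ C ↔ x * w = w * x := fun {x} =>
    Subgroup.mem_centralizer_singleton_iff
  have haC : a ∉ C := fun h => haw' (hmemC.1 h)
  have hidx : C.index = 2 := by
    have h : C.index ≤ Nat.card (Subgroup.zpowers z) := index_centralizer_le w (Subgroup.zpowers z) fun g => by
      rcases hconjw g with e | e <;> rw [e]
      · rw [mul_inv_cancel]; exact one_mem _
      · rw [hzc w, mul_inv_cancel_right]; exact Subgroup.mem_zpowers z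
    have h2 := h.trans (card_zpowers_le_two hz2)
    rcases Nat.lt_or_ge C.index 2 with h3 | h3
    · have := C.index_ne_zero_of_finite
      exact absurd (Subgroup.index_eq_one.1 (by omega : C.index = 1) ▸ Subgroup.mem_top a) haC
    · omega
  have hCn : C.Normal := Subgroup.normal_of_index_eq_two hidx
  have hzC : z ∈ C := hmemC.2 hzw.eq
  have hwC : w ∈ C := hmemC.2 rfl
  have hmul : ∀ {x : S}, x ∉ C → x * a ∈ C := fun {x} hx => by
    rw [Subgroup.mul_mem_iff_of_index_two hidx]
    exact iff_of_false hx haC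
  have hcov : ∀ (K : Subgroup S), ∀ b ∈ K, ∀ b' ∈ K, b ∉ C → b' ∉ C → b * b'⁻¹ ∈ C :=
    fun K b _ b' _ hb hb' => by
      rw [Subgroup.mul_mem_iff_of_index_two hidx]
      exact iff_of_false hb fun h => hb' (inv_mem_iff.1 h)
  have hA0 : 4 ≤ Nat.card ↥(A ⊓ C) := by
    have := card_le_two_mul_card_inf (H := A) (M := C) fun b hb b' hb' => hcov A b hb b' hb'
    rw [hA.card] at this
    omega
  have hA04 : Nat.card ↥(A ⊓ C) ≤ 4 := by
    have := two_mul_card_le (inf_le_left : A ⊓ C ≤ A) haA fun h => haC h.2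
    rw [hA.card] at this
    omega
  obtain ⟨y₀, ⟨hy₀A, hy₀C⟩, hy₀z⟩ : ∃ y ∈ A ⊓ C, y ∉ Subgroup.zpowers z := by
    refine SetLike.not_le_iff_exists.1 fun h => ?_
    have := (Subgroup.card_le_of_le h).trans (card_zpowers_le_two hz2)
    omega
  have hzA : z ∈ A := hA.center_le hz
  have hyne : ∀ {y : S}, y ∉ Subgroup.zpowers z → y ≠ 1 ∧ y ≠ z := fun {y} h =>
    ⟨fun e => h (e ▸ one_mem _), fun e => h (e ▸ Subgroup.mem_zpowers _)⟩
  have hFy₀ : ∀ x, x * w = w * x → x * a = a * x → x * y₀ = y₀ * x →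
      x ∈ Subgroup.closure ({z, y₀} : Set S) := by
    have hmem4 : ∀ b ∈ A ⊓ C, b ∈ Subgroup.closure ({z, y₀} : Set S) := fun b hb => by
      rw [mem_closure_pair hz2 (hA.sq y₀ hy₀A) (hzc y₀).symm]
      rcases mem_four_of_card_le hA04 ⟨hzA, hzC⟩ ⟨hy₀A, hy₀C⟩ hz1 (hyne hy₀z).1
        (hyne hy₀z).2.symm hz2 hb with e | e | e | e
      · exact Or.inl e
      · exact Or.inr (Or.inl e)
      · exact Or.inr (Or.inr (Or.inl e))
      · exact Or.inr (Or.inr (Or.inr (e.trans (hzc y₀).symm)))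
    intro x hxw hxa hxy
    refine hmem4 x ⟨hA.self ▸ Subgroup.mem_centralizer_iff.2 fun b hb => ?_, hmemC.2 hxw⟩
    have hxA0 : ∀ b ∈ A ⊓ C, b * x = x * b := fun b hb => by
      rcases (mem_closure_pair hz2 (hA.sq y₀ hy₀A) (hzc y₀).symm).1 (hmem4 b hb) with
        rfl | rfl | rfl | rfl
      · simp
      · exact (hzc x).symm
      · exact hxy.symm
      · exact ((Commute.mul_left (hxy.symm : Commute y₀ x) (hzc x).symm)).eq
    by_cases hbC : b ∈ C
    · exact hxA0 b ⟨hb, hbC⟩
    · have h1 : Commute (b * a) x := hxA0 _ ⟨A.mul_mem hb haA, hmul hbC⟩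
      have h2 : Commute a⁻¹ x := Commute.inv_left (hxa.symm : Commute a x)
      simpa using (h1.mul_left h2).eq
  -- the centraliser of `a` in `C`
  set F := Subgroup.centralizer ({a} : Set S) ⊓ C with hF
  have hmemF : ∀ {x : S}, x ∈ F ↔ x * a = a * x ∧ x * w = w * x := fun {x} => by
    rw [hF, Subgroup.mem_inf, Subgroup.mem_centralizer_singleton_iff, hmemC]
  have hinvC : ∀ x ∈ C, conjHom a x ∈ C := fun x hx => hCn.conj_mem x hx a
  by_cases hF4 : Nat.card F ≤ 4
  · -- few fixed points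
    have hRC : HasRK 4 C := hasRK_four_of_fix_le_four (hG.to_subgroup C)
      (involutive_subHom (involutive_conjHom ha2) hinvC)
      (by rw [card_fixSub_subHom, fixSub_conjHom]; exact hF4)
    intro H
    by_cases hHC : H ≤ C
    · exact hRC.gapLE_of_le hHC
    set π := QuotientGroup.mk' W with hπ
    have hWC : W ≤ C := (Subgroup.closure_le _).2 (by rintro x (rfl | rfl); exacts [hzC, hwC])
    refine (gapLE_of_normal W (a := 2) (b := 8) ?_ ?_).mono (by norm_num)
    · by_cases hHW : W ≤ H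
      · obtain ⟨h, hh, hhC⟩ := SetLike.not_le_iff_exists.1 hHC
        have hzs : z ∈ sqSub H := by
          have hcm := comm_mem_sqSub hh (hHW hwW)
          rcases hconjw h with e | e
          · exact absurd (hmemC.2 (mul_inv_eq_iff_eq_mul.1 e)) hhC
          · rwa [e, hzc w, mul_inv_cancel_right] at hcm
        have h2 : 2 * Nat.card (⊥ : Subgroup S) ≤ Nat.card ↥(sqSub H ⊓ W) :=
          two_mul_card_le bot_le ⟨hzs, hzW⟩ fun h => hz1 (Subgroup.mem_bot.1 h)
        rw [Subgroup.card_bot] at h2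
        have := Subgroup.card_le_of_le (inf_le_right : H ⊓ W ≤ W)
        omega
      · refine card_inf_le_of_card_le (card_le_of_isPGroup_two (k := 1) hG inf_le_right
          (fun h => hHW fun x hx => (h hx).1) ?_)
        rw [hW4]; norm_num
    · have hfixbar : Nat.card ↥(Subgroup.centralizer ({π a} : Set (S ⧸ W)) ⊓ C.map π) ≤ 2 := by
        have h := card_fix_map_mul_le ha2 C W hWC (Subgroup.zpowers z) fun k hk e => by
          rw [inv_eq_self_of_sq (hW2 k hk), mul_inv_eq_iff_eq_mul] at e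
          rcases (mem_closure_pair hz2 hw2 hzw).1 hk with rfl | rfl | rfl | rfl
          · exact one_mem _
          · exact Subgroup.mem_zpowers k
          · exact absurd (hmemC.2 e) haC
          · refine absurd ?_ haC
            rw [← mul_assoc, mul_assoc w z a, ← hzc a, ← mul_assoc] at e
            exact hmemC.2 (mul_right_cancel e)
        rw [hW4, ← hπ] at h
        have h' : Nat.card ↥(Subgroup.centralizer ({a} : Set S) ⊓ C) *
            Nat.card (Subgroup.zpowers z) ≤ 4 * 2 :=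
          Nat.mul_le_mul hF4 (card_zpowers_le_two hz2)
        omega
      have hCbn : (C.map π).Normal := hCn.map π (QuotientGroup.mk'_surjective W)
      have hinv' : ∀ x ∈ C.map π, conjHom (π a) x ∈ C.map π := fun x hx => hCbn.conj_mem x hx _
      have hR2 : HasRK 2 ↥(C.map π) := hasRK_two_of_fix_le_two ((hG.to_quotient W).to_subgroup _)
        (involutive_subHom (involutive_conjHom (by rw [← map_pow, ha2, map_one])) hinv')
        (by rw [card_fixSub_subHom, fixSub_conjHom]; exact hfixbar)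
      refine GapLE.of_cover (a := 4) (M := C.map π) ?_ (hR2.gapLE_of_le inf_le_right)
      rintro b ⟨x, -, rfl⟩ b' ⟨x', -, rfl⟩ hb hb'
      rw [← map_inv, ← map_mul]
      refine ⟨_, hcov ⊤ x (Subgroup.mem_top _) x' (Subgroup.mem_top _) ?_ ?_, rfl⟩
      · exact fun h => hb ⟨x, h, rfl⟩
      · exact fun h => hb' ⟨x', h, rfl⟩
  -- more fixed points: an element moving `y₀` to `y₀ z`
  push Not at hF4
  have hWF : ∀ k ∈ W, k * a = a * k → k = 1 ∨ k = z := fun k hk e => by
    rcases (mem_closure_pair hz2 hw2 hzw).1 hk with rfl | rfl | rfl | rfl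
    · exact Or.inl rfl
    · exact Or.inr rfl
    · exact absurd e.symm haw'
    · refine absurd ?_ haw'
      rw [← mul_assoc, mul_assoc w z a, ← hzc a, ← mul_assoc] at e
      exact (mul_right_cancel e).symm
  -- normal four groups inside would be a first case
  have hfirst : ∀ y : S, y ^ 2 = 1 → y * a = a * y → y ∈ C → y ∉ Subgroup.zpowers z →
      (∀ x, x * w = w * x → x * a = a * x → x * y = y * x →
        x ∈ Subgroup.closure ({z, y} : Set S)) →
      (∀ g, g ∈ C → g * y * g⁻¹ * y⁻¹ ∈ Subgroup.zpowers z) → False := by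
    intro y hy2 hya hyC hyz hFy hnorm
    have hzy : Commute z y := (hzc y).symm
    set U := Subgroup.closure ({z, y} : Set S) with hU
    have hUn : U.Normal := ⟨fun k hk g => by
      have hgy : g * y * g⁻¹ * y⁻¹ ∈ Subgroup.zpowers z := by
        by_cases hg : g ∈ C
        · exact hnorm g hg
        · have e : g * y * g⁻¹ = g * a * y * (g * a)⁻¹ := by
            rw [mul_assoc g a y, ← hya]; group
          rw [e]
          exact hnorm _ (hmul hg)
      have hgyU : g * y * g⁻¹ ∈ U := by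
        have hzU : z ∈ U := Subgroup.subset_closure (Or.inl rfl)
        have hyU : y ∈ U := Subgroup.subset_closure (Or.inr rfl)
        have h := U.mul_mem ((Subgroup.zpowers_le.2 hzU) hgy) hyU
        rwa [inv_mul_cancel_right] at h
      rcases (mem_closure_pair hz2 hy2 hzy).1 hk with rfl | rfl | rfl | rfl
      · simp [one_mem]
      · rw [hzc g, mul_inv_cancel_right]; exact Subgroup.subset_closure (Or.inl rfl)
      · exact hgyU
      · rw [← conj_mul, hzc g, mul_inv_cancel_right]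
        exact mul_mem hgyU (Subgroup.subset_closure (Or.inl rfl))⟩
    have hU2 : ∀ k ∈ U, k ^ 2 = 1 ∧ k * a = a * k ∧ k ∈ C := fun k hk => by
      rcases (mem_closure_pair hz2 hy2 hzy).1 hk with rfl | rfl | rfl | rfl
      · exact ⟨one_pow 2, by simp, one_mem C⟩
      · exact ⟨hz2, (hzc a).symm, hzC⟩
      · exact ⟨hy2, hya, hyC⟩
      · exact ⟨by rw [hzy.symm.mul_pow, hy2, hz2, one_mul],
          (Commute.mul_left (hya : Commute y a) (hzc a).symm).eq, mul_mem hyC hzC⟩
    have haU : a ∉ U := fun h => haC (hU2 a h).2.2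
    have hU4 : Nat.card U = 4 :=
      card_closure_pair hz2 hy2 hzy hz1 (hyne hyz).1 (hyne hyz).2
    have ha2U : a ^ 2 ∈ U := by rw [ha2]; exact one_mem U
    have hsq : ∀ b ∈ adjoin U a, b ^ 2 = 1 := fun b hb => by
      rcases (mem_adjoin ha2U).1 hb with h | h
      · exact (hU2 b h).1
      · have e : b = b * a⁻¹ * a := by group
        rw [e, Commute.mul_pow (hU2 _ h).2.1, (hU2 _ h).1, ha2, one_mul]
    refine hno (adjoin U a) ⟨hsq, by rw [card_adjoin ha2U haU, hU4], ?_⟩ U (le_adjoin U a) hUn hU4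
    refine le_antisymm (fun x hx => ?_) fun b hb =>
      Subgroup.mem_centralizer_iff.2 fun b' hb' => mul_comm_of_sq hsq b' hb' b hb
    have hxa : Commute a x := Subgroup.mem_centralizer_iff.1 hx a (self_mem_adjoin U a)
    have hxy : Commute y x := Subgroup.mem_centralizer_iff.1 hx y
      (le_adjoin U a (Subgroup.subset_closure (Or.inr rfl)))
    rw [mem_adjoin ha2U]
    by_cases hxC : x ∈ C
    · exact Or.inl (hFy x (hmemC.1 hxC) hxa.eq.symm hxy.eq.symm)
    · right
      rw [inv_eq_self_of_sq ha2]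
      exact hFy _ (hmemC.1 (hmul hxC)) ((hxa.symm.mul_left (Commute.refl a)).eq)
        ((hxy.symm.mul_left hya.symm).eq)
  -- an element `y` central modulo `W` in `C`, or a square root of `z`
  obtain ⟨q, hqa, hqC, hqW, hq2, hqcomm⟩ : ∃ q, q * a = a * q ∧ q ∈ C ∧ q ∉ W ∧ q ^ 2 ∈ W ∧
      ∀ g ∈ C, g * q * g⁻¹ * q⁻¹ ∈ W := by
    have hWC : W ≤ C := (Subgroup.closure_le _).2 (by rintro x (rfl | rfl); exacts [hzC, hwC])
    have hlt : W < C := lt_of_le_of_ne hWC fun e => by
      have h := Subgroup.card_le_of_le ((inf_le_right : F ≤ C).trans e.ge)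
      rw [hW4, ← hF] at h
      omega
    obtain ⟨q, hqC, hqW, hq2, hqc, hqa⟩ := exists_step (σ := conjHom a) hG
      (involutive_conjHom ha2) (fun k hk => hn.conj_mem k hk a) hinvC hlt
    rcases (mem_closure_pair hz2 hw2 hzw).1 hqa with e | e | e | e
    · rw [conjHom_apply, inv_mul_eq_one, eq_mul_inv_iff_mul_eq] at e
      exact ⟨q, e, hqC, hqW, hq2, fun g _ => hqc g⟩
    · refine ⟨q * w, ?_, mul_mem hqC hwC, fun h => hqW (by simpa using mul_mem h (inv_mem hwW)),
        ?_, fun g hg => ?_⟩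
      · have e1 : a * q * a⁻¹ = q * z := inv_mul_eq_iff_eq_mul.1 e
        have e2 : a * (q * w) * a⁻¹ = q * w := by
          rw [← conj_mul, e1, haw, mul_assoc q z, ← mul_assoc z w, hzw.eq, mul_assoc w, ← pow_two,
            hz2, mul_one]
        exact (mul_inv_eq_iff_eq_mul.1 e2).symm
      · rw [Commute.mul_pow (hmemC.1 hqC : Commute q w), hw2, mul_one]; exact hq2
      · have e1 : g * (q * w) * g⁻¹ * (q * w)⁻¹ = g * q * g⁻¹ * q⁻¹ := by
          calc g * (q * w) * g⁻¹ * (q * w)⁻¹ = g * q * (w * g⁻¹) * w⁻¹ * q⁻¹ := by group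
            _ = g * q * (g⁻¹ * w) * w⁻¹ * q⁻¹ := by rw [← hmemC.1 (inv_mem hg)]
            _ = _ := by group
        rw [e1]; exact hqc g
    all_goals
      exfalso
      -- a displacement is inverted
      have hinv := map_inv_mul_self (σ := conjHom a) (involutive_conjHom ha2) q
      rw [e] at hinv
      have h2 : a * (q⁻¹ * conjHom a q) * a⁻¹ = q⁻¹ * conjHom a q := by
        rw [e]
        rw [inv_eq_self_of_sq (hW2 _ (by first | exact hwW | exact mul_mem hwW hzW))] at hinv
        exact hinv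
      rcases hWF _ hqa (mul_inv_eq_iff_eq_mul.1 h2).symm with e' | e' <;> rw [e] at e'
      all_goals first
        | exact hw1 e' | exact hwz e'
        | exact hwz (by
            have := eq_inv_of_mul_eq_one_left e'
            rwa [inv_eq_self_of_sq hz2] at this)
        | exact hw1 (mul_eq_right.1 e')
  have hqF : q ∈ F := hmemF.2 ⟨hqa, hmemC.1 hqC⟩
  have hq2z : q ^ 2 = 1 ∨ q ^ 2 = z := hWF _ hq2 (Commute.pow_left (hqa : Commute q a) 2).eq
  have hqz : q ∉ Subgroup.zpowers z := fun h => hqW (Subgroup.zpowers_le.2 hzW h)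
  have hcommF : ∀ g ∈ F, g * q * g⁻¹ * q⁻¹ = 1 ∨ g * q * g⁻¹ * q⁻¹ = z := fun g hg => by
    obtain ⟨hga, -⟩ := hmemF.1 hg
    exact hWF _ (hqcomm g hg.2) (((Commute.mul_left (hga : Commute g a) hqa).mul_left
      (Commute.inv_left hga)).mul_left (Commute.inv_left hqa)).eq
  have hzy₀ : Commute z y₀ := (hzc y₀).symm
  have hy₀a : y₀ * a = a * y₀ := hA.comm y₀ hy₀A a haA
  rcases hq2z with hq1 | hq4
  swap
  · refine hasRK_four_of_root hG hz hz1 hz2 hw2 hw1 hwz hn ha2 haw hidx (hA.sq y₀ hy₀A)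
      hy₀a.symm (hmemC.1 hy₀C) hFy₀ (hmemC.1 hqC) hqa hq4 (fun e => ?_)
      fun x hx => hqcomm x (hmemC.2 hx)
    have := hFy₀ q (hmemC.1 hqC) hqa e
    rcases (mem_closure_pair hz2 (hA.sq y₀ hy₀A) hzy₀).1 this with e' | e' | e' | e' <;>
      rw [e'] at hq4
    · exact hz1 (by rw [← hq4, one_pow])
    · exact hz1 (by rw [← hq4, hz2])
    · exact hz1 (by rw [← hq4, hA.sq y₀ hy₀A])
    · exact hz1 (by rw [← hq4, hzy₀.symm.mul_pow, hA.sq y₀ hy₀A, hz2, one_mul])
  -- `y` central modulo `W`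
  obtain ⟨y, g₀, hy2, hya, hyC, hyz, hFy, hyW, hg₀F, hg₀y, hg₀2⟩ : ∃ y g₀ : S,
      y ^ 2 = 1 ∧ y * a = a * y ∧ y ∈ C ∧ y ∉ Subgroup.zpowers z ∧
      (∀ x, x * w = w * x → x * a = a * x → x * y = y * x →
        x ∈ Subgroup.closure ({z, y} : Set S)) ∧
      (∀ g ∈ C, g * y * g⁻¹ * y⁻¹ ∈ W) ∧ g₀ ∈ F ∧ g₀ * y * g₀⁻¹ = y * z ∧
      g₀ ^ 2 ∈ Subgroup.zpowers z := by
    by_cases hqy : q * y₀ = y₀ * q
    · have hq0 := hFy₀ q (hmemC.1 hqC) hqa hqy
      have hy₀U : y₀ ∈ Subgroup.closure ({z, q} : Set S) := by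
        rcases (mem_closure_pair hz2 (hA.sq y₀ hy₀A) hzy₀).1 hq0 with e | e | e | e
        · exact absurd (e ▸ one_mem _) hqz
        · exact absurd (e ▸ Subgroup.mem_zpowers _) hqz
        · rw [← e]; exact Subgroup.subset_closure (Or.inr rfl)
        · have e' : y₀ = q * z⁻¹ := by rw [e, mul_inv_cancel_right]
          rw [e']
          exact mul_mem (Subgroup.subset_closure (Or.inr rfl))
            (inv_mem (Subgroup.subset_closure (Or.inl rfl)))
      have hFq : ∀ x, x * w = w * x → x * a = a * x → x * q = q * x →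
          x ∈ Subgroup.closure ({z, q} : Set S) := by
        intro x hxw hxa hxq
        have hxy : x * y₀ = y₀ * x := by
          rcases (mem_closure_pair hz2 hq1 (hzc q).symm).1 hy₀U with e | e | e | e <;> rw [e]
          · simp
          · exact hzc x
          · exact hxq
          · exact ((Commute.mul_right (hxq : Commute x q) (hzc x))).eq
        refine ((Subgroup.closure_le _).2 ?_) (hFy₀ x hxw hxa hxy)
        rintro k (rfl | rfl)
        · exact Subgroup.subset_closure (Or.inl rfl)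
        · exact hy₀U
      obtain ⟨g, hgF, hgU⟩ : ∃ g ∈ F, g ∉ Subgroup.closure ({z, q} : Set S) := by
        refine SetLike.not_le_iff_exists.1 fun h => ?_
        have := Subgroup.card_le_of_le h
        rw [card_closure_pair hz2 hq1 (hzc q).symm hz1 (hyne hqz).1 (hyne hqz).2] at this
        omega
      obtain ⟨hga, hgw⟩ := hmemF.1 hgF
      have hgq : g * q * g⁻¹ = q * z := by
        rcases hcommF g hgF with e | e
        · exact absurd (hFq g hgw hga (mul_inv_eq_iff_eq_mul.1 (mul_inv_eq_one.1 e))) hgU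
        · rw [hzc q]
          exact mul_inv_eq_iff_eq_mul.1 e
      refine ⟨q, g, hq1, hqa, hqC, hqz, hFq, hqcomm, hgF, hgq, ?_⟩
      have hg2a : g ^ 2 * a = a * g ^ 2 := (Commute.pow_left (hga : Commute g a) 2).eq
      have hg2q : g ^ 2 * q = q * g ^ 2 := by
        have : g ^ 2 * q * (g ^ 2)⁻¹ = q := by
          calc g ^ 2 * q * (g ^ 2)⁻¹ = g * (g * q * g⁻¹) * g⁻¹ := by rw [pow_two]; group
            _ = q := by
              rw [hgq, ← conj_mul, hgq, hzc g, mul_inv_cancel_right, mul_assoc, ← pow_two, hz2,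
                mul_one]
        exact mul_inv_eq_iff_eq_mul.1 this
      have hmem := hFq (g ^ 2) (Commute.pow_left (hgw : Commute g w) 2).eq hg2a hg2q
      rcases (mem_closure_pair hz2 hq1 (hzc q).symm).1 hmem with e | e | e | e
      · rw [e]; exact one_mem _
      · rw [e]; exact Subgroup.mem_zpowers z
      · exfalso
        have hgc : Commute g q := e ▸ (Commute.refl g).pow_right 2
        rw [hgc.eq, mul_inv_cancel_right] at hgq
        exact hz1 (mul_eq_left.1 hgq.symm)
      · exfalso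
        have hgc : Commute g (q * z) := e ▸ (Commute.refl g).pow_right 2
        have hgc' : Commute g q := by
          simpa using hgc.mul_right (Commute.inv_right (hzc g : Commute g z))
        rw [hgc'.eq, mul_inv_cancel_right] at hgq
        exact hz1 (mul_eq_left.1 hgq.symm)
    · -- `q` itself does the work
      have hy₀F : y₀ ∈ F := hmemF.2 ⟨hy₀a, hmemC.1 hy₀C⟩
      have hyq : y₀ * q * y₀⁻¹ = q * z := by
        rcases hcommF y₀ hy₀F with e | e
        · exact absurd (mul_inv_eq_iff_eq_mul.1 (mul_inv_eq_one.1 e)).symm hqy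
        · rw [hzc q]; exact mul_inv_eq_iff_eq_mul.1 e
      refine ⟨q, y₀, hq1, hqa, hqC, hqz, ?_, hqcomm, hy₀F, hyq,
        (by rw [hA.sq y₀ hy₀A]; exact one_mem _)⟩
      intro x hxw hxa hxq
      set D := F ⊓ Subgroup.centralizer ({q} : Set S) with hD
      have hy₀2 : y₀ ^ 2 = 1 := hA.sq y₀ hy₀A
      have hinvD : ∀ d ∈ D, conjHom y₀ d ∈ D := fun d hd => by
        obtain ⟨hda, hdw⟩ := hmemF.1 hd.1
        have hdq : Commute d q := Subgroup.mem_centralizer_singleton_iff.1 hd.2
        have hy₀a' : Commute y₀ a := hy₀a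
        have hy₀w' : Commute y₀ w := hmemC.1 hy₀C
        refine ⟨hmemF.2 ⟨((hy₀a'.mul_left hda).mul_left hy₀a'.inv_left).eq,
          ((hy₀w'.mul_left hdw).mul_left hy₀w'.inv_left).eq⟩,
          Subgroup.mem_centralizer_singleton_iff.2 ?_⟩
        have hq' : q = y₀ * (q * z) * y₀⁻¹ := by
          rw [← conj_mul, hyq, hzc y₀, mul_inv_cancel_right, mul_assoc, ← pow_two, hz2, mul_one]
        have hdqz : Commute d (q * z) := hdq.mul_right (hzc d)
        show y₀ * d * y₀⁻¹ * q = q * (y₀ * d * y₀⁻¹)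
        calc y₀ * d * y₀⁻¹ * q = y₀ * (d * (q * z)) * y₀⁻¹ := by
              conv_lhs => rw [hq']
              group
          _ = y₀ * ((q * z) * d) * y₀⁻¹ := by rw [hdqz.eq]
          _ = q * (y₀ * d * y₀⁻¹) := by
              conv_rhs => rw [hq']
              group
      have hzD : z ∈ D := ⟨hmemF.2 ⟨(hzc a).symm, hzw.eq⟩,
        Subgroup.mem_centralizer_singleton_iff.2 (hzc q).symm⟩
      have hqD : q ∈ D := ⟨hqF, Subgroup.mem_centralizer_singleton_iff.2 rfl⟩
      set Q4 := Subgroup.closure ({⟨z, hzD⟩, ⟨q, hqD⟩} : Set D) with hQ4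
      have hzq : Commute (⟨z, hzD⟩ : D) ⟨q, hqD⟩ := Subtype.ext (hzc q).symm
      have hzD2 : (⟨z, hzD⟩ : D) ^ 2 = 1 := Subtype.ext hz2
      have hqD2 : (⟨q, hqD⟩ : D) ^ 2 = 1 := Subtype.ext hq1
      have hQn : Q4.Normal := closure_pair_normal
        (Subgroup.mem_center_iff.2 fun d => Subtype.ext (hzc d))
        (Subgroup.mem_center_iff.2 fun d =>
          Subtype.ext (Subgroup.mem_centralizer_singleton_iff.1 d.2.2))
      set τ := subHom (conjHom y₀) D hinvD with hτ
      have hτz : τ ⟨z, hzD⟩ = ⟨z, hzD⟩ := Subtype.ext (by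
        show y₀ * z * y₀⁻¹ = z
        rw [hzc y₀, mul_inv_cancel_right])
      have hτq : τ ⟨q, hqD⟩ = ⟨q, hqD⟩ * ⟨z, hzD⟩ := Subtype.ext hyq
      have hτσ := involutive_subHom (involutive_conjHom hy₀2) hinvD
      have hQτ : ∀ k ∈ Q4, τ k ∈ Q4 := fun k hk => by
        have h1 := Subgroup.subset_closure (k := ({⟨z, hzD⟩, ⟨q, hqD⟩} : Set D)) (Or.inl rfl)
        have h2 := Subgroup.subset_closure (k := ({⟨z, hzD⟩, ⟨q, hqD⟩} : Set D)) (Or.inr rfl)
        rcases (mem_closure_pair hzD2 hqD2 hzq).1 hk with rfl | rfl | rfl | rfl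
        · rw [map_one]; exact one_mem _
        · rw [hτz]; exact h1
        · rw [hτq]; exact mul_mem h2 h1
        · rw [map_mul, hτq, hτz]; exact mul_mem (mul_mem h2 h1) h1
      have hfix : fixSub τ ≤ Subgroup.zpowers ⟨z, hzD⟩ := fun d hd => by
        have hdy : y₀ * (d : S) = d * y₀ :=
          mul_inv_eq_iff_eq_mul.1 (congrArg Subtype.val (mem_fixSub.1 hd))
        obtain ⟨hda, hdw⟩ := hmemF.1 d.2.1
        have hdq : (d : S) * q = q * d := Subgroup.mem_centralizer_singleton_iff.1 d.2.2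
        rcases (mem_closure_pair hz2 hy₀2 hzy₀).1 (hFy₀ d hdw hda hdy.symm) with e | e | e | e
        · rw [show d = 1 from Subtype.ext e]; exact one_mem _
        · rw [show d = ⟨z, hzD⟩ from Subtype.ext e]; exact Subgroup.mem_zpowers _
        · rw [e] at hdq
          exact absurd hdq.symm hqy
        · rw [e, mul_assoc, ← hzc q, ← mul_assoc, ← mul_assoc] at hdq
          exact absurd (mul_right_cancel hdq).symm hqy
      have hone : Nat.card (fixSub (quotHom τ Q4 hQτ)) ≤ 1 := by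
        have h := card_fixSub_quotHom_mul_le hτσ Q4 hQτ (fixSub τ) fun k hk e => by
          refine fixed_of_inverted_of_sq e ?_
          rcases (mem_closure_pair hzD2 hqD2 hzq).1 hk with rfl | rfl | rfl | rfl
          · exact one_pow 2
          · exact hzD2
          · exact hqD2
          · rw [hzq.symm.mul_pow, hzD2, hqD2, one_mul]
        have hQ : Nat.card Q4 = 4 := card_closure_pair hzD2 hqD2 hzq
          (fun h => hz1 (congrArg Subtype.val h)) (fun h => (hyne hqz).1 (congrArg Subtype.val h))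
          (fun h => (hyne hqz).2 (congrArg Subtype.val h))
        have h2 : Nat.card (fixSub τ) ≤ 2 :=
          (Subgroup.card_le_of_le hfix).trans (card_zpowers_le_two hzD2)
        rw [hQ] at h
        exact Nat.le_of_mul_le_mul_right
          (h.trans ((Nat.mul_le_mul h2 h2).trans (by norm_num : 2 * 2 ≤ 1 * 4))) (by norm_num)
      have hxD : x ∈ D := ⟨hmemF.2 ⟨hxa, hxw⟩, Subgroup.mem_centralizer_singleton_iff.2 hxq⟩
      rw [mem_closure_pair hz2 hq1 (hzc q).symm]
      rcases (mem_closure_pair hzD2 hqD2 hzq).1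
        (mem_of_quot_fix_le_one (hG.to_subgroup D) hτσ hone ⟨x, hxD⟩) with e | e | e | e
      · exact Or.inl (congrArg Subtype.val e)
      · exact Or.inr (Or.inl (congrArg Subtype.val e))
      · exact Or.inr (Or.inr (Or.inl (congrArg Subtype.val e)))
      · exact Or.inr (Or.inr (Or.inr (congrArg Subtype.val e)))
  -- the normal subgroup `A₁ = W ⟨y⟩`
  have hzy : Commute z y := (hzc y).symm
  have hyS : ∀ g, g * y * g⁻¹ * y⁻¹ ∈ W := fun g => by
    by_cases hg : g ∈ C
    · exact hyW g hg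
    · have e : g * y * g⁻¹ = g * a * y * (g * a)⁻¹ := by
        rw [mul_assoc g a y, ← hya]; group
      rw [e]; exact hyW _ (hmul hg)
  have hyW2 : y ^ 2 ∈ W := by rw [hy2]; exact one_mem W
  set A₁ := adjoin W y with hA₁
  have hA₁n : A₁.Normal := adjoin_normal hyW2 hyS
  have hyWn : y ∉ W := fun h => by
    rcases hWF y h hya with e | e
    exacts [(hyne hyz).1 e, (hyne hyz).2 e]
  have hWcomm : ∀ k ∈ W, ∀ g ∈ C, g * k = k * g := by
    intro k hk g hg
    rcases (mem_closure_pair hz2 hw2 hzw).1 hk with rfl | rfl | rfl | rfl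
    · simp
    · exact hzc g
    · exact hmemC.1 hg
    · exact ((Commute.mul_right (hmemC.1 hg : Commute g w) (hzc g))).eq
  -- some element moves `y` by `w`
  obtain ⟨g₁, hg₁C, hg₁y⟩ : ∃ g ∈ C, g * y * g⁻¹ = y * w := by
    obtain ⟨g, hgC, hg⟩ : ∃ g ∈ C, g * y * g⁻¹ * y⁻¹ ∉ Subgroup.zpowers z := by
      by_contra h
      push Not at h
      exact hfirst y hy2 hya hyC hyz hFy h
    have hgy : g * y * g⁻¹ = y * (g * y * g⁻¹ * y⁻¹) := by
      rw [hWcomm _ (hyW g hgC) y hyC, inv_mul_cancel_right]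
    rcases (mem_closure_pair hz2 hw2 hzw).1 (hyW g hgC) with e | e | e | e
    · exact absurd (e ▸ one_mem _) hg
    · exact absurd (e ▸ Subgroup.mem_zpowers z) hg
    · exact ⟨g, hgC, by rw [hgy, e]⟩
    · refine ⟨a * g * a⁻¹, hCn.conj_mem g hgC a, ?_⟩
      have haya : a⁻¹ * y * a = y := by rw [mul_assoc, hya, inv_mul_cancel_left]
      calc a * g * a⁻¹ * y * (a * g * a⁻¹)⁻¹ = a * (g * (a⁻¹ * y * a) * g⁻¹) * a⁻¹ := by group
        _ = a * (y * (w * z)) * a⁻¹ := by rw [haya, hgy, e]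
        _ = a * y * a⁻¹ * (a * w * a⁻¹) * (a * z * a⁻¹) := by group
        _ = a * y * a⁻¹ * (a * w * a⁻¹) * z := by rw [hzc a, mul_inv_cancel_right]
        _ = y * w := by
          rw [haw, ← hya, mul_inv_cancel_right, mul_assoc, mul_assoc w z z, ← pow_two, hz2,
            mul_one]
  -- the kernel of the action on `y` over `A₁`
  set D₁ := C ⊓ Subgroup.centralizer ({y} : Set S) with hD₁
  have hmemD : ∀ {x : S}, x ∈ D₁ ↔ x * w = w * x ∧ x * y = y * x := fun {x} => by
    rw [hD₁, Subgroup.mem_inf, hmemC, Subgroup.mem_centralizer_singleton_iff]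
  have hA₁C : A₁ ≤ C := adjoin_le hyW2
    ((Subgroup.closure_le _).2 (by rintro k (rfl | rfl); exacts [hzC, hwC])) hyC
  have hDcomm : ∀ k ∈ A₁, ∀ d ∈ D₁, d * k = k * d := fun k hk d hd => by
    rcases (mem_adjoin hyW2).1 hk with h | h
    · exact hWcomm k h d hd.1
    · have e : k = k * y⁻¹ * y := by group
      rw [e]
      exact (Commute.mul_right (hWcomm _ h d hd.1 : Commute d (k * y⁻¹))
        ((hmemD.1 hd).2 : Commute d y)).eq
  have hA₁D : A₁ ≤ D₁ := fun k hk => ⟨hA₁C hk, Subgroup.mem_centralizer_singleton_iff.2 (by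
    rcases (mem_adjoin hyW2).1 hk with h | h
    · exact (hWcomm k h y hyC).symm
    · have e : k = k * y⁻¹ * y := by group
      rw [e]
      exact (Commute.mul_left (hWcomm _ h y hyC).symm (Commute.refl y)).eq)⟩
  have hA₁2 : ∀ k ∈ A₁, k ^ 2 = 1 := fun k hk => by
    rcases (mem_adjoin hyW2).1 hk with h | h
    · exact hW2 k h
    · have e : k = k * y⁻¹ * y := by group
      rw [e, Commute.mul_pow (hWcomm _ h y hyC).symm, hW2 _ h, hy2, one_mul]
  have hA₁8 : Nat.card A₁ = 8 := by rw [hA₁, card_adjoin hyW2 hyWn, hW4]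
  have hDn : D₁.Normal := ⟨fun d hd g => ⟨hCn.conj_mem d hd.1 g,
    Subgroup.mem_centralizer_singleton_iff.2 (by
      set k := g⁻¹ * y * g⁻¹⁻¹ * y⁻¹ with hk
      have hdk : Commute d (k * y) :=
        Commute.mul_right (hWcomm k (hyS g⁻¹) d hd.1) (hmemD.1 hd).2
      calc g * d * g⁻¹ * y = g * (d * (k * y)) * g⁻¹ := by rw [hk]; group
        _ = g * ((k * y) * d) * g⁻¹ := by rw [hdk.eq]
        _ = y * (g * d * g⁻¹) := by rw [hk]; group)⟩⟩
  obtain ⟨hg₀a, hg₀w⟩ := hmemF.1 hg₀F
  have hg₀C : g₀ ∈ C := hmemC.2 hg₀w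
  -- at most two classes of `D₁` modulo `A₁`
  have hsmall : Nat.card ↥(D₁.map (QuotientGroup.mk' A₁)) ≤ 2 := by
    have hσi : ∀ d ∈ D₁, conjHom a d ∈ D₁ := fun d hd => hDn.conj_mem d hd a
    have hτi : ∀ d ∈ D₁, conjHom g₀ d ∈ D₁ := fun d hd => hDn.conj_mem d hd g₀
    have hEn : (A₁.subgroupOf D₁).Normal := hA₁n.subgroupOf D₁
    have hcardE : Nat.card (A₁.subgroupOf D₁) = 8 := by
      rw [Nat.card_congr (Subgroup.subgroupOfEquivOfLe hA₁D).toEquiv, hA₁8]
    have hσz : a * z * a⁻¹ = z := by rw [hzc a, mul_inv_cancel_right]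
    have hσy : a * y * a⁻¹ = y := by rw [← hya, mul_inv_cancel_right]
    have hzA₁ : z ∈ A₁ := le_adjoin W y hzW
    have hwA₁ : w ∈ A₁ := le_adjoin W y hwW
    have hyA₁ : y ∈ A₁ := self_mem_adjoin W y
    have hnormW : ∀ k ∈ W, k * (a * k * a⁻¹) = 1 ∨ k * (a * k * a⁻¹) = z := fun k hk => by
      rcases (mem_closure_pair hz2 hw2 hzw).1 hk with rfl | rfl | rfl | rfl
      · left; simp
      · left; rw [hσz, ← pow_two, hz2]
      · right; rw [haw, ← mul_assoc, ← pow_two, hw2, one_mul]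
      · right
        rw [← conj_mul, hσz, haw, mul_assoc w z z, ← pow_two, hz2, mul_one, mul_assoc, hzw.eq,
          ← mul_assoc, ← pow_two, hw2, one_mul]
    have h := small_over_eight (hG.to_subgroup D₁) (σ := subHom (conjHom a) D₁ hσi)
      (τ := subHom (conjHom g₀) D₁ hτi) (involutive_subHom (involutive_conjHom ha2) hσi)
      (fun p q h => Subtype.ext (conj_injective (congrArg Subtype.val h)))
      (fun p => Subtype.ext (by
        show a * (g₀ * p * g₀⁻¹) * a⁻¹ = g₀ * (a * p * a⁻¹) * g₀⁻¹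
        calc a * (g₀ * p * g₀⁻¹) * a⁻¹ = a * g₀ * p * (a * g₀)⁻¹ := by group
          _ = g₀ * a * p * (g₀ * a)⁻¹ := by rw [hg₀a]
          _ = _ := by group))
      (E := A₁.subgroupOf D₁)
      (fun k hk => Subgroup.mem_center_iff.2 fun d => Subtype.ext (hDcomm k hk d d.2))
      (fun k hk => Subtype.ext (hA₁2 k hk)) hcardE
      (fun k hk => hA₁n.conj_mem k hk a) (fun k hk => hA₁n.conj_mem k hk g₀)
      (z := ⟨z, hA₁D hzA₁⟩) (w := ⟨w, hA₁D hwA₁⟩) (y := ⟨y, hA₁D hyA₁⟩)
      hyA₁ hwA₁ (Subtype.ext haw) (Subtype.ext hz2)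
      (fun p hp => by
        have hpa : (p : S) * a = a * p :=
          (mul_inv_eq_iff_eq_mul.1 (congrArg Subtype.val hp)).symm
        rcases (mem_closure_pair hz2 hy2 hzy).1
          (hFy p (hmemD.1 p.2).1 hpa (hmemD.1 p.2).2) with e | e | e | e
        · exact Or.inl (Subtype.ext e)
        · exact Or.inr (Or.inl (Subtype.ext e))
        · exact Or.inr (Or.inr (Or.inl (Subtype.ext e)))
        · exact Or.inr (Or.inr (Or.inr (Subtype.ext e))))
      (by
        rw [card_fixSub_subHom, fixSub_conjHom]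
        refine (Subgroup.card_le_of_le fun p
          (hp : p ∈ Subgroup.centralizer ({a} : Set S) ⊓ D₁) => hFy p (hmemD.1 hp.2).1
          (Subgroup.mem_centralizer_singleton_iff.1 hp.1) (hmemD.1 hp.2).2).trans ?_
        rw [card_closure_pair hz2 hy2 hzy hz1 (hyne hyz).1 (hyne hyz).2])
      hzA₁
      (fun k hk => by
        rcases (mem_adjoin hyW2).1 (hk : (k : S) ∈ A₁) with h | h
        · exact (hnormW k h).imp (fun e => Subtype.ext e) (fun e => Subtype.ext e)
        · have e : (k : S) = (k : S) * y⁻¹ * y := by group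
          have e2 : (k : S) * (a * k * a⁻¹) =
              (k : S) * y⁻¹ * (a * ((k : S) * y⁻¹) * a⁻¹) := by
            set v := (k : S) * y⁻¹ with hv
            rw [e, ← conj_mul, hσy, ← mul_assoc, mul_assoc v y,
              hWcomm _ (hn.conj_mem v h a) y hyC, ← mul_assoc, mul_assoc (v * _), ← pow_two,
              hy2, mul_one]
          exact (hnormW _ h).imp (fun e' => Subtype.ext (e2.trans e'))
            (fun e' => Subtype.ext (e2.trans e')))
      (Subtype.ext hg₀y)
      (Subtype.ext (by show g₀ * z * g₀⁻¹ = z; rw [hzc g₀, mul_inv_cancel_right]))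
      (fun h => hz1 (congrArg Subtype.val h))
    let f : D₁ ⧸ A₁.subgroupOf D₁ →* S ⧸ A₁ :=
      QuotientGroup.map _ A₁ D₁.subtype fun k hk => hk
    have hrange : D₁.map (QuotientGroup.mk' A₁) = f.range := by
      ext q
      constructor
      · rintro ⟨d, hd, rfl⟩
        exact ⟨((⟨d, hd⟩ : D₁) : D₁ ⧸ A₁.subgroupOf D₁), rfl⟩
      · rintro ⟨q', rfl⟩
        induction q' using QuotientGroup.induction_on with | _ d => ?_
        exact ⟨d, d.2, rfl⟩
    rw [hrange]
    exact le_trans (Nat.card_le_card_of_surjective f.rangeRestrict f.rangeRestrict_surjective) h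
  -- `g₀` is central in `C` modulo `A₁`
  set π := QuotientGroup.mk' A₁ with hπ
  have hDcen : ∀ e ∈ D₁, ∀ g, π g * π e = π e * π g := fun e he g => by
    have hmem : π g * π e * (π g)⁻¹ ∈ D₁.map π :=
      ⟨g * e * g⁻¹, hDn.conj_mem e he g, by rw [map_mul, map_mul, map_inv]⟩
    by_cases h1 : π e = 1
    · rw [h1, one_mul, mul_one]
    · exact mul_inv_eq_iff_eq_mul.1 (eq_of_card_le_two hsmall hmem ⟨e, he, rfl⟩
        (fun h => h1 (conj_eq_one_iff.1 h)) h1)
  have hvalue : ∀ x ∈ C, x * y * x⁻¹ = y ∨ x * y * x⁻¹ = y * z ∨ x * y * x⁻¹ = y * w ∨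
      x * y * x⁻¹ = y * (w * z) := fun x hx => by
    have e : x * y * x⁻¹ = y * (x * y * x⁻¹ * y⁻¹) := by
      rw [hWcomm _ (hyW x hx) y hyC, inv_mul_cancel_right]
    rcases (mem_closure_pair hz2 hw2 hzw).1 (hyW x hx) with h | h | h | h <;> rw [h] at e
    exacts [Or.inl (e.trans (mul_one y)), Or.inr (Or.inl e), Or.inr (Or.inr (Or.inl e)),
      Or.inr (Or.inr (Or.inr e))]
  have hsame : ∀ p ∈ C, ∀ q ∈ C, p * y * p⁻¹ = q * y * q⁻¹ → q⁻¹ * p ∈ D₁ := fun p hp q hq e =>
    ⟨C.mul_mem (C.inv_mem hq) hp, Subgroup.mem_centralizer_singleton_iff.2 (by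
      calc q⁻¹ * p * y = q⁻¹ * (p * y * p⁻¹) * p := by group
        _ = y * (q⁻¹ * p) := by rw [e]; group)⟩
  set g₂ := a * g₁ * a⁻¹ with hg₂
  have hg₂C : g₂ ∈ C := hCn.conj_mem g₁ hg₁C a
  have hg₂y : g₂ * y * g₂⁻¹ = y * (w * z) := by
    have haya : a⁻¹ * y * a = y := by rw [mul_assoc, hya, inv_mul_cancel_left]
    calc g₂ * y * g₂⁻¹ = a * (g₁ * (a⁻¹ * y * a) * g₁⁻¹) * a⁻¹ := by rw [hg₂]; group
      _ = y * (w * z) := by rw [haya, hg₁y, ← conj_mul, haw, ← hya, mul_inv_cancel_right]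
  have h12 : (g₁ * g₂) * y * (g₁ * g₂)⁻¹ = y * z := by
    calc (g₁ * g₂) * y * (g₁ * g₂)⁻¹ = g₁ * (g₂ * y * g₂⁻¹) * g₁⁻¹ := by group
      _ = y * z := by
        rw [hg₂y, ← conj_mul, hg₁y, hWcomm (w * z) (mul_mem hwW hzW) g₁ hg₁C,
          mul_inv_cancel_right, mul_assoc, ← mul_assoc w w, ← pow_two, hw2, one_mul]
  set e₀ := (g₁ * g₂)⁻¹ * g₀ with he₀
  have he₀D : e₀ ∈ D₁ := hsame g₀ hg₀C _ (mul_mem hg₁C hg₂C) (by rw [hg₀y, h12])
  have hπ12 : π g₁ * π g₂ = π g₂ * π g₁ := by
    have h1 : π (a * g₀ * a⁻¹) = π g₀ := by rw [← hg₀a, mul_inv_cancel_right]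
    have hg₀' : g₀ = g₁ * g₂ * e₀ := by rw [he₀]; group
    have h2 : a * g₂ * a⁻¹ = g₁ := involutive_conjHom ha2 g₁
    have hea : π (a * e₀ * a⁻¹) = π e₀ := by
      by_cases h : π e₀ = 1
      · rw [map_mul, map_mul, h, mul_one, map_inv, mul_inv_cancel, ← h]
      · refine eq_of_card_le_two hsmall ⟨_, hDn.conj_mem e₀ he₀D a, rfl⟩ ⟨e₀, he₀D, rfl⟩
          (fun h' => h ?_) h
        rw [map_mul, map_mul, map_inv] at h'
        exact conj_eq_one_iff.1 h'
    rw [hg₀', ← conj_mul, ← conj_mul, h2, ← hg₂, map_mul, map_mul, map_mul, map_mul, hea] at h1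
    exact (mul_right_cancel h1).symm
  have hcen₀ : ∀ x ∈ C, π g₀ * π x = π x * π g₀ := by
    intro x hx
    have hg₀' : π g₀ = π g₁ * π g₂ * π e₀ := by
      rw [← map_mul, ← map_mul, he₀]; congr 1; group
    have hc1 : Commute (π g₀) (π g₁) := by
      rw [hg₀']
      exact ((Commute.refl (π g₁)).mul_left hπ12.symm).mul_left (hDcen e₀ he₀D g₁).symm
    have hc2 : Commute (π g₀) (π g₂) := by
      rw [hg₀']
      exact (Commute.mul_left (hπ12 : Commute (π g₁) (π g₂)) (Commute.refl _)).mul_left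
        (hDcen e₀ he₀D g₂).symm
    have hcd : ∀ d ∈ D₁, Commute (π g₀) (π d) := fun d hd => hDcen d hd g₀
    have key : ∀ p ∈ C, Commute (π g₀) (π p) → x * y * x⁻¹ = p * y * p⁻¹ →
        π g₀ * π x = π x * π g₀ := fun p hp hcp e => by
      have hd := hsame x hx p hp e
      have e2 : π x = π p * π (p⁻¹ * x) := by rw [← map_mul, mul_inv_cancel_left]
      rw [e2]
      exact (hcp.mul_right (hcd _ hd)).eq
    rcases hvalue x hx with h | h | h | h
    · exact key 1 (one_mem C) (by rw [map_one]; exact Commute.one_right _) (by rw [h]; simp)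
    · exact key g₀ hg₀C (Commute.refl _) (by rw [h, hg₀y])
    · exact key g₁ hg₁C hc1 (by rw [h, hg₁y])
    · exact key g₂ hg₂C hc2 (by rw [h, hg₂y])
  have hg₀W : ∀ x ∈ C, g₀ * x * g₀⁻¹ * x⁻¹ ∈ W := by
    intro x hx
    set k := g₀ * x * g₀⁻¹ * x⁻¹ with hk
    have hkA : k ∈ A₁ := by
      rw [← QuotientGroup.eq_one_iff (N := A₁)]
      show π k = 1
      rw [hk, map_mul, map_mul, map_mul, map_inv, map_inv, hcen₀ x hx]
      group
    have h2 : g₀ * k * g₀⁻¹ * k = 1 := by
      calc g₀ * k * g₀⁻¹ * k = g₀ ^ 2 * x * (g₀ ^ 2)⁻¹ * x⁻¹ := by rw [hk, pow_two]; group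
        _ = 1 := by
          rcases eq_one_or_eq_of_mem_zpowers hz2 hg₀2 with e | e <;> rw [e]
          · group
          · rw [← hzc x, mul_inv_cancel_right, mul_inv_cancel]
    rcases (mem_adjoin hyW2).1 hkA with h | h
    · exact h
    · exfalso
      set v := k * y⁻¹ with hv
      have e : k = v * y := by rw [hv]; group
      have h3 : g₀ * (v * y) * g₀⁻¹ = v * y * z := by
        rw [← conj_mul, hg₀y, hWcomm v h g₀ hg₀C, mul_inv_cancel_right, ← mul_assoc]
      rw [e, h3, hzc (v * y)] at h2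
      have : z = 1 := by
        calc z = z * (v * y) ^ 2 := by
              rw [Commute.mul_pow (hWcomm v h y hyC).symm, hW2 v h, hy2, one_mul, mul_one]
          _ = z * (v * y) * (v * y) := by simp only [pow_two, mul_assoc]
          _ = 1 := h2
      exact hz1 this
  -- the square root of `z`
  have hg₀z : g₀ * z * g₀⁻¹ = z := by rw [hzc g₀, mul_inv_cancel_right]
  obtain ⟨c, hcC, hca, hc2, hcy, hcW⟩ : ∃ c ∈ C, c * a = a * c ∧ c ^ 2 = z ∧
      c * y * c⁻¹ = y * z ∧ ∀ x ∈ C, x * c * x⁻¹ * c⁻¹ ∈ W := by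
    have hW' : ∀ x ∈ C, x * g₀ * x⁻¹ * g₀⁻¹ ∈ W := fun x hx => by
      have e : x * g₀ * x⁻¹ * g₀⁻¹ = (g₀ * x * g₀⁻¹ * x⁻¹)⁻¹ := by group
      rw [e]; exact inv_mem (hg₀W x hx)
    rcases eq_one_or_eq_of_mem_zpowers hz2 hg₀2 with e | e
    · refine ⟨g₀ * y, mul_mem hg₀C hyC, (Commute.mul_left (hg₀a : Commute g₀ a) hya).eq, ?_, ?_,
        fun x hx => ?_⟩
      · calc (g₀ * y) ^ 2 = g₀ * y * g₀⁻¹ * g₀ ^ 2 * y := by rw [pow_two, pow_two]; group
          _ = z := by rw [hg₀y, e, mul_one, mul_assoc, ← hzc y, ← mul_assoc, ← pow_two, hy2,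
                one_mul]
      · calc g₀ * y * y * (g₀ * y)⁻¹ = g₀ * y * g₀⁻¹ := by group
          _ = y * z := hg₀y
      · have e2 : x * (g₀ * y) * x⁻¹ * (g₀ * y)⁻¹ =
            (x * g₀ * x⁻¹ * g₀⁻¹) * (g₀ * (x * y * x⁻¹ * y⁻¹) * g₀⁻¹) := by group
        rw [e2]
        exact mul_mem (hW' x hx) (hn.conj_mem _ (hyW x hx) g₀)
    · exact ⟨g₀, hg₀C, hg₀a, e, hg₀y, hW'⟩
  exact hasRK_four_of_root hG hz hz1 hz2 hw2 hw1 hwz hn ha2 haw hidx hy2 hya.symm (hmemC.1 hyC) hFy
    (hmemC.1 hcC) hca hc2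
    (fun e => hz1 (by rw [e, mul_inv_cancel_right] at hcy; exact mul_eq_left.1 hcy.symm))
    fun x hx => hcW x (hmemC.2 hx)

end CfsgLib.SectRank
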