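import Cfsg.Agent.SectRank.CaseOne
import Cfsg.Agent.SectRank.CaseTwo

/-!
Harada's theorem: a 2-group with a self-centralising elementary abelian subgroup of order eight has
sectional 2-rank at most four.
-/

set_option autoImplicit false

namespace CfsgLib.SectRank

universe u

theorem hasRK_four_of_selfEight : ∀ {S : Type u} [Group S] [Finite S], IsPGroup 2 S →
    ∀ A : Subgroup S, SelfEight A → HasRK 4 S := by
  intro S _ _ hS A hA
  induction hn : Nat.card S using Nat.strong_induction_on generalizing S with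
  | _ n ih =>
  by_cases hex : ∃ B : Subgroup S, SelfEight B ∧ ∃ U ≤ B, U.Normal ∧ Nat.card U = 4
  · obtain ⟨B, hB, U, hUB, hUn, hU4⟩ := hex
    exact hasRK_four_case_one hS hB hUB hU4 fun hR hlt B' hB' => ih _ (hn ▸ hlt) hR B' hB' rfl
  · exact hasRK_four_case_two hS hA fun B hB U hU hUn hU4 => hex ⟨B, hB, U, hU, hUn, hU4⟩

/-- Harada's theorem. -/
theorem sectionalPRankLE_four_of_selfEight {S : Type u} [Group S] [Finite S] (hS : IsPGroup 2 S)
    (A : Subgroup S) (hA : SelfEight A) : Cfsg.SectionalPRankLE 2 4 S :=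
  (hasRK_four_of_selfEight hS A hA).sectionalPRankLE

end CfsgLib.SectRank
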