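import Mathlib
import Cfsg.Prelude.Def_CaseTheorems
import Cfsg.Agent.PGroup.Frattini

/-!
Squares and the sectional 2-rank: `G` has sectional 2-rank at most `k` as soon as every subgroup
`H` has index at most `2 ^ k` over the subgroup generated by its squares.
-/

set_option autoImplicit false

namespace CfsgLib.SectRank

variable {G G' : Type*} [Group G] [Group G']

/-- The subgroup generated by the squares of the elements of `H`. -/
def sqSub (H : Subgroup G) : Subgroup G :=
  Subgroup.closure ((fun g => g ^ 2) '' (H : Set G))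

/-- The index of the squares in `H` is at most `a`. -/
def GapLE (H : Subgroup G) (a : ℕ) : Prop :=
  Nat.card H ≤ a * Nat.card (sqSub H)

/-- Every subgroup has at most `2 ^ k` as the index of its squares. -/
def HasRK (k : ℕ) (G : Type*) [Group G] : Prop :=
  ∀ H : Subgroup G, GapLE H (2 ^ k)

theorem sq_mem_sqSub {H : Subgroup G} {g : G} (hg : g ∈ H) : g ^ 2 ∈ sqSub H :=
  Subgroup.subset_closure ⟨g, hg, rfl⟩

theorem sqSub_le_iff {H K : Subgroup G} : sqSub H ≤ K ↔ ∀ h ∈ H, h ^ 2 ∈ K := by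
  rw [sqSub, Subgroup.closure_le, Set.image_subset_iff]
  exact Iff.rfl

theorem sqSub_le_self (H : Subgroup G) : sqSub H ≤ H :=
  sqSub_le_iff.2 fun _ h => pow_mem h 2

theorem sqSub_mono {H K : Subgroup G} (h : H ≤ K) : sqSub H ≤ sqSub K :=
  sqSub_le_iff.2 fun _ hx => sq_mem_sqSub (h hx)

theorem sqSub_eq_bot_iff {H : Subgroup G} : sqSub H = ⊥ ↔ ∀ h ∈ H, h ^ 2 = 1 := by
  rw [eq_bot_iff, sqSub_le_iff]
  exact Iff.rfl

theorem map_sqSub (f : G →* G') (H : Subgroup G) : (sqSub H).map f = sqSub (H.map f) := by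
  rw [sqSub, sqSub, MonoidHom.map_closure, Subgroup.coe_map]
  congr 1
  rw [Set.image_image, Set.image_image]
  simp only [map_pow]

theorem conj_mem_sqSub {H : Subgroup G} {g x : G} (hg : g ∈ H) (hx : x ∈ sqSub H) :
    g * x * g⁻¹ ∈ sqSub H := by
  suffices sqSub H ≤ (sqSub H).comap (MulAut.conj g).toMonoidHom from this hx
  refine sqSub_le_iff.2 fun h hh => ?_
  rw [Subgroup.mem_comap, MulEquiv.coe_toMonoidHom, MulAut.conj_apply, ← conj_pow]
  exact sq_mem_sqSub (mul_mem (mul_mem hg hh) (inv_mem hg))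

theorem comm_mem_sqSub {H : Subgroup G} {g h : G} (hg : g ∈ H) (hh : h ∈ H) :
    g * h * g⁻¹ * h⁻¹ ∈ sqSub H := by
  have h1 : (g * h) ^ 2 * (h⁻¹ * (g ^ 2)⁻¹ * h⁻¹⁻¹) * (h ^ 2)⁻¹ = g * h * g⁻¹ * h⁻¹ := by
    simp only [pow_two]
    group
  rw [← h1]
  exact mul_mem (mul_mem (sq_mem_sqSub (mul_mem hg hh))
    (conj_mem_sqSub (inv_mem hh) (inv_mem (sq_mem_sqSub hg)))) (inv_mem (sq_mem_sqSub hh))

theorem card_inf_ker_mul_card_map (f : G →* G') (H : Subgroup G) :
    Nat.card ↥(H ⊓ f.ker) * Nat.card (H.map f) = Nat.card H := by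
  have h := (f.comp H.subtype).ker.card_mul_index
  rw [Subgroup.index_ker] at h
  have h1 : Nat.card (f.comp H.subtype).ker = Nat.card ↥(H ⊓ f.ker) := by
    rw [← Subgroup.card_map_of_injective H.subtype_injective, ← MonoidHom.comap_ker,
      Subgroup.map_comap_eq, Subgroup.range_subtype]
  rwa [h1, MonoidHom.range_comp, Subgroup.range_subtype] at h

theorem card_inf_mul_card_map_mk (N : Subgroup G) [N.Normal] (H : Subgroup G) :
    Nat.card ↥(H ⊓ N) * Nat.card (H.map (QuotientGroup.mk' N)) = Nat.card H := by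
  have := card_inf_ker_mul_card_map (QuotientGroup.mk' N) H
  rwa [QuotientGroup.ker_mk'] at this

section Finite

variable [Finite G]

omit [Finite G] in
theorem GapLE.mono {H : Subgroup G} {a b : ℕ} (h : GapLE H a) (hab : a ≤ b) : GapLE H b :=
  le_trans h (Nat.mul_le_mul_right _ hab)

theorem gapLE_of_card_le {H : Subgroup G} {a : ℕ} (h : Nat.card H ≤ a) : GapLE H a :=
  le_trans h (Nat.le_mul_of_pos_right _ Nat.card_pos)

theorem GapLE.card_inf {H K : Subgroup G} {a : ℕ} (h : GapLE (H ⊓ K) a) :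
    Nat.card ↥(H ⊓ K) ≤ a * Nat.card ↥(sqSub H ⊓ K) :=
  le_trans h (Nat.mul_le_mul_left _ (Subgroup.card_le_of_le
    (le_inf (sqSub_mono inf_le_left) ((sqSub_le_self _).trans inf_le_right))))

theorem card_inf_le_of_card_le {H K : Subgroup G} {a : ℕ} (h : Nat.card ↥(H ⊓ K) ≤ a) :
    Nat.card ↥(H ⊓ K) ≤ a * Nat.card ↥(sqSub H ⊓ K) :=
  le_trans h (Nat.le_mul_of_pos_right _ Nat.card_pos)

omit [Finite G] in
/-- The gap is sub-multiplicative along a normal subgroup. -/
theorem gapLE_of_normal {H : Subgroup G} (N : Subgroup G) [N.Normal] {a b : ℕ}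
    (ha : Nat.card ↥(H ⊓ N) ≤ a * Nat.card ↥(sqSub H ⊓ N))
    (hb : GapLE (H.map (QuotientGroup.mk' N)) b) : GapLE H (a * b) := by
  unfold GapLE at hb ⊢
  rw [← card_inf_mul_card_map_mk N H, ← card_inf_mul_card_map_mk N (sqSub H), map_sqSub]
  calc Nat.card ↥(H ⊓ N) * Nat.card ↥(H.map (QuotientGroup.mk' N))
      ≤ a * Nat.card ↥(sqSub H ⊓ N) * (b * Nat.card ↥(sqSub (H.map (QuotientGroup.mk' N)))) :=
        Nat.mul_le_mul ha hb
    _ = _ := by ring

theorem gapLE_of_le_sqSub {H : Subgroup G} {N : Subgroup G} [N.Normal] (hN : N ≤ sqSub H)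
    {b : ℕ} (hb : GapLE (H.map (QuotientGroup.mk' N)) b) : GapLE H b := by
  have h := gapLE_of_normal N (a := 1) ?_ hb
  · rwa [one_mul] at h
  · rw [one_mul, inf_eq_right.2 hN]
    exact Subgroup.card_le_of_le inf_le_right

theorem card_map_mk_le (H : Subgroup G) (N : Subgroup G) [N.Normal] :
    Nat.card (H.map (QuotientGroup.mk' N)) ≤ N.index := by
  rw [Subgroup.index_eq_card]
  exact Finite.card_subtype_le _

theorem card_le_index_mul_card_inf (H M : Subgroup G) :
    Nat.card H ≤ M.index * Nat.card ↥(H ⊓ M) := by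
  have h1 := (M.subgroupOf H).card_mul_index
  have h2 : Nat.card (M.subgroupOf H) = Nat.card ↥(H ⊓ M) := by
    rw [← Subgroup.card_map_of_injective H.subtype_injective, Subgroup.subgroupOf_map_subtype,
      inf_comm]
  have h3 : (M.subgroupOf H).index ≤ M.index :=
    Nat.card_le_card_of_injective (fun q : H ⧸ M.subgroupOf H =>
      (Quotient.liftOn' q (fun h => ((h : G) : G ⧸ M)) fun a b hab => by
        rw [QuotientGroup.leftRel_apply, Subgroup.mem_subgroupOf] at hab
        simpa [QuotientGroup.eq] using hab))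
      fun q r hqr => by
        induction q using QuotientGroup.induction_on
        induction r using QuotientGroup.induction_on
        rw [QuotientGroup.eq, Subgroup.mem_subgroupOf]
        simpa [QuotientGroup.eq] using (show ((_ : H) : G ⧸ M) = ((_ : H) : G ⧸ M) from hqr)
  calc Nat.card H = Nat.card ↥(H ⊓ M) * (M.subgroupOf H).index := by rw [← h1, h2]
    _ ≤ Nat.card ↥(H ⊓ M) * M.index := Nat.mul_le_mul_left _ h3
    _ = _ := mul_comm _ _

theorem GapLE.of_index {H M : Subgroup G} {a i : ℕ} (hi : M.index ≤ i) (h : GapLE (H ⊓ M) a) :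
    GapLE H (i * a) := by
  unfold GapLE at h ⊢
  calc Nat.card H ≤ M.index * Nat.card ↥(H ⊓ M) := card_le_index_mul_card_inf H M
    _ ≤ i * (a * Nat.card (sqSub (H ⊓ M))) := Nat.mul_le_mul hi h
    _ ≤ i * (a * Nat.card (sqSub H)) := Nat.mul_le_mul_left _ (Nat.mul_le_mul_left _
        (Subgroup.card_le_of_le (sqSub_mono inf_le_left)))
    _ = _ := by ring

/-- A cyclic subgroup has gap at most two. -/
theorem gapLE_zpowers (v : G) : GapLE (Subgroup.zpowers v) 2 := by
  have hle : Subgroup.zpowers (v ^ 2) ≤ sqSub (Subgroup.zpowers v) :=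
    Subgroup.zpowers_le.2 (sq_mem_sqSub (Subgroup.mem_zpowers v))
  refine le_trans ?_ (Nat.mul_le_mul_left _ (Subgroup.card_le_of_le hle))
  rw [Nat.card_zpowers, Nat.card_zpowers, orderOf_pow]
  have h2 : Nat.gcd (orderOf v) 2 ≤ 2 := Nat.le_of_dvd two_pos (Nat.gcd_dvd_right _ _)
  have h3 : Nat.gcd (orderOf v) 2 ∣ orderOf v := Nat.gcd_dvd_left _ _
  calc orderOf v = Nat.gcd (orderOf v) 2 * (orderOf v / Nat.gcd (orderOf v) 2) :=
        (Nat.mul_div_cancel' h3).symm
    _ ≤ _ := Nat.mul_le_mul_right _ h2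

theorem gapLE_of_isCyclic {H : Subgroup G} (h : IsCyclic H) : GapLE H 2 := by
  obtain ⟨v, hv⟩ := (Subgroup.isCyclic_iff_exists_zpowers_eq_top H).1 h
  exact hv ▸ gapLE_zpowers v

/-- In an abelian subgroup the gap is the number of square roots of one. -/
theorem gapLE_of_comm {H E : Subgroup G} (hc : ∀ a ∈ H, ∀ b ∈ H, a * b = b * a)
    (hE : ∀ x ∈ H, x ^ 2 = 1 → x ∈ E) : GapLE H (Nat.card E) := by
  let sq : H →* G :=
    { toFun := fun h => (h : G) ^ 2
      map_one' := by simp
      map_mul' := fun a b => by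
        rw [Subgroup.coe_mul, Commute.mul_pow (hc _ a.2 _ b.2)] }
  have h := sq.ker.card_mul_index
  rw [Subgroup.index_ker] at h
  have h1 : Nat.card sq.ker ≤ Nat.card E :=
    Nat.card_le_card_of_injective (fun x : sq.ker => (⟨((x : H) : G), hE _ (x : H).2 x.2⟩ : E))
      fun x y e => Subtype.ext (Subtype.ext (congrArg (fun z : E => (z : G)) e))
  have h2 : Nat.card sq.range ≤ Nat.card (sqSub H) := Subgroup.card_le_of_le (by
    rintro _ ⟨x, rfl⟩
    exact sq_mem_sqSub x.2)
  unfold GapLE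
  rw [← h]
  exact Nat.mul_le_mul h1 h2

/-- The class of `x` lies in a coset of any normal subgroup containing the commutators. -/
theorem card_le_card_mul_card_centralizer (x : G) (N : Subgroup G)
    (hN : ∀ g : G, g * x * g⁻¹ * x⁻¹ ∈ N) :
    Nat.card G ≤ Nat.card N * Nat.card (Subgroup.centralizer ({x} : Set G)) := by
  rw [← (Subgroup.centralizer ({x} : Set G)).index_mul_card]
  refine Nat.mul_le_mul_right _ ?_
  refine Nat.card_le_card_of_injective (fun q : G ⧸ Subgroup.centralizer ({x} : Set G) =>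
    (Quotient.liftOn' q (fun g => (⟨g * x * g⁻¹ * x⁻¹, hN g⟩ : N)) fun a b hab => by
      rw [QuotientGroup.leftRel_apply, Subgroup.mem_centralizer_singleton_iff] at hab
      refine Subtype.ext (mul_right_cancel (b := x) ?_)
      simp only [inv_mul_cancel_right]
      calc a * x * a⁻¹ = a * (a⁻¹ * b * x * (a⁻¹ * b)⁻¹) * a⁻¹ := by rw [hab]; group
        _ = b * x * b⁻¹ := by group)) ?_
  intro q r hqr
  induction q using QuotientGroup.induction_on with | _ a => ?_
  induction r using QuotientGroup.induction_on with | _ b => ?_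
  have e : a * x * a⁻¹ = b * x * b⁻¹ := mul_right_cancel (congrArg Subtype.val hqr)
  rw [QuotientGroup.eq, Subgroup.mem_centralizer_singleton_iff]
  calc a⁻¹ * b * x = a⁻¹ * (b * x * b⁻¹) * b := by group
    _ = a⁻¹ * (a * x * a⁻¹) * b := by rw [e]
    _ = x * (a⁻¹ * b) := by group

theorem gapLE_top_of_centralizer (x : G) :
    GapLE (⊤ : Subgroup G) (Nat.card (Subgroup.centralizer ({x} : Set G))) := by
  unfold GapLE
  rw [Subgroup.card_top, mul_comm]
  exact card_le_card_mul_card_centralizer x _ fun g =>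
    comm_mem_sqSub (Subgroup.mem_top g) (Subgroup.mem_top x)

end Finite

theorem gapLE_map_iff {f : G →* G'} (hf : Function.Injective f) {H : Subgroup G} {a : ℕ} :
    GapLE (H.map f) a ↔ GapLE H a := by
  unfold GapLE
  rw [← map_sqSub, Subgroup.card_map_of_injective hf, Subgroup.card_map_of_injective hf]

theorem gapLE_subgroupOf {M H : Subgroup G} (hHM : H ≤ M) {a : ℕ} :
    GapLE (H.subgroupOf M) a ↔ GapLE H a := by
  rw [← gapLE_map_iff M.subtype_injective, Subgroup.subgroupOf_map_subtype, inf_eq_left.2 hHM]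

theorem HasRK.gapLE_of_le {k : ℕ} {M H : Subgroup G} (h : HasRK k M) (hHM : H ≤ M) :
    GapLE H (2 ^ k) :=
  (gapLE_subgroupOf hHM).1 (h _)

theorem HasRK.mono [Finite G] {k l : ℕ} (h : HasRK k G) (hkl : k ≤ l) : HasRK l G :=
  fun H => (h H).mono (Nat.pow_le_pow_right two_pos hkl)

theorem hasRK_of_card_le [Finite G] {k : ℕ} (h : Nat.card G ≤ 2 ^ k) : HasRK k G :=
  fun H => gapLE_of_card_le (le_trans (Subgroup.card_le_card_group H) h)

/-- The gap bound controls the sectional rank. -/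
theorem HasRK.sectionalPRankLE [Finite G] {k : ℕ} (h : HasRK k G) :
    Cfsg.SectionalPRankLE 2 k G := by
  intro H N hN A _ hA
  set f := QuotientGroup.mk' N
  set K := A.comap f with hK
  have hk : GapLE K (2 ^ k) := by
    rw [← gapLE_map_iff H.subtype_injective]
    exact h _
  have h1 : sqSub K ≤ N := sqSub_le_iff.2 fun x hx => by
    rw [← QuotientGroup.eq_one_iff, QuotientGroup.mk_pow]
    exact hA _ hx
  have hNK : N ≤ K := fun n hn => by
    rw [hK, Subgroup.mem_comap, show f n = 1 from (QuotientGroup.eq_one_iff n).2 hn]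
    exact one_mem A
  have h2 := card_inf_mul_card_map_mk N K
  rw [inf_eq_right.2 hNK, Subgroup.map_comap_eq_self_of_surjective
    (QuotientGroup.mk'_surjective N)] at h2
  unfold GapLE at hk
  have h3 : Nat.card K ≤ 2 ^ k * Nat.card N :=
    le_trans hk (Nat.mul_le_mul_left _ (Subgroup.card_le_of_le h1))
  rw [← h2, mul_comm (2 ^ k)] at h3
  exact Nat.le_of_mul_le_mul_left h3 Nat.card_pos

end CfsgLib.SectRank
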