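import Cfsg.Agent.SectRank.Basic
import Cfsg.Agent.PGroup.Abelian
import Cfsg.Agent.TwoGroup.UniqueInvolution

/-!
Elementary tools for an involutive endomorphism `σ` of a finite 2-group: fixed points, inverted
elements, adjoining a square root to a normal subgroup.
-/

set_option autoImplicit false

namespace CfsgLib.SectRank

variable {G : Type*} [Group G]

/-! ### Small subgroups and cyclic 2-groups -/

theorem eq_of_card_le_two [Finite G] {F : Subgroup G} (h : Nat.card F ≤ 2) {a b : G} (ha : a ∈ F)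
    (hb : b ∈ F) (ha1 : a ≠ 1) (hb1 : b ≠ 1) : a = b := by
  by_contra hab
  have hsub : ({1, a, b} : Set G) ⊆ F := by
    rintro x (rfl | rfl | rfl) <;> first | exact one_mem F | assumption
  have h3 : ({1, a, b} : Set G).ncard = 3 :=
    Set.ncard_eq_three.2 ⟨1, a, b, ha1.symm, hb1.symm, hab, rfl⟩
  have := Set.ncard_le_ncard hsub (Set.toFinite _)
  rw [h3, ← Nat.card_coe_set_eq] at this
  simp only [SetLike.coe_sort_coe] at this
  omega

theorem mem_four_of_card_le [Finite G] {U : Subgroup G} (h : Nat.card U ≤ 4) {a b x : G}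
    (ha : a ∈ U) (hb : b ∈ U) (ha1 : a ≠ 1) (hb1 : b ≠ 1) (hab : a ≠ b) (ha2 : a ^ 2 = 1)
    (hx : x ∈ U) : x = 1 ∨ x = a ∨ x = b ∨ x = a * b := by
  by_contra hno
  push Not at hno
  obtain ⟨h1, h2, h3, h4⟩ := hno
  have e1 : a * b ≠ 1 := fun e => hab (by
    rw [pow_two] at ha2
    exact mul_left_cancel (ha2.trans e.symm))
  have e2 : a * b ≠ a := fun e => hb1 (mul_eq_left.1 e)
  have e3 : a * b ≠ b := fun e => ha1 (mul_eq_right.1 e)
  have hsub : ({1, a, b, a * b, x} : Set G) ⊆ U := by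
    rintro y (rfl | rfl | rfl | rfl | rfl) <;>
      first | exact one_mem U | exact mul_mem ha hb | assumption
  have h5 : ({1, a, b, a * b, x} : Set G).ncard = 5 := by
    rw [Set.ncard_insert_of_notMem (by simp [ha1.symm, hb1.symm, e1.symm, Ne.symm h1]),
      Set.ncard_insert_of_notMem (by simp [hab, e2.symm, Ne.symm h2]),
      Set.ncard_insert_of_notMem (by simp [e3.symm, Ne.symm h3]),
      Set.ncard_insert_of_notMem (by simp [Ne.symm h4]), Set.ncard_singleton]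
  have := Set.ncard_le_ncard hsub (Set.toFinite _)
  rw [h5, ← Nat.card_coe_set_eq] at this
  simp only [SetLike.coe_sort_coe] at this
  omega

theorem two_mul_card_le [Finite G] {J K : Subgroup G} (hJK : J ≤ K) {x : G} (hxK : x ∈ K)
    (hxJ : x ∉ J) : 2 * Nat.card J ≤ Nat.card K := by
  obtain ⟨c, hc⟩ := Subgroup.card_dvd_of_le hJK
  have hne : Nat.card K ≠ Nat.card J := fun e => hxJ ((Subgroup.eq_of_le_of_card_ge hJK e.le) ▸ hxK)
  have hK : 0 < Nat.card K := Nat.card_pos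
  rcases Nat.lt_or_ge c 2 with h | h
  · interval_cases c <;> simp_all
  · rw [hc, mul_comm]
    exact Nat.mul_le_mul_left _ h

theorem exists_orderOf_eq_pow (hG : IsPGroup 2 G) (x : G) : ∃ k, orderOf x = 2 ^ k := by
  haveI : Fact (Nat.Prime 2) := ⟨Nat.prime_two⟩
  exact IsPGroup.iff_orderOf.1 hG x

/-- A nontrivial 2-element has a power of order two. -/
theorem exists_pow_involution (hG : IsPGroup 2 G) {x : G} (hx : x ≠ 1) :
    ∃ n : ℕ, x ^ n ≠ 1 ∧ (x ^ n) ^ 2 = 1 := by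
  obtain ⟨k, hk⟩ := exists_orderOf_eq_pow hG x
  cases k with
  | zero => exact absurd (orderOf_eq_one_iff.1 (by simpa using hk)) hx
  | succ k =>
    refine ⟨2 ^ k, fun h => ?_, ?_⟩
    · have := Nat.le_of_dvd (pow_pos two_pos k) (hk ▸ orderOf_dvd_of_pow_eq_one h)
      rw [pow_succ] at this
      have := pow_pos (two_pos (α := ℕ)) k
      omega
    · rw [← pow_mul, ← pow_succ, ← hk, pow_orderOf_eq_one]

/-- An element of order above two has a power of order four. -/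
theorem exists_pow_order_four (hG : IsPGroup 2 G) {x : G} (hx : x ^ 2 ≠ 1) :
    ∃ n : ℕ, (x ^ n) ^ 2 ≠ 1 ∧ (x ^ n) ^ 4 = 1 := by
  obtain ⟨n, h1, h2⟩ := exists_pow_involution hG hx
  exact ⟨n, by rwa [← pow_mul, mul_comm, pow_mul],
    by rw [show (4 : ℕ) = 2 * 2 from rfl, pow_mul, ← pow_mul x n 2, mul_comm, pow_mul]; exact h2⟩

theorem eq_one_of_odd_zpow (hG : IsPGroup 2 G) {x : G} {n : ℤ} (hn : Odd n) (h : x ^ n = 1) :
    x = 1 := by
  obtain ⟨k, hk⟩ := exists_orderOf_eq_pow hG x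
  have hd := orderOf_dvd_iff_zpow_eq_one.2 h
  rw [hk] at hd
  cases k with
  | zero => exact orderOf_eq_one_iff.1 (by simpa using hk)
  | succ k =>
    have h2 : (2 : ℤ) ∣ n := dvd_trans ⟨2 ^ k, by push_cast; rw [pow_succ']⟩ hd
    rcases hn with ⟨r, rfl⟩
    omega

theorem zpowers_zpow_odd (hG : IsPGroup 2 G) {x : G} {n : ℤ} (hn : Odd n) :
    Subgroup.zpowers (x ^ n) = Subgroup.zpowers x := by
  refine le_antisymm (Subgroup.zpowers_le.2 (Subgroup.zpow_mem_zpowers x n))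
    (Subgroup.zpowers_le.2 ?_)
  obtain ⟨k, hk⟩ := exists_orderOf_eq_pow hG x
  have hco : IsCoprime n ((2 : ℤ) ^ k) := by
    refine IsCoprime.pow_right ?_
    obtain ⟨r, rfl⟩ := hn
    exact ⟨1, -r, by ring⟩
  obtain ⟨a, b, hab⟩ := hco
  refine ⟨a, ?_⟩
  show (x ^ n) ^ a = x
  have h1 : x ^ ((2 : ℤ) ^ k) = 1 := by
    have e : ((2 : ℤ) ^ k) = ((2 ^ k : ℕ) : ℤ) := by push_cast; rfl
    rw [e, zpow_natCast, ← hk, pow_orderOf_eq_one]
  calc (x ^ n) ^ a = x ^ (a * n + b * 2 ^ k) := by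
        rw [zpow_add, mul_comm b, zpow_mul x ((2 : ℤ) ^ k), h1, one_zpow, mul_one, ← zpow_mul,
          mul_comm n a]
    _ = x := by rw [hab, zpow_one]

theorem mem_zpowers_sq_or_eq (hG : IsPGroup 2 G) {x y : G} (hy : y ∈ Subgroup.zpowers x) :
    y ∈ Subgroup.zpowers (x ^ 2) ∨ Subgroup.zpowers y = Subgroup.zpowers x := by
  obtain ⟨i, rfl⟩ := Subgroup.mem_zpowers_iff.1 hy
  rcases Int.even_or_odd i with ⟨r, rfl⟩ | h
  · left
    exact ⟨r, by show (x ^ 2) ^ r = _; rw [← zpow_natCast x 2, ← zpow_mul]; ring_nf⟩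
  · exact Or.inr (zpowers_zpow_odd hG h)

/-- A cyclic group has at most one involution. -/
theorem eq_of_involutions_mem_zpowers (hG : IsPGroup 2 G) {v a b : G}
    (ha : a ∈ Subgroup.zpowers v) (hb : b ∈ Subgroup.zpowers v) (ha1 : a ≠ 1) (hb1 : b ≠ 1)
    (ha2 : a ^ 2 = 1) (hb2 : b ^ 2 = 1) : a = b := by
  obtain ⟨k, hk⟩ := exists_orderOf_eq_pow hG v
  obtain ⟨i, rfl⟩ := Subgroup.mem_zpowers_iff.1 ha
  obtain ⟨j, rfl⟩ := Subgroup.mem_zpowers_iff.1 hb
  have hd : ∀ l : ℤ, v ^ l ≠ 1 → (v ^ l) ^ 2 = 1 →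
      ((2 : ℤ) ^ k ∣ 2 * l ∧ ¬ (2 : ℤ) ^ k ∣ l) := fun l h1 h2 => by
    rw [← zpow_natCast, ← zpow_mul] at h2
    have e : ((orderOf v : ℕ) : ℤ) = (2 : ℤ) ^ k := by rw [hk]; push_cast; rfl
    refine ⟨?_, fun h => h1 (orderOf_dvd_iff_zpow_eq_one.1 (by rwa [e]))⟩
    rw [← e, mul_comm]
    exact orderOf_dvd_iff_zpow_eq_one.2 h2
  obtain ⟨hi, hi'⟩ := hd i ha1 ha2
  obtain ⟨hj, hj'⟩ := hd j hb1 hb2
  rw [← mul_inv_eq_one, ← zpow_sub, ← orderOf_dvd_iff_zpow_eq_one, hk]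
  push_cast
  cases k with
  | zero => simp
  | succ k =>
    rw [pow_succ'] at hi hj hi' hj' ⊢
    obtain ⟨r, rfl⟩ := (mul_dvd_mul_iff_left (two_ne_zero (α := ℤ))).1 hi
    obtain ⟨s, rfl⟩ := (mul_dvd_mul_iff_left (two_ne_zero (α := ℤ))).1 hj
    have hr : ¬ (2 : ℤ) ∣ r := fun ⟨c, hc⟩ => hi' ⟨c, by rw [hc]; ring⟩
    have hs : ¬ (2 : ℤ) ∣ s := fun ⟨c, hc⟩ => hj' ⟨c, by rw [hc]; ring⟩
    obtain ⟨c, hc⟩ : (2 : ℤ) ∣ r - s := by omega
    exact ⟨c, by rw [← mul_sub, hc]; ring⟩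

theorem isCyclic_of_comm (hG : IsPGroup 2 G) [Finite G] {H : Subgroup G}
    (hc : ∀ a ∈ H, ∀ b ∈ H, a * b = b * a)
    (h1 : ∀ a ∈ H, ∀ b ∈ H, a ^ 2 = 1 → b ^ 2 = 1 → a ≠ 1 → b ≠ 1 → a = b) : IsCyclic H :=
  TwoGroup.isCyclic_of_comm_atMostOneInvolution (hG.to_subgroup H)
    (fun a b => Subtype.ext (hc _ a.2 _ b.2)) fun x y hx hy => Subtype.ext (h1 _ x.2 _ y.2
      (by rw [← Subgroup.coe_pow, ← hx, pow_orderOf_eq_one]; rfl)
      (by rw [← Subgroup.coe_pow, ← hy, pow_orderOf_eq_one]; rfl)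
      (fun h => by rw [← Subgroup.orderOf_coe, h, orderOf_one] at hx; omega)
      (fun h => by rw [← Subgroup.orderOf_coe, h, orderOf_one] at hy; omega))

/-! ### Adjoining a square root -/

/-- `N` together with `q`. -/
def adjoin (N : Subgroup G) [N.Normal] (q : G) : Subgroup G :=
  (Subgroup.zpowers (QuotientGroup.mk' N q)).comap (QuotientGroup.mk' N)

theorem le_adjoin (N : Subgroup G) [N.Normal] (q : G) : N ≤ adjoin N q := fun n hn => by
  rw [adjoin, Subgroup.mem_comap, show QuotientGroup.mk' N n = 1 from (QuotientGroup.eq_one_iff n).2 hn]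
  exact one_mem _

theorem self_mem_adjoin (N : Subgroup G) [N.Normal] (q : G) : q ∈ adjoin N q :=
  Subgroup.mem_comap.2 (Subgroup.mem_zpowers _)

theorem mem_adjoin {N : Subgroup G} [N.Normal] {q : G} (hq : q ^ 2 ∈ N) {x : G} :
    x ∈ adjoin N q ↔ x ∈ N ∨ x * q⁻¹ ∈ N := by
  refine ⟨fun hx => ?_, fun h => ?_⟩
  · obtain ⟨j, hj⟩ := Subgroup.mem_zpowers_iff.1 (Subgroup.mem_comap.1 hx)
    have hq1 : (QuotientGroup.mk' N q) ^ 2 = 1 := by
      rw [← map_pow]; exact (QuotientGroup.eq_one_iff _).2 hq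
    rcases Int.even_or_odd j with ⟨r, rfl⟩ | ⟨r, rfl⟩
    · left
      rw [← QuotientGroup.eq_one_iff (N := N)]
      show QuotientGroup.mk' N x = 1
      rw [← hj, ← two_mul, zpow_mul, zpow_two, ← pow_two, hq1, one_zpow]
    · right
      rw [← QuotientGroup.eq_one_iff (N := N)]
      show QuotientGroup.mk' N (x * q⁻¹) = 1
      rw [map_mul, map_inv, ← hj, zpow_add, zpow_mul, zpow_two, ← pow_two, hq1, one_zpow,
        one_mul, zpow_one, mul_inv_cancel]
  · rcases h with h | h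
    · exact le_adjoin N q h
    · simpa using mul_mem (le_adjoin N q h) (self_mem_adjoin N q)

theorem adjoin_le {N M : Subgroup G} [N.Normal] {q : G} (hq : q ^ 2 ∈ N) (hN : N ≤ M)
    (hqM : q ∈ M) : adjoin N q ≤ M := fun x hx => by
  rcases (mem_adjoin hq).1 hx with h | h
  · exact hN h
  · simpa using mul_mem (hN h) hqM

theorem lt_adjoin {N : Subgroup G} [N.Normal] {q : G} (hq : q ∉ N) : N < adjoin N q :=
  lt_of_le_not_ge (le_adjoin N q) fun h => hq (h (self_mem_adjoin N q))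

theorem adjoin_normal {N : Subgroup G} [N.Normal] {q : G} (hq : q ^ 2 ∈ N)
    (hcomm : ∀ g, g * q * g⁻¹ * q⁻¹ ∈ N) : (adjoin N q).Normal :=
  ⟨fun x hx g => (mem_adjoin hq).2 <| by
    rcases (mem_adjoin hq).1 hx with h | h
    · exact Or.inl (Subgroup.Normal.conj_mem inferInstance x h g)
    · right
      have h2 : g * x * g⁻¹ * q⁻¹ = g * (x * q⁻¹) * g⁻¹ * (g * q * g⁻¹ * q⁻¹) := by group
      rw [h2]
      exact mul_mem (Subgroup.Normal.conj_mem inferInstance _ h g) (hcomm g)⟩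

theorem adjoin_comm {N : Subgroup G} [N.Normal] {q : G} (hq : q ^ 2 ∈ N)
    (hN : ∀ a ∈ N, ∀ b ∈ N, a * b = b * a) (hqN : q ∈ Subgroup.centralizer (N : Set G)) :
    ∀ a ∈ adjoin N q, ∀ b ∈ adjoin N q, a * b = b * a := by
  have hc : ∀ n ∈ N, Commute n q := fun n hn => Subgroup.mem_centralizer_iff.1 hqN n hn
  intro a ha b hb
  rcases (mem_adjoin hq).1 ha with ha | ha <;> rcases (mem_adjoin hq).1 hb with hb | hb
  · exact hN a ha b hb
  · have e : b = b * q⁻¹ * q := by group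
    rw [e]
    exact (Commute.mul_right (hN a ha _ hb) (hc a ha)).eq
  · have e : a = a * q⁻¹ * q := by group
    rw [e]
    exact (Commute.mul_left (hN _ ha b hb) (hc b hb).symm).eq
  · have e : a = a * q⁻¹ * q := by group
    have e' : b = b * q⁻¹ * q := by group
    rw [e, e']
    exact ((Commute.mul_right (hN _ ha _ hb) (hc _ ha)).mul_left
      ((hc _ hb).symm.mul_right (Commute.refl q))).eq

theorem card_adjoin [Finite G] {N : Subgroup G} [N.Normal] {q : G} (hq : q ^ 2 ∈ N) (hqN : q ∉ N) :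
    Nat.card (adjoin N q) = 2 * Nat.card N := by
  refine le_antisymm ?_ (two_mul_card_le (le_adjoin N q) (self_mem_adjoin N q) hqN)
  have hsub : (adjoin N q : Set G) ⊆ (N : Set G) ∪ (fun n => n * q) '' (N : Set G) := fun x hx => by
    rcases (mem_adjoin hq).1 hx with h | h
    · exact Or.inl h
    · exact Or.inr ⟨_, h, inv_mul_cancel_right x q⟩
  have h := (Set.ncard_le_ncard hsub (Set.toFinite _)).trans
    ((Set.ncard_union_le _ _).trans (Nat.add_le_add_left (Set.ncard_image_le (Set.toFinite _)) _))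
  rw [← Nat.card_coe_set_eq, ← Nat.card_coe_set_eq] at h
  simp only [SetLike.coe_sort_coe] at h
  omega

/-! ### An involutive endomorphism -/

variable {σ : G →* G}

/-- The fixed points of `σ`. -/
def fixSub (σ : G →* G) : Subgroup G := σ.eqLocus (MonoidHom.id G)

theorem mem_fixSub {g : G} : g ∈ fixSub σ ↔ σ g = g := Iff.rfl

/-- The restriction of `σ` to an invariant subgroup. -/
def subHom (σ : G →* G) (H : Subgroup G) (h : ∀ x ∈ H, σ x ∈ H) : H →* H :=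
  (σ.comp H.subtype).codRestrict H fun x => h _ x.2

@[simp] theorem coe_subHom {H : Subgroup G} (h : ∀ x ∈ H, σ x ∈ H) (x : H) :
    ((subHom σ H h x : H) : G) = σ x := rfl

theorem involutive_subHom (hσ : Function.Involutive σ) {H : Subgroup G}
    (h : ∀ x ∈ H, σ x ∈ H) : Function.Involutive (subHom σ H h) :=
  fun x => Subtype.ext (hσ x)

theorem card_fixSub_subHom (σ : G →* G) (H : Subgroup G) (h : ∀ x ∈ H, σ x ∈ H) :
    Nat.card (fixSub (subHom σ H h)) = Nat.card ↥(fixSub σ ⊓ H) := by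
  rw [← Subgroup.card_map_of_injective H.subtype_injective]
  congr 2
  ext x
  refine ⟨?_, fun hx => ⟨⟨x, hx.2⟩, Subtype.ext hx.1, rfl⟩⟩
  rintro ⟨y, hy, rfl⟩
  exact ⟨congrArg Subtype.val hy, y.2⟩

theorem card_fixSub_subHom_le [Finite G] (σ : G →* G) (H : Subgroup G) (h : ∀ x ∈ H, σ x ∈ H) :
    Nat.card (fixSub (subHom σ H h)) ≤ Nat.card (fixSub σ) :=
  (card_fixSub_subHom σ H h).le.trans (Subgroup.card_le_of_le inf_le_left)

/-- The map induced by `σ` on the quotient by an invariant normal subgroup. -/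
def quotHom (σ : G →* G) (N : Subgroup G) [N.Normal] (h : ∀ x ∈ N, σ x ∈ N) : G ⧸ N →* G ⧸ N :=
  QuotientGroup.map N N σ fun x hx => h x hx

@[simp] theorem quotHom_mk {N : Subgroup G} [N.Normal] (h : ∀ x ∈ N, σ x ∈ N) (g : G) :
    quotHom σ N h (g : G ⧸ N) = ((σ g : G) : G ⧸ N) := rfl

theorem involutive_quotHom (hσ : Function.Involutive σ) {N : Subgroup G} [N.Normal]
    (h : ∀ x ∈ N, σ x ∈ N) : Function.Involutive (quotHom σ N h) := fun q => by
  induction q using QuotientGroup.induction_on with | _ g => ?_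
  rw [quotHom_mk, quotHom_mk, hσ g]

theorem mk_mem_fixSub_iff {N : Subgroup G} [N.Normal] (h : ∀ x ∈ N, σ x ∈ N) {g : G} :
    (g : G ⧸ N) ∈ fixSub (quotHom σ N h) ↔ g⁻¹ * σ g ∈ N := by
  rw [mem_fixSub, quotHom_mk, eq_comm, QuotientGroup.eq]

theorem map_inv_mul_self (hσ : Function.Involutive σ) (g : G) :
    σ (g⁻¹ * σ g) = (g⁻¹ * σ g)⁻¹ := by
  rw [map_mul, map_inv, hσ g]
  group

theorem map_inverted_zpow {x : G} (hx : σ x = x⁻¹) (n : ℤ) : σ (x ^ n) = (x ^ n)⁻¹ := by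
  rw [map_zpow, hx, inv_zpow]

theorem map_inverted_pow {x : G} (hx : σ x = x⁻¹) (n : ℕ) : σ (x ^ n) = (x ^ n)⁻¹ := by
  rw [map_pow, hx, inv_pow]

theorem fixed_of_inverted_of_sq {x : G} (hx : σ x = x⁻¹) (h2 : x ^ 2 = 1) : σ x = x := by
  rw [hx]
  exact inv_eq_of_mul_eq_one_right (by rw [← pow_two, h2])

/-- The fixed points of the quotient are few. -/
theorem card_fixSub_quotHom_mul_le [Finite G] (hσ : Function.Involutive σ) (N : Subgroup G)
    [N.Normal] (hN : ∀ x ∈ N, σ x ∈ N) (J : Subgroup G)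
    (hJ : ∀ n ∈ N, σ n = n⁻¹ → n ∈ J) :
    Nat.card (fixSub (quotHom σ N hN)) * Nat.card N ≤ Nat.card (fixSub σ) * Nat.card J := by
  set P : Subgroup G := (fixSub (quotHom σ N hN)).comap (QuotientGroup.mk' N) with hP
  have hNP : N ≤ P := fun n hn => by
    rw [hP, Subgroup.mem_comap, QuotientGroup.mk'_apply, (QuotientGroup.eq_one_iff n).2 hn]
    exact one_mem _
  have hcP := card_inf_mul_card_map_mk N P
  rw [inf_eq_right.2 hNP, Subgroup.map_comap_eq_self_of_surjective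
    (QuotientGroup.mk'_surjective N), mul_comm] at hcP
  rw [hcP, ← Nat.card_prod]
  have hmem : ∀ p : P, (p : G)⁻¹ * σ p ∈ J := fun p =>
    hJ _ ((mk_mem_fixSub_iff hN).1 p.2) (map_inv_mul_self hσ _)
  let δ : P → J := fun p => ⟨_, hmem p⟩
  haveI : Nonempty P := ⟨1⟩
  have hfib : ∀ p : P, (p : G) * ((Function.invFun δ (δ p) : P) : G)⁻¹ ∈ fixSub σ := fun p => by
    have e : ((Function.invFun δ (δ p) : P) : G)⁻¹ * σ ((Function.invFun δ (δ p) : P) : G)
        = (p : G)⁻¹ * σ (p : G) := congrArg Subtype.val (Function.invFun_eq (f := δ) ⟨p, rfl⟩)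
    revert e
    generalize ((Function.invFun δ (δ p) : P) : G) = s
    intro e
    rw [mem_fixSub, map_mul, map_inv]
    calc σ (p : G) * (σ s)⁻¹ = (p : G) * ((p : G)⁻¹ * σ (p : G)) * (σ s)⁻¹ := by group
      _ = (p : G) * (s⁻¹ * σ s) * (σ s)⁻¹ := by rw [e]
      _ = (p : G) * s⁻¹ := by group
  refine Nat.card_le_card_of_injective (fun p : P => (⟨_, hfib p⟩, δ p) :
    P → fixSub σ × J) fun p r hpr => ?_
  obtain ⟨h1, h2⟩ := Prod.mk.injEq _ _ _ _ ▸ hpr
  have e := congrArg Subtype.val h1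
  simp only at e
  rw [h2] at e
  exact Subtype.ext (mul_right_cancel e)

theorem card_fixSub_quotHom_le [Finite G] (hσ : Function.Involutive σ) (N : Subgroup G)
    [N.Normal] (hN : ∀ x ∈ N, σ x ∈ N) :
    Nat.card (fixSub (quotHom σ N hN)) ≤ Nat.card (fixSub σ) :=
  Nat.le_of_mul_le_mul_right (card_fixSub_quotHom_mul_le hσ N hN N fun _ hn _ => hn) Nat.card_pos

/-- A nontrivial invariant subgroup contains a fixed involution. -/
theorem exists_fixed_involution (hG : IsPGroup 2 G) (hσ : Function.Involutive σ) {K : Subgroup G}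
    (hK : ∀ x ∈ K, σ x ∈ K) (hne : K ≠ ⊥) : ∃ g ∈ K, g ≠ 1 ∧ g ^ 2 = 1 ∧ σ g = g := by
  obtain ⟨x, hxK, hx⟩ := (Subgroup.bot_or_exists_ne_one K).resolve_left hne
  obtain ⟨n, h1, h2⟩ := exists_pow_involution hG hx
  set g := x ^ n with hg
  have hgK : g ∈ K := pow_mem hxK n
  by_cases hfix : σ g = g
  · exact ⟨g, hgK, h1, h2, hfix⟩
  have hgi : g⁻¹ = g := inv_eq_of_mul_eq_one_right (by rw [← pow_two, h2])
  have hne' : g⁻¹ * σ g ≠ 1 := fun e => hfix (inv_mul_eq_one.1 e).symm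
  obtain ⟨m, hm1, hm2⟩ := exists_pow_involution hG hne'
  exact ⟨_, pow_mem (mul_mem (inv_mem hgK) (hK g hgK)) m, hm1, hm2,
    fixed_of_inverted_of_sq (map_inverted_pow (map_inv_mul_self hσ g) m) hm2⟩

theorem map_mem_center (hσ : Function.Involutive σ) {x : G} (hx : x ∈ Subgroup.center G) :
    σ x ∈ Subgroup.center G := by
  rw [Subgroup.mem_center_iff] at hx ⊢
  intro g
  rw [← hσ g, ← map_mul, ← map_mul, hx]

theorem map_mem_centralizer (hσ : Function.Involutive σ) {S : Set G} (hS : ∀ s ∈ S, σ s ∈ S)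
    {x : G} (hx : x ∈ Subgroup.centralizer S) : σ x ∈ Subgroup.centralizer S := by
  rw [Subgroup.mem_centralizer_iff] at hx ⊢
  intro g hg
  rw [← hσ g, ← map_mul, ← map_mul, hx _ (hS g hg)]

/-- Some element of `M` outside `N` is central and fixed modulo `N`, with square in `N`. -/
theorem exists_step [Finite G] (hG : IsPGroup 2 G) (hσ : Function.Involutive σ)
    {N M : Subgroup G} [N.Normal] [hMn : M.Normal] (hN : ∀ x ∈ N, σ x ∈ N)
    (hM : ∀ x ∈ M, σ x ∈ M) (hlt : N < M) :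
    ∃ q ∈ M, q ∉ N ∧ q ^ 2 ∈ N ∧ (∀ g, g * q * g⁻¹ * q⁻¹ ∈ N) ∧ q⁻¹ * σ q ∈ N := by
  haveI : Fact (Nat.Prime 2) := ⟨Nat.prime_two⟩
  set f := QuotientGroup.mk' N
  haveI : (M.map f).Normal := hMn.map f (QuotientGroup.mk'_surjective N)
  have hne : M.map f ≠ ⊥ := by
    rw [Ne, Subgroup.map_eq_bot_iff, QuotientGroup.ker_mk']
    exact hlt.not_ge
  have hK : ∀ x ∈ M.map f ⊓ Subgroup.center (G ⧸ N),
      quotHom σ N hN x ∈ M.map f ⊓ Subgroup.center (G ⧸ N) := by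
    rintro x ⟨⟨m, hm, rfl⟩, hx⟩
    exact ⟨⟨σ m, hM m hm, rfl⟩, map_mem_center (involutive_quotHom hσ hN) hx⟩
  obtain ⟨g, ⟨⟨q, hqM, rfl⟩, hgc⟩, h1, h2, h3⟩ := exists_fixed_involution (hG.to_quotient N)
    (involutive_quotHom hσ hN) hK (PGroup.inf_center_ne_bot (hG.to_quotient N) _ hne)
  refine ⟨q, hqM, fun h => h1 ((QuotientGroup.eq_one_iff q).2 h), ?_, fun x => ?_,
    (mk_mem_fixSub_iff hN).1 h3⟩
  · rwa [← QuotientGroup.eq_one_iff, QuotientGroup.mk_pow]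
  · rw [← QuotientGroup.eq_one_iff, QuotientGroup.mk_mul, QuotientGroup.mk_mul,
      QuotientGroup.mk_mul, QuotientGroup.mk_inv, QuotientGroup.mk_inv]
    have hcx : (x : G ⧸ N) * (q : G ⧸ N) = (q : G ⧸ N) * x := Subgroup.mem_center_iff.1 hgc x
    rw [hcx]
    group

theorem adjoin_invariant {N : Subgroup G} [N.Normal] {q : G} (hq : q ^ 2 ∈ N)
    (hN : ∀ x ∈ N, σ x ∈ N) (hσq : q⁻¹ * σ q ∈ N) : ∀ x ∈ adjoin N q, σ x ∈ adjoin N q := by
  intro x hx
  have hsq : σ q ∈ adjoin N q := by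
    simpa using mul_mem (self_mem_adjoin N q) (le_adjoin N q hσq)
  rcases (mem_adjoin hq).1 hx with h | h
  · exact le_adjoin N q (hN x h)
  · have : σ x = σ (x * q⁻¹) * σ q := by rw [← map_mul, inv_mul_cancel_right]
    rw [this]
    exact mul_mem (le_adjoin N q (hN _ h)) hsq

/-- The inverted elements of a commutative subgroup. -/
def invSub (σ : G →* G) (K : Subgroup G) (hc : ∀ a ∈ K, ∀ b ∈ K, a * b = b * a) :
    Subgroup G where
  carrier := {x | x ∈ K ∧ σ x = x⁻¹}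
  one_mem' := ⟨one_mem K, by simp⟩
  mul_mem' := fun {a b} ha hb => ⟨mul_mem ha.1 hb.1, by
    rw [map_mul, ha.2, hb.2, ← mul_inv_rev, hc b hb.1 a ha.1]⟩
  inv_mem' := fun {a} ha => ⟨inv_mem ha.1, by rw [map_inv, ha.2]⟩

theorem mem_invSub {K : Subgroup G} {hc : ∀ a ∈ K, ∀ b ∈ K, a * b = b * a} {x : G} :
    x ∈ invSub σ K hc ↔ x ∈ K ∧ σ x = x⁻¹ := Iff.rfl

theorem invSub_le {K : Subgroup G} (hc : ∀ a ∈ K, ∀ b ∈ K, a * b = b * a) :
    invSub σ K hc ≤ K := fun _ h => h.1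

/-- A centralising element sees every element as fixed modulo an inverted abelian subgroup. -/
theorem inv_mul_map_mem_centralizer {K : Subgroup G}
    (hcomp : ∀ k ∈ K, ∀ g : G, σ (g * k * g⁻¹) = g * σ k * g⁻¹) (hK : ∀ x ∈ K, σ x ∈ K)
    (hσ : Function.Involutive σ) (g : G) : g⁻¹ * σ g ∈ Subgroup.centralizer (K : Set G) := by
  rw [Subgroup.mem_centralizer_iff]
  intro k hk
  have h := hcomp (σ k) (hK k hk) g
  rw [map_mul, map_mul, map_inv, hσ k] at h
  calc k * (g⁻¹ * σ g) = g⁻¹ * (g * k * g⁻¹) * σ g := by group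
    _ = g⁻¹ * (σ g * k * (σ g)⁻¹) * σ g := by rw [h]
    _ = g⁻¹ * σ g * k := by group

/-- Conjugation commutes with inversion. -/
theorem map_conj_of_inverted {K : Subgroup G} [K.Normal] (hinv : ∀ k ∈ K, σ k = k⁻¹) :
    ∀ k ∈ K, ∀ g : G, σ (g * k * g⁻¹) = g * σ k * g⁻¹ := fun k hk g => by
  rw [hinv _ (Subgroup.Normal.conj_mem inferInstance k hk g), hinv k hk]
  group

end CfsgLib.SectRank
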