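import Cfsg.Agent.SectRank.CaseOneSetup

/-!
The case in which the inverted abelian subgroup is its own centraliser.
-/

set_option autoImplicit false

namespace CfsgLib.SectRank

universe u

variable {S : Type u} [Group S]

theorem exists_sq_of_mem_sqSub {L : Subgroup S} (hc : ∀ a ∈ L, ∀ b ∈ L, a * b = b * a) {y : S}
    (hy : y ∈ sqSub L) : ∃ l ∈ L, l ^ 2 = y := by
  let R : Subgroup S :=
    { carrier := {y | ∃ l ∈ L, l ^ 2 = y}
      one_mem' := ⟨1, one_mem L, one_pow 2⟩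
      mul_mem' := by
        rintro _ _ ⟨a, ha, rfl⟩ ⟨b, hb, rfl⟩
        exact ⟨a * b, mul_mem ha hb, Commute.mul_pow (hc a ha b hb) 2⟩
      inv_mem' := by
        rintro _ ⟨a, ha, rfl⟩
        exact ⟨a⁻¹, inv_mem ha, inv_pow a 2⟩ }
  exact (sqSub_le_iff (K := R)).2 (fun l hl => ⟨l, hl, rfl⟩) hy

/-- The commutators of two elements, when both fixed, relate the two displacements. -/
theorem delta_rel {x p q : S} (hfix : x * (p * q * p⁻¹ * q⁻¹) * x⁻¹ = p * q * p⁻¹ * q⁻¹) :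
    q⁻¹ * (p⁻¹ * (x * p * x⁻¹)) * q * (q⁻¹ * (x * q * x⁻¹)) =
      p⁻¹ * (q⁻¹ * (x * q * x⁻¹)) * p * (p⁻¹ * (x * p * x⁻¹)) := by
  set ζ := p * q * p⁻¹ * q⁻¹ with hζ
  have h : x * (p * q) * x⁻¹ = ζ * (x * (q * p) * x⁻¹) := by
    rw [show p * q = ζ * (q * p) by rw [hζ]; group, ← conj_mul, hfix]
  calc q⁻¹ * (p⁻¹ * (x * p * x⁻¹)) * q * (q⁻¹ * (x * q * x⁻¹))
      = (p * q)⁻¹ * (x * (p * q) * x⁻¹) := by group
    _ = (p * q)⁻¹ * (ζ * (x * (q * p) * x⁻¹)) := by rw [h]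
    _ = _ := by rw [hζ]; group

variable [Finite S] {z w x t c : S} {T M : Subgroup S}

/-- What is left: the hypotheses of the last case. -/
structure LastCase (S : Type u) [Group S] (z w x t c : S) (T M W H : Subgroup S) : Prop where
  config : Config S z w x t c T M
  W_normal : W.Normal
  W_le : W ≤ M
  c_mem : c ∈ W
  four_le : Subgroup.closure ({z, w} : Set S) ≤ W
  inv : ∀ k ∈ W, x * k * x⁻¹ = k⁻¹
  comm : ∀ a ∈ W, ∀ b ∈ W, a * b = b * a
  delta_mem : ∀ g : S, g⁻¹ * (x * g * x⁻¹) ∈ W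
  H_le : H ≤ T
  four_le_H : Subgroup.closure ({z, w} : Set S) ≤ H
  z_sq : z ∈ sqSub H
  w_sq : w ∉ sqSub H
  cover : ∀ g ∈ T, ∃ h ∈ H, h⁻¹ * g ∈ W
  sq_le : sqSub H ≤ W
  sq_eq : ∀ y ∈ sqSub H, ∃ l ∈ H ⊓ W, l ^ 2 = y
  surj : ∀ b ∈ W, ∃ m ∈ M, m⁻¹ * (x * m * x⁻¹) = b

namespace LastCase

variable {W H : Subgroup S} (h : LastCase S z w x t c T M W H)
include h

omit [Finite S] in
theorem sq_roots {k : S} (hk : k ∈ W) (hk2 : k ^ 2 = 1) :
    k ∈ Subgroup.closure ({z, w} : Set S) :=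
  h.config.fix_mem k (h.W_le hk) (by rw [h.inv k hk, inv_eq_self_of_sq hk2])

omit [Finite S] in
/-- Every displacement is, up to squares, that of an element of `H`. -/
theorem lift {b : S} (hb : b ∈ W) : ∃ m ∈ H, m ∈ M ∧
    ∃ r ∈ W, m⁻¹ * (x * m * x⁻¹) = b * r ^ 2 := by
  obtain ⟨m, hm, rfl⟩ := h.surj b hb
  obtain ⟨p, hp, hpn⟩ := h.cover m (h.config.M_le hm)
  refine ⟨p, hp, ?_, p⁻¹ * m, hpn, ?_⟩
  · have e : p = m * (p⁻¹ * m)⁻¹ := by group
    rw [e]; exact mul_mem hm (inv_mem (h.W_le hpn))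
  · set n := p⁻¹ * m with hn
    have hmp : m = p * n := by rw [hn]; group
    have hδp := h.delta_mem p
    have e : m⁻¹ * (x * m * x⁻¹) = n⁻¹ * (p⁻¹ * (x * p * x⁻¹)) * (x * n * x⁻¹) := by
      rw [hmp]; group
    rw [e, h.inv n hpn, h.comm n⁻¹ (inv_mem hpn) _ hδp]
    group

/-- Some square of `H` is moved by `x`. -/
theorem exists_moved (hS : IsPGroup 2 S) : ∃ y ∈ sqSub H, x * y * x⁻¹ ≠ y := by
  by_contra hall
  push Not at hall
  set U := Subgroup.closure ({z, w} : Set S) with hU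
  have hWn := h.W_normal
  let _iW : CommGroup W :=
    { (inferInstance : Group W) with mul_comm := fun a b => Subtype.ext (h.comm _ a.2 _ b.2) }
  have hrel : ∀ p ∈ H, ∀ q ∈ H,
      q⁻¹ * (p⁻¹ * (x * p * x⁻¹)) * q * (q⁻¹ * (x * q * x⁻¹)) =
        p⁻¹ * (q⁻¹ * (x * q * x⁻¹)) * p * (p⁻¹ * (x * p * x⁻¹)) := fun p hp q hq =>
    delta_rel (hall _ (comm_mem_sqSub hp hq))
  -- the action on `W`, less one
  let conjW : S → (W →* W) := fun g =>
    { toFun := fun k => ⟨g⁻¹ * k * g, by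
        simpa using hWn.conj_mem k k.2 g⁻¹⟩
      map_one' := Subtype.ext (by simp)
      map_mul' := fun a b => Subtype.ext (by
        show g⁻¹ * ((a : S) * b) * g = g⁻¹ * a * g * (g⁻¹ * b * g)
        group) }
  let N : S → (W →* W) := fun g =>
    { toFun := fun k => conjW g k * k⁻¹
      map_one' := by simp
      map_mul' := fun a b => by rw [map_mul, mul_inv, mul_mul_mul_comm] }
  let D : S → W := fun g => ⟨g⁻¹ * (x * g * x⁻¹), h.delta_mem g⟩
  have hN : ∀ p ∈ H, ∀ q ∈ H, N q (D p) = N p (D q) := fun p hp q hq => by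
    have e : conjW q (D p) * D q = conjW p (D q) * D p := Subtype.ext (hrel p hp q hq)
    show conjW q (D p) * (D p)⁻¹ = conjW p (D q) * (D q)⁻¹
    rw [mul_inv_eq_iff_eq_mul, mul_assoc, mul_comm (D q)⁻¹, ← mul_assoc, eq_mul_inv_iff_mul_eq]
    exact e
  -- two generators coming from `H`
  let sq : W →* W := powMonoidHom 2
  have hker : Nat.card sq.ker ≤ 4 := by
    rw [← h.config.four_card]
    exact Nat.card_le_card_of_injective (fun k : sq.ker => (⟨((k : W) : S), h.sq_roots (k : W).2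
      (congrArg Subtype.val (MonoidHom.mem_ker.1 k.2))⟩ : U))
      fun a b e => Subtype.ext (Subtype.ext (congrArg (fun v : U => (v : S)) e))
  have hker4 : 4 ≤ Nat.card sq.ker := by
    rw [← h.config.four_card]
    exact Nat.card_le_card_of_injective (fun k : U => (⟨⟨k, h.four_le k.2⟩,
      MonoidHom.mem_ker.2 (Subtype.ext (h.config.four_sq k.2))⟩ : sq.ker))
      fun a b e => Subtype.ext (congrArg (fun v : sq.ker => ((v : W) : S)) e)
  have hWcard : Nat.card W = 4 * Nat.card sq.range := by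
    have e := sq.ker.card_mul_index
    rw [Subgroup.index_ker] at e
    rw [← e, le_antisymm hker hker4]
  have hrpos : 0 < Nat.card sq.range := Nat.card_pos
  have hliftW : ∀ b : W, ∃ m ∈ H, m ∈ M ∧ D m * b⁻¹ ∈ sq.range := fun b => by
    obtain ⟨m, hmH, hmM, r, hr, e⟩ := h.lift b.2
    refine ⟨m, hmH, hmM, ⟨r, hr⟩, Subtype.ext ?_⟩
    show r ^ 2 = m⁻¹ * (x * m * x⁻¹) * (b : S)⁻¹
    rw [e, h.comm b b.2 _ (pow_mem hr 2), mul_inv_cancel_right]
  obtain ⟨m₁, hm₁H, hm₁M, hm₁⟩ : ∃ m ∈ H, m ∈ M ∧ D m ∉ sq.range := by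
    obtain ⟨b, hb⟩ : ∃ b : W, b ∉ sq.range := by
      by_contra hne
      push Not at hne
      have := Subgroup.card_le_of_le (fun b _ => hne b : (⊤ : Subgroup W) ≤ sq.range)
      rw [Subgroup.card_top] at this
      omega
    obtain ⟨m, hmH, hmM, e⟩ := hliftW b
    refine ⟨m, hmH, hmM, fun hh => hb ?_⟩
    have := mul_mem (inv_mem e) hh
    simpa using this
  set B₁ := sq.range ⊔ Subgroup.zpowers (D m₁) with hB₁
  have hB₁card : Nat.card B₁ ≤ 2 * Nat.card sq.range :=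
    card_sup_zpowers_le ⟨D m₁, rfl⟩ fun k hk => by rwa [mul_comm, inv_mul_cancel_left]
  obtain ⟨m₂, hm₂H, hm₂M, hm₂⟩ : ∃ m ∈ H, m ∈ M ∧ D m ∉ B₁ := by
    obtain ⟨b, hb⟩ : ∃ b : W, b ∉ B₁ := by
      by_contra hne
      push Not at hne
      have := Subgroup.card_le_of_le (fun b _ => hne b : (⊤ : Subgroup W) ≤ B₁)
      rw [Subgroup.card_top] at this
      omega
    obtain ⟨m, hmH, hmM, e⟩ := hliftW b
    refine ⟨m, hmH, hmM, fun hh => hb ?_⟩
    have := mul_mem (inv_mem (Subgroup.mem_sup_left (T := Subgroup.zpowers (D m₁)) e)) hh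
    simpa using this
  set B := Subgroup.closure ({D m₁, D m₂} : Set W) with hB
  have hsup : sq.range ⊔ B = ⊤ := by
    refine Subgroup.eq_top_of_card_eq _ (le_antisymm (Subgroup.card_le_card_group _) ?_)
    have h1 : 2 * Nat.card sq.range ≤ Nat.card B₁ :=
      two_mul_card_le le_sup_left (Subgroup.mem_sup_right (Subgroup.mem_zpowers _)) hm₁
    have hle : B₁ ≤ sq.range ⊔ B := sup_le le_sup_left
      (Subgroup.zpowers_le.2 (Subgroup.mem_sup_right (Subgroup.subset_closure (Or.inl rfl))))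
    have h2 : 2 * Nat.card B₁ ≤ Nat.card ↥(sq.range ⊔ B) :=
      two_mul_card_le hle (Subgroup.mem_sup_right (Subgroup.subset_closure (Or.inr rfl))) hm₂
    omega
  have hBtop : (⊤ : Subgroup W) ≤ B := by
    refine le_of_mod_squares (hS.to_subgroup W) le_top (fun a _ b _ => mul_comm a b) fun v _ => ?_
    obtain ⟨a, ⟨r, hr⟩, b, hb, e⟩ := Subgroup.mem_sup.1 (hsup ▸ Subgroup.mem_top v : v ∈ sq.range ⊔ B)
    refine ⟨r, Subgroup.mem_top r, ?_⟩
    rw [← e, show r ^ 2 = a from hr, inv_mul_cancel_left]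
    exact hb
  -- the element of `H` in the coset of `t`
  obtain ⟨p, hpH, hpn⟩ := h.cover t h.config.t_mem
  set n : W := ⟨p⁻¹ * t, hpn⟩ with hn
  have hDp : D p = n * n := Subtype.ext (by
    show p⁻¹ * (x * p * x⁻¹) = (p⁻¹ * t) * (p⁻¹ * t)
    have htx : x * t * x⁻¹ = t := by rw [← h.config.t_x, mul_inv_cancel_right]
    have e : x * p * x⁻¹ = (x * t * x⁻¹) * (x * (p⁻¹ * t) * x⁻¹)⁻¹ := by group
    rw [e, htx, h.inv _ hpn, inv_inv]; group)
  have hconjp : ∀ k : W, conjW p k = conjW t k := fun k => by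
    refine Subtype.ext ?_
    show p⁻¹ * (k : S) * p = t⁻¹ * (k : S) * t
    have hk : t⁻¹ * (k : S) * t ∈ W := by simpa using hWn.conj_mem k k.2 t⁻¹
    calc p⁻¹ * (k : S) * p = (p⁻¹ * t) * (t⁻¹ * (k : S) * t) * (p⁻¹ * t)⁻¹ := by group
      _ = t⁻¹ * (k : S) * t := by rw [h.comm _ hpn _ hk, mul_inv_cancel_right]
  have hNt : ∀ m ∈ H, N t (D m) = N m n * N m n := fun m hm => by
    have e : N p (D m) = N t (D m) := by
      show conjW p (D m) * (D m)⁻¹ = conjW t (D m) * (D m)⁻¹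
      rw [hconjp]
    rw [← e, hN m hm p hpH, hDp, map_mul]
  obtain ⟨i, j, hw⟩ := Subgroup.mem_closure_pair.1
    (hBtop (Subgroup.mem_top (⟨w, h.four_le h.config.w_mem_four⟩ : W)))
  obtain ⟨r, s, hns⟩ := Subgroup.mem_closure_pair.1 (hBtop (Subgroup.mem_top n))
  have hNw : ∀ m ∈ M, N m ⟨w, h.four_le h.config.w_mem_four⟩ = 1 := fun m hm => by
    refine Subtype.ext ?_
    show m⁻¹ * w * m * w⁻¹ = 1
    rw [mul_assoc m⁻¹ w m, ← h.config.comm_w m hm, inv_mul_cancel_left, mul_inv_cancel]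
  have h12 : N m₂ (D m₁) = N m₁ (D m₂) := hN m₁ hm₁H m₂ hm₂H
  have hw1 : N m₁ (D m₁) ^ i * N m₁ (D m₂) ^ j = 1 := by
    rw [← map_zpow, ← map_zpow, ← map_mul, hw]; exact hNw m₁ hm₁M
  have hw2 : N m₂ (D m₁) ^ i * N m₂ (D m₂) ^ j = 1 := by
    rw [← map_zpow, ← map_zpow, ← map_mul, hw]; exact hNw m₂ hm₂M
  have key : N m₁ n ^ i * N m₂ n ^ j = 1 := by
    calc N m₁ n ^ i * N m₂ n ^ j
        = (N m₁ (D m₁) ^ r * N m₁ (D m₂) ^ s) ^ i * (N m₂ (D m₁) ^ r * N m₂ (D m₂) ^ s) ^ j := by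
          rw [← hns]; simp only [map_mul, map_zpow]
      _ = (N m₁ (D m₁) ^ i * N m₂ (D m₁) ^ j) ^ r * (N m₁ (D m₂) ^ i * N m₂ (D m₂) ^ j) ^ s := by
          simp only [mul_zpow, ← zpow_mul, mul_comm r, mul_comm s]
          exact mul_mul_mul_comm _ _ _ _
      _ = 1 := by
          have e2 : N m₁ (D m₂) ^ i = N m₂ (D m₁) ^ i := by rw [h12]
          rw [e2, hw2, h12, hw1, one_zpow, one_zpow, one_mul]
  have hz : N t ⟨w, h.four_le h.config.w_mem_four⟩ = 1 := by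
    rw [← hw, map_mul, map_zpow, map_zpow, hNt m₁ hm₁H, hNt m₂ hm₂H, mul_zpow, mul_zpow,
      mul_mul_mul_comm, key, one_mul]
  have e : t⁻¹ * w * t * w⁻¹ = 1 := congrArg Subtype.val hz
  have e2 : t * w * t⁻¹ = w := by
    rw [mul_inv_eq_one] at e
    calc t * w * t⁻¹ = t * (t⁻¹ * w * t) * t⁻¹ := by rw [e]
      _ = w := by group
  rw [h.config.t_w] at e2
  exact h.config.z_ne (mul_eq_left.1 e2)

end LastCase

/-- The last case is impossible when `g` lies outside `W`. -/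
theorem LastCase.false_of_not_mem {W H : Subgroup S} (h : LastCase S z w x t c T M W H)
    (hS : IsPGroup 2 S) (hc2 : c ^ 2 = z) (hcH : c ∈ H) {g : S} (hgM : g ∈ M) (hgW : g ∉ W)
    (hσg : x * g * x⁻¹ = g * w) (hg2 : g ^ 2 ∈ Subgroup.closure ({z, w} : Set S))
    (htg : t * g * t⁻¹ * (g * c)⁻¹ ∈ Subgroup.closure ({z, w} : Set S)) : False := by
  set U := Subgroup.closure ({z, w} : Set S) with hU
  have hWn := h.W_normal
  let _iW : CommGroup W :=
    { (inferInstance : Group W) with mul_comm := fun a b => Subtype.ext (h.comm _ a.2 _ b.2) }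
  have hw2 : w⁻¹ = w := inv_eq_self_of_sq h.config.w_sq
  -- `w` is no square in `W`
  have hwsq : ∀ r ∈ W, r ^ 2 ≠ w := fun r hr e => by
    refine hgW ?_
    have hd : r⁻¹⁻¹ * (x * r⁻¹ * x⁻¹) = g⁻¹ * (x * g * x⁻¹) := by
      rw [hσg, inv_mul_cancel_left, h.inv r⁻¹ (inv_mem hr), inv_inv, ← pow_two, e]
    have h1 := h.config.same_delta (inv_mem (h.W_le hr)) hgM hd
    have h2 := mul_mem (inv_mem (h.four_le h1)) (inv_mem hr)
    simpa using h2
  set Z := Subgroup.zpowers (⟨w, h.four_le h.config.w_mem_four⟩ : W) with hZ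
  set π := QuotientGroup.mk' Z with hπ
  have hwW2 : (⟨w, h.four_le h.config.w_mem_four⟩ : W) ^ 2 = 1 := Subtype.ext h.config.w_sq
  have hπ1 : ∀ k : W, π k = 1 ↔ (k : S) = 1 ∨ (k : S) = w := fun k => by
    refine (QuotientGroup.eq_one_iff k).trans ⟨fun hk => ?_, fun hk => ?_⟩
    · rcases eq_one_or_eq_of_mem_zpowers hwW2 hk with e | e
      · exact Or.inl (congrArg Subtype.val e)
      · exact Or.inr (congrArg Subtype.val e)
    · rcases hk with e | e
      · rw [show k = 1 from Subtype.ext e]; exact one_mem _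
      · rw [show k = ⟨w, h.four_le h.config.w_mem_four⟩ from Subtype.ext e]
        exact Subgroup.mem_zpowers _
  have hXp : IsPGroup 2 (W ⧸ Z) := (hS.to_subgroup W).to_quotient Z
  have : IsCyclic (W ⧸ Z) := by
    refine TwoGroup.isCyclic_of_comm_atMostOneInvolution hXp (fun a b => mul_comm a b) ?_
    intro a b ha hb
    set zb : W ⧸ Z := π ⟨z, h.four_le h.config.z_mem_four⟩ with hzb
    have key : ∀ a : W ⧸ Z, orderOf a = 2 → a = zb := by
      intro a ha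
      have ha2 : a ^ 2 = 1 := ha ▸ pow_orderOf_eq_one a
      have ha1 : a ≠ 1 := fun e => by rw [e, orderOf_one] at ha; omega
      obtain ⟨k, rfl⟩ := QuotientGroup.mk'_surjective Z a
      rw [← hπ, ← map_pow, hπ1] at ha2
      have hk2 : (k : S) ^ 2 = 1 := by
        rcases ha2 with e | e
        · exact e
        · exact absurd e (hwsq k k.2)
      rcases h.config.mem_four.1 (h.sq_roots k.2 hk2) with e | e | e | e
      · exact absurd ((hπ1 k).2 (Or.inl e)) ha1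
      · exact congrArg π (Subtype.ext e)
      · exact absurd ((hπ1 k).2 (Or.inr e)) ha1
      · have ek : k = ⟨w, h.four_le h.config.w_mem_four⟩ *
            ⟨z, h.four_le h.config.z_mem_four⟩ := Subtype.ext e
        rw [ek, map_mul, (hπ1 ⟨w, _⟩).2 (Or.inr rfl), one_mul]
    rw [key a ha, key b hb]
  have hcX2 : (π ⟨c, h.c_mem⟩) ^ 2 ≠ 1 := fun e => by
    rw [← map_pow, hπ1] at e
    change c ^ 2 = 1 ∨ c ^ 2 = w at e
    rw [hc2] at e
    rcases e with e | e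
    exacts [h.config.z_ne e, h.config.w_ne_z e.symm]
  have hcX4 : (π ⟨c, h.c_mem⟩) ^ 4 = 1 := by
    rw [← map_pow, hπ1]
    left
    show c ^ 4 = 1
    rw [show (4 : ℕ) = 2 * 2 from rfl, pow_mul, hc2, h.config.z_sq]
  -- conjugation by elements of `M`
  let conjW : ∀ p, p ∈ M → (W →* W) := fun p _ =>
    { toFun := fun k => ⟨p * k * p⁻¹, hWn.conj_mem k k.2 p⟩
      map_one' := Subtype.ext (by simp)
      map_mul' := fun a b => Subtype.ext (by
        show p * ((a : S) * b) * p⁻¹ = p * a * p⁻¹ * (p * b * p⁻¹)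
        group) }
  have hZinv : ∀ p (hp : p ∈ M), Z ≤ Z.comap (conjW p hp) := fun p hp => by
    rw [hZ, Subgroup.zpowers_le, Subgroup.mem_comap]
    have e : conjW p hp ⟨w, h.four_le h.config.w_mem_four⟩ = ⟨w, h.four_le h.config.w_mem_four⟩ :=
      Subtype.ext (by show p * w * p⁻¹ = w; rw [h.config.comm_w p hp, mul_inv_cancel_right])
    rw [e]
    exact Subgroup.mem_zpowers _
  let ψ : ∀ p, p ∈ M → (W ⧸ Z →* W ⧸ Z) := fun p hp =>
    QuotientGroup.map Z Z (conjW p hp) (hZinv p hp)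
  have hψ : ∀ p (hp : p ∈ M) (k : W), ψ p hp (π k) = π (conjW p hp k) := fun p hp k => rfl
  have hψinv : ∀ p (hp : p ∈ M) (y : W ⧸ Z), ψ p⁻¹ (inv_mem hp) (ψ p hp y) = y := fun p hp y => by
    obtain ⟨k, rfl⟩ := QuotientGroup.mk'_surjective Z y
    rw [← hπ, hψ p hp, hψ p⁻¹ (inv_mem hp)]
    exact congrArg π (Subtype.ext (by show p⁻¹ * (p * k * p⁻¹) * p⁻¹⁻¹ = k; group))
  obtain ⟨p₀, hp₀H, hp₀n⟩ := h.cover g (h.config.M_le hgM)
  set n : W := ⟨g⁻¹ * p₀, by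
    have e : g⁻¹ * p₀ = (p₀⁻¹ * g)⁻¹ := by group
    rw [e]; exact inv_mem hp₀n⟩ with hndef
  have hp₀ : p₀ = g * n := by rw [hndef]; group
  have hgc : g * c * g⁻¹ * c⁻¹ = 1 ∨ g * c * g⁻¹ * c⁻¹ = z := by
    have e : p₀ * c * p₀⁻¹ * c⁻¹ = g * c * g⁻¹ * c⁻¹ := by
      rw [hp₀, show g * (n : S) * c * (g * (n : S))⁻¹ = g * ((n : S) * c * (n : S)⁻¹) * g⁻¹ by group,
        h.comm n n.2 c h.c_mem, mul_inv_cancel_right]
    have hmem : g * c * g⁻¹ * c⁻¹ ∈ sqSub H := e ▸ comm_mem_sqSub hp₀H hcH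
    rcases h.config.mem_four.1 (h.config.c_comm g) with e' | e' | e' | e'
    · exact Or.inl e'
    · exact Or.inr e'
    · exact absurd (e' ▸ hmem) h.w_sq
    · refine absurd ?_ h.w_sq
      have := mul_mem (e' ▸ hmem) (inv_mem h.z_sq)
      rwa [mul_inv_cancel_right] at this
  rcases hgc with hgc | hgc
  · -- `g` centralises `c`
    have hgcc : Commute g c := mul_inv_eq_iff_eq_mul.1 (mul_inv_eq_one.1 hgc)
    have hg2' : g ^ 2 = w ∨ g ^ 2 = w * z := by
      obtain ⟨k₀, hk₀, et⟩ : ∃ k₀ ∈ U, t * g * t⁻¹ = k₀ * (g * c) := ⟨_, htg, by group⟩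
      have e : t * g ^ 2 * t⁻¹ = g ^ 2 * z := by
        rw [← conj_pow, et,
          Commute.mul_pow (h.config.four_comm hk₀ (mul_mem hgM h.config.c_mem)).symm,
          h.config.four_sq hk₀, one_mul, hgcc.mul_pow, hc2]
      rcases h.config.mem_four.1 hg2 with e' | e' | e' | e'
      · rw [e', mul_one, mul_inv_cancel, one_mul] at e
        exact absurd e.symm h.config.z_ne
      · rw [e', h.config.t_z] at e
        exact absurd (mul_eq_left.1 e.symm) h.config.z_ne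
      · exact Or.inl e'
      · exact Or.inr e'
    set ψ₁ := ψ g⁻¹ (inv_mem hgM) with hψ₁
    set s : W := conjW g⁻¹ (inv_mem hgM) n * n with hs
    have hsq : p₀ ^ 2 = g ^ 2 * (s : S) := by
      show p₀ ^ 2 = g ^ 2 * (g⁻¹ * (n : S) * g⁻¹⁻¹ * n)
      rw [hp₀, pow_two, pow_two]; group
    have hgg : g ^ 2 ∈ W := by
      rcases hg2' with e | e <;> rw [e]
      · exact h.four_le h.config.w_mem_four
      · exact h.four_le (mul_mem h.config.w_mem_four h.config.z_mem_four)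
    obtain ⟨l₀, hl₀, el₀⟩ := h.sq_eq _ (sq_mem_sqSub hp₀H)
    have hnns : ∀ r : W ⧸ Z, r ^ 2 ≠ π n := by
      intro r hr
      obtain ⟨r, rfl⟩ := QuotientGroup.mk'_surjective Z r
      rw [← hπ, ← map_pow, ← inv_mul_eq_one, ← map_inv, ← map_mul, hπ1] at hr
      -- then `s` and so `g ^ 2` is a square
      set v : W := conjW g⁻¹ (inv_mem hgM) r * r with hv
      have hsv : (s : S) = (v : S) ^ 2 := by
        have e : n = r ^ 2 * ((r ^ 2)⁻¹ * n) := by rw [mul_inv_cancel_left]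
        have hfix : conjW g⁻¹ (inv_mem hgM) ((r ^ 2)⁻¹ * n) * ((r ^ 2)⁻¹ * n) = 1 := by
          refine Subtype.ext ?_
          show g⁻¹ * ((((r ^ 2)⁻¹ * n : W)) : S) * g⁻¹⁻¹ * ((((r ^ 2)⁻¹ * n : W)) : S) = 1
          rcases hr with e' | e' <;> rw [e']
          · group
          · rw [inv_inv, mul_assoc g⁻¹ w g, ← h.config.comm_w g hgM, inv_mul_cancel_left,
              ← pow_two, h.config.w_sq]
        have e2 : s = v ^ 2 := by
          rw [hs, e, map_mul, mul_mul_mul_comm, hfix, mul_one, map_pow, hv, mul_pow]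
        rw [e2]; rfl
      have hg2sq : g ^ 2 = (l₀ * (v : S)⁻¹) ^ 2 := by
        rw [Commute.mul_pow (h.comm _ hl₀.2 _ (inv_mem v.2)), el₀, hsq, hsv, inv_pow,
          mul_inv_cancel_right]
      rcases hg2' with e | e
      · exact hwsq _ (mul_mem hl₀.2 (inv_mem v.2)) (hg2sq.symm.trans e)
      · refine hwsq (l₀ * (v : S)⁻¹ * c⁻¹)
          (mul_mem (mul_mem hl₀.2 (inv_mem v.2)) (inv_mem h.c_mem)) ?_
        rw [Commute.mul_pow (h.comm _ (mul_mem hl₀.2 (inv_mem v.2)) _ (inv_mem h.c_mem)), ← hg2sq,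
          e, inv_pow, hc2, mul_inv_cancel_right]
    have hψc : ψ₁ (π ⟨c, h.c_mem⟩) = π ⟨c, h.c_mem⟩ := by
      rw [hψ₁, hψ g⁻¹ (inv_mem hgM)]
      exact congrArg π (Subtype.ext (by
        show g⁻¹ * c * g⁻¹⁻¹ = c
        rw [hgcc.inv_left.eq, inv_inv, inv_mul_cancel_right]))
    have hWH : W ≤ H := by
      intro y hy
      have hmem := sq_mem_zpowers_mul_map hXp ψ₁ hcX2 hcX4 hψc hnns (π ⟨y, hy⟩)
      have e : π n * ψ₁ (π n) = π s := by
        rw [hψ₁, hψ g⁻¹ (inv_mem hgM), ← map_mul, hs, mul_comm]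
      rw [e] at hmem
      obtain ⟨i, hi⟩ := Subgroup.mem_zpowers_iff.1 hmem
      rw [← map_zpow, ← map_pow, eq_comm, ← mul_inv_eq_one, ← map_inv, ← map_mul, hπ1] at hi
      set Q : Subgroup S := sqSub H ⊔ Subgroup.zpowers w with hQ
      have hwQ : w ∈ Q := Subgroup.mem_sup_right (Subgroup.mem_zpowers w)
      have hsQ : (s : S) ∈ Q := by
        have e' : (s : S) = (g ^ 2)⁻¹ * p₀ ^ 2 := by rw [hsq]; group
        rw [e']
        refine mul_mem (inv_mem ?_) (Subgroup.mem_sup_left (sq_mem_sqSub hp₀H))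
        rcases hg2' with e'' | e'' <;> rw [e'']
        · exact hwQ
        · exact mul_mem hwQ (Subgroup.mem_sup_left h.z_sq)
      have hyQ : y ^ 2 ∈ Q := by
        have hsi : ((s ^ i : W) : S) ∈ Q := by rw [Subgroup.coe_zpow]; exact zpow_mem hsQ i
        have hprod : (((⟨y, hy⟩ : W) ^ 2 * (s ^ i)⁻¹ : W) : S) ∈ Q := by
          rcases hi with e' | e' <;> rw [e']
          exacts [one_mem _, hwQ]
        have := mul_mem hprod hsi
        rwa [← Subgroup.coe_mul, inv_mul_cancel_right, Subgroup.coe_pow] at this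
      rcases mem_sup_zpowers (H := sqSub H) (by rw [h.config.w_sq]; exact one_mem _)
        (fun k hk => conj_mem_sqSub (h.four_le_H h.config.w_mem_four) hk) hyQ with e' | e'
      · obtain ⟨l, hl, el⟩ := h.sq_eq _ e'
        have : y * l⁻¹ ∈ U := h.sq_roots (mul_mem hy (inv_mem hl.2)) (by
          rw [Commute.mul_pow (h.comm _ hy _ (inv_mem hl.2)), inv_pow, el, mul_inv_cancel])
        simpa using mul_mem (h.four_le_H this) hl.1
      · exfalso
        obtain ⟨l, hl, el⟩ := h.sq_eq _ e'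
        refine hwsq (l⁻¹ * y) (mul_mem (inv_mem hl.2) hy) ?_
        rw [Commute.mul_pow (h.comm _ (inv_mem hl.2) _ hy), inv_pow, el]
        group
    have hgH : g ∈ H := by
      have e : g = p₀ * (n : S)⁻¹ := by rw [hp₀]; group
      rw [e]; exact mul_mem hp₀H (inv_mem (hWH n.2))
    have := sq_mem_sqSub hgH
    rcases hg2' with e | e <;> rw [e] at this
    · exact h.w_sq this
    · exact h.w_sq (by simpa using mul_mem this (inv_mem h.z_sq))
  · -- `g` inverts `c`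
    let θ : W ⧸ Z →* W ⧸ Z :=
      { toFun := fun y => (ψ g hgM y)⁻¹
        map_one' := by simp
        map_mul' := fun a b => by rw [map_mul, mul_inv] }
    have hθc : θ (π ⟨c, h.c_mem⟩) = π ⟨c, h.c_mem⟩ := by
      show (ψ g hgM (π ⟨c, h.c_mem⟩))⁻¹ = _
      rw [hψ g hgM, ← map_inv]
      refine congrArg π (Subtype.ext ?_)
      show (g * c * g⁻¹)⁻¹ = c
      rw [mul_inv_eq_iff_eq_mul.1 hgc, mul_inv_rev, inv_eq_self_of_sq h.config.z_sq, ← hc2]
      group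
    obtain ⟨y₀, hy₀⟩ := IsCyclic.exists_generator (α := W ⧸ Z)
    have hy₀sq : y₀ ^ 2 ≠ 1 := fun e => hcX2 (by
      obtain ⟨i, hi⟩ := Subgroup.mem_zpowers_iff.1 (hy₀ (π ⟨c, h.c_mem⟩))
      rw [← hi, ← zpow_natCast _ 2, ← zpow_mul, mul_comm, zpow_mul, zpow_natCast, e, one_zpow])
    obtain ⟨b₀, hb₀⟩ := QuotientGroup.mk'_surjective Z y₀
    obtain ⟨m, hmH, hmM, r, hr, em⟩ := h.lift b₀.2
    set b : W := ⟨m⁻¹ * (x * m * x⁻¹), h.delta_mem m⟩ with hb
    have hbns : ∀ v : W ⧸ Z, v ^ 2 ≠ π b := by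
      intro v hv
      have hb' : b = b₀ * (⟨r, hr⟩ : W) ^ 2 := Subtype.ext em
      rw [hb', map_mul, map_pow] at hv
      rw [← hπ] at hb₀
      rw [hb₀] at hv
      have h0 : (v * (π ⟨r, hr⟩)⁻¹) ^ 2 = y₀ := by
        rw [mul_pow, hv, inv_pow, mul_inv_cancel_right]
      refine not_mem_zpowers_sq (y := y₀) hXp (fun e => hy₀sq (by rw [e, one_pow])) ?_
      obtain ⟨i, hi⟩ := Subgroup.mem_zpowers_iff.1 (hy₀ (v * (π ⟨r, hr⟩)⁻¹))
      exact ⟨i, by
        show (y₀ ^ 2) ^ i = y₀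
        conv_rhs => rw [← h0, ← hi]
        rw [← zpow_natCast, ← zpow_natCast, ← zpow_mul, ← zpow_mul, mul_comm]⟩
    -- the commutator of `m` and `g`
    set e₁ := m * p₀ * m⁻¹ * p₀⁻¹ with he₁
    have he₁s : e₁ ∈ sqSub H := comm_mem_sqSub hmH hp₀H
    set e := m * g * m⁻¹ * g⁻¹ with hedef
    set μn : W := conjW m hmM n * n⁻¹ with hμn
    have hee : e₁ = e * (conjW g hgM μn : W) := by
      show e₁ = e * (g * (m * (n : S) * m⁻¹ * (n : S)⁻¹) * g⁻¹)
      rw [he₁, hedef, hp₀]; group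
    have heW : e ∈ W := by
      have e' : e = e₁ * ((conjW g hgM μn : W) : S)⁻¹ := by rw [hee]; group
      rw [e']; exact mul_mem (h.sq_le he₁s) (inv_mem (conjW g hgM μn).2)
    set eW : W := ⟨e, heW⟩ with heW'
    obtain ⟨l, hl, el⟩ := h.sq_eq _ he₁s
    obtain ⟨v₁, hv₁⟩ : ∃ v, π μn = v ^ 2 := by
      obtain ⟨v, hv⟩ := exists_sq_eq_map_mul_inv hXp (ψ m hmM)
        (Function.LeftInverse.injective (hψinv m hmM)) (π n)
      exact ⟨v, by rw [hv, hμn, map_mul, map_inv, hψ m hmM]⟩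
    obtain ⟨ρ, hρ⟩ : ∃ ρ, π eW = ρ ^ 2 := by
      refine ⟨π ⟨l, hl.2⟩ * (ψ g hgM v₁)⁻¹, ?_⟩
      have e' : eW = (⟨l, hl.2⟩ : W) ^ 2 * (conjW g hgM μn)⁻¹ := Subtype.ext (by
        show e = l ^ 2 * ((conjW g hgM μn : W) : S)⁻¹
        rw [el, hee, mul_inv_cancel_right])
      rw [e', map_mul, map_pow, map_inv, ← hψ g hgM, hv₁, map_pow, mul_pow, inv_pow]
    have hσe : x * e * x⁻¹ = m * ((b : S) * (g * (b : S)⁻¹ * g⁻¹)) * m⁻¹ * e := by
      calc x * e * x⁻¹ = (x * m * x⁻¹) * (x * g * x⁻¹) * (x * m * x⁻¹)⁻¹ * (x * g * x⁻¹)⁻¹ := by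
            rw [hedef]; group
        _ = m * (b : S) * (g * (w * ((b : S)⁻¹ * m⁻¹))) * (g * w)⁻¹ := by
            rw [hσg, hb]; group
        _ = m * (b : S) * (g * (((b : S)⁻¹ * m⁻¹) * w)) * (g * w)⁻¹ := by
            rw [h.config.comm_w _ (mul_mem (inv_mem (h.W_le b.2)) (inv_mem hmM))]
        _ = _ := by rw [hedef]; group
    set bb : W := b * (conjW g hgM b)⁻¹ with hbb
    have hinvE : eW⁻¹ * eW⁻¹ = conjW m hmM bb := Subtype.ext (by
      show e⁻¹ * e⁻¹ = m * (bb : S) * m⁻¹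
      have hbbS : (bb : S) = (b : S) * (g * (b : S)⁻¹ * g⁻¹) := by
        show (b : S) * (g * (b : S) * g⁻¹)⁻¹ = _
        group
      rw [hbbS]
      have e2 := hσe
      rw [h.inv e heW] at e2
      calc e⁻¹ * e⁻¹ = (m * ((b : S) * (g * (b : S)⁻¹ * g⁻¹)) * m⁻¹ * e) * e⁻¹ := by rw [← e2]
        _ = _ := by group)
    set μ' := ψ m⁻¹ (inv_mem hmM) ρ with hμ'
    have hfourth : π b * θ (π b) = (μ'⁻¹) ^ 4 := by
      have e1 : π b * θ (π b) = π bb := by
        show π b * (ψ g hgM (π b))⁻¹ = _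
        rw [hψ g hgM, hbb, map_mul, map_inv]
      have e2 : ψ m hmM (π bb) = (ρ⁻¹) ^ 4 := by
        rw [hψ m hmM, ← hinvE, map_mul, map_inv, hρ, ← inv_pow, ← pow_add]
      rw [e1, ← hψinv m hmM (π bb), e2, map_pow, map_inv, hμ']
    obtain ⟨i, hi⟩ := Subgroup.mem_zpowers_iff.1
      (sq_mem_zpowers_mul_map hXp θ hcX2 hcX4 hθc hbns y₀)
    rw [hfourth] at hi
    obtain ⟨j, hj⟩ := Subgroup.mem_zpowers_iff.1 (hy₀ μ'⁻¹)
    refine hy₀sq (eq_one_of_odd_zpow hXp (n := 2 * (j * i) - 1) ⟨j * i - 1, by ring⟩ ?_)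
    rw [zpow_sub_one, mul_inv_eq_one]
    conv_rhs => rw [← hi, ← hj]
    rw [← zpow_natCast y₀ 2, ← zpow_natCast (y₀ ^ j) 4, ← zpow_mul, ← zpow_mul, ← zpow_mul]
    congr 1
    push_cast
    ring

end CfsgLib.SectRank
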