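import Cfsg.Agent.SectRank.CaseOneGap
import Cfsg.Agent.SectRank.CaseOneAlpha

/-!
Harada's theorem when a self-centralising elementary subgroup of order eight contains a normal four
group.
-/

set_option autoImplicit false

namespace CfsgLib.SectRank

universe u

variable {S : Type u} [Group S] [Finite S] {z w x t c : S} {T M : Subgroup S}

/-- The last case does not occur. -/
theorem Config.gap_self_centralising (h : Config S z w x t c T M) (hS : IsPGroup 2 S)
    (hc2 : c ^ 2 = z) {g : S} (hgM : g ∈ M) (hσg : x * g * x⁻¹ = g * w)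
    (hg2 : g ^ 2 ∈ Subgroup.closure ({z, w} : Set S))
    (htg : t * g * t⁻¹ * (g * c)⁻¹ ∈ Subgroup.closure ({z, w} : Set S)) {W : Subgroup S}
    [W.Normal] (hWM : W ≤ M) (hcW : c ∈ W) (hUW : Subgroup.closure ({z, w} : Set S) ≤ W)
    (hinv : ∀ k ∈ W, x * k * x⁻¹ = k⁻¹) (hcomm : ∀ a ∈ W, ∀ b ∈ W, a * b = b * a)
    (hC : Subgroup.centralizer (W : Set S) ⊓ M ≤ W) {H : Subgroup S} (hHT : H ≤ T)
    (hUH : Subgroup.closure ({z, w} : Set S) ≤ H) (hzH : z ∈ sqSub H) (hwH : w ∉ sqSub H)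
    (hmaxH : Maximal (fun K : Subgroup S => ¬ GapLE K 16) H) : False := by
  have : Fact (Nat.Prime 2) := ⟨Nat.prime_two⟩
  set U := Subgroup.closure ({z, w} : Set S) with hU
  have hδ : ∀ p, p⁻¹ * (x * p * x⁻¹) ∈ W := fun p =>
    hC ⟨inv_mul_map_mem_centralizer (σ := conjHom x) (map_conj_of_inverted hinv)
      (fun k hk => Subgroup.Normal.conj_mem inferInstance k hk x) (involutive_conjHom h.x_sq) p,
      h.delta_mem p⟩
  have hWU : ∀ k ∈ W, k ^ 2 = 1 → k ∈ U := fun k hk hk2 =>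
    h.fix_mem k (hWM hk) (by rw [hinv k hk, inv_eq_self_of_sq hk2])
  set π := QuotientGroup.mk' W with hπ
  set Mb := M.map π with hMb
  have hall : Mb ≤ Subgroup.centralizer ({π x} : Set (S ⧸ W)) ⊓ Mb := by
    rintro _ ⟨m, hm, rfl⟩
    refine ⟨Subgroup.mem_centralizer_singleton_iff.2 ?_, m, hm, rfl⟩
    have e : π (m⁻¹ * (x * m * x⁻¹)) = 1 := (QuotientGroup.eq_one_iff _).2 (hδ m)
    rw [map_mul, map_mul, map_mul, map_inv, map_inv, inv_mul_eq_one, eq_mul_inv_iff_mul_eq] at e
    exact e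
  have hMb4 : Nat.card Mb ≤ 4 := by
    refine (Subgroup.card_le_of_le hall).trans (Nat.le_of_mul_le_mul_right ?_ (Nat.card_pos (α := W)))
    exact (card_fix_map_mul_le h.x_sq M W hWM W fun k hk _ => hk).trans
      (Nat.mul_le_mul_right _ h.card_fix_M)
  set L := H ⊓ W with hL
  have hgapL : GapLE L 4 := by
    rw [← h.four_card]
    exact gapLE_of_comm (fun a ha b hb => hcomm a ha.2 b hb.2) fun e he h2 => hWU e he.2 h2
  set Hb := H.map π with hHb
  have hHbad : ¬ GapLE H 16 := hmaxH.1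
  have hcov : ∀ a ∈ Hb, ∀ b ∈ Hb, a ∉ Mb → b ∉ Mb → a * b⁻¹ ∈ Mb := by
    rintro _ ⟨p, hp, rfl⟩ _ ⟨q, hq, rfl⟩ hp' hq'
    rw [← map_inv, ← map_mul]
    exact ⟨_, h.not_both (hHT hp) (hHT hq) (fun hh => hp' ⟨p, hh, rfl⟩)
      (fun hh => hq' ⟨q, hh, rfl⟩), rfl⟩
  have hgapHb : ¬ GapLE Hb 4 := fun hh =>
    hHbad ((gapLE_of_normal W hgapL.card_inf hh).mono le_rfl)
  have hHb4 : 4 < Nat.card Hb := by
    by_contra hh
    exact hgapHb (gapLE_of_card_le (by omega))
  have hHb8 : Nat.card Hb ≤ 8 := by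
    have := card_le_two_mul_card_inf hcov
    have := Subgroup.card_le_of_le (inf_le_right : Hb ⊓ Mb ≤ Mb)
    omega
  have hHbsq : sqSub Hb = ⊥ := by
    by_contra hne
    obtain ⟨q, hq, hq1⟩ := (Subgroup.bot_or_exists_ne_one _).resolve_left hne
    have := two_mul_card_le (bot_le : (⊥ : Subgroup (S ⧸ W)) ≤ sqSub Hb) hq
      fun hh => hq1 (Subgroup.mem_bot.1 hh)
    rw [Subgroup.card_bot] at this
    exact hgapHb (by unfold GapLE; omega)
  have hMH : Mb ≤ Hb := by
    intro m hm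
    by_contra hmH
    have := two_mul_card_le (inf_le_right : Hb ⊓ Mb ≤ Mb) hm fun hh => hmH hh.1
    have := card_le_two_mul_card_inf hcov
    omega
  obtain ⟨h₀, hh₀H, hh₀M⟩ : ∃ h₀ ∈ H, h₀ ∉ M := by
    refine SetLike.not_le_iff_exists.1 fun hle => ?_
    have : Nat.card Hb ≤ Nat.card Mb := Subgroup.card_le_of_le (Subgroup.map_mono hle)
    omega
  have hcoverM : ∀ p ∈ M, ∃ q ∈ H, q⁻¹ * p ∈ W := fun p hp => by
    obtain ⟨q, hq, e⟩ := hMH ⟨p, hp, rfl⟩
    exact ⟨q, hq, QuotientGroup.eq.1 e⟩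
  have hcover : ∀ p ∈ T, ∃ q ∈ H, q⁻¹ * p ∈ W := fun p hp => by
    by_cases hpM : p ∈ M
    · exact hcoverM p hpM
    · obtain ⟨q, hq, e⟩ := hcoverM _ (h.not_both hp (hHT hh₀H) hpM hh₀M)
      exact ⟨q * h₀, mul_mem hq hh₀H, by
        have e' : (q * h₀)⁻¹ * p = h₀⁻¹ * (q⁻¹ * (p * h₀⁻¹)) * h₀⁻¹⁻¹ := by group
        rw [e']; exact Subgroup.Normal.conj_mem inferInstance _ e h₀⁻¹⟩
  have hsqW : sqSub H ≤ W := sqSub_le_iff.2 fun p hp => by
    rw [← QuotientGroup.eq_one_iff (N := W)]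
    show π (p ^ 2) = 1
    rw [map_pow]
    exact (sqSub_eq_bot_iff.1 hHbsq) _ ⟨p, hp, rfl⟩
  have hHcard : Nat.card L * Nat.card Hb = Nat.card H := card_inf_mul_card_map_mk W H
  have hHle : Nat.card H ≤ 8 * Nat.card L := by
    rw [← hHcard, mul_comm]
    exact Nat.mul_le_mul_right _ hHb8
  have hbig : 16 * Nat.card (sqSub H) < Nat.card H := not_le.1 hHbad
  have hsqL : sqSub H ≤ sqSub L := by
    intro y hy
    by_contra hne
    have h2 := two_mul_card_le (sqSub_mono inf_le_left : sqSub L ≤ sqSub H) hy hne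
    have h4 : Nat.card L ≤ 4 * Nat.card (sqSub L) := hgapL
    omega
  have hsq : ∀ y ∈ sqSub H, ∃ l ∈ H ⊓ W, l ^ 2 = y := fun y hy =>
    exists_sq_of_mem_sqSub (L := H ⊓ W) (fun a ha b hb => hcomm a ha.2 b hb.2) (hsqL hy)
  -- the displacement is surjective
  have hMcard : Nat.card M = 4 * Nat.card W := by
    have e := card_inf_mul_card_map_mk W M
    rw [inf_eq_right.2 hWM] at e
    have h4 : Nat.card Mb = 4 := by
      have := card_le_two_mul_card_inf hcov
      have := Subgroup.card_le_of_le (inf_le_right : Hb ⊓ Mb ≤ Mb)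
      obtain ⟨k, hk⟩ := IsPGroup.iff_card.1 ((hS.to_quotient W).to_subgroup Mb)
      have : k < 3 := by
        by_contra hh
        have : 2 ^ 3 ≤ 2 ^ k := Nat.pow_le_pow_right two_pos (by omega)
        omega
      interval_cases k <;> omega
    rw [← e, ← hMb, h4]
    ring
  have hsurj : ∀ b ∈ W, ∃ m ∈ M, m⁻¹ * (x * m * x⁻¹) = b := by
    let δ : M → W := fun m => ⟨(m : S)⁻¹ * (x * m * x⁻¹), hδ m⟩
    haveI : Nonempty M := ⟨1⟩
    let ψ : M → U × W := fun m => (⟨(m : S) * ((Function.invFun δ (δ m) : M) : S)⁻¹,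
      h.same_delta m.2 (Function.invFun δ (δ m)).2
        (congrArg Subtype.val (Function.invFun_eq (f := δ) ⟨m, rfl⟩)).symm⟩, δ m)
    have hinj : Function.Injective ψ := fun p q e => by
      obtain ⟨e1, e2⟩ := Prod.mk.injEq _ _ _ _ ▸ e
      have e1' := congrArg Subtype.val e1
      simp only at e1'
      rw [e2] at e1'
      exact Subtype.ext (mul_right_cancel e1')
    have hbij : Function.Bijective ψ := hinj.bijective_of_nat_card_le (by
      rw [Nat.card_prod, h.four_card, hMcard])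
    intro b hb
    obtain ⟨m, hm⟩ := hbij.2 (⟨1, one_mem U⟩, ⟨b, hb⟩)
    exact ⟨m, m.2, congrArg (fun p : U × W => (p.2 : S)) hm⟩
  have hlast : LastCase S z w x t c T M W H :=
    { config := h, W_normal := inferInstance, W_le := hWM, c_mem := hcW, four_le := hUW
      inv := hinv, comm := hcomm, delta_mem := hδ, H_le := hHT, four_le_H := hUH, z_sq := hzH
      w_sq := hwH, cover := hcover, sq_le := hsqW, sq_eq := hsq, surj := hsurj }
  obtain ⟨y, hy, hyx⟩ := hlast.exists_moved hS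
  -- a square root of `z` among the squares
  have hy2 : y ^ 2 ≠ 1 := fun e => hyx (by rw [hinv y (hsqW hy), inv_eq_self_of_sq e])
  obtain ⟨n, hn2, hn4⟩ := exists_pow_order_four hS hy2
  have hfW : y ^ n ∈ W := pow_mem (hsqW hy) n
  have hfs : y ^ n ∈ sqSub H := pow_mem hy n
  have hf2 : (y ^ n) ^ 2 = z := by
    rcases h.mem_four.1 (hWU _ (pow_mem hfW 2) (by rw [← pow_mul]; exact hn4)) with e | e | e | e
    · exact absurd e hn2
    · exact e
    · exact absurd (e ▸ pow_mem hfs 2) hwH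
    · refine absurd ?_ hwH
      have := mul_mem (e ▸ pow_mem hfs 2) (inv_mem hzH)
      rwa [mul_inv_cancel_right] at this
  have hfc : y ^ n * c ∈ U := hWU _ (mul_mem hfW hcW) (by
    rw [Commute.mul_pow (hcomm _ hfW _ hcW), hf2, hc2, ← pow_two, h.z_sq])
  have hcH : c ∈ H := by
    have := mul_mem (inv_mem (sqSub_le_self H hfs)) (hUH hfc)
    rwa [inv_mul_cancel_left] at this
  by_cases hgW : g ∈ W
  swap
  · exact hlast.false_of_not_mem hS hc2 hcH hgM hgW hσg hg2 htg
  -- otherwise `g` could be added to `H`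
  have hg2w : g ^ 2 = w := by
    have e := hinv g hgW
    rw [hσg] at e
    have e2 : g ^ 2 * w = 1 := by rw [pow_two, mul_assoc, e, mul_inv_cancel]
    rw [eq_inv_of_mul_eq_one_left e2, inv_eq_self_of_sq h.w_sq]
  have hgH : g ∉ H := fun hh => hwH (hg2w ▸ sq_mem_sqSub hh)
  have hwn : ∀ p, p * w * p⁻¹ = w ∨ p * w * p⁻¹ = w * z :=
    conj_mem_four h.z_cen h.z_sq h.w_sq h.w_ne h.w_ne_z h.four_normal
  have hmove : ∀ p, p * g * p⁻¹ * g⁻¹ ∈ U ∨ p * g * p⁻¹ * g⁻¹ * c ∈ U := fun p => by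
    set k := p * g * p⁻¹ * g⁻¹ with hk
    have hpg : p * g * p⁻¹ ∈ W := Subgroup.Normal.conj_mem inferInstance g hgW p
    have hkW : k ∈ W := mul_mem hpg (inv_mem hgW)
    have hk2 : k ^ 2 = p * w * p⁻¹ * w⁻¹ := by
      rw [hk, Commute.mul_pow (hcomm _ hpg _ (inv_mem hgW)), conj_pow, inv_pow, hg2w]
    rcases hwn p with e | e <;> rw [e] at hk2
    · rw [mul_inv_cancel] at hk2
      exact Or.inl (hWU k hkW hk2)
    · rw [h.zcomm w, mul_inv_cancel_right] at hk2
      refine Or.inr (hWU _ (mul_mem hkW hcW) ?_)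
      rw [Commute.mul_pow (hcomm _ hkW _ hcW), hk2, hc2, ← pow_two, h.z_sq]
  have hkH : ∀ k, k ∈ U ∨ k * c ∈ U → k ∈ H := fun k hk => by
    rcases hk with e | e
    · exact hUH e
    · simpa using mul_mem (hUH e) (inv_mem hcH)
  refine hgH (mem_of_maximal_bad hmaxH (by rw [hg2w]; exact hUH h.w_mem_four) (fun p hp => ?_)
    (K := sqSub H ⊔ Subgroup.zpowers w) le_sup_left (fun p hp => ?_) ?_)
  · have e : g * p * g⁻¹ = (p * g * p⁻¹ * g⁻¹)⁻¹ * p := by group
    rw [e]; exact mul_mem (inv_mem (hkH _ (hmove p))) hp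
  · set Q := sqSub H ⊔ Subgroup.zpowers w with hQ
    have hzQ : z ∈ Q := Subgroup.mem_sup_left hzH
    have hwQ : w ∈ Q := Subgroup.mem_sup_right (Subgroup.mem_zpowers w)
    have hUQ : U ≤ Q := (Subgroup.closure_le _).2 (by rintro k (rfl | rfl); exacts [hzQ, hwQ])
    have hcQ : c ∈ Q := by
      have := mul_mem (inv_mem (Subgroup.mem_sup_left (T := Subgroup.zpowers w) hfs)) (hUQ hfc)
      rwa [inv_mul_cancel_left] at this
    have hgg : p⁻¹ * g * p * g⁻¹ ∈ Q := by
      have := hmove p⁻¹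
      rw [inv_inv] at this
      rcases this with e | e
      · exact hUQ e
      · simpa using mul_mem (hUQ e) (inv_mem hcQ)
    have e : (p * g) ^ 2 = p ^ 2 * (p⁻¹ * g * p * g⁻¹) * g ^ 2 := by
      simp only [pow_two]; group
    rw [e, hg2w]
    exact mul_mem (mul_mem (Subgroup.mem_sup_left (sq_mem_sqSub hp)) hgg) hwQ
  · exact card_sup_zpowers_le (by rw [h.w_sq]; exact one_mem _)
      fun k hk => conj_mem_sqSub (hUH h.w_mem_four) hk

/-- Harada's theorem in the first case. -/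
theorem hasRK_four_case_one (hS : IsPGroup 2 S) {A U : Subgroup S} (hA : SelfEight A) (hUA : U ≤ A)
    [U.Normal] (hU4 : Nat.card U = 4)
    (ih : ∀ {R : Type u} [Group R] [Finite R], IsPGroup 2 R → Nat.card R < Nat.card S →
      ∀ B : Subgroup R, SelfEight B → HasRK 4 R) : HasRK 4 S := by
  have : Fact (Nat.Prime 2) := ⟨Nat.prime_two⟩
  have hUne : U ≠ ⊥ := fun e => by rw [e, Subgroup.card_bot] at hU4; omega
  obtain ⟨z, hzUC, hz1⟩ := (Subgroup.bot_or_exists_ne_one _).resolve_left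
    (PGroup.inf_center_ne_bot hS U hUne)
  obtain ⟨hzU, hz⟩ := hzUC
  have hz2 : z ^ 2 = 1 := hA.sq z (hUA hzU)
  obtain ⟨w, hwU, hwzz⟩ : ∃ w ∈ U, w ∉ Subgroup.zpowers z := by
    refine SetLike.not_le_iff_exists.1 fun hle => ?_
    have := (Subgroup.card_le_of_le hle).trans (card_zpowers_le_two hz2)
    omega
  have hw2 : w ^ 2 = 1 := hA.sq w (hUA hwU)
  have hw1 : w ≠ 1 := fun e => hwzz (e ▸ one_mem _)
  have hwz : w ≠ z := fun e => hwzz (e ▸ Subgroup.mem_zpowers _)
  have hzc := Subgroup.mem_center_iff.1 hz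
  have hzw : Commute z w := (hzc w).symm
  have hUeq : U = Subgroup.closure ({z, w} : Set S) :=
    (Subgroup.eq_of_le_of_card_ge ((Subgroup.closure_le _).2 (by
      rintro k (rfl | rfl); exacts [hzU, hwU]))
      (by rw [hU4, card_closure_pair hz2 hw2 hzw hz1 hw1 hwz])).symm
  subst hUeq
  set U := Subgroup.closure ({z, w} : Set S) with hU
  have hUn : U.Normal := inferInstance
  have hwU' : w ∈ U := Subgroup.subset_closure (Or.inr rfl)
  obtain ⟨x, hxA, hxU⟩ : ∃ x ∈ A, x ∉ U := by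
    refine SetLike.not_le_iff_exists.1 fun hle => ?_
    have := Subgroup.card_le_of_le hle
    rw [hA.card] at this
    omega
  have hx2 : x ^ 2 = 1 := hA.sq x hxA
  have hAeq : adjoin U x = A := by
    refine Subgroup.eq_of_le_of_card_ge (adjoin_le (by rw [hx2]; exact one_mem U) hUA hxA) ?_
    rw [hA.card, card_adjoin (by rw [hx2]; exact one_mem U) hxU, hU4]
  have hAx : ∀ g, g * x = x * g → g * w = w * g → g ∈ A := by
    intro g hgx hgw
    rw [← hA.self]
    refine Subgroup.mem_centralizer_iff.2 fun b hb => ?_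
    have hb' : b ∈ adjoin U x := hAeq ▸ hb
    have hgU : ∀ k ∈ U, Commute k g := fun k hk => by
      rcases (mem_closure_pair hz2 hw2 hzw).1 hk with rfl | rfl | rfl | rfl
      · exact Commute.one_left g
      · exact (hzc g).symm
      · exact hgw.symm
      · exact Commute.mul_left hgw.symm (hzc g).symm
    rcases (mem_adjoin (by rw [hx2]; exact one_mem U)).1 hb' with e | e
    · exact hgU b e
    · have eb : b = b * x⁻¹ * x := by group
      rw [eb]
      exact ((hgU _ e).mul_left hgx.symm).eq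
  set C := Subgroup.centralizer ({w} : Set S) with hC
  have hCx : Nat.card ↥(Subgroup.centralizer ({x} : Set S) ⊓ C) ≤ 8 := by
    rw [← hA.card]
    exact Subgroup.card_le_of_le fun g hg => hAx g (Subgroup.mem_centralizer_singleton_iff.1 hg.1)
      (Subgroup.mem_centralizer_singleton_iff.1 hg.2)
  have hconjw := conj_mem_four hz hz2 hw2 hw1 hwz hUn
  by_cases hCtop : ∀ g, g ∈ C
  · refine hasRK_four_of_centralizer_le_eight hS hx2 ?_
    have : Subgroup.centralizer ({x} : Set S) ⊓ C = Subgroup.centralizer ({x} : Set S) :=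
      inf_eq_left.2 fun g _ => hCtop g
    rwa [this] at hCx
  push Not at hCtop
  obtain ⟨g₀, hg₀⟩ := hCtop
  have hidx : C.index = 2 := by
    have h1 : C.index ≤ Nat.card (Subgroup.zpowers z) :=
      index_centralizer_le w (Subgroup.zpowers z) fun g => by
        rcases hconjw g with e | e <;> rw [e]
        · rw [mul_inv_cancel]; exact one_mem _
        · rw [hzc w, mul_inv_cancel_right]; exact Subgroup.mem_zpowers z
    have h2 := h1.trans (card_zpowers_le_two hz2)
    rcases Nat.lt_or_ge C.index 2 with h3 | h3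
    · have := C.index_ne_zero_of_finite
      exact absurd (Subgroup.index_eq_one.1 (by omega : C.index = 1) ▸ Subgroup.mem_top g₀) hg₀
    · omega
  have hCn : C.Normal := Subgroup.normal_of_index_eq_two hidx
  have hxC : x ∈ C := Subgroup.mem_centralizer_singleton_iff.2 (hA.comm x hxA w (hUA hwU'))
  have hRC : HasRK 4 C := by
    refine hasRK_four_of_centralizer_le_eight (hS.to_subgroup C) (x := ⟨x, hxC⟩) (Subtype.ext hx2)
      (le_trans ?_ hCx)
    exact Nat.card_le_card_of_injective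
      (fun g => (⟨((g : C) : S), Subgroup.mem_centralizer_singleton_iff.2
        (congrArg Subtype.val (Subgroup.mem_centralizer_singleton_iff.1 g.2)), (g : C).2⟩ :
          ↥(Subgroup.centralizer ({x} : Set S) ⊓ C)))
      fun a b e => Subtype.ext (Subtype.ext
        (congrArg (fun p : ↥(Subgroup.centralizer ({x} : Set S) ⊓ C) => (p : S)) e))
  show ∀ H, GapLE H 16
  by_contra hbad
  push Not at hbad
  obtain ⟨H, hHmax⟩ : ∃ H, Maximal (fun K : Subgroup S => ¬ GapLE K 16) H := by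
    obtain ⟨H, hH⟩ := Set.Finite.exists_maximal
      (Set.toFinite {K : Subgroup S | ¬ GapLE K 16}) hbad
    exact ⟨H, hH⟩
  have hHbad := hHmax.1
  have hCx16 : Nat.card (Subgroup.centralizer ({x} : Set S)) ≤ 16 := by
    have := card_le_index_mul_card_inf (Subgroup.centralizer ({x} : Set S)) C
    rw [hidx] at this
    omega
  have hHC : ¬ H ≤ C := fun hle => hHbad (hRC.gapLE_of_le hle)
  have hHtop : H ≠ ⊤ := fun e => hHbad (e ▸ (gapLE_top_of_centralizer x).mono hCx16)
  have hzH : z ∈ H := mem_of_maximal_bad hHmax (by rw [hz2]; exact one_mem H)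
    (fun p hp => by rw [← hzc p, mul_inv_cancel_right]; exact hp) le_rfl
    (fun p hp => by rw [Commute.mul_pow (hzc p), hz2, mul_one]; exact sq_mem_sqSub hp) (by omega)
  have hwH : w ∈ H := by
    refine mem_of_maximal_bad hHmax (by rw [hw2]; exact one_mem H) (fun p hp => ?_)
      (K := sqSub H ⊔ Subgroup.zpowers z) le_sup_left (fun p hp => ?_) ?_
    · have e : w * p * w⁻¹ = (p * w * p⁻¹ * w⁻¹)⁻¹ * p := by group
      rw [e]
      rcases hconjw p with e' | e' <;> rw [e']
      · simpa using hp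
      · rw [hzc w, mul_inv_cancel_right]; exact mul_mem (inv_mem hzH) hp
    · have e : (p * w) ^ 2 = p ^ 2 * (p⁻¹ * w * p⁻¹⁻¹) * w := by simp only [pow_two]; group
      rw [e]
      rcases hconjw p⁻¹ with e' | e' <;> rw [e', mul_assoc]
      · rw [← pow_two w, hw2, mul_one]
        exact Subgroup.mem_sup_left (sq_mem_sqSub hp)
      · rw [hzc w, mul_assoc z w w, ← pow_two w, hw2, mul_one]
        exact mul_mem (Subgroup.mem_sup_left (sq_mem_sqSub hp))
          (Subgroup.mem_sup_right (Subgroup.mem_zpowers z))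
    · exact card_sup_zpowers_le (by rw [hz2]; exact one_mem _)
        fun k hk => by rw [← hzc k, mul_inv_cancel_right]; exact hk
  have hUH : U ≤ H := (Subgroup.closure_le _).2 (by rintro k (rfl | rfl); exacts [hzH, hwH])
  have hzsq : z ∈ sqSub H := by
    obtain ⟨p, hp, hpC⟩ := SetLike.not_le_iff_exists.1 hHC
    have hcm := comm_mem_sqSub hp hwH
    rcases hconjw p with e | e
    · exact absurd (Subgroup.mem_centralizer_singleton_iff.2 (mul_inv_eq_iff_eq_mul.1 e)) hpC
    · rwa [e, hzc w, mul_inv_cancel_right] at hcm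
  obtain ⟨T, hT, hHT⟩ := (eq_top_or_exists_le_coatom H).resolve_left hHtop
  have hTidx : T.index = 2 := PGroup.index_of_coatom hS hT
  have hTn : T.Normal := Subgroup.normal_of_index_eq_two hTidx
  have hUT : U ≤ T := hUH.trans hHT
  have hxT : x ∉ T := fun hxT => by
    have hAT : A ≤ T := hAeq ▸ adjoin_le (by rw [hx2]; exact one_mem U) hUT hxT
    refine hHbad ((ih (hS.to_subgroup T) ?_ (A.subgroupOf T)
      ⟨fun a ha => Subtype.ext (hA.sq _ ha), ?_, ?_⟩).gapLE_of_le hHT)
    · have := T.card_mul_index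
      rw [hTidx] at this
      have := Nat.card_pos (α := T)
      omega
    · rw [Nat.card_congr (Subgroup.subgroupOfEquivOfLe hAT).toEquiv, hA.card]
    · ext g
      refine ⟨fun hg => ?_, fun hg => Subgroup.mem_centralizer_iff.2 fun b hb =>
        Subtype.ext (hA.comm b hb g hg)⟩
      show (g : S) ∈ A
      rw [← hA.self]
      exact Subgroup.mem_centralizer_iff.2 fun b hb =>
        congrArg Subtype.val (Subgroup.mem_centralizer_iff.1 hg ⟨b, hAT hb⟩ hb)
  by_cases hCx8 : Nat.card (Subgroup.centralizer ({x} : Set S)) ≤ 8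
  · exact hHbad (hasRK_four_of_centralizer_le_eight hS hx2 hCx8 H)
  have hAT' : ∀ g ∈ A, g ∈ T → g ∈ U := fun g hg hgT => by
    have hx2U : x ^ 2 ∈ U := by rw [hx2]; exact one_mem U
    rcases (mem_adjoin hx2U).1 (hAeq ▸ hg : g ∈ adjoin U x) with e | e
    · exact e
    · exfalso
      have := mul_mem (inv_mem (hUT e)) hgT
      simp at this
      exact hxT this
  -- the element `t`
  obtain ⟨t, htT, htC, htx⟩ : ∃ t ∈ T, t ∉ C ∧ t * x = x * t := by
    by_contra hne
    push Not at hne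
    have hle : Subgroup.centralizer ({x} : Set S) ⊓ T ≤ U := fun g hg => by
      have hgx := Subgroup.mem_centralizer_singleton_iff.1 hg.1
      refine hAT' g (hAx g hgx ?_) hg.2
      by_contra hgw
      exact hne g hg.2 (fun hh => hgw (Subgroup.mem_centralizer_singleton_iff.1 hh)) hgx
    have h1 := card_le_index_mul_card_inf (Subgroup.centralizer ({x} : Set S)) T
    rw [hTidx] at h1
    have h2 := Subgroup.card_le_of_le hle
    omega
  have htw : t * w * t⁻¹ = w * z := (hconjw t).resolve_left fun e =>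
    htC (Subgroup.mem_centralizer_singleton_iff.2 (mul_inv_eq_iff_eq_mul.1 e))
  set M := T ⊓ C with hM
  have hMn : M.Normal := ⟨fun m hm g => ⟨hTn.conj_mem m hm.1 g, hCn.conj_mem m hm.2 g⟩⟩
  have hMT : M ≤ T := inf_le_left
  have hUM : U ≤ M := le_inf hUT ((Subgroup.closure_le _).2 (by
    rintro k (rfl | rfl)
    exacts [Subgroup.mem_centralizer_singleton_iff.2 hzw.eq,
      Subgroup.mem_centralizer_singleton_iff.2 rfl]))
  have htM : t ∉ M := fun hh => htC hh.2
  have hcomm2 : ∀ (K : Subgroup S), K.index = 2 → ∀ g : S, g⁻¹ * (x * g * x⁻¹) ∈ K := by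
    intro K hK g
    rw [Subgroup.mul_mem_iff_of_index_two hK, inv_mem_iff, Subgroup.mul_mem_iff_of_index_two hK,
      Subgroup.mul_mem_iff_of_index_two hK, inv_mem_iff]
    tauto
  have hcovM : ∀ g ∈ T, g ∉ M → g * t⁻¹ ∈ M := fun g hg hgM => by
    refine ⟨T.mul_mem hg (T.inv_mem htT), ?_⟩
    show g * t⁻¹ ∈ C
    rw [Subgroup.mul_mem_iff_of_index_two hidx, inv_mem_iff]
    exact iff_of_false (fun hh => hgM ⟨hg, hh⟩) htC
  have hfix : ∀ m ∈ M, x * m * x⁻¹ = m → m ∈ U := fun m hm e =>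
    hAT' m (hAx m (mul_inv_eq_iff_eq_mul.1 e).symm
      (Subgroup.mem_centralizer_singleton_iff.1 hm.2)) hm.1
  -- `M` is bigger than `U`
  have hTcov : ∀ a ∈ T, ∀ b ∈ T, a ∉ M → b ∉ M → a * b⁻¹ ∈ M := fun a ha b hb haM hbM => by
    simpa using mul_mem (hcovM a ha haM) (inv_mem (hcovM b hb hbM))
  by_cases hMU : M ≤ U
  · refine hHbad (gapLE_of_card_le ?_)
    have h1 := card_le_two_mul_card_inf hTcov
    have h2 := Subgroup.card_le_of_le ((inf_le_right : T ⊓ M ≤ M).trans hMU)
    have h3 := Subgroup.card_le_of_le hHT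
    omega
  obtain ⟨c, hcM, hcU, hc2U, hcc, -⟩ := exists_step (σ := conjHom x) hS (involutive_conjHom hx2)
    (fun k hk => hUn.conj_mem k hk x) (fun k hk => hMn.conj_mem k hk x) (lt_of_le_not_ge hUM hMU)
  -- its displacement
  have hUfix : ∀ k ∈ U, x * k * x⁻¹ = k := fun k hk =>
    mul_inv_eq_iff_eq_mul.2 (hA.comm x hxA k (hUA hk))
  have hUt : ∀ k ∈ U, t * k * t⁻¹ = k → k = 1 ∨ k = z := fun k hk e => by
    rcases (mem_closure_pair hz2 hw2 hzw).1 hk with rfl | rfl | rfl | rfl
    · exact Or.inl rfl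
    · exact Or.inr rfl
    · rw [htw] at e; exact absurd (mul_eq_left.1 e) hz1
    · rw [← conj_mul, htw, hzc t, mul_inv_cancel_right] at e
      exact absurd (mul_eq_left.1 e) hz1
  set dc := c⁻¹ * (x * c * x⁻¹) with hdc
  have hdcU : dc ∈ U := by
    have e : dc = c⁻¹ * (x * c * x⁻¹ * c⁻¹) * c⁻¹⁻¹ := by rw [hdc]; group
    rw [e]; exact hUn.conj_mem _ (hcc x) _
  have hdct : t * dc * t⁻¹ = dc := by
    set k := t * c * t⁻¹ * c⁻¹ with hk
    have hkf := hUfix k (hcc t)
    calc t * dc * t⁻¹ = (t * c * t⁻¹)⁻¹ * ((t * x) * c * (t * x)⁻¹) := by rw [hdc]; group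
      _ = (t * c * t⁻¹)⁻¹ * ((x * t) * c * (x * t)⁻¹) := by rw [htx]
      _ = (k * c)⁻¹ * ((x * k * x⁻¹) * (x * c * x⁻¹)) := by rw [hk]; group
      _ = dc := by rw [hkf, hdc]; group
  have hxc : x * c * x⁻¹ = c * z := by
    rcases hUt dc hdcU hdct with e | e
    · exact absurd (hfix c hcM (inv_mul_eq_one.1 e).symm) hcU
    · rw [← e, hdc, mul_inv_cancel_left]
  have hc2 : c ^ 2 = 1 ∨ c ^ 2 = z := by
    refine hUt _ hc2U ?_
    set k := t * c * t⁻¹ * c⁻¹ with hk
    have hkc : Commute k c := by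
      rcases (mem_closure_pair hz2 hw2 hzw).1 (hcc t) with e | e | e | e <;> rw [hk, e]
      · exact Commute.one_left c
      · exact (hzc c).symm
      · exact (Subgroup.mem_centralizer_singleton_iff.1 hcM.2).symm
      · exact Commute.mul_left (Subgroup.mem_centralizer_singleton_iff.1 hcM.2).symm (hzc c).symm
    rw [← conj_pow, show t * c * t⁻¹ = k * c by rw [hk]; group, hkc.mul_pow]
    have hk2 : k ^ 2 = 1 := hA.sq k (hUA (hcc t))
    rw [hk2, one_mul]
  have hconf : Config S z w x t c T M :=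
    { z_cen := hz, z_ne := hz1, z_sq := hz2, w_sq := hw2, w_ne := hw1, w_ne_z := hwz
      four_normal := hUn, t_w := htw, x_sq := hx2, t_x := htx, M_normal := hMn, four_le := hUM
      M_le := hMT, x_not_mem := hxT, t_mem := htT, t_not_mem := htM, cover := hcovM
      comm_w := fun m hm => Subgroup.mem_centralizer_singleton_iff.1 hm.2, fix_mem := hfix
      delta_mem := fun g => ⟨hcomm2 T hTidx g, hcomm2 C hidx g⟩, c_mem := hcM, c_not_mem := hcU
      c_comm := hcc, c_sq := hc2, x_c := hxc }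
  by_cases hwsq : w ∈ sqSub H
  · -- pass to the quotient by the four group
    have hUsq : U ≤ sqSub H := (Subgroup.closure_le _).2 (by
      rintro k (rfl | rfl); exacts [hzsq, hwsq])
    set π := QuotientGroup.mk' U with hπ
    have hπ1 : ∀ {g : S}, π g = 1 ↔ g ∈ U := fun {g} => QuotientGroup.eq_one_iff g
    have hcb2 : (π c) ^ 2 = 1 := by rw [← map_pow, hπ1]; exact hc2U
    have hcbn : ∀ q, q * π c = π c * q := fun q => by
      obtain ⟨p, rfl⟩ := QuotientGroup.mk'_surjective U q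
      rw [← map_mul, ← map_mul, ← mul_inv_eq_one, ← map_inv, ← map_mul, hπ1]
      simpa [mul_assoc] using hcc p
    have ht2U : t ^ 2 ∈ U := hAT' _ (hAx _ (Commute.pow_left (htx : Commute t x) 2).eq
      (Subgroup.mem_centralizer_singleton_iff.1 (Subgroup.sq_mem_of_index_two hidx t)))
      (pow_mem htT 2)
    have htb2 : (π t) ^ 2 = 1 := by rw [← map_pow, hπ1]; exact ht2U
    set B := Subgroup.closure ({π c, π t} : Set (S ⧸ U)) with hB
    have hct : Commute (π c) (π t) := (hcbn (π t)).symm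
    have hctne : π t ≠ π c := fun e => htM (by
      have : c⁻¹ * t ∈ U := QuotientGroup.eq.1 e.symm
      simpa using mul_mem hcM (hUM this))
    have hB4 : Nat.card B = 4 := card_closure_pair hcb2 htb2 hct
      (fun e => hcU (hπ1.1 e)) (fun e => htM (hUM (hπ1.1 e))) hctne
    have hBmap : B ≤ T.map π := (Subgroup.closure_le _).2 (by
      rintro k (rfl | rfl)
      exacts [⟨c, hcM.1, rfl⟩, ⟨t, htT, rfl⟩])
    have hxB : π x ∉ B := fun hh => by
      obtain ⟨p, hp, e⟩ := hBmap hh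
      have : p⁻¹ * x ∈ U := QuotientGroup.eq.1 e
      exact hxT (by simpa using mul_mem hp (hUT this))
    have hxc' : Commute (π x) (π c) := hcbn (π x)
    have hxt' : Commute (π x) (π t) := by
      show π x * π t = π t * π x
      rw [← map_mul, ← map_mul, htx]
    have hxk : ∀ k ∈ B, Commute (π x) k := fun k hk => by
      rcases (mem_closure_pair hcb2 htb2 hct).1 hk with rfl | rfl | rfl | rfl
      exacts [Commute.one_right _, hxc', hxt', hxt'.mul_right hxc']
    have hxn : ∀ k ∈ B, π x * k * (π x)⁻¹ ∈ B := fun k hk => by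
      rw [(hxk k hk).eq, mul_inv_cancel_right]; exact hk
    have hx2' : (π x) ^ 2 = 1 := by rw [← map_pow, hx2, map_one]
    set E := B ⊔ Subgroup.zpowers (π x) with hE
    have hB2 : ∀ k ∈ B, k ^ 2 = 1 := fun k hk => by
      rcases (mem_closure_pair hcb2 htb2 hct).1 hk with rfl | rfl | rfl | rfl
      · exact one_pow 2
      · exact hcb2
      · exact htb2
      · rw [hct.symm.mul_pow, htb2, hcb2, one_mul]
    have hE2 : ∀ q ∈ E, q ^ 2 = 1 := fun q hq => by
      rcases mem_sup_zpowers (by rw [hx2']; exact one_mem B) hxn hq with e | e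
      · exact hB2 q e
      · have eq' : q = q * (π x)⁻¹ * π x := by group
        rw [eq', Commute.mul_pow (hxk _ e).symm, hB2 _ e, hx2', one_mul]
    have hxE : π x ∈ E := Subgroup.mem_sup_right (Subgroup.mem_zpowers _)
    have hcE : π c ∈ E := Subgroup.mem_sup_left (Subgroup.subset_closure (Or.inl rfl))
    have htE : π t ∈ E := Subgroup.mem_sup_left (Subgroup.subset_closure (Or.inr rfl))
    have hE8 : Nat.card E = 8 := le_antisymm
      ((card_sup_zpowers_le (by rw [hx2']; exact one_mem B) hxn).trans (by omega))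
      (by have h8 : 2 * Nat.card B ≤ Nat.card E := two_mul_card_le le_sup_left hxE hxB; omega)
    have hEself : SelfEight E := by
      refine ⟨hE2, hE8, le_antisymm (fun q hq => ?_) fun q hq =>
        Subgroup.mem_centralizer_iff.2 fun b hb => mul_comm_of_sq hE2 b hb q hq⟩
      obtain ⟨p, rfl⟩ := QuotientGroup.mk'_surjective U q
      rw [← hπ] at hq ⊢
      have hqx : Commute (π x) (π p) := Subgroup.mem_centralizer_iff.1 hq _ hxE
      have hqt : Commute (π t) (π p) := Subgroup.mem_centralizer_iff.1 hq _ htE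
      -- reduce into `M`
      obtain ⟨e₁, he₁E, hp₁⟩ : ∃ e₁ ∈ E, ∃ p₁ ∈ T, π p = π p₁ * e₁ := by
        by_cases hpT : p ∈ T
        · exact ⟨1, one_mem E, p, hpT, (mul_one _).symm⟩
        · refine ⟨π x, hxE, p * x⁻¹, ?_, by rw [map_mul, map_inv, inv_mul_cancel_right]⟩
          rw [Subgroup.mul_mem_iff_of_index_two hTidx, inv_mem_iff]
          exact iff_of_false hpT hxT
      obtain ⟨p₁, hp₁T, ep₁⟩ := hp₁
      obtain ⟨e₂, he₂E, p₂, hp₂M, ep₂⟩ : ∃ e₂ ∈ E, ∃ p₂ ∈ M, π p₁ = π p₂ * e₂ := by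
        by_cases hpM : p₁ ∈ M
        · exact ⟨1, one_mem E, p₁, hpM, (mul_one _).symm⟩
        · exact ⟨π t, htE, p₁ * t⁻¹, hcovM p₁ hp₁T hpM, by
            rw [map_mul, map_inv, inv_mul_cancel_right]⟩
      have hxe : ∀ k ∈ E, Commute (π x) k := fun k hk => mul_comm_of_sq hE2 _ hxE k hk
      have hte : ∀ k ∈ E, Commute (π t) k := fun k hk => mul_comm_of_sq hE2 _ htE k hk
      have e2 : π p₂ = π p * e₁⁻¹ * e₂⁻¹ := by
        rw [ep₁, mul_inv_cancel_right, ep₂, mul_inv_cancel_right]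
      have hx' : Commute (π x) (π p₂) := by
        rw [e2]
        exact ((hqx.mul_right (hxe _ (inv_mem he₁E)))).mul_right (hxe _ (inv_mem he₂E))
      have ht' : Commute (π t) (π p₂) := by
        rw [e2]
        exact ((hqt.mul_right (hte _ (inv_mem he₁E)))).mul_right (hte _ (inv_mem he₂E))
      have hd : p₂⁻¹ * (x * p₂ * x⁻¹) ∈ U := by
        rw [← hπ1, map_mul, map_mul, map_mul, map_inv, map_inv, hx'.eq]
        group
      have ht'' : t * p₂ * t⁻¹ * p₂⁻¹ ∈ U := by
        rw [← hπ1, map_mul, map_mul, map_mul, map_inv, map_inv, ht'.eq]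
        group
      have hp₂E : π p₂ ∈ E := by
        rcases hconf.mem_four_or_mul_c hp₂M hd ht'' with e | e
        · rw [hπ1.2 e]; exact one_mem E
        · have e' : π p₂ = π c := by
            have := hπ1.2 e
            rwa [map_mul, map_inv, mul_inv_eq_one] at this
          rw [e']; exact hcE
      rw [ep₁, ep₂]
      exact mul_mem (mul_mem hp₂E he₂E) he₁E
    refine hHbad (gapLE_of_le_sqSub hUsq (ih (hS.to_quotient U) ?_ E hEself _))
    rw [← U.index_mul_card, ← Subgroup.index_eq_card, hU4]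
    have := U.index_ne_zero_of_finite
    omega
  -- the squares meet the four group in `⟨z⟩`
  have hfactor : Nat.card ↥(H ⊓ U) ≤ 2 * Nat.card ↥(sqSub H ⊓ U) := by
    have h1 := Subgroup.card_le_of_le (inf_le_right : H ⊓ U ≤ U)
    have h2 := two_mul_card_le (bot_le : (⊥ : Subgroup S) ≤ sqSub H ⊓ U)
      ⟨hzsq, hconf.z_mem_four⟩ fun hh => hz1 (Subgroup.mem_bot.1 hh)
    rw [Subgroup.card_bot] at h2
    omega
  by_cases hexg : ∃ g ∈ M, x * g * x⁻¹ = g * w
  swap
  · -- two fixed points modulo the four group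
    have hfix2 : Nat.card ↥(Subgroup.centralizer ({QuotientGroup.mk' U x} : Set (S ⧸ U)) ⊓
        M.map (QuotientGroup.mk' U)) ≤ 2 := by
      refine (Subgroup.card_le_of_le (K := Subgroup.zpowers (QuotientGroup.mk' U c)) ?_).trans
        (card_zpowers_le_two (by rw [← map_pow]; exact (QuotientGroup.eq_one_iff _).2 hc2U))
      rintro _ ⟨hq, m, hm, rfl⟩
      have hd : m⁻¹ * (x * m * x⁻¹) ∈ U := by
        rw [← QuotientGroup.eq_one_iff (N := U)]
        show QuotientGroup.mk' U (m⁻¹ * (x * m * x⁻¹)) = 1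
        rw [map_mul, map_mul, map_mul, map_inv, map_inv,
          ← Subgroup.mem_centralizer_singleton_iff.1 hq]
        group
      rcases (mem_closure_pair hz2 hw2 hzw).1 hd with e | e | e | e
      · rw [show QuotientGroup.mk' U m = 1 from
          (QuotientGroup.eq_one_iff m).2 (hfix m hm (inv_mul_eq_one.1 e).symm)]
        exact one_mem _
      · have hmc : m * c⁻¹ ∈ U := hconf.same_delta hm hcM (by rw [e, hxc, inv_mul_cancel_left])
        have e' : QuotientGroup.mk' U m = QuotientGroup.mk' U c := by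
          have := (QuotientGroup.eq_one_iff _).2 hmc
          change QuotientGroup.mk' U (m * c⁻¹) = 1 at this
          rwa [map_mul, map_inv, mul_inv_eq_one] at this
        rw [e']; exact Subgroup.mem_zpowers _
      · exact absurd ⟨m, hm, inv_mul_eq_iff_eq_mul.1 e⟩ hexg
      · refine absurd ⟨m * c, mul_mem hm hcM, ?_⟩ hexg
        rw [← conj_mul, inv_mul_eq_iff_eq_mul.1 e, hxc]
        calc m * (w * z) * (c * z) = m * (w * (z * c)) * z := by group
          _ = m * (w * c) * (z * z) := by rw [← hzc c]; group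
          _ = m * c * w := by
            rw [← pow_two, hz2, mul_one, ← Subgroup.mem_centralizer_singleton_iff.1 hcM.2]; group
    exact hHbad (hconf.gap_of hHT U hUM (a := 2) (b := 4) hfactor
      (hconf.gap_image_four hS U hfix2 _ inf_le_right) (by norm_num))
  obtain ⟨g, hgM, hσg⟩ := hexg
  have hgw : g * w = w * g := Subgroup.mem_centralizer_singleton_iff.1 hgM.2
  have hg2 : g ^ 2 ∈ U := hfix _ (pow_mem hgM 2) (by
    rw [← conj_pow, hσg, Commute.mul_pow hgw, hw2, mul_one])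
  have htg : t * g * t⁻¹ * (g * c)⁻¹ ∈ U := by
    refine hconf.same_delta (hMn.conj_mem g hgM t) (mul_mem hgM hcM) ?_
    rw [hconf.delta_conj_t, hσg, inv_mul_cancel_left, htw, ← conj_mul, hσg, hxc]
    calc w * z = c⁻¹ * ((c * w) * z) := by group
      _ = c⁻¹ * ((w * c) * z) := by rw [Subgroup.mem_centralizer_singleton_iff.1 hcM.2]
      _ = (g * c)⁻¹ * (g * w * (c * z)) := by group
  rcases hc2 with hc1 | hcz
  · exact hHbad (hconf.gap_c_sq_one hS hc1 hgM hσg hg2 htg hHT hzsq)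
  -- the largest inverted abelian normal subgroup
  set K := adjoin U c with hK
  have hKn : K.Normal := adjoin_normal hc2U hcc
  have hUc : c ∈ Subgroup.centralizer (U : Set S) :=
    Subgroup.mem_centralizer_iff.2 fun k hk => (hconf.four_comm hk hcM).symm
  have hKc := adjoin_comm hc2U (fun a ha b hb => mul_comm_of_sq (fun k hk => hconf.four_sq hk)
    a ha b hb) hUc
  have hKinv : ∀ k ∈ K, x * k * x⁻¹ = k⁻¹ := fun k hk => by
    rcases (mem_adjoin hc2U).1 hk with e | e
    · rw [hUfix k e, inv_eq_self_of_sq (hconf.four_sq e)]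
    · have ek : k = k * c⁻¹ * c := by group
      have hci : c⁻¹ = c * z := inv_eq_of_mul_eq_one_right (by
        rw [← mul_assoc, ← pow_two, hcz, ← pow_two, hz2])
      rw [ek, ← conj_mul, hUfix _ e, hxc, mul_inv_rev, hci,
        inv_eq_self_of_sq (hconf.four_sq (hci ▸ e : k * (c * z) ∈ U))]
      exact (hconf.four_comm (hci ▸ e : k * (c * z) ∈ U)
        (mul_mem hcM (hUM hconf.z_mem_four))).symm
  obtain ⟨W, ⟨hWn, hWM, hKW, hWinv, hWc⟩, hWmax⟩ := Set.Finite.exists_maximal
    (Set.toFinite {Y : Subgroup S | Y.Normal ∧ Y ≤ M ∧ K ≤ Y ∧ (∀ k ∈ Y, x * k * x⁻¹ = k⁻¹) ∧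
      ∀ a ∈ Y, ∀ b ∈ Y, a * b = b * a})
    ⟨K, hKn, adjoin_le hc2U hUM hcM, le_rfl, hKinv, hKc⟩
  have hcW : c ∈ W := hKW (self_mem_adjoin U c)
  have hUW : U ≤ W := (le_adjoin U c).trans hKW
  by_cases hCW : Subgroup.centralizer (W : Set S) ⊓ M ≤ W
  · exact hconf.gap_self_centralising hS hcz hgM hσg hg2 htg hWM hcW hUW hWinv hWc hCW hHT hUH
      hzsq hwsq hHmax
  · exact hHbad (hconf.gap_centraliser hS hWM hcW hUW hWinv hWc
      (fun Y hYn hWY hYM hYinv hYc => hWmax ⟨hYn, hYM, hKW.trans hWY, hYinv, hYc⟩ hWY) hCW hHT)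

end CfsgLib.SectRank
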