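import Cfsg.Agent.SectRank.CaseOneSetup

/-!
The gap bound in the configuration of the first case, except when the inverted abelian subgroup is
its own centraliser.
-/

set_option autoImplicit false

namespace CfsgLib.SectRank

universe u

variable {S : Type u} [Group S] [Finite S] {z w x t c : S} {T M : Subgroup S}

/-- The case `c ^ 2 = 1`. -/
theorem Config.gap_c_sq_one (h : Config S z w x t c T M) (hS : IsPGroup 2 S) (hc2 : c ^ 2 = 1)
    {g : S} (hgM : g ∈ M) (hσg : x * g * x⁻¹ = g * w)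
    (hg2 : g ^ 2 ∈ Subgroup.closure ({z, w} : Set S))
    (htg : t * g * t⁻¹ * (g * c)⁻¹ ∈ Subgroup.closure ({z, w} : Set S))
    {H : Subgroup S} (hHT : H ≤ T) (hzH : z ∈ sqSub H) : GapLE H 16 := by
  set U := Subgroup.closure ({z, w} : Set S) with hU
  have hUn : U.Normal := h.four_normal
  have hcU : c ^ 2 ∈ U := by rw [hc2]; exact one_mem U
  set K := adjoin U c with hK
  have hKn : K.Normal := adjoin_normal hcU h.c_comm
  have hK8 : Nat.card K = 8 := by rw [hK, card_adjoin hcU h.c_not_mem, h.four_card]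
  have hKM : K ≤ M := adjoin_le hcU h.four_le h.c_mem
  have hK2 : ∀ k ∈ K, k ^ 2 = 1 := fun k hk => by
    rcases (mem_adjoin hcU).1 hk with hk | hk
    · exact h.four_sq hk
    · have e : k = k * c⁻¹ * c := by group
      rw [e, Commute.mul_pow (h.four_comm hk h.c_mem).symm, h.four_sq hk, hc2, one_mul]
  refine (gapLE_of_normal K (a := 4) (b := 4) ?_ ?_).mono (by norm_num)
  · have h2 := two_mul_card_le (bot_le : (⊥ : Subgroup S) ≤ sqSub H ⊓ K)
      ⟨hzH, le_adjoin U c h.z_mem_four⟩ fun hh => h.z_ne (Subgroup.mem_bot.1 hh)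
    rw [Subgroup.card_bot] at h2
    have := Subgroup.card_le_of_le (inf_le_right : H ⊓ K ≤ K)
    omega
  set π := QuotientGroup.mk' K with hπ
  set Mb := M.map π with hMb
  have hfix : Nat.card ↥(Subgroup.centralizer ({π x} : Set (S ⧸ K)) ⊓ Mb) ≤ 2 := by
    have h1 := card_fix_map_mul_le h.x_sq M K hKM U fun k hk e => by
      rw [inv_eq_self_of_sq (hK2 k hk)] at e
      exact h.fix_mem k (hKM hk) e
    rw [hK8, ← hπ, ← hMb] at h1
    have h2 : Nat.card ↥(Subgroup.centralizer ({x} : Set S) ⊓ M) * Nat.card U ≤ 4 * 4 :=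
      Nat.mul_le_mul h.card_fix_M h.four_card.le
    omega
  have hgK : g ∉ K := fun hgK => by
    rcases (mem_adjoin hcU).1 hgK with hk | hk
    · rw [h.four_fixed hk] at hσg
      exact h.w_ne (mul_eq_left.1 hσg.symm)
    · have e : g = g * c⁻¹ * c := by group
      have e2 : x * g * x⁻¹ = g * z := by
        rw [e, ← conj_mul, h.four_fixed hk, h.x_c, ← mul_assoc]
      exact h.w_ne_z (mul_left_cancel (hσg.symm.trans e2))
  have hwK : w ∈ K := le_adjoin U c h.w_mem_four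
  have hπw : π w = 1 := (QuotientGroup.eq_one_iff w).2 hwK
  have hMn : Mb.Normal := h.M_normal.map π (QuotientGroup.mk'_surjective K)
  have hxb2 : (π x) ^ 2 = 1 := by rw [← map_pow, h.x_sq, map_one]
  have hinvMb : ∀ m ∈ Mb, conjHom (π x) m ∈ Mb := fun m hm => hMn.conj_mem m hm _
  set σ := subHom (conjHom (π x)) Mb hinvMb with hσ
  have hσi : Function.Involutive σ := involutive_subHom (involutive_conjHom hxb2) _
  have hP : IsPGroup 2 Mb := (hS.to_quotient K).to_subgroup _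
  have hf : Nat.card (fixSub σ) ≤ 2 :=
    (card_fixSub_subHom _ Mb hinvMb).trans_le (by rw [fixSub_conjHom]; exact hfix)
  set gb : Mb := ⟨π g, g, hgM, rfl⟩ with hgb
  have hgb1 : gb ≠ 1 := fun e => hgK ((QuotientGroup.eq_one_iff g).1 (congrArg Subtype.val e))
  have hgbσ : σ gb = gb := Subtype.ext (by
    show π x * π g * (π x)⁻¹ = π g
    rw [← map_inv, ← map_mul, ← map_mul, hσg, map_mul, hπw, mul_one])
  obtain ⟨v, hv, hidx, hall⟩ := exists_inverted_generator hP hσi hf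
  -- working modulo the four group
  set π₀ := QuotientGroup.mk' U with hπ₀
  have hcb : ∀ q : S ⧸ U, q * π₀ c = π₀ c * q := fun q => by
    obtain ⟨p, rfl⟩ := QuotientGroup.mk'_surjective U q
    rw [← map_mul, ← map_mul, ← mul_inv_eq_one, ← map_inv, ← map_mul]
    exact (QuotientGroup.eq_one_iff _).2 (by simpa [mul_assoc] using h.c_comm p)
  have hK₀ : ∀ k ∈ K, π₀ k = 1 ∨ π₀ k = π₀ c := fun k hk => by
    rcases (mem_adjoin hcU).1 hk with hk | hk
    · exact Or.inl ((QuotientGroup.eq_one_iff k).2 hk)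
    · right
      rw [← mul_inv_eq_one, ← map_inv, ← map_mul]
      exact (QuotientGroup.eq_one_iff _).2 hk
  have hKcen : ∀ k ∈ K, ∀ q, q * π₀ k = π₀ k * q := fun k hk q => by
    rcases hK₀ k hk with e | e <;> rw [e]
    · rw [mul_one, one_mul]
    · exact hcb q
  have hKb2 : ∀ k ∈ K, π₀ k * π₀ k = 1 := fun k hk => by
    rw [← map_mul, ← pow_two, hK2 k hk, map_one]
  have htg₀ : π₀ (t * g * t⁻¹) = π₀ g * π₀ c := by
    rw [← map_mul, ← mul_inv_eq_one, ← map_inv, ← map_mul]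
    exact (QuotientGroup.eq_one_iff _).2 htg
  have hcbne : π₀ c ≠ 1 := fun e => h.c_not_mem ((QuotientGroup.eq_one_iff c).1 e)
  have hv2 : v ^ 2 = 1 := by
    by_contra hv2
    obtain ⟨n, hn2, hn4⟩ := exists_pow_order_four hP hv2
    obtain ⟨p, hpM, hp⟩ := (v ^ n).2
    have hsq : (v ^ n) ^ 2 = gb := by
      have h4 : ((v ^ n) ^ 2) ^ 2 = 1 := by rw [← pow_mul]; exact hn4
      exact eq_of_card_le_two hf (mem_fixSub.2 (fixed_of_inverted_of_sq
        (map_inverted_pow (map_inverted_pow hv n) 2) h4)) (mem_fixSub.2 hgbσ) hn2 hgb1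
    have htv : ∀ q : Mb, π t * (q : S ⧸ K) * (π t)⁻¹ ∈ Mb := fun q => hMn.conj_mem q q.2 _
    set q : Mb := ⟨_, htv (v ^ n)⟩ with hq
    have htx : π x * π t = π t * π x := by rw [← map_mul, ← map_mul, h.t_x]
    have hqinv : σ q = q⁻¹ := Subtype.ext (by
      show π x * (π t * ((v ^ n : Mb) : S ⧸ K) * (π t)⁻¹) * (π x)⁻¹ = _
      have e := congrArg Subtype.val (map_inverted_pow hv n)
      calc π x * (π t * ((v ^ n : Mb) : S ⧸ K) * (π t)⁻¹) * (π x)⁻¹
          = (π x * π t) * ((v ^ n : Mb) : S ⧸ K) * (π x * π t)⁻¹ := by group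
        _ = π t * (π x * ((v ^ n : Mb) : S ⧸ K) * (π x)⁻¹) * (π t)⁻¹ := by rw [htx]; group
        _ = π t * ((v ^ n : Mb) : S ⧸ K)⁻¹ * (π t)⁻¹ := by
            have e' : π x * ((v ^ n : Mb) : S ⧸ K) * (π x)⁻¹ = ((v ^ n : Mb) : S ⧸ K)⁻¹ := e
            rw [e']
        _ = (π t * ((v ^ n : Mb) : S ⧸ K) * (π t)⁻¹)⁻¹ := by group)
    have hqsq : (π₀ (t * p * t⁻¹)) ^ 2 = π₀ p ^ 2 * π₀ c := by
      have hpp : p ^ 2 * g⁻¹ ∈ K := by
        rw [← QuotientGroup.eq_one_iff (N := K)]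
        show π (p ^ 2 * g⁻¹) = 1
        rw [map_mul, map_pow, map_inv, hp, ← Subgroup.coe_pow, hsq, mul_inv_cancel]
      have e : p ^ 2 = p ^ 2 * g⁻¹ * g := by group
      have et : t * (p ^ 2 * g⁻¹) * t⁻¹ * (p ^ 2 * g⁻¹)⁻¹ ∈ U := by
        rcases (mem_adjoin hcU).1 hpp with hk | hk
        · exact mul_mem (hUn.conj_mem _ hk t) (inv_mem hk)
        · generalize p ^ 2 * g⁻¹ = k at hk
          have e' : t * k * t⁻¹ * k⁻¹ =
              (t * (k * c⁻¹) * t⁻¹) * (t * c * t⁻¹ * c⁻¹) * (k * c⁻¹)⁻¹ := by group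
          rw [e']
          exact mul_mem (mul_mem (hUn.conj_mem _ hk t) (h.c_comm t)) (inv_mem hk)
      have et' : π₀ (t * (p ^ 2 * g⁻¹) * t⁻¹) = π₀ (p ^ 2 * g⁻¹) := by
        rw [← mul_inv_eq_one, ← map_inv, ← map_mul]
        exact (QuotientGroup.eq_one_iff _).2 et
      rw [← map_pow, ← map_pow, conj_pow]
      conv_lhs => rw [e, ← conj_mul, map_mul, et', htg₀, ← mul_assoc, ← map_mul, ← e]
    have hq4 : q ^ 4 = 1 := Subtype.ext (by
      rw [Subgroup.coe_pow]
      show (π t * ((v ^ n : Mb) : S ⧸ K) * (π t)⁻¹) ^ 4 = 1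
      rw [conj_pow, ← Subgroup.coe_pow, hn4, OneMemClass.coe_one, mul_one, mul_inv_cancel])
    obtain ⟨i, hi⟩ := Subgroup.mem_zpowers_iff.1 (hall q hqinv)
    -- `q` is `v ^ n` or its inverse
    have hq' : q = v ^ n ∨ q = (v ^ n)⁻¹ := by
      have hqsq' : q ^ 2 = gb := by
        have h4 : (q ^ 2) ^ 2 = 1 := by rw [← pow_mul]; exact hq4
        refine eq_of_card_le_two hf (mem_fixSub.2 (fixed_of_inverted_of_sq
          (map_inverted_pow hqinv 2) h4)) (mem_fixSub.2 hgbσ) (fun e => hn2 ?_) hgb1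
        have e' := congrArg Subtype.val e
        rw [Subgroup.coe_pow] at e'
        refine Subtype.ext ?_
        rw [Subgroup.coe_pow, OneMemClass.coe_one]
        have e'' : (π t * ((v ^ n : Mb) : S ⧸ K) * (π t)⁻¹) ^ 2 = 1 := e'
        rw [conj_pow] at e''
        exact conj_eq_one_iff.1 e''
      have hc : Commute q (v ^ n) := by rw [← hi]; exact (Commute.zpow_self v i).pow_right n
      have hd2 : (q * (v ^ n)⁻¹) ^ 2 = 1 := by
        rw [(hc.inv_right).mul_pow, inv_pow, hsq, hqsq', mul_inv_cancel]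
      rcases eq_or_ne (q * (v ^ n)⁻¹) 1 with e | e
      · exact Or.inl (mul_inv_eq_one.1 e)
      · right
        have hmem : q * (v ^ n)⁻¹ ∈ Subgroup.zpowers v := mul_mem (hall q hqinv)
          (inv_mem (pow_mem (Subgroup.mem_zpowers v) n))
        have hgmem : gb ∈ Subgroup.zpowers v :=
          hall gb (by
            rw [hgbσ]
            refine (inv_eq_self_of_sq ?_).symm
            rw [← hsq, ← pow_mul]; exact hn4)
        have := eq_of_involutions_mem_zpowers hP hmem hgmem e hgb1 hd2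
          (by rw [← hsq, ← pow_mul]; exact hn4)
        rw [mul_inv_eq_iff_eq_mul.1 this, ← hsq]
        refine eq_inv_of_mul_eq_one_left ?_
        rw [mul_assoc, ← pow_two, hsq, ← pow_two, ← hsq, ← pow_mul]; exact hn4
    have hqp : π (t * p * t⁻¹) = π p ∨ π (t * p * t⁻¹) = π p⁻¹ := by
      rcases hq' with e | e
      · left
        rw [map_mul, map_mul, map_inv, hp]
        exact congrArg Subtype.val e
      · right
        rw [map_mul, map_mul, map_inv, map_inv, hp]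
        exact congrArg Subtype.val e
    have hpsq₀ : π₀ p ^ 2 * π₀ p ^ 2 = 1 := by
      have hpp : p ^ 2 * g⁻¹ ∈ K := by
        rw [← QuotientGroup.eq_one_iff (N := K)]
        show π (p ^ 2 * g⁻¹) = 1
        rw [map_mul, map_pow, map_inv, hp, ← Subgroup.coe_pow, hsq, mul_inv_cancel]
      have e : π₀ p ^ 2 = π₀ (p ^ 2 * g⁻¹) * π₀ g := by
        rw [← map_pow, ← map_mul]; congr 1; group
      have hgg : π₀ g * π₀ g = 1 := by
        rw [← map_mul, ← pow_two]; exact (QuotientGroup.eq_one_iff _).2 hg2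
      rw [e, ← mul_assoc, mul_assoc (π₀ (p ^ 2 * g⁻¹)), hKcen _ hpp (π₀ g), ← mul_assoc,
        hKb2 _ hpp, one_mul, hgg]
    have key : ∀ r : S, π (t * p * t⁻¹) = π r → π₀ r ^ 2 = π₀ p ^ 2 → False := by
      intro r hr hr2
      have hm : r⁻¹ * (t * p * t⁻¹) ∈ K := QuotientGroup.eq.1 hr.symm
      have e : π₀ (t * p * t⁻¹) = π₀ r * π₀ (r⁻¹ * (t * p * t⁻¹)) := by
        rw [← map_mul, mul_inv_cancel_left]
      have e2 : π₀ (t * p * t⁻¹) ^ 2 = π₀ r ^ 2 := by
        rw [e, Commute.mul_pow (hKcen _ hm (π₀ r)), pow_two (π₀ (r⁻¹ * _)), hKb2 _ hm, mul_one]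
      rw [hqsq, hr2] at e2
      exact hcbne (mul_eq_left.1 e2)
    rcases hqp with e | e
    · exact key p e rfl
    · refine key p⁻¹ e ?_
      rw [map_inv, inv_pow]
      exact inv_eq_of_mul_eq_one_right hpsq₀
  have hMb4 : Nat.card Mb ≤ 4 := by
    rw [← (Subgroup.zpowers v).index_mul_card]
    exact Nat.mul_le_mul hidx (card_zpowers_le_two hv2)
  set Hb := H.map π with hHb
  have hcov : ∀ a ∈ Hb, ∀ b ∈ Hb, a ∉ Mb → b ∉ Mb → a * b⁻¹ ∈ Mb := by
    rintro _ ⟨p, hp, rfl⟩ _ ⟨q, hq, rfl⟩ hp' hq'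
    rw [← map_inv, ← map_mul]
    exact ⟨_, h.not_both (hHT hp) (hHT hq) (fun hh => hp' ⟨p, hh, rfl⟩)
      (fun hh => hq' ⟨q, hh, rfl⟩), rfl⟩
  by_cases h4 : Nat.card Hb ≤ 4
  · exact gapLE_of_card_le h4
  have h8 : Nat.card Hb ≤ 8 := by
    have := card_le_two_mul_card_inf hcov
    have := Subgroup.card_le_of_le (inf_le_right : Hb ⊓ Mb ≤ Mb)
    omega
  unfold GapLE
  by_contra hbad
  have hsq1 : sqSub Hb = ⊥ := by
    by_contra hne
    obtain ⟨q, hq, hq1⟩ := (Subgroup.bot_or_exists_ne_one _).resolve_left hne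
    have := two_mul_card_le (bot_le : (⊥ : Subgroup (S ⧸ K)) ≤ sqSub Hb) hq
      fun hh => hq1 (Subgroup.mem_bot.1 hh)
    rw [Subgroup.card_bot] at this
    omega
  have hcomm := mul_comm_of_sq (sqSub_eq_bot_iff.1 hsq1)
  have hMH : Mb ≤ Hb := by
    intro m hm
    by_contra hmH
    have := two_mul_card_le (inf_le_right : Hb ⊓ Mb ≤ Mb) hm fun hh => hmH hh.1
    have := card_le_two_mul_card_inf hcov
    omega
  obtain ⟨h₀, hh₀H, hh₀M⟩ : ∃ h₀ ∈ H, h₀ ∉ M := by
    refine SetLike.not_le_iff_exists.1 fun hle => ?_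
    have : Nat.card Hb ≤ Nat.card Mb := Subgroup.card_le_of_le (Subgroup.map_mono hle)
    omega
  obtain ⟨rb, hrb⟩ : ∃ rb : Mb, rb ∉ fixSub σ := by
    by_contra hne
    push Not at hne
    have h2 : Nat.card Mb ≤ 2 := by
      rw [← Subgroup.card_top (G := Mb)]
      exact (Subgroup.card_le_of_le fun p _ => hne p).trans hf
    have := card_le_two_mul_card_inf hcov
    have := Subgroup.card_le_of_le (inf_le_right : Hb ⊓ Mb ≤ Mb)
    omega
  obtain ⟨r, hrM, hr⟩ := rb.2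
  have hδ : rb⁻¹ * σ rb = gb := by
    have hmem : rb⁻¹ * σ rb ∈ Subgroup.zpowers v := hall _ (map_inv_mul_self hσi rb)
    have hne : rb⁻¹ * σ rb ≠ 1 := fun e => hrb (inv_mul_eq_one.1 e).symm
    have hgmem : gb ∈ Subgroup.zpowers v := hall gb (by
      rw [hgbσ]
      refine (inv_eq_self_of_sq (Subtype.ext ?_)).symm
      show (π g) ^ 2 = 1
      rw [← map_pow]
      exact (QuotientGroup.eq_one_iff _).2 (le_adjoin U c hg2))
    rcases eq_one_or_eq_of_mem_zpowers hv2 hmem with e | e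
    · exact absurd e hne
    rcases eq_one_or_eq_of_mem_zpowers hv2 hgmem with e' | e'
    · exact absurd e' hgb1
    · rw [e, e']
  set k := (r * g)⁻¹ * (x * r * x⁻¹) with hk
  have hkK : k ∈ K := by
    rw [← QuotientGroup.eq_one_iff (N := K)]
    have e : (π r)⁻¹ * (π x * π r * (π x)⁻¹) = π g := by
      rw [hr]
      exact congrArg Subtype.val hδ
    show π k = 1
    rw [hk, map_mul, map_inv, map_mul, map_mul, map_mul, map_inv, mul_inv_rev, mul_assoc, e,
      inv_mul_cancel]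
  set k₁ := t * r * t⁻¹ * r⁻¹ with hk₁
  have hk₁K : k₁ ∈ K := by
    rw [← QuotientGroup.eq_one_iff (N := K)]
    show π k₁ = 1
    set m := h₀ * t⁻¹ with hm
    have hmM : m ∈ M := h.cover h₀ (hHT hh₀H) hh₀M
    have hc1 := hcomm _ ⟨h₀, hh₀H, rfl⟩ _ (hMH ⟨r, hrM, rfl⟩)
    have hc2 := hcomm _ (hMH ⟨m, hmM, rfl⟩) _ (hMH ⟨r, hrM, rfl⟩)
    have et : π t = (π m)⁻¹ * π h₀ := by
      rw [← map_inv, ← map_mul, hm]; congr 1; group
    have hctr : Commute (π t) (π r) := by
      rw [et]; exact (Commute.inv_left hc2).mul_left hc1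
    rw [hk₁, map_mul, map_mul, map_mul, map_inv, map_inv, hctr.eq]
    group
  have hσk₁ : π₀ (x * k₁ * x⁻¹) = π₀ k₁ := by
    rw [map_mul, map_mul, map_inv, hKcen k₁ hk₁K, mul_inv_cancel_right]
  have h1 : π₀ (t * r * t⁻¹) * π₀ (t * g * t⁻¹) * π₀ (t * k * t⁻¹) =
      π₀ k₁ * (π₀ r * π₀ g * π₀ k) := by
    have e : t * r * t⁻¹ * (t * g * t⁻¹) * (t * k * t⁻¹) = x * (t * r * t⁻¹) * x⁻¹ := by
      rw [h.x_conj_t, show x * r * x⁻¹ = r * g * k by rw [hk]; group]; group
    rw [← map_mul, ← map_mul, e, show x * (t * r * t⁻¹) * x⁻¹ = x * k₁ * x⁻¹ * (x * r * x⁻¹) by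
      rw [hk₁]; group, map_mul, hσk₁, show x * r * x⁻¹ = r * g * k by rw [hk]; group]
    simp only [map_mul]
  have htk : π₀ (t * k * t⁻¹) = π₀ k := by
    rw [map_mul, map_mul, map_inv, hKcen k hkK, mul_inv_cancel_right]
  rw [htk, show t * r * t⁻¹ = k₁ * r by rw [hk₁]; group, map_mul, htg₀, ← mul_assoc,
    ← mul_assoc (π₀ k₁), ← mul_assoc (π₀ k₁)] at h1
  exact hcbne (mul_eq_left.1 (mul_right_cancel h1))

/-- An inverted abelian normal subgroup, as large as possible, which is not its own centraliser in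
`M`. -/
theorem Config.gap_centraliser (h : Config S z w x t c T M) (hS : IsPGroup 2 S) {W : Subgroup S}
    [W.Normal] (hWM : W ≤ M) (hcW : c ∈ W) (hUW : Subgroup.closure ({z, w} : Set S) ≤ W)
    (hinv : ∀ k ∈ W, x * k * x⁻¹ = k⁻¹) (hcomm : ∀ a ∈ W, ∀ b ∈ W, a * b = b * a)
    (hmax : ∀ Y : Subgroup S, Y.Normal → W ≤ Y → Y ≤ M → (∀ k ∈ Y, x * k * x⁻¹ = k⁻¹) →
      (∀ a ∈ Y, ∀ b ∈ Y, a * b = b * a) → Y ≤ W)
    (hlt : ¬ Subgroup.centralizer (W : Set S) ⊓ M ≤ W) {H : Subgroup S} (hHT : H ≤ T) :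
    GapLE H 16 := by
  set U := Subgroup.closure ({z, w} : Set S) with hU
  have hUn : U.Normal := h.four_normal
  have hMn : M.Normal := h.M_normal
  have hσ : Function.Involutive (conjHom x) := involutive_conjHom h.x_sq
  have hWΩ : ∀ k ∈ W, k ^ 2 = 1 → k ∈ U := fun k hk hk2 => by
    refine h.fix_mem k (hWM hk) ?_
    rw [hinv k hk, inv_eq_self_of_sq hk2]
  have hCn : (Subgroup.centralizer (W : Set S)).Normal := Subgroup.normal_centralizer
  set C₀ := Subgroup.centralizer (W : Set S) ⊓ M with hC₀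
  have hWC : W ≤ C₀ := fun k hk =>
    ⟨Subgroup.mem_centralizer_iff.2 fun b hb => hcomm b hb k hk, hWM hk⟩
  obtain ⟨q, hqC, hqW, hq2, hqc, -⟩ := exists_step (σ := conjHom x) hS hσ
    (fun k hk => Subgroup.Normal.conj_mem inferInstance k hk x)
    (fun k hk => Subgroup.Normal.conj_mem inferInstance k hk x) (lt_of_le_not_ge hWC hlt)
  set K := adjoin W q with hK
  have hKn : K.Normal := adjoin_normal hq2 hqc
  have hKc := adjoin_comm hq2 hcomm hqC.1
  have hKM : K ≤ M := adjoin_le hq2 hWM hqC.2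
  have hqK : q ∈ K := self_mem_adjoin W q
  have hnq : x * q * x⁻¹ ≠ q⁻¹ := fun e => (lt_adjoin hqW).not_ge (hmax K hKn (le_adjoin W q) hKM
    (fun k hk => by
      rcases (mem_adjoin hq2).1 hk with hk | hk
      · exact hinv k hk
      · have ek : k = k * q⁻¹ * q := by group
        rw [ek, ← conj_mul, hinv _ hk, e, ← mul_inv_rev,
          hKc q hqK (k * q⁻¹) (le_adjoin W q hk)]) hKc)
  -- the norm of `q` is `z`
  set n₀ := q * (x * q * x⁻¹) with hn₀
  have hσq : x * q * x⁻¹ ∈ K := hKn.conj_mem q hqK x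
  have hσσ : x * (x * q * x⁻¹) * x⁻¹ = q := hσ q
  have hn₀U : n₀ ∈ U := by
    refine h.fix_mem _ (hKM (mul_mem hqK hσq)) ?_
    rw [hn₀, ← conj_mul, hσσ, hKc _ hσq q hqK]
  have hn₀t : t * n₀ * t⁻¹ = n₀ := by
    set m := q⁻¹ * (t * q * t⁻¹) with hm
    have hmW : m ∈ W := by
      have e : m = q⁻¹ * (t * q * t⁻¹ * q⁻¹) * q⁻¹⁻¹ := by rw [hm]; group
      rw [e]; exact Subgroup.Normal.conj_mem inferInstance _ (hqc t) _
    have hmK := le_adjoin W q hmW
    calc t * n₀ * t⁻¹ = t * q * t⁻¹ * (x * (t * q * t⁻¹) * x⁻¹) := by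
          rw [hn₀, h.x_conj_t]; group
      _ = q * m * ((x * q * x⁻¹) * (x * m * x⁻¹)) := by
          rw [show t * q * t⁻¹ = q * m by rw [hm]; group, ← conj_mul]
      _ = q * (x * q * x⁻¹) * (m * (x * m * x⁻¹)) := by
          rw [mul_assoc q m, ← mul_assoc m, hKc m hmK _ hσq]; group
      _ = n₀ := by rw [hinv m hmW, mul_inv_cancel, mul_one]
  have hn₀z : x * q * x⁻¹ = q⁻¹ * z := by
    rcases h.eq_of_t_fixed hn₀U hn₀t with e | e
    · exact absurd (eq_inv_of_mul_eq_one_right e) hnq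
    · rw [← e, hn₀, inv_mul_cancel_left]
  have hnorm : ∀ k ∈ K, k ∉ W → x * k * x⁻¹ = k⁻¹ * z := fun k hk hkW => by
    have hk' := ((mem_adjoin hq2).1 hk).resolve_left hkW
    set v := k * q⁻¹ with hv
    have ek : k = v * q := by rw [hv]; group
    rw [ek, ← conj_mul, hinv v hk', hn₀z, ← mul_assoc,
      hKc v⁻¹ (inv_mem (le_adjoin W q hk')) q⁻¹ (inv_mem hqK), ← mul_inv_rev]
  have hKU : ∀ e ∈ K, e ^ 2 = 1 → e ∈ U := by
    intro e heK he2
    by_cases heW : e ∈ W
    · exact hWΩ e heW he2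
    have hd : e⁻¹ * (x * e * x⁻¹) = z := by
      rw [hnorm e heK heW, inv_eq_self_of_sq he2, ← mul_assoc, ← pow_two, he2, one_mul]
    have hec : e * c⁻¹ ∈ U :=
      h.same_delta (hKM heK) h.c_mem (hd.trans (by rw [h.x_c, inv_mul_cancel_left]))
    refine absurd ?_ heW
    simpa using mul_mem (hUW hec) hcW
  have hcomp : ∀ k ∈ K, ∀ g, conjHom x (g * k * g⁻¹) = g * conjHom x k * g⁻¹ := by
    intro k hk g
    show x * (g * k * g⁻¹) * x⁻¹ = g * (x * k * x⁻¹) * g⁻¹
    by_cases hkW : k ∈ W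
    · rw [hinv _ (Subgroup.Normal.conj_mem inferInstance k hkW g), hinv k hkW]; group
    · have hgk : g * k * g⁻¹ ∉ W := fun hh => hkW (by
        have := Subgroup.Normal.conj_mem (inferInstance : W.Normal) _ hh g⁻¹
        simpa [mul_assoc] using this)
      rw [hnorm _ (hKn.conj_mem k hk g) hgk, hnorm k hk hkW, ← conj_mul, h.zcomm g,
        mul_inv_cancel_right]
      group
  have hδ : ∀ g, g⁻¹ * (x * g * x⁻¹) ∈ Subgroup.centralizer (K : Set S) ⊓ M := fun g =>
    ⟨inv_mul_map_mem_centralizer (σ := conjHom x) hcomp (fun k hk => hKn.conj_mem k hk x) hσ g,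
      h.delta_mem g⟩
  have hWJ : ∀ k ∈ K, x * k * x⁻¹ = k⁻¹ → k ∈ W := fun k hk e => by
    by_contra hkW
    rw [hnorm k hk hkW] at e
    exact h.z_ne (mul_eq_left.1 e)
  have hKcard : Nat.card K = 2 * Nat.card W := by rw [hK, card_adjoin hq2 hqW]
  have hfixK : Nat.card ↥(Subgroup.centralizer ({QuotientGroup.mk' K x} : Set (S ⧸ K)) ⊓
      M.map (QuotientGroup.mk' K)) ≤ 2 := by
    refine Nat.le_of_mul_le_mul_right ?_ (Nat.card_pos (α := K))
    calc _ ≤ Nat.card ↥(Subgroup.centralizer ({x} : Set S) ⊓ M) * Nat.card W :=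
          card_fix_map_mul_le h.x_sq M K hKM W hWJ
      _ ≤ 4 * Nat.card W := Nat.mul_le_mul_right _ h.card_fix_M
      _ = 2 * Nat.card K := by rw [hKcard]; ring
  set C₁ := Subgroup.centralizer (K : Set S) ⊓ M with hC₁
  have hKC₁ : K ≤ C₁ := fun k hk =>
    ⟨Subgroup.mem_centralizer_iff.2 fun b hb => hKc b hb k hk, hKM hk⟩
  have hCKn : (Subgroup.centralizer (K : Set S)).Normal := Subgroup.normal_centralizer
  by_cases hC₁K : C₁ ≤ K
  · -- every element is fixed modulo `K`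
    set π := QuotientGroup.mk' K with hπ
    have hall : M.map π ≤ Subgroup.centralizer ({π x} : Set (S ⧸ K)) ⊓ M.map π := by
      rintro _ ⟨m, hm, rfl⟩
      refine ⟨Subgroup.mem_centralizer_singleton_iff.2 ?_, m, hm, rfl⟩
      have e : π (m⁻¹ * (x * m * x⁻¹)) = 1 := (QuotientGroup.eq_one_iff _).2 (hC₁K (hδ m))
      rw [map_mul, map_mul, map_mul, map_inv, map_inv, inv_mul_eq_one, eq_mul_inv_iff_mul_eq] at e
      exact e
    have hgapK : GapLE (H ⊓ K) (Nat.card U) := gapLE_of_comm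
      (fun a ha b hb => hKc a ha.2 b hb.2) fun e he h2 => hKU e he.2 h2
    rw [h.four_card] at hgapK
    exact h.gap_of hHT K hKM (a := 4) (b := 2) hgapK.card_inf (gapLE_of_card_le
      ((Subgroup.card_le_of_le (inf_le_right.trans hall)).trans hfixK)) (by norm_num)
  obtain ⟨e₁, he₁C, he₁K, he₁2, he₁c, -⟩ := exists_step (σ := conjHom x) hS hσ
    (fun k hk => hKn.conj_mem k hk x)
    (fun k hk => Subgroup.Normal.conj_mem inferInstance k hk x) (lt_of_le_not_ge hKC₁ hC₁K)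
  set L := adjoin K e₁ with hL
  have hLn : L.Normal := adjoin_normal he₁2 he₁c
  have hLc := adjoin_comm he₁2 hKc he₁C.1
  have hLM : L ≤ M := adjoin_le he₁2 hKM he₁C.2
  have hLd : ∀ y ∈ L, y ∉ K → ∀ y' ∈ L, y' ∉ K → y⁻¹ * y' ∈ K := fun y hy hyK y' hy' hy'K => by
    have h1 := ((mem_adjoin he₁2).1 hy).resolve_left hyK
    have h2 := ((mem_adjoin he₁2).1 hy').resolve_left hy'K
    have e : y⁻¹ * y' = e₁⁻¹ * ((y * e₁⁻¹)⁻¹ * (y' * e₁⁻¹)) * e₁⁻¹⁻¹ := by group
    rw [e]; exact hKn.conj_mem _ (mul_mem (inv_mem h1) h2) _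
  have hLU : ∀ e ∈ L, e ^ 2 = 1 → e ∈ U := by
    intro e heL he2
    by_cases heK : e ∈ K
    · exact hKU e heK he2
    have hei := inv_eq_self_of_sq he2
    have hdK : ∀ g, e⁻¹ * (g * e * g⁻¹) ∈ U := fun g => by
      refine hKU _ (hLd e heL heK _ (hLn.conj_mem e heL g) fun hh => heK ?_) ?_
      · have := hKn.conj_mem _ hh g⁻¹
        simpa [mul_assoc] using this
      · rw [hei, Commute.mul_pow (hLc e heL _ (hLn.conj_mem e heL g)), he2, conj_pow, he2,
          mul_one, mul_inv_cancel, mul_one]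
    have ht : t * e * t⁻¹ * e⁻¹ ∈ U := by
      have e' : t * e * t⁻¹ * e⁻¹ = e * (e⁻¹ * (t * e * t⁻¹)) * e⁻¹ := by group
      rw [e']; exact hUn.conj_mem _ (hdK t) e
    rcases h.mem_four_or_mul_c (hLM heL) (hdK x) ht with h1 | h1
    · exact h1
    · refine absurd ?_ heK
      simpa using mul_mem (le_adjoin W q (hUW h1)) (le_adjoin W q hcW)
  by_cases hnone : ∀ y ∈ L, x * y * x⁻¹ = y⁻¹ → y ∈ K
  · -- `L` is all of `M`
    set π := QuotientGroup.mk' L with hπ
    have hLcard : Nat.card L = 4 * Nat.card W := by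
      rw [hL, card_adjoin he₁2 he₁K, hKcard]; ring
    have hone : Nat.card ↥(Subgroup.centralizer ({π x} : Set (S ⧸ L)) ⊓ M.map π) ≤ 1 := by
      refine Nat.le_of_mul_le_mul_right ?_ (Nat.card_pos (α := L))
      calc _ ≤ Nat.card ↥(Subgroup.centralizer ({x} : Set S) ⊓ M) * Nat.card W :=
            card_fix_map_mul_le h.x_sq M L hLM W fun y hy e => hWJ y (hnone y hy e) e
        _ ≤ 4 * Nat.card W := Nat.mul_le_mul_right _ h.card_fix_M
        _ = 1 * Nat.card L := by rw [hLcard]; ring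
    have hMb : (M.map π).Normal := hMn.map π (QuotientGroup.mk'_surjective L)
    have hbot : Nat.card (M.map π) ≤ 1 := by
      rw [← Subgroup.card_top (G := ↥(M.map π))]
      refine (Subgroup.card_le_of_le (K := (⊥ : Subgroup ↥(M.map π))) fun y _ => ?_).trans
        Subgroup.card_bot.le
      rw [Subgroup.mem_bot]
      have hinvMb : ∀ m ∈ M.map π, conjHom (π x) m ∈ M.map π := fun m hm => hMb.conj_mem m hm _
      exact eq_one_of_fix_le_one ((hS.to_quotient L).to_subgroup _)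
        (involutive_subHom (involutive_conjHom (by rw [← map_pow, h.x_sq, map_one])) hinvMb)
        ((card_fixSub_subHom _ _ hinvMb).trans_le (by rw [fixSub_conjHom]; exact hone)) y
    have hgapL : GapLE (H ⊓ L) (Nat.card U) := gapLE_of_comm
      (fun a ha b hb => hLc a ha.2 b hb.2) fun e he h2 => hLU e he.2 h2
    rw [h.four_card] at hgapL
    exact h.gap_of hHT L hLM (a := 4) (b := 1) hgapL.card_inf (gapLE_of_card_le
      ((Subgroup.card_le_of_le inf_le_right).trans hbot)) (by norm_num)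
  push Not at hnone
  obtain ⟨e, heL, heinv, heK⟩ := hnone
  have heM : e ∈ M := hLM heL
  have he2K : e ^ 2 ∈ K := by
    have e' : e ^ 2 = e⁻¹⁻¹ * e := by rw [inv_inv, pow_two]
    rw [e']
    exact hLd _ (inv_mem heL) (fun hh => heK (inv_mem_iff.1 hh)) e heL heK
  have he2W : e ^ 2 ∈ W := hWJ _ he2K (by rw [← conj_pow, heinv, inv_pow])
  have heCW : e ∈ Subgroup.centralizer (W : Set S) := Subgroup.mem_centralizer_iff.2 fun k hk =>
    hLc k (le_adjoin K e₁ (le_adjoin W q hk)) e heL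
  -- `W` with `e` is not normal
  obtain ⟨g, hg⟩ : ∃ g, g * e * g⁻¹ * e⁻¹ ∉ W := by
    by_contra hall
    push Not at hall
    refine heK (le_adjoin W q (hmax (adjoin W e) (adjoin_normal he2W hall) (le_adjoin W e)
      (adjoin_le he2W hWM heM) (fun k hk => ?_) (adjoin_comm he2W hcomm heCW)
      (self_mem_adjoin W e)))
    rcases (mem_adjoin he2W).1 hk with hk | hk
    · exact hinv k hk
    · have ek : k = k * e⁻¹ * e := by group
      rw [ek, ← conj_mul, hinv _ hk, heinv, ← mul_inv_rev,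
        Subgroup.mem_centralizer_iff.1 heCW _ hk]
  set y := g * e * g⁻¹ with hy
  have hyL : y ∈ L := hLn.conj_mem e heL g
  have hyK : y ∉ K := fun hh => heK (by
    have := hKn.conj_mem _ hh g⁻¹
    simpa [hy, mul_assoc] using this)
  have hvK : y * e⁻¹ ∈ K := by
    have e' : y * e⁻¹ = y * (e⁻¹ * y) * y⁻¹ := by group
    rw [e']; exact hKn.conj_mem _ (hLd e heL heK y hyL hyK) y
  have hyσ : x * y * x⁻¹ = y⁻¹ * z := by
    have hev := hnorm _ hvK hg
    have ey : y = y * e⁻¹ * e := by group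
    conv_lhs => rw [ey, ← conj_mul, hev, heinv]
    rw [mul_assoc, ← h.zcomm e⁻¹, ← mul_assoc]
    congr 1
    rw [mul_inv_rev, inv_inv, mul_assoc,
      hLc y⁻¹ (inv_mem hyL) e⁻¹ (inv_mem heL), mul_inv_cancel_left]
  set d := g⁻¹ * (x * g * x⁻¹) with hd
  have hde : d * e⁻¹ * d⁻¹ = e⁻¹ * z := by
    calc d * e⁻¹ * d⁻¹ = g⁻¹ * (x * g * x⁻¹) * (x * e * x⁻¹) * (x * g * x⁻¹)⁻¹ * g := by
          rw [heinv, hd]; group
      _ = g⁻¹ * (x * y * x⁻¹) * g := by rw [hy]; group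
      _ = g⁻¹ * y⁻¹ * (z * g) := by rw [hyσ]; group
      _ = e⁻¹ * z := by rw [← h.zcomm g, hy]; group
  -- `e` would be a power of `d` modulo `K`
  set π := QuotientGroup.mk' K with hπ
  set Mb := M.map π with hMb
  have hMbn : Mb.Normal := hMn.map π (QuotientGroup.mk'_surjective K)
  have hinvMb : ∀ m ∈ Mb, conjHom (π x) m ∈ Mb := fun m hm => hMbn.conj_mem m hm _
  set σ := subHom (conjHom (π x)) Mb hinvMb with hσdef
  have hxb : (π x) ^ 2 = 1 := by rw [← map_pow, h.x_sq, map_one]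
  have hσi : Function.Involutive σ := involutive_subHom (involutive_conjHom hxb) _
  have hP : IsPGroup 2 Mb := (hS.to_quotient K).to_subgroup _
  have hf : Nat.card (fixSub σ) ≤ 2 :=
    (card_fixSub_subHom _ Mb hinvMb).trans_le (by rw [fixSub_conjHom]; exact hfixK)
  set db : Mb := ⟨π d, d, h.delta_mem g, rfl⟩ with hdb
  set eb : Mb := ⟨π e, e, heM, rfl⟩ with heb
  have hσmk : ∀ (m : S) (hm : π m ∈ Mb), (σ ⟨π m, hm⟩ : S ⧸ K) = π (x * m * x⁻¹) := fun m hm => by
    rw [map_mul, map_mul, map_inv]; rfl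
  have hdb1 : db ≠ 1 := fun e' => by
    have hdK : d ∈ K := (QuotientGroup.eq_one_iff d).1 (congrArg Subtype.val e')
    rw [hLc d (le_adjoin K e₁ hdK) e⁻¹ (inv_mem heL), mul_inv_cancel_right] at hde
    exact h.z_ne (mul_eq_left.1 hde.symm)
  have hdbinv : σ db = db⁻¹ := Subtype.ext (by
    refine (hσmk d _).trans ?_
    show π (x * d * x⁻¹) = (π d)⁻¹
    rw [← map_inv]
    exact congrArg π (map_inv_mul_self (σ := conjHom x) hσ g))
  obtain ⟨n, hn1, hn2⟩ := exists_pow_involution hP hdb1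
  have heb1 : eb ≠ 1 := fun e' =>
    heK ((QuotientGroup.eq_one_iff e).1 (congrArg Subtype.val e'))
  have hebfix : σ eb = eb := by
    refine fixed_of_inverted_of_sq (Subtype.ext ?_) (Subtype.ext ?_)
    · refine (hσmk e _).trans ?_
      rw [heinv, map_inv]; rfl
    · show (π e) ^ 2 = 1
      rw [← map_pow]
      exact (QuotientGroup.eq_one_iff _).2 he2K
  have heq : db ^ n = eb := eq_of_card_le_two hf
    (mem_fixSub.2 (fixed_of_inverted_of_sq (map_inverted_pow hdbinv n) hn2))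
    (mem_fixSub.2 hebfix) hn1 heb1
  set k := (d ^ n)⁻¹ * e with hk
  have hkK : k ∈ K := by
    rw [← QuotientGroup.eq_one_iff (N := K)]
    show π k = 1
    have e' : (π d) ^ n = π e := by
      simpa [hdb, heb] using congrArg Subtype.val heq
    rw [hk, map_mul, map_inv, map_pow, e', inv_mul_cancel]
  have hcd : Commute d k := (Subgroup.mem_centralizer_iff.1 (hδ g).1 k hkK).symm
  have hce : Commute d e := by
    rw [show e = d ^ n * k by rw [hk]; group]
    exact ((Commute.refl d).pow_right n).mul_right hcd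
  rw [(hce.inv_right).eq, mul_inv_cancel_right] at hde
  exact absurd (mul_eq_left.1 hde.symm) h.z_ne

end CfsgLib.SectRank
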