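import Cfsg.Agent.SectRank.CaseTwoTools

/-!
The configuration left in the first case of Harada's theorem, with its elementary consequences.
-/

set_option autoImplicit false

namespace CfsgLib.SectRank

universe u

variable {S : Type u} [Group S] {z w x t c : S} {T M : Subgroup S}

/-- The configuration: `T` a maximal subgroup not containing `x`, `M` the centraliser in `T` of the
normal four group `⟨z, w⟩`, the fixed points of `x` in `M` being that four group, and `c` fixed and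
central modulo it. -/
structure Config (S : Type u) [Group S] (z w x t c : S) (T M : Subgroup S) : Prop where
  z_cen : z ∈ Subgroup.center S
  z_ne : z ≠ 1
  z_sq : z ^ 2 = 1
  w_sq : w ^ 2 = 1
  w_ne : w ≠ 1
  w_ne_z : w ≠ z
  four_normal : (Subgroup.closure ({z, w} : Set S)).Normal
  t_w : t * w * t⁻¹ = w * z
  x_sq : x ^ 2 = 1
  t_x : t * x = x * t
  M_normal : M.Normal
  four_le : Subgroup.closure ({z, w} : Set S) ≤ M
  M_le : M ≤ T
  x_not_mem : x ∉ T
  t_mem : t ∈ T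
  t_not_mem : t ∉ M
  cover : ∀ g ∈ T, g ∉ M → g * t⁻¹ ∈ M
  comm_w : ∀ m ∈ M, m * w = w * m
  fix_mem : ∀ m ∈ M, x * m * x⁻¹ = m → m ∈ Subgroup.closure ({z, w} : Set S)
  delta_mem : ∀ g : S, g⁻¹ * (x * g * x⁻¹) ∈ M
  c_mem : c ∈ M
  c_not_mem : c ∉ Subgroup.closure ({z, w} : Set S)
  c_comm : ∀ g, g * c * g⁻¹ * c⁻¹ ∈ Subgroup.closure ({z, w} : Set S)
  c_sq : c ^ 2 = 1 ∨ c ^ 2 = z
  x_c : x * c * x⁻¹ = c * z

namespace Config

variable (h : Config S z w x t c T M)
include h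

theorem zcomm (g : S) : g * z = z * g := Subgroup.mem_center_iff.1 h.z_cen g

theorem commute_zw : Commute z w := (h.zcomm w).symm

theorem mem_four {k : S} :
    k ∈ Subgroup.closure ({z, w} : Set S) ↔ k = 1 ∨ k = z ∨ k = w ∨ k = w * z :=
  mem_closure_pair h.z_sq h.w_sq h.commute_zw

theorem z_mem_four : z ∈ Subgroup.closure ({z, w} : Set S) :=
  Subgroup.subset_closure (Or.inl rfl)

theorem w_mem_four : w ∈ Subgroup.closure ({z, w} : Set S) :=
  Subgroup.subset_closure (Or.inr rfl)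

theorem four_sq {k : S} (hk : k ∈ Subgroup.closure ({z, w} : Set S)) : k ^ 2 = 1 := by
  rcases h.mem_four.1 hk with rfl | rfl | rfl | rfl
  · exact one_pow 2
  · exact h.z_sq
  · exact h.w_sq
  · rw [h.commute_zw.symm.mul_pow, h.w_sq, h.z_sq, one_mul]

theorem four_comm {k : S} (hk : k ∈ Subgroup.closure ({z, w} : Set S)) {m : S} (hm : m ∈ M) :
    m * k = k * m := by
  rcases h.mem_four.1 hk with rfl | rfl | rfl | rfl
  · simp
  · exact h.zcomm m
  · exact h.comm_w m hm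
  · exact (Commute.mul_right (h.comm_w m hm : Commute m w) (h.zcomm m)).eq

theorem four_fixed {k : S} (hk : k ∈ Subgroup.closure ({z, w} : Set S)) : x * k * x⁻¹ = k := by
  have hw : x * w * x⁻¹ = w := by
    rcases conj_mem_four h.z_cen h.z_sq h.w_sq h.w_ne h.w_ne_z h.four_normal x with e | e
    · exact e
    · exfalso
      have h1 : w⁻¹ * (x * w * x⁻¹) ∈ Subgroup.closure ({z, w} : Set S) :=
        mul_mem (inv_mem h.w_mem_four) (h.four_normal.conj_mem _ h.w_mem_four x)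
      have hc := h.x_c
      have htx := h.t_x
      -- `w` is fixed, being its own displacement
      have hd := h.delta_mem w
      have hz : x * z * x⁻¹ = z := by rw [h.zcomm x, mul_inv_cancel_right]
      have hcw : x * (c * w) * x⁻¹ = c * w := by
        rw [← conj_mul, h.x_c, e, mul_assoc, ← mul_assoc z w, h.commute_zw.eq, mul_assoc w,
          ← pow_two, h.z_sq, mul_one]
      have := h.fix_mem _ (mul_mem h.c_mem (h.four_le h.w_mem_four)) hcw
      exact h.c_not_mem (by simpa using mul_mem this (inv_mem h.w_mem_four))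
  have hz : x * z * x⁻¹ = z := by rw [h.zcomm x, mul_inv_cancel_right]
  rcases h.mem_four.1 hk with rfl | rfl | rfl | rfl
  · simp
  · exact hz
  · exact hw
  · rw [← conj_mul, hw, hz]

theorem t_z : t * z * t⁻¹ = z := by rw [h.zcomm t, mul_inv_cancel_right]

theorem eq_of_t_fixed {k : S} (hk : k ∈ Subgroup.closure ({z, w} : Set S))
    (ht : t * k * t⁻¹ = k) : k = 1 ∨ k = z := by
  rcases h.mem_four.1 hk with rfl | rfl | rfl | rfl
  · exact Or.inl rfl
  · exact Or.inr rfl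
  · rw [h.t_w] at ht
    exact absurd (mul_eq_left.1 ht) h.z_ne
  · rw [← conj_mul, h.t_w, h.t_z] at ht
    exact absurd (mul_eq_left.1 ht) h.z_ne

theorem t_sq_commute_x : t ^ 2 * x = x * t ^ 2 := (Commute.pow_left (h.t_x : Commute t x) 2).eq

theorem x_conj_t {g : S} : x * (t * g * t⁻¹) * x⁻¹ = t * (x * g * x⁻¹) * t⁻¹ := by
  calc x * (t * g * t⁻¹) * x⁻¹ = (x * t) * g * (x * t)⁻¹ := by group
    _ = (t * x) * g * (t * x)⁻¹ := by rw [h.t_x]
    _ = _ := by group

theorem delta_conj_t (g : S) :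
    (t * g * t⁻¹)⁻¹ * (x * (t * g * t⁻¹) * x⁻¹) = t * (g⁻¹ * (x * g * x⁻¹)) * t⁻¹ := by
  rw [h.x_conj_t]; group

/-- Two elements of `M` with the same displacement differ by an element of the four group. -/
theorem same_delta {p q : S} (hp : p ∈ M) (hq : q ∈ M)
    (e : p⁻¹ * (x * p * x⁻¹) = q⁻¹ * (x * q * x⁻¹)) :
    p * q⁻¹ ∈ Subgroup.closure ({z, w} : Set S) := by
  refine h.fix_mem _ (mul_mem hp (inv_mem hq)) ?_
  calc x * (p * q⁻¹) * x⁻¹ = p * (p⁻¹ * (x * p * x⁻¹)) * (x * q⁻¹ * x⁻¹) := by group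
    _ = p * (q⁻¹ * (x * q * x⁻¹)) * (x * q⁻¹ * x⁻¹) := by rw [e]
    _ = p * q⁻¹ := by group

theorem delta_mul_four {k e : S} (hk : k ∈ Subgroup.closure ({z, w} : Set S)) :
    (k * e)⁻¹ * (x * (k * e) * x⁻¹) = e⁻¹ * (x * e * x⁻¹) := by
  calc (k * e)⁻¹ * (x * (k * e) * x⁻¹) = e⁻¹ * k⁻¹ * (x * k * x⁻¹) * (x * e * x⁻¹) := by group
    _ = e⁻¹ * k⁻¹ * k * (x * e * x⁻¹) := by rw [h.four_fixed hk]
    _ = _ := by group

/-- An element of `M` with displacement in the four group commuting with `t` modulo it. -/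
theorem mem_four_or_mul_c {e : S} (he : e ∈ M)
    (hd : e⁻¹ * (x * e * x⁻¹) ∈ Subgroup.closure ({z, w} : Set S))
    (ht : t * e * t⁻¹ * e⁻¹ ∈ Subgroup.closure ({z, w} : Set S)) :
    e ∈ Subgroup.closure ({z, w} : Set S) ∨ e * c⁻¹ ∈ Subgroup.closure ({z, w} : Set S) := by
  have hfix : t * (e⁻¹ * (x * e * x⁻¹)) * t⁻¹ = e⁻¹ * (x * e * x⁻¹) := by
    rw [← h.delta_conj_t, show t * e * t⁻¹ = t * e * t⁻¹ * e⁻¹ * e by group,
      h.delta_mul_four ht]
  rcases h.eq_of_t_fixed hd hfix with e1 | e1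
  · exact Or.inl (h.fix_mem e he (inv_mul_eq_one.1 e1).symm)
  · refine Or.inr (h.same_delta he h.c_mem ?_)
    rw [e1, h.x_c, inv_mul_cancel_left]

theorem comm_c {m : S} (hm : m ∈ M) : ∃ k ∈ Subgroup.closure ({z, w} : Set S),
    m * c * m⁻¹ = k * c := ⟨_, h.c_comm m, by group⟩

theorem not_both {a b : S} (ha : a ∈ T) (hb : b ∈ T) (haM : a ∉ M) (hbM : b ∉ M) :
    a * b⁻¹ ∈ M := by
  have := mul_mem (h.cover a ha haM) (inv_mem (h.cover b hb hbM))
  simpa using this

theorem four_card [Finite S] : Nat.card (Subgroup.closure ({z, w} : Set S)) = 4 :=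
  card_closure_pair h.z_sq h.w_sq h.commute_zw h.z_ne h.w_ne h.w_ne_z

theorem card_fix_M [Finite S] :
    Nat.card ↥(Subgroup.centralizer ({x} : Set S) ⊓ M) ≤ 4 := by
  refine (Subgroup.card_le_of_le fun m (hm : m ∈ Subgroup.centralizer ({x} : Set S) ⊓ M) =>
    h.fix_mem m hm.2 (mul_inv_eq_iff_eq_mul.2
      (Subgroup.mem_centralizer_singleton_iff.1 hm.1).symm)).trans h.four_card.le

/-- The bound along a normal subgroup inside `M`. -/
theorem gap_of [Finite S] {H : Subgroup S} (hHT : H ≤ T) (N : Subgroup S) [N.Normal]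
    (hNM : N ≤ M) {a b : ℕ} (ha : Nat.card ↥(H ⊓ N) ≤ a * Nat.card ↥(sqSub H ⊓ N))
    (hb : GapLE (H.map (QuotientGroup.mk' N) ⊓ M.map (QuotientGroup.mk' N)) b)
    (hab : a * (2 * b) ≤ 16) : GapLE H 16 := by
  refine (gapLE_of_normal N ha (GapLE.of_cover ?_ hb)).mono hab
  rintro _ ⟨p, hp, rfl⟩ _ ⟨q, hq, rfl⟩ hp' hq'
  rw [← map_inv, ← map_mul]
  exact ⟨_, h.not_both (hHT hp) (hHT hq) (fun hh => hp' ⟨p, hh, rfl⟩)
    (fun hh => hq' ⟨q, hh, rfl⟩), rfl⟩

/-- At most two fixed points in a section of `M` bound the gap there by four. -/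
theorem gap_image_four [Finite S] (hS : IsPGroup 2 S) (N : Subgroup S) [N.Normal]
    (hfix : Nat.card ↥(Subgroup.centralizer ({QuotientGroup.mk' N x} : Set (S ⧸ N)) ⊓
      M.map (QuotientGroup.mk' N)) ≤ 2) (K : Subgroup (S ⧸ N))
    (hK : K ≤ M.map (QuotientGroup.mk' N)) : GapLE K 4 := by
  set π := QuotientGroup.mk' N with hπ
  have hMn : (M.map π).Normal := h.M_normal.map π (QuotientGroup.mk'_surjective N)
  have hinv : ∀ m ∈ M.map π, conjHom (π x) m ∈ M.map π := fun m hm => hMn.conj_mem m hm _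
  exact (hasRK_two_of_fix_le_two ((hS.to_quotient N).to_subgroup _)
    (involutive_subHom (involutive_conjHom (by rw [← map_pow, h.x_sq, map_one])) hinv)
    (by rw [card_fixSub_subHom, fixSub_conjHom]; exact hfix)).gapLE_of_le hK

end Config

end CfsgLib.SectRank
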