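import Cfsg.Agent.SectRank.Tools

/-!
Lemmas for the case in which no self-centralising elementary subgroup of order eight contains a
normal four group.
-/

set_option autoImplicit false

namespace CfsgLib.SectRank

universe u

variable {S : Type u} [Group S] [Finite S]

omit [Finite S] in
theorem conj_mem_four {z w : S} (hz : z ∈ Subgroup.center S) (hz2 : z ^ 2 = 1) (hw2 : w ^ 2 = 1)
    (hw1 : w ≠ 1) (hwz : w ≠ z) (hn : (Subgroup.closure ({z, w} : Set S)).Normal) (g : S) :
    g * w * g⁻¹ = w ∨ g * w * g⁻¹ = w * z := by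
  have hc : Commute z w := (Subgroup.mem_center_iff.1 hz w).symm
  rcases (mem_closure_pair hz2 hw2 hc).1
    (hn.conj_mem w (Subgroup.subset_closure (Or.inr rfl)) g) with h | h | h | h
  · exact absurd (by rwa [mul_inv_eq_one, mul_eq_left] at h) hw1
  · refine absurd ?_ hwz
    calc w = g⁻¹ * (g * w * g⁻¹) * g := by group
      _ = z := by rw [h, Subgroup.mem_center_iff.1 hz g⁻¹, inv_mul_cancel_right]
  · exact Or.inl h
  · exact Or.inr h

/-- Some four group containing a central involution is normal. -/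
theorem exists_normal_four (hG : IsPGroup 2 S) {A : Subgroup S} (hA : SelfEight A) :
    ∃ z w : S, z ∈ Subgroup.center S ∧ z ≠ 1 ∧ z ^ 2 = 1 ∧ w ^ 2 = 1 ∧ w ≠ 1 ∧ w ≠ z ∧
      (Subgroup.closure ({z, w} : Set S)).Normal := by
  have : Fact (Nat.Prime 2) := ⟨Nat.prime_two⟩
  have : Nontrivial S := by
    rw [← Finite.one_lt_card_iff_nontrivial]
    have := Subgroup.card_le_card_group A
    rw [hA.card] at this
    omega
  obtain ⟨z, hz, hz1, hz2, -⟩ := exists_fixed_involution (σ := MonoidHom.id S) hG (fun _ => rfl)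
    (K := Subgroup.center S) (fun _ h => h)
    ((Subgroup.nontrivial_iff_ne_bot _).1 hG.center_nontrivial)
  by_contra hno
  push Not at hno
  have hzn := zpowers_normal_of_center hz
  obtain ⟨Y, hzY, hY⟩ := PGroup.exists_maximal_normal_abelian (A₀ := Subgroup.zpowers z)
    inferInstance
  have hYC := PGroup.centralizer_eq_of_maximal_normal_abelian hG hY
  have := hY.1.1
  have hYc : ∀ a ∈ Y, ∀ b ∈ Y, a * b = b * a := fun a ha b hb =>
    congrArg Subtype.val (isMulCommutative_iff.1 hY.1.2 ⟨a, ha⟩ ⟨b, hb⟩)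
  have hnormal : ∀ q : S, q ^ 2 = 1 → q ≠ 1 → q ≠ z →
      (∀ g, g * q * g⁻¹ * q⁻¹ ∈ Subgroup.zpowers z) → False := by
    intro q hq2 hq1 hqz hqc
    have hzq : Commute z q := (Subgroup.mem_center_iff.1 hz q).symm
    have hq2' : q ^ 2 ∈ Subgroup.zpowers z := by rw [hq2]; exact one_mem _
    have heq : Subgroup.closure ({z, q} : Set S) = adjoin (Subgroup.zpowers z) q := by
      refine le_antisymm ((Subgroup.closure_le _).2 ?_) (adjoin_le hq2'
        (Subgroup.zpowers_le.2 (Subgroup.subset_closure (Or.inl rfl)))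
        (Subgroup.subset_closure (Or.inr rfl)))
      rintro x (rfl | rfl)
      · exact le_adjoin _ _ (Subgroup.mem_zpowers x)
      · exact self_mem_adjoin _ _
    exact hno z q hz hz1 hz2 hq2 hq1 hqz (heq ▸ adjoin_normal hq2' hqc)
  have hinv : ∀ i ∈ Y, i ^ 2 = 1 → i = 1 ∨ i = z := by
    by_contra hne
    push Not at hne
    obtain ⟨i, hiY, hi2, hi1, hiz⟩ := hne
    let M : Subgroup S :=
      { carrier := {y | y ∈ Y ∧ y ^ 2 = 1}
        one_mem' := ⟨one_mem Y, one_pow 2⟩
        mul_mem' := fun {a b} ha hb => ⟨mul_mem ha.1 hb.1, by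
          rw [Commute.mul_pow (hYc a ha.1 b hb.1), ha.2, hb.2, one_mul]⟩
        inv_mem' := fun {a} ha => ⟨inv_mem ha.1, by rw [inv_pow, ha.2, inv_one]⟩ }
    have : M.Normal := ⟨fun a ha g => ⟨Subgroup.Normal.conj_mem inferInstance a ha.1 g, by
      rw [conj_pow, ha.2, mul_one, mul_inv_cancel]⟩⟩
    have hlt : Subgroup.zpowers z < M := by
      refine lt_of_le_of_ne (Subgroup.zpowers_le.2 ⟨hzY (Subgroup.mem_zpowers z), hz2⟩) fun e => ?_
      rcases eq_one_or_eq_of_mem_zpowers hz2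
        (e ▸ (⟨hiY, hi2⟩ : i ∈ M) : i ∈ Subgroup.zpowers z) with h | h
      exacts [hi1 h, hiz h]
    obtain ⟨q, hqM, hqz, -, hqc, -⟩ := exists_step (σ := MonoidHom.id S) hG (fun _ => rfl)
      (fun _ h => h) (fun _ h => h) hlt
    exact hnormal q hqM.2 (fun h => hqz (h ▸ one_mem _))
      (fun h => hqz (h ▸ Subgroup.mem_zpowers _)) hqc
  obtain ⟨y, hy⟩ := (Subgroup.isCyclic_iff_exists_zpowers_eq_top Y).1
    (isCyclic_of_comm hG hYc fun a ha b hb ha2 hb2 ha1 hb1 =>
      ((hinv a ha ha2).resolve_left ha1).trans ((hinv b hb hb2).resolve_left hb1).symm)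
  have hyY : y ∈ Y := hy ▸ Subgroup.mem_zpowers y
  have hcent : ∀ g, g * y = y * g → g ∈ Y := fun g hg => hYC ▸
    Subgroup.mem_centralizer_iff.2 fun b hb => by
      obtain ⟨i, rfl⟩ := Subgroup.mem_zpowers_iff.1 (hy ▸ hb : b ∈ Subgroup.zpowers y)
      exact (Commute.zpow_left (Commute.symm hg) i).eq
  have hAY : ∀ a ∈ A, a ∈ Y → a = 1 ∨ a = z := fun a ha haY => hinv a haY (hA.sq a ha)
  -- an element of `A` moves `y`
  obtain ⟨a₁, ha₁, ha₁Y⟩ : ∃ a ∈ A, a ∉ Y := by
    by_contra h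
    push Not at h
    have hle : A ≤ Subgroup.zpowers z := fun a ha => by
      rcases hAY a ha (h a ha) with e | e
      · rw [e]; exact one_mem _
      · rw [e]; exact Subgroup.mem_zpowers z
    have := (Subgroup.card_le_of_le hle).trans (card_zpowers_le_two hz2)
    rw [hA.card] at this
    omega
  have hy2 : y ^ 2 ≠ 1 := fun h => ha₁Y (hcent a₁ (by
    rcases hinv y hyY h with e | e
    · rw [e, one_mul, mul_one]
    · rw [e]; exact Subgroup.mem_center_iff.1 hz a₁))
  obtain ⟨m, hm2, hm4⟩ := exists_pow_order_four hG hy2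
  set x := y ^ m with hx
  have hxz : x ^ 2 = z := (hinv _ (pow_mem (pow_mem hyY m) 2)
    (by rw [← pow_mul]; exact hm4)).resolve_left hm2
  have hxY : x ∈ Y := pow_mem hyY m
  have hactx : ∀ a : S, a * x * a⁻¹ = x ∨ a * x * a⁻¹ = x * z := by
    intro a
    have hc : a * x * a⁻¹ ∈ Y := Subgroup.Normal.conj_mem inferInstance x hxY a
    have h2 : (x⁻¹ * (a * x * a⁻¹)) ^ 2 = 1 := by
      rw [Commute.mul_pow (hYc _ (inv_mem hxY) _ hc), inv_pow, conj_pow, hxz,
        Subgroup.mem_center_iff.1 hz a, mul_inv_cancel_right, inv_mul_cancel]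
    rcases hinv _ (mul_mem (inv_mem hxY) hc) h2 with e | e
    · exact Or.inl (inv_mul_eq_one.1 e).symm
    · exact Or.inr (inv_mul_eq_iff_eq_mul.1 e)
  -- some element of `A` outside `Y` fixes `x`
  obtain ⟨a, haA, haY, hax⟩ : ∃ a ∈ A, a ∉ Y ∧ a * x = x * a := by
    by_contra h
    push Not at h
    have hmove : ∀ a ∈ A, a ∉ Y → a * x * a⁻¹ = x * z := fun a ha haY => by
      rcases hactx a with e | e
      · exact absurd (mul_inv_eq_iff_eq_mul.1 e) (h a ha haY)
      · exact e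
    have hcard : Nat.card A ≤ 2 * Nat.card ↥(A ⊓ Y) := card_le_two_mul_card_inf
      fun a ha b hb haY hbY => by
        by_contra hab
        refine h _ (mul_mem ha (inv_mem hb)) hab ?_
        have e1 : a * x * a⁻¹ = b * x * b⁻¹ := (hmove a ha haY).trans (hmove b hb hbY).symm
        rw [inv_eq_self_of_sq (hA.sq b hb)] at e1 ⊢
        calc a * b * x = a * (b * x * b) * b⁻¹ := by group
          _ = a * (a * x * a⁻¹) * b⁻¹ := by rw [e1]
          _ = a ^ 2 * x * a⁻¹ * b⁻¹ := by rw [pow_two]; group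
          _ = x * (a * b) := by
            rw [hA.sq a ha, one_mul, inv_eq_self_of_sq (hA.sq a ha),
              inv_eq_self_of_sq (hA.sq b hb)]; group
    have hle : A ⊓ Y ≤ Subgroup.zpowers z := fun b hb => by
      rcases hAY b hb.1 hb.2 with e | e
      · rw [e]; exact one_mem _
      · rw [e]; exact Subgroup.mem_zpowers z
    have := (Subgroup.card_le_of_le hle).trans (card_zpowers_le_two hz2)
    rw [hA.card] at hcard
    omega
  have hay : a * y ≠ y * a := fun e => haY (hcent a e)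
  have ha2 : a ^ 2 = 1 := hA.sq a haA
  have hconj : a * y * a⁻¹ = z * y := by
    rw [← hxz]
    exact conj_eq_mul_involution hG (hy ▸ Subgroup.Normal.conj_mem inferInstance y hyY a)
      (by rw [ha2, one_mul, mul_one]) hm2 hm4 hax hay
  have hy4 : y ^ 4 ≠ 1 := fun h => hay (by
    have h' : (y ^ 2) ^ 2 = 1 := by rw [← pow_mul]; exact h
    have hyz : y ^ 2 = z := (hinv _ (pow_mem hyY 2) h').resolve_left hy2
    have hodd : Odd (m : ℤ) := by
      refine (Int.even_or_odd (m : ℤ)).resolve_left ?_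
      rintro ⟨r, hr⟩
      refine hm2 ?_
      have hxr : x = (y ^ 2) ^ r := by
        rw [hx, ← zpow_natCast y m, hr, ← two_mul, zpow_mul, zpow_two, ← pow_two]
      rw [hxr, hyz, ← zpow_natCast (z ^ r) 2, ← zpow_mul, mul_comm, zpow_mul, zpow_natCast, hz2,
        one_zpow]
    have hzp := zpowers_zpow_odd (x := y) hG hodd
    rw [zpow_natCast] at hzp
    obtain ⟨i, hi⟩ := Subgroup.mem_zpowers_iff.1 (hzp ▸ Subgroup.mem_zpowers y)
    rw [← hi]
    exact (Commute.zpow_right (hax : Commute a (y ^ m)) i).eq)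
  have hcz : ∀ i : ℤ, a * y ^ i * a⁻¹ = z ^ i * y ^ i := fun i => by
    rw [← conj_zpow, hconj]
    exact Commute.mul_zpow (Subgroup.mem_center_iff.1 hz y).symm i
  refine hnormal a ha2 (fun e => haY (by rw [e]; exact one_mem Y))
    (fun e => haY (by rw [e]; exact hzY (Subgroup.mem_zpowers z))) fun g => ?_
  -- the conjugate of `a` acts in the same way
  obtain ⟨l, hl⟩ := Subgroup.mem_zpowers_iff.1
    (hy ▸ (by simpa using Subgroup.Normal.conj_mem inferInstance y hyY g⁻¹) :
      g⁻¹ * y * g ∈ Subgroup.zpowers y)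
  have hlo : Odd l := by
    refine (Int.even_or_odd l).resolve_left ?_
    rintro ⟨r, rfl⟩
    have hy1 : y ≠ 1 := fun e => hy2 (by rw [e, one_pow])
    obtain ⟨i, hi⟩ := Subgroup.mem_zpowers_iff.1
      (hy ▸ Subgroup.Normal.conj_mem inferInstance _ (zpow_mem hyY r) g :
        g * y ^ r * g⁻¹ ∈ Subgroup.zpowers y)
    refine not_mem_zpowers_sq hG hy1 ⟨i, ?_⟩
    show (y ^ 2) ^ i = y
    have e : y = g * y ^ r * g⁻¹ * (g * y ^ r * g⁻¹) := by
      calc y = g * (g⁻¹ * y * g) * g⁻¹ := by group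
        _ = g * y ^ (r + r) * g⁻¹ := by rw [← hl]
        _ = _ := by rw [zpow_add]; group
    conv_rhs => rw [e, ← hi, ← zpow_add]
    rw [← zpow_natCast y 2, ← zpow_mul]
    congr 1
    push_cast
    ring
  have hzl : z ^ l = z := by
    obtain ⟨r, rfl⟩ := hlo
    rw [zpow_add_one, zpow_mul, zpow_two, ← pow_two, hz2, one_zpow, one_mul]
  have hsame : g * a * g⁻¹ * y * (g * a * g⁻¹)⁻¹ = z * y := by
    calc g * a * g⁻¹ * y * (g * a * g⁻¹)⁻¹ = g * (a * (g⁻¹ * y * g) * a⁻¹) * g⁻¹ := by group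
      _ = g * (z * (g⁻¹ * y * g)) * g⁻¹ := by rw [← hl, hcz, hzl]
      _ = g * z * g⁻¹ * y := by group
      _ = z * y := by rw [Subgroup.mem_center_iff.1 hz g, mul_inv_cancel_right]
  set v := a⁻¹ * (g * a * g⁻¹) with hv
  have hvY : v ∈ Y := by
    refine hcent _ ?_
    calc v * y = a⁻¹ * (g * a * g⁻¹ * y * (g * a * g⁻¹)⁻¹) * (g * a * g⁻¹) := by rw [hv]; group
      _ = a⁻¹ * (a * y * a⁻¹) * (g * a * g⁻¹) := by rw [hsame, hconj]
      _ = y * v := by rw [hv]; group
  obtain ⟨i, hi⟩ := Subgroup.mem_zpowers_iff.1 (hy ▸ hvY : v ∈ Subgroup.zpowers y)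
  have hai : a⁻¹ = a := inv_eq_self_of_sq ha2
  have hsq : (a * v) ^ 2 = 1 := by
    rw [hv, ← mul_assoc, mul_inv_cancel, one_mul, conj_pow, ha2, mul_one, mul_inv_cancel]
  have h1 : z ^ i * v * v = 1 := by
    calc z ^ i * v * v = a * v * a⁻¹ * v := by rw [← hi, hcz]
      _ = (a * v) ^ 2 := by rw [hai, pow_two]; group
      _ = 1 := hsq
  have hvz : v ∈ Subgroup.zpowers z := by
    rcases Int.even_or_odd i with ⟨r, hr⟩ | hodd
    · rw [hr, ← two_mul, zpow_mul, zpow_two, ← pow_two, hz2, one_zpow, one_mul, ← pow_two] at h1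
      rcases hinv v hvY h1 with e | e
      · rw [e]; exact one_mem _
      · rw [e]; exact Subgroup.mem_zpowers z
    · exfalso
      obtain ⟨r, hr⟩ := id hodd
      rw [hr, zpow_add_one, zpow_mul, zpow_two, ← pow_two, hz2, one_zpow, one_mul, mul_assoc,
        ← hi, ← zpow_add] at h1
      refine hy4 (eq_one_of_odd_zpow hG hodd ?_)
      have hyy : y ^ (i + i) = z := by
        rw [pow_two] at hz2
        exact mul_left_cancel (h1.trans hz2.symm)
      calc (y ^ 4) ^ i = (y ^ (i + i)) ^ 2 := by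
            rw [← zpow_natCast y 4, ← zpow_natCast _ 2, ← zpow_mul, ← zpow_mul]; ring_nf
        _ = 1 := by rw [hyy, hz2]
  have e : g * a * g⁻¹ * a⁻¹ = a * v * a⁻¹ := by rw [hv]; group
  rw [e, show a * v * a⁻¹ = z ^ i * v by rw [← hi, hcz]]
  exact mul_mem (zpow_mem (Subgroup.mem_zpowers z) i) hvz

/-- Over a central elementary subgroup of order eight carrying all fixed points there is at most
one more factor two. -/
theorem small_over_eight {G : Type u} [Group G] [Finite G] (hG : IsPGroup 2 G) {σ τ : G →* G}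
    (hσ : Function.Involutive σ) (hτ : Function.Injective τ) (hcomm : ∀ g, σ (τ g) = τ (σ g))
    {E : Subgroup G} [E.Normal] (hE : E ≤ Subgroup.center G) (hE2 : ∀ k ∈ E, k ^ 2 = 1)
    (hE8 : Nat.card E = 8) (hEσ : ∀ k ∈ E, σ k ∈ E) (hEτ : ∀ k ∈ E, τ k ∈ E) {z w y : G}
    (hy : y ∈ E) (hw : w ∈ E) (hσw : σ w = w * z) (hz2 : z ^ 2 = 1)
    (hfix : ∀ g, σ g = g → g = 1 ∨ g = z ∨ g = y ∨ g = y * z)
    (hfix4 : Nat.card (fixSub σ) ≤ 4) (hzE : z ∈ E) (hδE : ∀ k ∈ E, k * σ k = 1 ∨ k * σ k = z)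
    (hτy : τ y = y * z) (hτz : τ z = z) (hz1 : z ≠ 1) :
    Nat.card (G ⧸ E) ≤ 2 := by
  have hfixE : ∀ g, σ g = g → g ∈ E := fun g hg => by
    rcases hfix g hg with rfl | rfl | rfl | rfl
    exacts [one_mem E, hzE, hy, mul_mem hy hzE]
  have hEc : ∀ k ∈ E, ∀ g, g * k = k * g := fun k hk => Subgroup.mem_center_iff.1 (hE hk)
  by_contra hbig
  have hP := hG.to_quotient E
  have hσP := involutive_quotHom hσ hEσ
  have hf2 : Nat.card (fixSub (quotHom σ E hEσ)) ≤ 2 := by
    have h := card_fixSub_quotHom_mul_le hσ E hEσ (fixSub σ) fun k hk hσk =>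
      fixed_of_inverted_of_sq hσk (hE2 k hk)
    rw [hE8] at h
    have := Nat.mul_le_mul hfix4 hfix4
    omega
  have hne : (⊤ : Subgroup (G ⧸ E)) ≠ ⊥ := fun e => hbig (by
    rw [← Subgroup.card_top (G := G ⧸ E), e, Subgroup.card_bot]; omega)
  obtain ⟨db, -, hd1, hd2, hdσ⟩ := exists_fixed_involution hP hσP
    (fun _ _ => Subgroup.mem_top _) hne
  obtain ⟨d, rfl⟩ := QuotientGroup.mk'_surjective E db
  set π := QuotientGroup.mk' E with hπ
  have hdE : d ∉ E := fun h => hd1 ((QuotientGroup.eq_one_iff d).2 h)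
  -- some element moves to itself times `d`
  obtain ⟨r, hr⟩ : ∃ r : G, π r⁻¹ * π (σ r) = π d := by
    obtain ⟨v, hv, hidx, hall⟩ := exists_inverted_generator hP hσP hf2
    have hdv : π d ∈ Subgroup.zpowers v :=
      hall _ (by rw [hdσ]; exact (inv_eq_self_of_sq hd2).symm)
    by_cases hv2 : v ^ 2 = 1
    · obtain ⟨p, hp⟩ : ∃ p, p ∉ fixSub (quotHom σ E hEσ) := by
        by_contra h
        push Not at h
        exact hbig (by
          rw [← Subgroup.card_top (G := G ⧸ E)]
          exact (Subgroup.card_le_of_le fun p _ => h p).trans hf2)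
      obtain ⟨r, rfl⟩ := QuotientGroup.mk'_surjective E p
      refine ⟨r, ?_⟩
      have hinv : π r⁻¹ * π (σ r) ∈ Subgroup.zpowers v := hall _ (by
        rw [map_inv]
        exact map_inv_mul_self hσP (π r))
      have hne1 : π r⁻¹ * π (σ r) ≠ 1 := fun e => hp (by
        rw [map_inv, inv_mul_eq_one] at e
        exact e.symm)
      rcases eq_one_or_eq_of_mem_zpowers hv2 hinv with h | h
      · exact absurd h hne1
      rcases eq_one_or_eq_of_mem_zpowers hv2 hdv with h' | h'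
      · exact absurd h' hd1
      · rw [h, h']
    · obtain ⟨n, hn2, hn4⟩ := exists_pow_order_four hP hv2
      obtain ⟨r, hr⟩ := QuotientGroup.mk'_surjective E (v ^ n)
      refine ⟨r, ?_⟩
      have hσr : π (σ r) = (v ^ n)⁻¹ := by
        rw [← map_inverted_pow hv n, ← hr]
        rfl
      rw [map_inv, hr, hσr, ← mul_inv_rev, ← pow_two]
      have hsq : (((v ^ n) ^ 2)⁻¹) ^ 2 = 1 := by rw [inv_pow, ← pow_mul, hn4, inv_one]
      refine eq_of_card_le_two hf2 ?_ hdσ (inv_ne_one.2 hn2) hd1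
      refine mem_fixSub.2 (fixed_of_inverted_of_sq ?_ hsq)
      rw [map_inv, map_inverted_pow (map_inverted_pow hv n) 2]
  -- the square of `d` is `y` or `y z`
  obtain ⟨k, hk, hσd⟩ : ∃ k ∈ E, σ d = d * k :=
    ⟨_, (mk_mem_fixSub_iff hEσ).1 hdσ, by group⟩
  obtain ⟨k₁, hk₁, hσr⟩ : ∃ k ∈ E, σ r = r * d * k := by
    refine ⟨(r * d)⁻¹ * σ r, ?_, by group⟩
    rw [← QuotientGroup.eq_one_iff (N := E)]
    show π ((r * d)⁻¹ * σ r) = 1
    rw [map_mul, mul_inv_rev, map_mul, mul_assoc, hr, map_inv, inv_mul_cancel]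
  have hkσ : σ k = k := by
    have h := hσ d
    rw [hσd, map_mul, hσd, mul_assoc, mul_eq_left] at h
    calc σ k = k⁻¹ := eq_inv_of_mul_eq_one_right h
      _ = k := inv_eq_self_of_sq (hE2 k hk)
  have hk' : k = y ∨ k = y * z := by
    rcases hfix k hkσ with e | e | e | e
    · exact absurd (hfixE d (by rw [hσd, e, mul_one])) hdE
    · refine absurd ?_ hdE
      have hdw : d * w ∈ E := hfixE _ (by
        rw [map_mul, hσd, hσw, e, mul_assoc, ← mul_assoc z w, ← hEc z hzE w, mul_assoc w z z,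
          ← pow_two, hz2, mul_one])
      simpa using mul_mem hdw (inv_mem hw)
    · exact Or.inl e
    · exact Or.inr e
  have hd2' : d ^ 2 = y ∨ d ^ 2 = y * z := by
    have h := hσ r
    rw [hσr, map_mul, map_mul, hσr, hσd, mul_assoc, mul_assoc, mul_assoc, mul_eq_left] at h
    have h3 : d ^ 2 * k * (k₁ * σ k₁) = 1 := by
      calc d ^ 2 * k * (k₁ * σ k₁) = d * (d * k * k₁) * σ k₁ := by rw [pow_two]; group
        _ = d * (k₁ * (d * k)) * σ k₁ := by rw [← hEc k₁ hk₁ (d * k)]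
        _ = d * (k₁ * (d * k * σ k₁)) := by group
        _ = 1 := h
    rw [mul_assoc] at h3
    have h4 : d ^ 2 = k₁ * σ k₁ * k := by
      rw [eq_inv_of_mul_eq_one_left h3, mul_inv_rev, inv_eq_self_of_sq (hE2 k hk),
        inv_eq_self_of_sq (hE2 _ (mul_mem hk₁ (hEσ k₁ hk₁)))]
    have hyz : y * z * z = y := by rw [mul_assoc, ← pow_two, hz2, mul_one]
    rcases hδE k₁ hk₁ with e | e
    · rw [h4, e, one_mul]; exact hk'
    · rw [h4, e, ← hEc z hzE k]
      rcases hk' with e' | e'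
      · exact Or.inr (by rw [e'])
      · exact Or.inl (by rw [e', hyz])
  -- `τ` maps `d` into `d E`, but moves its square
  have hτd : (d⁻¹ * τ d) ∈ E := by
    rw [← QuotientGroup.eq_one_iff (N := E)]
    show π (d⁻¹ * τ d) = 1
    rw [map_mul, map_inv, inv_mul_eq_one]
    refine eq_of_card_le_two hf2 hdσ ?_ hd1 fun e => ?_
    · refine (mk_mem_fixSub_iff hEσ).2 ?_
      rw [hcomm, hσd, map_mul, inv_mul_cancel_left]
      exact hEτ k hk
    · have hmem : τ d ∈ E := (QuotientGroup.eq_one_iff _).1 e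
      have hinj : Function.Surjective (fun k : E => (⟨τ k, hEτ k k.2⟩ : E)) :=
        Finite.surjective_of_injective fun a b h => Subtype.ext (hτ (congrArg Subtype.val h))
      obtain ⟨e', he'⟩ := hinj ⟨τ d, hmem⟩
      exact hdE (hτ (congrArg Subtype.val he') ▸ e'.2)
  have hsq : τ (d ^ 2) = d ^ 2 := by
    rw [map_pow, show τ d = d * (d⁻¹ * τ d) by group, Commute.mul_pow (hEc _ hτd d), hE2 _ hτd,
      mul_one]
  rcases hd2' with e | e
  · rw [e, hτy, mul_eq_left] at hsq
    exact hz1 hsq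
  · rw [e, map_mul, hτy, hτz, mul_eq_left] at hsq
    exact hz1 hsq

/-- An involution with two fixed points, inverting a central element of order four, forces the
group to be cyclic when it has no other fixed point. -/
theorem isCyclic_of_fix_le_two {G : Type u} [Group G] [Finite G] (hG : IsPGroup 2 G) {τ : G →* G}
    (hτ : Function.Involutive τ) (hfix : Nat.card (fixSub τ) ≤ 2) {c : G}
    (hc : c ∈ Subgroup.center G) (hτc : τ c = c⁻¹) (hc2 : c ^ 2 ≠ 1) (hc4 : c ^ 4 = 1) :
    IsCyclic G := by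
  obtain ⟨v, hv, hidx, hall⟩ := exists_inverted_generator hG hτ hfix
  set V := Subgroup.zpowers v with hVdef
  have hcV : c ∈ V := hall c hτc
  by_cases hV : ∀ g, g ∈ V
  · exact isCyclic_iff_exists_zpowers_eq_top.2 ⟨v, eq_top_iff.2 fun g _ => hV g⟩
  push Not at hV
  obtain ⟨r, hr⟩ := hV
  have hidx2 : V.index = 2 := le_antisymm hidx (by
    rcases Nat.lt_or_ge V.index 2 with h | h
    · have := V.index_ne_zero_of_finite
      exact absurd (Subgroup.index_eq_one.1 (by omega : V.index = 1) ▸ Subgroup.mem_top r) hr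
    · exact h)
  have hVn : V.Normal := Subgroup.normal_of_index_eq_two hidx2
  obtain ⟨s, hs⟩ := Subgroup.mem_zpowers_iff.1 (Subgroup.sq_mem_of_index_two hidx2 r)
  rcases Int.even_or_odd s with ⟨s', hs'⟩ | hodd
  swap
  · refine isCyclic_iff_exists_zpowers_eq_top.2 ⟨r, eq_top_iff.2 fun g _ => ?_⟩
    have hVr : V ≤ Subgroup.zpowers r := by
      rw [hVdef, ← zpowers_zpow_odd hG hodd, hs, Subgroup.zpowers_le]
      exact pow_mem (Subgroup.mem_zpowers r) 2
    by_cases hg : g ∈ V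
    · exact hVr hg
    · have h : g * r⁻¹ ∈ V := by
        rw [Subgroup.mul_mem_iff_of_index_two hidx2]
        exact iff_of_false hg fun h => hr (inv_mem_iff.1 h)
      simpa using mul_mem (hVr h) (Subgroup.mem_zpowers r)
  exfalso
  have hτV : ∀ i : ℤ, τ (v ^ i) = (v ^ i)⁻¹ := map_inverted_zpow hv
  have hτr : r⁻¹ * τ r ∈ V := by
    rw [Subgroup.mul_mem_iff_of_index_two hidx2]
    refine iff_of_false (fun h => hr (inv_mem_iff.1 h)) fun h => hr ?_
    obtain ⟨i, hi⟩ := Subgroup.mem_zpowers_iff.1 h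
    rw [← hτ r, ← hi, hτV]
    exact inv_mem (Subgroup.zpow_mem_zpowers v i)
  obtain ⟨i, hi⟩ := Subgroup.mem_zpowers_iff.1 hτr
  have hτr' : τ r = r * v ^ i := by rw [hi]; group
  obtain ⟨j, hj⟩ := Subgroup.mem_zpowers_iff.1
    (by simpa using hVn.conj_mem v (Subgroup.mem_zpowers v) r⁻¹ : r⁻¹ * v * r ∈ V)
  obtain ⟨m, hm⟩ := Subgroup.mem_zpowers_iff.1 hcV
  rcases Int.even_or_odd i with ⟨i', hi'⟩ | hio
  · -- there is a fixed point outside `V`
    set p := r * v ^ i' with hp
    have hpfix : τ p = p := by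
      rw [hp, map_mul, hτr', hτV, hi', zpow_add]; group
    have hpV : p ∉ V := fun h => hr (by
      have := mul_mem h (inv_mem (Subgroup.zpow_mem_zpowers v i'))
      rwa [hp, mul_inv_cancel_right] at this)
    have h2 : τ (c ^ 2) = c ^ 2 := fixed_of_inverted_of_sq (map_inverted_pow hτc 2)
      (by rw [← pow_mul]; exact hc4)
    have := eq_of_card_le_two hfix (mem_fixSub.2 hpfix) (mem_fixSub.2 h2)
      (fun e => hpV (by rw [e]; exact one_mem V)) hc2
    exact hpV (this ▸ pow_mem hcV 2)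
  · have hcj : c ^ (j - 1) = 1 := by
      have h : c ^ j = c := by
        rw [← hm, ← zpow_mul, mul_comm, zpow_mul, hj]
        calc (r⁻¹ * v * r) ^ m = r⁻¹ * v ^ m * r := by
              conv_lhs => rw [show r⁻¹ * v * r = r⁻¹ * v * r⁻¹⁻¹ by group, conj_zpow, inv_inv]
          _ = c := by rw [hm, Subgroup.mem_center_iff.1 hc r⁻¹, inv_mul_cancel_right]
          _ = v ^ m := hm.symm
      rw [zpow_sub_one, h, mul_inv_cancel]
    obtain ⟨o, ho⟩ : ∃ o, j + 1 = 2 * (2 * o + 1) := by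
      rcases Int.even_or_odd (j - 1) with ⟨l, hl⟩ | hodd
      · rcases Int.even_or_odd l with ⟨o, ho⟩ | hodd'
        · exact ⟨o, by omega⟩
        · exfalso
          rw [hl, ← two_mul, zpow_mul, zpow_two, ← pow_two] at hcj
          exact hc2 (eq_one_of_odd_zpow hG hodd' hcj)
      · exact absurd (eq_one_of_odd_zpow hG hodd hcj) fun h => hc2 (by rw [h, one_pow])
    have h1 : r⁻¹ * v ^ i * r = v ^ (j * i) := by
      rw [zpow_mul, hj, show r⁻¹ * v * r = r⁻¹ * v * r⁻¹⁻¹ by group, conj_zpow, inv_inv]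
    have hsq : τ (r ^ 2) = r ^ 2 * v ^ (i * (j + 1)) := by
      rw [map_pow, hτr', pow_two, pow_two]
      calc r * v ^ i * (r * v ^ i) = r * r * (r⁻¹ * v ^ i * r) * v ^ i := by group
        _ = r * r * v ^ (i * (j + 1)) := by
          rw [h1, mul_assoc (r * r), ← zpow_add]; ring_nf
    rw [← hs, hτV, ← zpow_neg, ← zpow_add] at hsq
    have he : (v ^ 2) ^ (2 * s' + i * (2 * o + 1)) = 1 := by
      have : v ^ (s + i * (j + 1) - -s) = 1 := by rw [zpow_sub, ← hsq, mul_inv_cancel]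
      rw [← this, ← zpow_natCast v 2, ← zpow_mul, hs', ho]
      congr 1
      push_cast
      ring
    have hv2 : v ^ 2 = 1 := by
      refine eq_one_of_odd_zpow hG ?_ he
      exact (even_two_mul s').add_odd (hio.mul ⟨o, by ring⟩)
    refine hc2 ?_
    rw [← hm, ← zpow_natCast _ 2, ← zpow_mul, mul_comm, zpow_mul, zpow_natCast, hv2, one_zpow]

end CfsgLib.SectRank
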