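import Cfsg.Agent.SectRank.InvolutionFix

/-!
A finite 2-group with an involutive endomorphism whose fixed points form a cyclic group, and with a
central four group on which it acts freely, has sectional 2-rank at most two.
-/

set_option autoImplicit false

namespace CfsgLib.SectRank

universe u

variable {G : Type u} [Group G]

theorem mem_closure_pair {z w x : G} (hz : z ^ 2 = 1) (hw : w ^ 2 = 1) (hc : Commute z w) :
    x ∈ Subgroup.closure ({z, w} : Set G) ↔ x = 1 ∨ x = z ∨ x = w ∨ x = w * z := by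
  rw [pow_two] at hz hw
  have hzi : z⁻¹ = z := inv_eq_of_mul_eq_one_right hz
  have hwi : w⁻¹ = w := inv_eq_of_mul_eq_one_right hw
  have hzw : z * w = w * z := hc.eq
  have t3 : w * z * z = w := by rw [mul_assoc, hz, mul_one]
  have t2 : w * (w * z) = z := by rw [← mul_assoc, hw, one_mul]
  have t1 : z * (w * z) = w := by rw [← mul_assoc, hzw, t3]
  have t4 : w * z * w = z := by rw [mul_assoc, hzw, t2]
  have t5 : w * z * (w * z) = 1 := by rw [← mul_assoc, t4, hz]
  constructor
  · intro h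
    induction h using Subgroup.closure_induction with
    | mem y hy =>
      rcases hy with rfl | rfl
      · exact Or.inr (Or.inl rfl)
      · exact Or.inr (Or.inr (Or.inl rfl))
    | one => exact Or.inl rfl
    | mul a b _ _ ha hb =>
      rcases ha with rfl | rfl | rfl | rfl <;> rcases hb with rfl | rfl | rfl | rfl <;>
        simp [hz, hw, hzw, t1, t2, t3, t4, t5]
    | inv a _ ha => rcases ha with rfl | rfl | rfl | rfl <;> simp [hzi, hwi, hzw]
  · rintro (rfl | rfl | rfl | rfl)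
    · exact one_mem _
    · exact Subgroup.subset_closure (Or.inl rfl)
    · exact Subgroup.subset_closure (Or.inr rfl)
    · exact mul_mem (Subgroup.subset_closure (Or.inr rfl)) (Subgroup.subset_closure (Or.inl rfl))

theorem card_closure_pair [Finite G] {z w : G} (hz : z ^ 2 = 1) (hw : w ^ 2 = 1) (hc : Commute z w)
    (hz1 : z ≠ 1) (hw1 : w ≠ 1) (hwz : w ≠ z) :
    Nat.card (Subgroup.closure ({z, w} : Set G)) = 4 := by
  have hset : ((Subgroup.closure ({z, w} : Set G) : Subgroup G) : Set G) = {1, z, w, w * z} := by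
    ext x
    exact mem_closure_pair hz hw hc
  rw [← SetLike.coe_sort_coe, Nat.card_coe_set_eq, hset]
  have e1 : w * z ≠ 1 := fun e => hwz (by
    rw [pow_two] at hz
    exact mul_right_cancel (e.trans hz.symm))
  have e2 : w * z ≠ z := fun e => hw1 (mul_eq_right.1 e)
  have e3 : w * z ≠ w := fun e => hz1 (mul_eq_left.1 e)
  rw [Set.ncard_insert_of_notMem (by simp [hz1.symm, hw1.symm, e1.symm]),
    Set.ncard_insert_of_notMem (by simp [hwz.symm, e2.symm]),
    Set.ncard_insert_of_notMem (by simp [e3.symm]), Set.ncard_singleton]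

theorem closure_pair_normal {z w : G} (hz : z ∈ Subgroup.center G) (hw : w ∈ Subgroup.center G) :
    (Subgroup.closure ({z, w} : Set G)).Normal :=
  ⟨fun a ha g => by
    have hac : a ∈ Subgroup.center G :=
      ((Subgroup.closure_le _).2 (by rintro x (rfl | rfl) <;> assumption)) ha
    rwa [Subgroup.mem_center_iff.1 hac g, mul_inv_cancel_right]⟩

/-- A 2-group with one central involution `c` and in which `[g, x], x² ∈ ⟨c⟩` forces `g` and `x`
to commute is cyclic. -/
theorem isCyclic_of_central_involution [Finite G] (hG : IsPGroup 2 G) {c : G}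
    (hc : c ∈ Subgroup.center G) (hc1 : c ≠ 1) (hc2 : c ^ 2 = 1)
    (hL : ∀ g x : G, g * x * g⁻¹ * x⁻¹ ∈ Subgroup.zpowers c → x ^ 2 ∈ Subgroup.zpowers c →
      g * x = x * g)
    (huniq : ∀ i ∈ Subgroup.center G, i ^ 2 = 1 → i = 1 ∨ i = c) : IsCyclic G := by
  have : Fact (Nat.Prime 2) := ⟨Nat.prime_two⟩
  have hcc : ∀ g, g * c = c * g := Subgroup.mem_center_iff.1 hc
  have : (Subgroup.zpowers c).Normal := ⟨fun a ha g => by
    have hac : a ∈ Subgroup.center G := (Subgroup.zpowers_le.2 hc) ha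
    rwa [Subgroup.mem_center_iff.1 hac g, mul_inv_cancel_right]⟩
  have hcmem : ∀ x, x = 1 ∨ x = c → x ∈ Subgroup.zpowers c := by
    rintro x (rfl | rfl)
    · exact one_mem _
    · exact Subgroup.mem_zpowers x
  obtain ⟨Y, hcY, hY⟩ := PGroup.exists_maximal_normal_abelian (A₀ := Subgroup.zpowers c)
    inferInstance
  have hYC := PGroup.centralizer_eq_of_maximal_normal_abelian hG hY
  have := hY.1.1
  have hYc : ∀ a ∈ Y, ∀ b ∈ Y, a * b = b * a := fun a ha b hb =>
    congrArg Subtype.val (isMulCommutative_iff.1 hY.1.2 ⟨a, ha⟩ ⟨b, hb⟩)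
  have hcY' : c ∈ Y := hcY (Subgroup.mem_zpowers c)
  have hinv : ∀ i ∈ Y, i ^ 2 = 1 → i = 1 ∨ i = c := by
    by_contra hno
    push Not at hno
    obtain ⟨i, hiY, hi2, hi1, hic⟩ := hno
    let M : Subgroup G :=
      { carrier := {y | y ∈ Y ∧ y ^ 2 = 1}
        one_mem' := ⟨one_mem Y, one_pow 2⟩
        mul_mem' := fun {a b} ha hb => ⟨mul_mem ha.1 hb.1, by
          rw [Commute.mul_pow (hYc a ha.1 b hb.1), ha.2, hb.2, one_mul]⟩
        inv_mem' := fun {a} ha => ⟨inv_mem ha.1, by rw [inv_pow, ha.2, inv_one]⟩ }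
    have : M.Normal := ⟨fun a ha g => ⟨Subgroup.Normal.conj_mem inferInstance a ha.1 g, by
      rw [conj_pow, ha.2, mul_one, mul_inv_cancel]⟩⟩
    have hlt : Subgroup.zpowers c < M := by
      refine lt_of_le_of_ne (Subgroup.zpowers_le.2 ⟨hcY', hc2⟩) fun e => ?_
      have hiM : i ∈ Subgroup.zpowers c := e ▸ (⟨hiY, hi2⟩ : i ∈ M)
      exact hic (eq_of_involutions_mem_zpowers hG hiM (Subgroup.mem_zpowers c) hi1 hc1 hi2 hc2)
    obtain ⟨q, hqM, hqc, hq2, hqcomm, -⟩ := exists_step (σ := MonoidHom.id G) hG (fun _ => rfl)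
      (fun _ h => h) (fun _ h => h) hlt
    refine hqc (hcmem q (huniq q (Subgroup.mem_center_iff.2 fun g => hL g q (hqcomm g) hq2) hqM.2))
  obtain ⟨y, hy⟩ := (Subgroup.isCyclic_iff_exists_zpowers_eq_top Y).1
    (isCyclic_of_comm hG hYc fun a ha b hb ha2 hb2 ha1 hb1 =>
      ((hinv a ha ha2).resolve_left ha1).trans ((hinv b hb hb2).resolve_left hb1).symm)
  rcases eq_or_ne Y ⊤ with htop | htop
  · exact (Subgroup.topEquiv.isCyclic).1 (htop ▸ hy ▸ Subgroup.isCyclic_zpowers y)
  exfalso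
  have hyY : y ∈ Y := hy ▸ Subgroup.mem_zpowers y
  obtain ⟨n, -, hnY, hn2, hnc, -⟩ := exists_step (σ := MonoidHom.id G) (M := (⊤ : Subgroup G)) hG
    (fun _ => rfl) (fun _ h => h) (fun _ h => h) (lt_top_iff_ne_top.2 htop : Y < ⊤)
  -- roots of `c` in `Y` are central
  have hroot : ∀ x ∈ Y, x ^ 2 = c → ∀ g, g * x = x * g := fun x hx hx2 g => by
    refine hL g x (hcmem _ (hinv _ ?_ ?_)) (hx2 ▸ Subgroup.mem_zpowers c)
    · exact mul_mem (Subgroup.Normal.conj_mem inferInstance x hx g) (inv_mem hx)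
    · rw [Commute.mul_pow (hYc _ (Subgroup.Normal.conj_mem inferInstance x hx g) _ (inv_mem hx)),
        conj_pow, inv_pow, hx2, hcc, mul_inv_cancel_right, mul_inv_cancel]
  have hny : n * y ≠ y * n := fun e => hnY (hYC ▸ Subgroup.mem_centralizer_iff.2 fun b hb => by
    obtain ⟨i, rfl⟩ := Subgroup.mem_zpowers_iff.1 (hy ▸ hb : b ∈ Subgroup.zpowers y)
    exact ((Commute.zpow_left (Commute.symm e) i)).eq)
  have hy2 : y ^ 2 ≠ 1 := fun h => by
    rcases hinv y hyY h with e | e
    · exact hny (by rw [e]; group)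
    · exact hny (by rw [e]; exact hcc n)
  have hy4 : y ^ 4 ≠ 1 := fun h => by
    have h' : (y ^ 2) ^ 2 = 1 := by rw [← pow_mul]; exact h
    exact hny (hroot y hyY ((hinv _ (pow_mem hyY 2) h').resolve_left hy2) n)
  obtain ⟨m, hm2, hm4⟩ := exists_pow_order_four hG hy2
  have hmc : (y ^ m) ^ 2 = c := (hinv _ (pow_mem (pow_mem hyY m) 2)
    (by rw [← pow_mul]; exact hm4)).resolve_left hm2
  have hmcen := hroot (y ^ m) (pow_mem hyY m) hmc
  obtain ⟨k, hk⟩ := Subgroup.mem_zpowers_iff.1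
    (hy ▸ Subgroup.Normal.conj_mem inferInstance y hyY n : n * y * n⁻¹ ∈ Subgroup.zpowers y)
  have hconjz : ∀ a : ℤ, n * y ^ a * n⁻¹ = (y ^ k) ^ a := fun a => by rw [hk, conj_zpow]
  -- the exponent is one modulo four
  obtain ⟨r, hr⟩ : Odd k := by
    refine (Int.even_or_odd k).resolve_left ?_
    rintro ⟨r, rfl⟩
    obtain ⟨j, hj⟩ := Subgroup.mem_zpowers_iff.1
      (hy ▸ (by simpa using Subgroup.Normal.conj_mem inferInstance _ (zpow_mem hyY r) n⁻¹) :
        n⁻¹ * y ^ r * n ∈ Subgroup.zpowers y)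
    have he : y = y ^ (2 * j) := by
      rw [two_mul, zpow_add, hj]
      calc y = n⁻¹ * (n * y * n⁻¹) * n := by group
        _ = n⁻¹ * y ^ r * n * (n⁻¹ * y ^ r * n) := by rw [← hk, zpow_add]; group
    have : y = 1 := eq_one_of_odd_zpow hG (n := 2 * j - 1) ⟨j - 1, by ring⟩
      (by rw [zpow_sub_one, ← he, mul_inv_cancel])
    exact hy2 (by rw [this, one_pow])
  obtain ⟨t, ht⟩ : Odd (r + 1) := by
    rcases Int.even_or_odd r with ⟨t, ht⟩ | ⟨t, ht⟩
    · exact ⟨t, by omega⟩
    exfalso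
    have h1 : (y ^ k) ^ (m : ℤ) = y ^ (m : ℤ) := by
      rw [← hconjz, zpow_natCast, hmcen n, mul_inv_cancel_right]
    rw [← zpow_mul, mul_comm, zpow_mul, zpow_natCast] at h1
    have hc' : ((y ^ m) ^ (2 : ℤ)) = c := by rw [zpow_two, ← pow_two, hmc]
    rw [hr, zpow_add_one, mul_eq_right, ht, zpow_mul, hc', zpow_add_one, zpow_mul, zpow_two,
      ← pow_two, hc2, one_zpow, one_mul] at h1
    exact hc1 h1
  -- so `n` maps `y` to `c y`
  set d := y ^ (2 * r) with hd
  have hconj : n * y * n⁻¹ = d * y := by rw [← hk, hr, zpow_add_one]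
  have hd2 : d ^ 2 = 1 := by
    refine eq_one_of_odd_zpow hG (n := r + 1) ⟨t, ht⟩ ?_
    obtain ⟨a, ha⟩ := Subgroup.mem_zpowers_iff.1 (hy ▸ hn2 : n ^ 2 ∈ Subgroup.zpowers y)
    have h2 : y ^ (k * k) = y := by
      rw [zpow_mul, ← hconjz k, hk]
      calc n * (n * y * n⁻¹) * n⁻¹ = n ^ 2 * y * (n ^ 2)⁻¹ := by rw [pow_two]; group
        _ = y := by rw [← ha]; group
    rw [hd, ← zpow_natCast (y ^ (2 * r)) 2, ← zpow_mul, ← zpow_mul]
    have h3 : y ^ (k * k - 1) = 1 := by rw [zpow_sub_one, h2, mul_inv_cancel]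
    rw [← h3, hr]
    congr 1
    push_cast
    ring
  have hdc : d = c := (hinv d (zpow_mem hyY _) hd2).resolve_left fun h => hny (by
    rw [h, one_mul, mul_inv_eq_iff_eq_mul] at hconj
    exact hconj)
  have hconja : ∀ a : ℤ, n * y ^ a * n⁻¹ = c ^ a * y ^ a := fun a => by
    rw [← conj_zpow, hconj, hdc]
    exact Commute.mul_zpow (hcc y).symm a
  have hcodd : ∀ {a : ℤ}, Odd a → c ^ a = c := fun {a} h => by
    obtain ⟨b, rfl⟩ := h
    rw [zpow_add_one, zpow_mul, zpow_two, ← pow_two, hc2, one_zpow, one_mul]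
  have hceven : ∀ {a : ℤ}, Even a → c ^ a = 1 := fun {a} h => by
    obtain ⟨b, rfl⟩ := h
    rw [← two_mul, zpow_mul, zpow_two, ← pow_two, hc2, one_zpow]
  obtain ⟨s, hs⟩ := Subgroup.mem_zpowers_iff.1 (hy ▸ hn2 : n ^ 2 ∈ Subgroup.zpowers y)
  obtain ⟨s', hs'⟩ : Even s := by
    refine (Int.even_or_odd s).resolve_right fun h => hc1 ?_
    have e := hconja s
    rw [hcodd h, hs] at e
    have e2 : n * n ^ 2 * n⁻¹ = n ^ 2 := by group
    rw [e2] at e
    exact mul_eq_right.1 e.symm
  have hsqn : ∀ j : ℤ, (n * y ^ j) ^ 2 = c ^ j * y ^ (2 * j + s) := fun j => by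
    calc (n * y ^ j) ^ 2 = n * y ^ j * n⁻¹ * n ^ 2 * y ^ j := by rw [pow_two, pow_two]; group
      _ = c ^ j * y ^ j * y ^ s * y ^ j := by rw [hconja, hs]
      _ = _ := by rw [mul_assoc, mul_assoc, ← zpow_add, ← zpow_add]; ring_nf
  obtain ⟨j, hj⟩ : ∃ j : ℤ, (n * y ^ j) ^ 2 = 1 := by
    rcases Int.even_or_odd s' with h | h
    · refine ⟨-s', ?_⟩
      rw [hsqn, hceven h.neg, one_mul, hs', show 2 * -s' + (s' + s') = 0 by ring, zpow_zero]
    · have hm : Even (m : ℤ) := by
        refine (Int.even_or_odd (m : ℤ)).resolve_right fun hodd => hy4 ?_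
        have := zpowers_zpow_odd (x := y) hG hodd
        rw [zpow_natCast] at this
        obtain ⟨a, ha⟩ := Subgroup.mem_zpowers_iff.1 (this ▸ Subgroup.mem_zpowers y)
        rw [← ha, ← zpow_natCast, ← zpow_mul, mul_comm a, zpow_mul, zpow_natCast, hm4, one_zpow]
      refine ⟨-s' + m, ?_⟩
      rw [hsqn, hcodd (h.neg.add_even hm), hs',
        show 2 * (-s' + m) + (s' + s') = (m : ℤ) * 2 by ring, zpow_mul, zpow_two, zpow_natCast,
        ← pow_two (y ^ m), hmc, ← pow_two, hc2]
  set n' := n * y ^ j with hn'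
  have hn'Y : n' ∉ Y := fun h => hnY (by
    simpa [hn'] using mul_mem h (inv_mem (zpow_mem hyY j)))
  refine hn'Y ?_
  have hcen : n' ∈ Subgroup.center G := by
    refine Subgroup.mem_center_iff.2 fun g => hL g n' ?_ (by rw [hj]; exact one_mem _)
    set u := n'⁻¹ * (g * n' * g⁻¹) with hu
    have huY : u ∈ Y := by
      have e : u = (y ^ j)⁻¹ * (n⁻¹ * (g * n * g⁻¹ * n⁻¹) * n⁻¹⁻¹) * (g * y ^ j * g⁻¹) := by
        rw [hu, hn']; group
      rw [e]
      exact mul_mem (mul_mem (inv_mem (zpow_mem hyY j))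
        (Subgroup.Normal.conj_mem inferInstance _ (hnc g) _))
        (Subgroup.Normal.conj_mem inferInstance _ (zpow_mem hyY j) g)
    obtain ⟨a, ha⟩ := Subgroup.mem_zpowers_iff.1 (hy ▸ huY : u ∈ Subgroup.zpowers y)
    have hn'i : n'⁻¹ = n' := inv_eq_of_mul_eq_one_right (by rw [← pow_two, hj])
    have hconj' : n' * u * n'⁻¹ = c ^ a * u := by
      rw [← ha, hn', show n * y ^ j * y ^ a * (n * y ^ j)⁻¹ = n * y ^ a * n⁻¹ by group, hconja]
    have h1 : c ^ a * u * u = 1 := by
      calc c ^ a * u * u = n' * u * n' * u := by rw [← hconj', hn'i]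
        _ = (g * n' * g⁻¹) ^ 2 := by rw [hu, pow_two]; group
        _ = 1 := by rw [conj_pow, hj, mul_one, mul_inv_cancel]
    have huc : u = 1 ∨ u = c := by
      rcases Int.even_or_odd a with h | h
      · refine hinv u huY ?_
        rw [hceven h, one_mul] at h1
        rw [pow_two]; exact h1
      · exfalso
        rw [hcodd h, mul_assoc, ← ha, ← zpow_add] at h1
        refine hy4 (eq_one_of_odd_zpow hG h ?_)
        have hcy : y ^ (a + a) = c := by
          rw [pow_two] at hc2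
          exact mul_left_cancel (h1.trans hc2.symm)
        calc (y ^ 4) ^ a = (y ^ (a + a)) ^ 2 := by
              rw [← zpow_natCast y 4, ← zpow_natCast _ 2, ← zpow_mul, ← zpow_mul]; ring_nf
          _ = 1 := by rw [hcy, hc2]
    have e : g * n' * g⁻¹ * n'⁻¹ = n' * u * n'⁻¹ := by rw [hu]; group
    rw [e, hconj']
    exact mul_mem (zpow_mem (Subgroup.mem_zpowers c) a) (hcmem u huc)
  rcases huniq n' hcen hj with e | e
  · rw [e]; exact one_mem Y
  · rw [e]; exact hcY'

/-- A central four group `{1, z, w, wz}` on which `σ` acts freely, and a central fixed square root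
`c` of `z`, the fixed points being cyclic. -/
structure FreeFour (σ : G →* G) (z w c : G) : Prop where
  hσ : Function.Involutive σ
  z_ne : z ≠ 1
  z_sq : z ^ 2 = 1
  z_cen : z ∈ Subgroup.center G
  z_fix : σ z = z
  w_sq : w ^ 2 = 1
  w_cen : w ∈ Subgroup.center G
  w_map : σ w = w * z
  c_cen : c ∈ Subgroup.center G
  c_fix : σ c = c
  c_sq : c ^ 2 = z
  fix_cyclic : IsCyclic (fixSub σ)

variable {σ : G →* G} {z w c : G}

theorem FreeFour.w_ne (h : FreeFour σ z w c) : w ≠ 1 := fun e => h.z_ne (by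
  have := h.w_map
  rw [e, map_one, one_mul] at this
  exact this.symm)

theorem FreeFour.w_ne_z (h : FreeFour σ z w c) : w ≠ z := fun e => h.z_ne (by
  have := h.w_map
  rw [e, h.z_fix] at this
  exact mul_eq_left.1 this.symm)

theorem FreeFour.commute_zw (h : FreeFour σ z w c) : Commute z w :=
  (Subgroup.mem_center_iff.1 h.z_cen w).symm

theorem FreeFour.fixed_involution [Finite G] (hG : IsPGroup 2 G) (h : FreeFour σ z w c) {i : G}
    (hi : σ i = i) (h2 : i ^ 2 = 1) : i = 1 ∨ i = z := by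
  rcases eq_or_ne i 1 with e | e
  · exact Or.inl e
  obtain ⟨φ, hφ⟩ := (Subgroup.isCyclic_iff_exists_zpowers_eq_top _).1 h.fix_cyclic
  exact Or.inr (eq_of_involutions_mem_zpowers hG (hφ ▸ (mem_fixSub.2 hi))
    (hφ ▸ (mem_fixSub.2 h.z_fix)) e h.z_ne h2 h.z_sq)

theorem FreeFour.root_central [Finite G] (hG : IsPGroup 2 G) (h : FreeFour σ z w c) {x : G}
    (hx : σ x = x) (h2 : x ^ 2 = z) : x ∈ Subgroup.center G := by
  have hcx : Commute x c⁻¹ := Commute.inv_right (Subgroup.mem_center_iff.1 h.c_cen x)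
  rcases h.fixed_involution hG (i := x * c⁻¹) (by rw [map_mul, map_inv, hx, h.c_fix])
    (by rw [hcx.mul_pow, h2, inv_pow, h.c_sq, mul_inv_cancel]) with e | e
  · rw [mul_inv_eq_one.1 e]; exact h.c_cen
  · rw [mul_inv_eq_iff_eq_mul.1 e]; exact mul_mem h.z_cen h.c_cen

variable [Finite G]

theorem FreeFour.involution_mem (hG : IsPGroup 2 G) (h : FreeFour σ z w c) {i : G}
    (hi2 : i ^ 2 = 1) : i ∈ Subgroup.closure ({z, w} : Set G) := by
  rw [mem_closure_pair h.z_sq h.w_sq h.commute_zw]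
  have hi : i⁻¹ = i := inv_eq_of_mul_eq_one_right (by rw [← pow_two, hi2])
  have hzc := Subgroup.mem_center_iff.1 h.z_cen
  have hwc := Subgroup.mem_center_iff.1 h.w_cen
  have hz' := h.z_sq
  rw [pow_two] at hz'
  set j := i * σ i with hj
  have hσi : (σ i)⁻¹ = σ i := by rw [← map_inv, hi]
  have hjinv : σ j = j⁻¹ := by rw [hj, map_mul, h.hσ i, mul_inv_rev, hσi, hi]
  by_cases hj2 : j ^ 2 = 1
  · rcases h.fixed_involution hG (fixed_of_inverted_of_sq hjinv hj2) hj2 with e | e
    · -- `i` is fixed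
      have hfix : σ i = i := by rw [← hσi, ← eq_inv_of_mul_eq_one_left (hj ▸ e)]
      rcases h.fixed_involution hG hfix hi2 with e' | e'
      · exact Or.inl e'
      · exact Or.inr (Or.inl e')
    · have hfix : σ i = i * z := by rw [← e, hj, ← mul_assoc, ← pow_two, hi2, one_mul]
      have h1 : σ (i * w) = i * w := by
        rw [map_mul, hfix, h.w_map, mul_assoc, ← mul_assoc z, ← hzc w, mul_assoc w, hz', mul_one]
      rcases h.fixed_involution hG h1
        (by rw [Commute.mul_pow (hwc i), hi2, h.w_sq, one_mul]) with e' | e'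
      · right; right; left
        rw [eq_inv_of_mul_eq_one_left e']
        exact inv_eq_of_mul_eq_one_right (by rw [← pow_two, h.w_sq])
      · right; right; right
        have hw' := h.w_sq
        rw [pow_two] at hw'
        calc i = i * w * w := by rw [mul_assoc, hw', mul_one]
          _ = w * z := by rw [e', ← hzc w]
  · exfalso
    obtain ⟨n, hn2, hn4⟩ := exists_pow_order_four hG hj2
    set j₀ := j ^ n with hj₀
    have hj₀i : σ j₀ = j₀⁻¹ := map_inverted_pow hjinv n
    have hj₀z : j₀ ^ 2 = z := by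
      have h4 : (j₀ ^ 2) ^ 2 = 1 := by rw [← pow_mul]; exact hn4
      exact (h.fixed_involution hG (fixed_of_inverted_of_sq (map_inverted_pow hj₀i 2) h4)
        h4).resolve_left hn2
    have hji : j₀⁻¹ = j₀ * z := inv_eq_of_mul_eq_one_right (by
      rw [← mul_assoc, ← pow_two, hj₀z, hz'])
    have hfix : σ (j₀ * w) = j₀ * w := by
      rw [map_mul, hj₀i, hji, h.w_map, mul_assoc, ← mul_assoc z, ← hzc w, mul_assoc w, hz',
        mul_one]
    have hcen : j₀ ∈ Subgroup.center G := by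
      have := mul_mem (h.root_central hG hfix
        (by rw [Commute.mul_pow (hwc j₀), hj₀z, h.w_sq, mul_one])) (inv_mem h.w_cen)
      rwa [mul_inv_cancel_right] at this
    have hconj : i * j₀ * i⁻¹ = j₀⁻¹ := by
      rw [hj₀, ← conj_pow, ← inv_pow, hj, mul_inv_rev, hσi, hi, ← mul_assoc i, ← pow_two, hi2,
        one_mul]
    rw [Subgroup.mem_center_iff.1 hcen i, mul_inv_cancel_right] at hconj
    refine hn2 ?_
    rw [pow_two]
    nth_rewrite 2 [hconj]
    exact mul_inv_cancel j₀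

/-- The fixed points of the quotient are the image of the fixed points. -/
theorem fixSub_quotHom_eq_map (hσ : Function.Involutive σ) (N : Subgroup G) [N.Normal]
    (hN : ∀ x ∈ N, σ x ∈ N) (J : Subgroup G) (hJ : ∀ n ∈ N, σ n = n⁻¹ → n ∈ J)
    (hcard : Nat.card ↥(fixSub σ ⊓ N) * Nat.card J ≤ Nat.card N) :
    fixSub (quotHom σ N hN) = (fixSub σ).map (QuotientGroup.mk' N) := by
  have hle : (fixSub σ).map (QuotientGroup.mk' N) ≤ fixSub (quotHom σ N hN) := by
    rintro _ ⟨g, hg, rfl⟩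
    have hg' : σ g = g := hg
    show quotHom σ N hN (g : G ⧸ N) = _
    rw [quotHom_mk, hg']
    rfl
  refine (Subgroup.eq_of_le_of_card_ge hle ?_).symm
  refine Nat.le_of_mul_le_mul_right ?_ (Nat.card_pos (α := N))
  calc _ ≤ Nat.card (fixSub σ) * Nat.card J := card_fixSub_quotHom_mul_le hσ N hN J hJ
    _ = Nat.card ((fixSub σ).map (QuotientGroup.mk' N)) *
        (Nat.card ↥(fixSub σ ⊓ N) * Nat.card J) := by
      rw [← card_inf_mul_card_map_mk N (fixSub σ)]; ring
    _ ≤ _ := Nat.mul_le_mul_left _ hcard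

omit [Finite G] in
theorem isCyclic_map {K : Type*} [Group K] (f : G →* K) {H : Subgroup G} (h : IsCyclic H) :
    IsCyclic (H.map f) := by
  obtain ⟨v, hv⟩ := (Subgroup.isCyclic_iff_exists_zpowers_eq_top H).1 h
  exact (Subgroup.isCyclic_iff_exists_zpowers_eq_top _).2
    ⟨f v, by rw [← hv, MonoidHom.map_zpowers]⟩

omit [Finite G] in
theorem FreeFour.normal_closure_pair (h : FreeFour σ z w c) :
    (Subgroup.closure ({z, w} : Set G)).Normal :=
  closure_pair_normal h.z_cen h.w_cen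

omit [Finite G] in
theorem FreeFour.closure_invariant (h : FreeFour σ z w c) :
    ∀ x ∈ Subgroup.closure ({z, w} : Set G), σ x ∈ Subgroup.closure ({z, w} : Set G) := by
  intro x hx
  have hz := Subgroup.subset_closure (k := ({z, w} : Set G)) (Or.inl rfl)
  have hw := Subgroup.subset_closure (k := ({z, w} : Set G)) (Or.inr rfl)
  rcases (mem_closure_pair h.z_sq h.w_sq h.commute_zw).1 hx with rfl | rfl | rfl | rfl
  · rw [map_one]; exact one_mem _
  · rw [h.z_fix]; exact hz
  · rw [h.w_map]; exact mul_mem hw hz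
  · rw [map_mul, h.w_map, h.z_fix]; exact mul_mem (mul_mem hw hz) hz

omit [Finite G] in
theorem FreeFour.fixed_mem_four (h : FreeFour σ z w c) {x : G} (hx : σ x = x)
    (hW : x ∈ Subgroup.closure ({z, w} : Set G)) : x ∈ Subgroup.zpowers z := by
  rcases (mem_closure_pair h.z_sq h.w_sq h.commute_zw).1 hW with rfl | rfl | rfl | rfl
  · exact one_mem _
  · exact Subgroup.mem_zpowers x
  · rw [h.w_map] at hx
    exact absurd (mul_eq_left.1 hx) h.z_ne
  · rw [map_mul, h.w_map, h.z_fix] at hx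
    exact absurd (mul_eq_left.1 hx) h.z_ne

theorem FreeFour.card_zpowers_le (h : FreeFour σ z w c) :
    Nat.card (Subgroup.zpowers z) ≤ 2 := by
  rw [Nat.card_zpowers, orderOf_eq_prime h.z_sq h.z_ne]

theorem FreeFour.card_four (h : FreeFour σ z w c) :
    Nat.card (Subgroup.closure ({z, w} : Set G)) = 4 :=
  card_closure_pair h.z_sq h.w_sq h.commute_zw h.z_ne h.w_ne h.w_ne_z

theorem FreeFour.fix_quot (h : FreeFour σ z w c)
    [(Subgroup.closure ({z, w} : Set G)).Normal] :
    fixSub (quotHom σ _ h.closure_invariant) =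
      (fixSub σ).map (QuotientGroup.mk' (Subgroup.closure ({z, w} : Set G))) := by
  refine fixSub_quotHom_eq_map h.hσ _ _ (Subgroup.zpowers z) (fun x hx hσx => ?_) ?_
  · refine h.fixed_mem_four (fixed_of_inverted_of_sq hσx ?_) hx
    rcases (mem_closure_pair h.z_sq h.w_sq h.commute_zw).1 hx with rfl | rfl | rfl | rfl
    · exact one_pow 2
    · exact h.z_sq
    · exact h.w_sq
    · rw [h.commute_zw.symm.mul_pow, h.w_sq, h.z_sq, one_mul]
  · calc _ ≤ Nat.card (Subgroup.zpowers z) * Nat.card (Subgroup.zpowers z) :=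
          Nat.mul_le_mul_right _ (Subgroup.card_le_of_le fun x (hx : x ∈ fixSub σ ⊓ _) => h.fixed_mem_four hx.1 hx.2)
      _ ≤ 2 * 2 := Nat.mul_le_mul h.card_zpowers_le h.card_zpowers_le
      _ = _ := h.card_four.symm

/-- The structure theorem: few involutions, small gaps, and small subgroups are cyclic. -/
theorem FreeFour.main : ∀ {G : Type u} [Group G] [Finite G], IsPGroup 2 G →
    ∀ {σ : G →* G} {z w c : G}, FreeFour σ z w c →
      HasRK 2 G ∧ ∀ H : Subgroup G, ¬ Subgroup.closure ({z, w} : Set G) ≤ H → IsCyclic H := by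
  intro G _ _ hG σ z w c h
  induction hn : Nat.card G using Nat.strong_induction_on generalizing G with
  | _ n ih =>
  have : Fact (Nat.Prime 2) := ⟨Nat.prime_two⟩
  set W := Subgroup.closure ({z, w} : Set G) with hW
  have hWn : W.Normal := h.normal_closure_pair
  have hWσ := h.closure_invariant
  have hcard : Nat.card W = 4 := h.card_four
  have hWcen : W ≤ Subgroup.center G :=
    (Subgroup.closure_le _).2 (by rintro x (rfl | rfl); exacts [h.z_cen, h.w_cen])
  have hzW : z ∈ W := Subgroup.subset_closure (Or.inl rfl)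
  have hwW : w ∈ W := Subgroup.subset_closure (Or.inr rfl)
  have hW2 : ∀ x ∈ W, x ^ 2 = 1 := fun x hx => by
    rcases (mem_closure_pair h.z_sq h.w_sq h.commute_zw).1 hx with rfl | rfl | rfl | rfl
    · exact one_pow 2
    · exact h.z_sq
    · exact h.w_sq
    · rw [h.commute_zw.symm.mul_pow, h.w_sq, h.z_sq, one_mul]
  -- commutative subgroups
  have habel : ∀ H : Subgroup G, (∀ a ∈ H, ∀ b ∈ H, a * b = b * a) →
      GapLE H 4 ∧ (¬ W ≤ H → IsCyclic H) := by
    intro H hc
    refine ⟨hcard ▸ gapLE_of_comm hc fun x _ h2 => h.involution_mem hG h2, fun hWH => ?_⟩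
    refine isCyclic_of_comm hG hc fun a ha b hb ha2 hb2 ha1 hb1 => ?_
    by_contra hab
    refine hWH fun x hx => ?_
    rcases mem_four_of_card_le hcard.le (h.involution_mem hG ha2) (h.involution_mem hG hb2) ha1 hb1
      hab ha2 hx with rfl | rfl | rfl | rfl
    exacts [one_mem H, ha, hb, mul_mem ha hb]
  -- it is enough that each subgroup is commutative or has the four group among its squares
  suffices key : ∀ H : Subgroup G, (∀ a ∈ H, ∀ b ∈ H, a * b = b * a) ∨
      (W ≤ sqSub H ∧ GapLE (H.map (QuotientGroup.mk' W)) 4) by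
    refine ⟨fun H => ?_, fun H hWH => ?_⟩
    · rcases key H with hH | ⟨h1, h2⟩
      · exact (habel H hH).1
      · exact gapLE_of_le_sqSub h1 h2
    · rcases key H with hH | ⟨h1, -⟩
      · exact (habel H hH).2 hWH
      · exact absurd (h1.trans (sqSub_le_self H)) hWH
  set π := QuotientGroup.mk' W with hπ
  set cb := π c with hcb
  have hπ1 : ∀ {x : G}, π x = 1 ↔ x ∈ W := fun {x} => QuotientGroup.eq_one_iff x
  have hcW : c ∉ W := fun hc => h.z_ne (by rw [← h.c_sq, hW2 c hc])
  have hcb1 : cb ≠ 1 := fun e => hcW (hπ1.1 e)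
  have hcb2 : cb ^ 2 = 1 := by rw [hcb, ← map_pow, hπ1, h.c_sq]; exact hzW
  have hcbc : cb ∈ Subgroup.center (G ⧸ W) := Subgroup.mem_center_iff.2 fun q => by
    obtain ⟨g, rfl⟩ := QuotientGroup.mk'_surjective W q
    rw [hcb, ← map_mul, ← map_mul, Subgroup.mem_center_iff.1 h.c_cen g]
  have hP := hG.to_quotient W
  have hσP := involutive_quotHom h.hσ hWσ
  have hcbf : quotHom σ W hWσ cb = cb := by
    show quotHom σ W hWσ (c : G ⧸ W) = _
    rw [quotHom_mk, h.c_fix]
    rfl
  have hfixcyc : IsCyclic (fixSub (quotHom σ W hWσ)) := by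
    rw [h.fix_quot]
    exact isCyclic_map _ h.fix_cyclic
  have huniqfix : ∀ q, quotHom σ W hWσ q = q → q ^ 2 = 1 → q = 1 ∨ q = cb := fun q hq hq2 => by
    rcases eq_or_ne q 1 with e | e
    · exact Or.inl e
    obtain ⟨φ, hφ⟩ := (Subgroup.isCyclic_iff_exists_zpowers_eq_top _).1 hfixcyc
    exact Or.inr (eq_of_involutions_mem_zpowers hP (hφ ▸ (mem_fixSub.2 hq))
      (hφ ▸ (mem_fixSub.2 hcbf)) e hcb1 hq2 hcb2)
  -- commuting modulo the four group
  have hL : ∀ a b : G ⧸ W, a * b * a⁻¹ * b⁻¹ ∈ Subgroup.zpowers cb →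
      b ^ 2 ∈ Subgroup.zpowers cb → a * b = b * a := by
    have hcen : ∀ x : G, π x ∈ Subgroup.zpowers cb → x ∈ Subgroup.center G := fun x hx => by
      obtain ⟨i, hi⟩ := Subgroup.mem_zpowers_iff.1 hx
      have hmem : x * (c ^ i)⁻¹ ∈ W := hπ1.1 (by
        rw [map_mul, map_inv, map_zpow, ← hcb, hi, mul_inv_cancel])
      simpa using mul_mem (hWcen hmem) (zpow_mem h.c_cen i)
    intro a b h1 h2
    obtain ⟨g, rfl⟩ := QuotientGroup.mk'_surjective W a
    obtain ⟨x, rfl⟩ := QuotientGroup.mk'_surjective W b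
    rw [← map_inv, ← map_inv, ← map_mul, ← map_mul, ← map_mul] at h1
    rw [← map_pow] at h2
    set k := g * x * g⁻¹ * x⁻¹ with hk
    have hkc := hcen k h1
    have hx2 := hcen _ h2
    have hk2 : k ^ 2 = 1 := by
      have e1 : (k * x) ^ 2 = k ^ 2 * x ^ 2 :=
        Commute.mul_pow (Subgroup.mem_center_iff.1 hkc x).symm 2
      have e2 : (k * x) ^ 2 = x ^ 2 := by
        rw [show k * x = g * x * g⁻¹ by rw [hk]; group, conj_pow,
          Subgroup.mem_center_iff.1 hx2 g, mul_inv_cancel_right]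
      exact mul_eq_right.1 (e1.symm.trans e2)
    have hk' : π k = 1 := hπ1.2 (h.involution_mem hG hk2)
    rw [← map_mul, ← map_mul, show g * x = k * (x * g) by rw [hk]; group, map_mul, hk', one_mul]
  by_cases hB : ∀ i ∈ Subgroup.center (G ⧸ W), i ^ 2 = 1 → i = 1 ∨ i = cb
  · -- the quotient is cyclic
    have : IsCyclic (G ⧸ W) := isCyclic_of_central_involution hP hcbc hcb1 hcb2 hL hB
    exact fun H => Or.inl fun a _ b _ => commutative_of_cyclic_center_quotient π
      (by rw [hπ, QuotientGroup.ker_mk']; exact hWcen) a b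
  push Not at hB
  obtain ⟨ib, hibc, hib2, hib1, hibne⟩ := hB
  have hibσ : quotHom σ W hWσ ib = ib * cb := by
    have hc' := Subgroup.mem_center_iff.1 hibc
    have hσib2 : (quotHom σ W hWσ ib) ^ 2 = 1 := by rw [← map_pow, hib2, map_one]
    rcases huniqfix (ib * quotHom σ W hWσ ib) (by rw [map_mul, hσP ib, hc'])
      (by rw [Commute.mul_pow (hc' _).symm, hib2, hσib2, one_mul]) with e | e
    · exfalso
      have hib' : ib⁻¹ = ib := inv_eq_of_mul_eq_one_right (by rw [← pow_two, hib2])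
      rcases huniqfix ib ((inv_eq_of_mul_eq_one_right e).symm.trans hib') hib2 with e' | e'
      exacts [hib1 e', hibne e']
    · rw [← e, ← mul_assoc, ← pow_two, hib2, one_mul]
  obtain ⟨e, rfl⟩ := QuotientGroup.mk'_surjective W ib
  rw [← hπ] at hibc hib2 hib1 hibne hibσ
  have he2W : e ^ 2 ∈ W := hπ1.1 (by rw [map_pow, hib2])
  have heW : e ∉ W := fun he => hib1 (hπ1.2 he)
  obtain ⟨k0, hk0, hσe⟩ : ∃ k ∈ W, σ e = e * c * k :=
    ⟨_, hπ1.1 (show π ((e * c)⁻¹ * σ e) = 1 by
      rw [map_mul, map_inv, map_mul, show π (σ e) = π e * cb from hibσ, ← hcb, inv_mul_cancel]),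
      by group⟩
  have he2σ : σ (e ^ 2) = e ^ 2 * z := by
    rw [map_pow, hσe, Commute.mul_pow ((Subgroup.mem_center_iff.1 (hWcen hk0)) (e * c)),
      Commute.mul_pow (Subgroup.mem_center_iff.1 h.c_cen e), hW2 k0 hk0, mul_one, h.c_sq]
  have he2 : e ^ 2 = w ∨ e ^ 2 = w * z := by
    rcases (mem_closure_pair h.z_sq h.w_sq h.commute_zw).1 he2W with e' | e' | e' | e'
    · exact absurd (h.involution_mem hG e') heW
    · rw [e', h.z_fix] at he2σ
      exact absurd (mul_eq_left.1 he2σ.symm) h.z_ne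
    · exact Or.inl e'
    · exact Or.inr e'
  obtain ⟨φ, hφ⟩ := (Subgroup.isCyclic_iff_exists_zpowers_eq_top _).1 h.fix_cyclic
  obtain ⟨i, hi⟩ := Subgroup.mem_zpowers_iff.1 (hφ ▸ (mem_fixSub.2 h.c_fix) :
    c ∈ Subgroup.zpowers φ)
  set W₂ := Subgroup.closure ({cb, π e} : Set (G ⧸ W)) with hW₂
  rcases Int.even_or_odd i with ⟨r, hr⟩ | hodd
  swap
  · -- four fixed points: the group is abelian
    have hfc : fixSub σ ≤ Subgroup.zpowers c := by
      rw [← hφ, ← zpowers_zpow_odd hG hodd, hi]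
    have hfix2 : Nat.card (fixSub (quotHom σ W hWσ)) ≤ 2 := by
      rw [h.fix_quot]
      refine le_trans (Subgroup.card_le_of_le (Subgroup.map_mono hfc)) ?_
      rw [MonoidHom.map_zpowers, Nat.card_zpowers]
      exact Nat.le_of_dvd two_pos (orderOf_dvd_of_pow_eq_one hcb2)
    have : W₂.Normal := closure_pair_normal hcbc hibc
    have hcomm2 : Commute cb (π e) := (Subgroup.mem_center_iff.1 hcbc (π e)).symm
    have hW₂σ : ∀ x ∈ W₂, quotHom σ W hWσ x ∈ W₂ := by
      intro x hx
      have h1 := Subgroup.subset_closure (k := ({cb, π e} : Set (G ⧸ W))) (Or.inl rfl)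
      have h2 := Subgroup.subset_closure (k := ({cb, π e} : Set (G ⧸ W))) (Or.inr rfl)
      rcases (mem_closure_pair hcb2 hib2 hcomm2).1 hx with rfl | rfl | rfl | rfl
      · rw [map_one]; exact one_mem _
      · rw [hcbf]; exact h1
      · rw [hibσ]; exact mul_mem h2 h1
      · rw [map_mul, hibσ, hcbf]; exact mul_mem (mul_mem h2 h1) h1
    have hall : ∀ q, q ∈ W₂ := by
      refine mem_of_quot_fix_le_one hP hσP (hN := hW₂σ) ?_
      have h4 : Nat.card W₂ = 4 := card_closure_pair hcb2 hib2 hcomm2 hcb1 hib1 hibne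
      have := card_fixSub_quotHom_mul_le hσP W₂ hW₂σ (fixSub (quotHom σ W hWσ))
        fun q hq hσq => fixed_of_inverted_of_sq hσq (by
          rcases (mem_closure_pair hcb2 hib2 hcomm2).1 hq with rfl | rfl | rfl | rfl
          · exact one_pow 2
          · exact hcb2
          · exact hib2
          · rw [hcomm2.symm.mul_pow, hib2, hcb2, one_mul])
      rw [h4] at this
      exact Nat.le_of_mul_le_mul_right
        (this.trans ((Nat.mul_le_mul hfix2 hfix2).trans (by norm_num : 2 * 2 ≤ 1 * 4))) (by norm_num)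
    have he2c : e ^ 2 ∈ Subgroup.center G := hWcen he2W
    have htop : ∀ g : G, g ∈ adjoin (Subgroup.center G) e := fun g => by
      rw [mem_adjoin he2c]
      have hcase : ∀ x : G, π g = π x → g * x⁻¹ ∈ Subgroup.center G := fun x hx =>
        hWcen (hπ1.1 (by rw [map_mul, map_inv, hx, mul_inv_cancel]))
      rcases (mem_closure_pair hcb2 hib2 hcomm2).1 (hall (π g)) with hq | hq | hq | hq
      · exact Or.inl (hWcen (hπ1.1 hq))
      · left; simpa using mul_mem (hcase c hq) h.c_cen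
      · exact Or.inr (hcase e hq)
      · right
        have e' : g * e⁻¹ = g * (e * c)⁻¹ * c := by
          rw [Subgroup.mem_center_iff.1 h.c_cen e]; group
        rw [e']
        exact mul_mem (hcase (e * c) (by rw [hq, map_mul])) h.c_cen
    exact fun H => Or.inl fun a _ b _ => adjoin_comm he2c
      (fun a ha b _ => (Subgroup.mem_center_iff.1 ha b).symm)
      (Subgroup.mem_centralizer_iff.2 fun a ha => (Subgroup.mem_center_iff.1 ha e).symm)
      a (htop a) b (htop b)
  -- a fixed square root `f` of `c`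
  set f := φ ^ r with hf
  have hfσ : σ f = f := mem_fixSub.1 (zpow_mem (hφ ▸ Subgroup.mem_zpowers φ) r)
  have hf2 : f ^ 2 = c := by rw [← hi, hr, zpow_add, pow_two]
  have hfb2 : (π f) ^ 2 = cb := by rw [← map_pow, hf2]
  have hW₂c : ∀ q ∈ W₂, q ^ 2 = 1 := fun q hq => by
    have hcomm2 : Commute cb (π e) := (Subgroup.mem_center_iff.1 hcbc (π e)).symm
    rcases (mem_closure_pair hcb2 hib2 hcomm2).1 hq with rfl | rfl | rfl | rfl
    · exact one_pow 2
    · exact hcb2
    · exact hib2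
    · rw [hcomm2.symm.mul_pow, hib2, hcb2, one_mul]
  -- `f` is central modulo `W`
  have hfcen : π f ∈ Subgroup.center (G ⧸ W) := by
    have hcomm2 : Commute cb (π e) := (Subgroup.mem_center_iff.1 hcbc (π e)).symm
    have hW₂n : W₂.Normal := closure_pair_normal hcbc hibc
    -- the quotient by `W₂`
    have hW₂σ : ∀ x ∈ W₂, quotHom σ W hWσ x ∈ W₂ := by
      intro x hx
      have h1 := Subgroup.subset_closure (k := ({cb, π e} : Set (G ⧸ W))) (Or.inl rfl)
      have h2 := Subgroup.subset_closure (k := ({cb, π e} : Set (G ⧸ W))) (Or.inr rfl)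
      rcases (mem_closure_pair hcb2 hib2 hcomm2).1 hx with rfl | rfl | rfl | rfl
      · rw [map_one]; exact one_mem _
      · rw [hcbf]; exact h1
      · rw [hibσ]; exact mul_mem h2 h1
      · rw [map_mul, hibσ, hcbf]; exact mul_mem (mul_mem h2 h1) h1
    have hfW₂ : π f ∉ W₂ := fun hm => hcb1 (hfb2 ▸ hW₂c _ hm)
    have hP2 := hP.to_quotient W₂
    have hσP2 := involutive_quotHom hσP hW₂σ
    have hfix2 : fixSub (quotHom (quotHom σ W hWσ) W₂ hW₂σ) =
        (fixSub (quotHom σ W hWσ)).map (QuotientGroup.mk' W₂) := by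
      refine fixSub_quotHom_eq_map hσP W₂ hW₂σ (Subgroup.zpowers cb) (fun q hq hσq => ?_) ?_
      · rcases huniqfix q (fixed_of_inverted_of_sq hσq (hW₂c q hq)) (hW₂c q hq) with e' | e'
        · rw [e']; exact one_mem _
        · rw [e']; exact Subgroup.mem_zpowers cb
      · have h2 : Nat.card (Subgroup.zpowers cb) ≤ 2 := by
          rw [Nat.card_zpowers]; exact Nat.le_of_dvd two_pos (orderOf_dvd_of_pow_eq_one hcb2)
        calc _ ≤ Nat.card (Subgroup.zpowers cb) * Nat.card (Subgroup.zpowers cb) :=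
              Nat.mul_le_mul_right _ (Subgroup.card_le_of_le fun q hq => by
                rcases huniqfix q hq.1 (hW₂c q hq.2) with e' | e'
                · rw [e']; exact one_mem _
                · rw [e']; exact Subgroup.mem_zpowers cb)
          _ ≤ 2 * 2 := Nat.mul_le_mul h2 h2
          _ = _ := (card_closure_pair hcb2 hib2 hcomm2 hcb1 hib1 hibne).symm
    have hf1 : ((π f : G ⧸ W) : (G ⧸ W) ⧸ W₂) ≠ 1 := fun e' =>
      hfW₂ ((QuotientGroup.eq_one_iff _).1 e')
    have : Nontrivial ((G ⧸ W) ⧸ W₂) := ⟨_, _, hf1⟩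
    obtain ⟨x, hxc, hx1, hx2, hxσ⟩ := exists_fixed_involution hP2 hσP2
      (fun q hq => map_mem_center hσP2 hq)
      ((Subgroup.nontrivial_iff_ne_bot _).1 hP2.center_nontrivial)
    obtain ⟨φ', hφ'⟩ := (Subgroup.isCyclic_iff_exists_zpowers_eq_top _).1
      (hfix2 ▸ isCyclic_map _ hfixcyc :
        IsCyclic (fixSub (quotHom (quotHom σ W hWσ) W₂ hW₂σ)))
    have hfc2 : ((π f : G ⧸ W) : (G ⧸ W) ⧸ W₂) ∈
        fixSub (quotHom (quotHom σ W hWσ) W₂ hW₂σ) := by
      rw [hfix2]
      refine ⟨π f, ?_, rfl⟩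
      show quotHom σ W hWσ (f : G ⧸ W) = _
      rw [quotHom_mk, hfσ]
      rfl
    have hxf : x = ((π f : G ⧸ W) : (G ⧸ W) ⧸ W₂) :=
      eq_of_involutions_mem_zpowers hP2 (hφ' ▸ (mem_fixSub.2 hxσ)) (hφ' ▸ hfc2) hx1 hf1 hx2 (by
        rw [← QuotientGroup.mk_pow, QuotientGroup.eq_one_iff, hfb2]
        exact Subgroup.subset_closure (Or.inl rfl))
    refine Subgroup.mem_center_iff.2 fun q => ?_
    obtain ⟨g, rfl⟩ := QuotientGroup.mk'_surjective W q
    rw [← hπ]
    set k := g * f * g⁻¹ * f⁻¹ with hk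
    have hk2 : π k ∈ W₂ := by
      rw [← QuotientGroup.eq_one_iff (N := W₂), hk]
      simp only [map_mul, map_inv, QuotientGroup.mk_mul, QuotientGroup.mk_inv]
      rw [← hxf, Subgroup.mem_center_iff.1 hxc]
      group
    have hkW : k ∈ W := by
      have hkfk : f * k * f⁻¹ = k⁻¹ := by
        have e1 : k * f * (k * f) = f * f := by
          rw [show k * f = g * f * g⁻¹ by rw [hk]; group, ← pow_two, conj_pow, hf2,
            Subgroup.mem_center_iff.1 h.c_cen g, mul_inv_cancel_right, ← hf2, pow_two]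
        calc f * k * f⁻¹ = k⁻¹ * (k * f * (k * f)) * f⁻¹ * f⁻¹ := by group
          _ = k⁻¹ := by rw [e1]; group
      rcases (mem_closure_pair hcb2 hib2 hcomm2).1 hk2 with e' | e' | e' | e'
      · exact hπ1.1 e'
      · have hkc : k ∈ Subgroup.center G := by
          have hm : k * c⁻¹ ∈ W := hπ1.1 (by rw [map_mul, map_inv, e', hcb, mul_inv_cancel])
          simpa using mul_mem (hWcen hm) h.c_cen
        refine h.involution_mem hG ?_
        rw [Subgroup.mem_center_iff.1 hkc f, mul_inv_cancel_right] at hkfk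
        rw [pow_two]
        nth_rewrite 2 [hkfk]
        exact mul_inv_cancel k
      all_goals exfalso
      all_goals
        obtain ⟨p, hpc, hp2, hkp⟩ : ∃ p, p ∈ Subgroup.center G ∧ σ (p ^ 2) = p ^ 2 ∧ k = e * p := by
          refine ⟨e⁻¹ * k, ?_, ?_, by group⟩
          all_goals
            have hm : π (e⁻¹ * k) ∈ Subgroup.zpowers cb := by
              rw [map_mul, map_inv, e']
              simp [inv_mul_cancel_left, Subgroup.mem_zpowers, one_mem]
            obtain ⟨a, ha⟩ := Subgroup.mem_zpowers_iff.1 hm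
            have hmW : (c ^ a)⁻¹ * (e⁻¹ * k) ∈ W := hπ1.1 (by
              rw [map_mul, map_inv, map_zpow, ← hcb, ha, inv_mul_cancel])
            have e'' : e⁻¹ * k = c ^ a * ((c ^ a)⁻¹ * (e⁻¹ * k)) := by group
            rw [e'']
          · exact mul_mem (zpow_mem h.c_cen a) (hWcen hmW)
          · rw [Commute.mul_pow ((Subgroup.mem_center_iff.1 (hWcen hmW)) _), hW2 _ hmW, mul_one,
              ← zpow_natCast (c ^ a) 2, ← zpow_mul, map_zpow, h.c_fix]
        have hμW : e⁻¹ * (f * e * f⁻¹) ∈ W := hπ1.1 (by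
          rw [map_mul, map_inv, map_mul, map_mul, map_inv, Subgroup.mem_center_iff.1 hibc (π f)]
          group)
        set μ := e⁻¹ * (f * e * f⁻¹) with hμ
        have hμeq : μ = (e ^ 2 * p ^ 2)⁻¹ := by
          rw [hkp] at hkfk
          have e1 : f * (e * p) * f⁻¹ = e * μ * p := by
            rw [hμ, mul_assoc f, mul_assoc e p, ← Subgroup.mem_center_iff.1 hpc f⁻¹]; group
          rw [e1] at hkfk
          have hep : p * e = e * p := (Subgroup.mem_center_iff.1 hpc e).symm
          calc μ = e⁻¹ * (e * μ * p) * p⁻¹ := by group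
            _ = (p * e * (p * e))⁻¹ := by rw [hkfk]; group
            _ = ((e * p) ^ 2)⁻¹ := by rw [hep, pow_two]
            _ = _ := by rw [Commute.mul_pow hep.symm]
        have hμσ : σ μ = μ := by
          have hcc : ∀ x : G, x * (c * k0) = c * k0 * x :=
            Subgroup.mem_center_iff.1 (mul_mem h.c_cen (hWcen hk0))
          calc σ μ = (e * c * k0)⁻¹ * (f * (e * c * k0) * f⁻¹) := by
                rw [hμ, map_mul, map_inv, map_mul, map_mul, map_inv, hfσ, hσe]
            _ = (c * k0)⁻¹ * (e⁻¹ * (f * e * ((c * k0) * f⁻¹))) := by group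
            _ = (c * k0)⁻¹ * (e⁻¹ * (f * e * (f⁻¹ * (c * k0)))) := by rw [← hcc f⁻¹]
            _ = (c * k0)⁻¹ * (μ * (c * k0)) := by rw [hμ]; group
            _ = μ := by rw [hcc μ, inv_mul_cancel_left]
        rw [hμeq, map_inv, inv_inj, map_mul, hp2, mul_left_inj, he2σ, mul_eq_left] at hμσ
        exact h.z_ne hμσ
    rw [← map_mul, ← map_mul, show g * f = k * (f * g) by rw [hk]; group, map_mul, hπ1.2 hkW,
      one_mul]
  have h2 : FreeFour (quotHom σ W hWσ) cb (π e) (π f) :=
    { hσ := hσP, z_ne := hcb1, z_sq := hcb2, z_cen := hcbc, z_fix := hcbf, w_sq := hib2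
      w_cen := hibc, w_map := hibσ, c_cen := hfcen
      c_fix := by show quotHom σ W hWσ (f : G ⧸ W) = _; rw [quotHom_mk, hfσ]; rfl
      c_sq := hfb2, fix_cyclic := hfixcyc }
  obtain ⟨hR, hC⟩ := ih _ (hn ▸ by
    rw [← W.index_mul_card, ← Subgroup.index_eq_card, hcard]
    have := W.index_ne_zero_of_finite
    omega) hP h2 rfl
  intro H
  by_cases hH2 : W₂ ≤ H.map π
  · refine Or.inr ⟨?_, hR _⟩
    have hsq : ∀ x : G, π x ∈ W₂ → ∀ a, π x = π a → x ^ 2 = a ^ 2 := fun x _ a hxa => by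
      have hm : a⁻¹ * x ∈ W := hπ1.1 (by rw [map_mul, map_inv, hxa, inv_mul_cancel])
      have e1 : x = a * (a⁻¹ * x) := by group
      rw [e1, Commute.mul_pow (Subgroup.mem_center_iff.1 (hWcen hm) a), hW2 _ hm, mul_one]
    have hm1 : π e ∈ W₂ := Subgroup.subset_closure (Or.inr rfl)
    have hm2 : π (e * c) ∈ W₂ := by
      rw [map_mul]; exact mul_mem hm1 (Subgroup.subset_closure (Or.inl rfl))
    obtain ⟨h1, h1H, h1e⟩ := hH2 hm1
    obtain ⟨h2', h2H, h2e⟩ := hH2 hm2
    have s1 : e ^ 2 ∈ sqSub H := hsq h1 (h1e ▸ hm1) e h1e ▸ sq_mem_sqSub h1H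
    have s2 : e ^ 2 * z ∈ sqSub H := by
      rw [← h.c_sq, ← Commute.mul_pow (Subgroup.mem_center_iff.1 h.c_cen e)]
      exact hsq h2' (h2e ▸ hm2) (e * c) h2e ▸ sq_mem_sqSub h2H
    have sz : z ∈ sqSub H := by simpa using mul_mem (inv_mem s1) s2
    rw [hW, Subgroup.closure_le]
    rintro x (rfl | rfl)
    · exact sz
    · rcases he2 with e' | e'
      · rwa [e'] at s1
      · rw [e'] at s1
        simpa using mul_mem s1 (inv_mem sz)
  · left
    intro a ha b hb
    have hcyc : IsCyclic (H.map π) := hC _ hH2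
    have hker : ((π.comp H.subtype).rangeRestrict).ker ≤ Subgroup.center H := by
      intro x hx
      rw [MonoidHom.ker_rangeRestrict, MonoidHom.mem_ker] at hx
      exact Subgroup.mem_center_iff.2 fun y =>
        Subtype.ext (Subgroup.mem_center_iff.1 (hWcen (hπ1.1 hx)) y)
    have : IsCyclic (π.comp H.subtype).range := by
      rw [MonoidHom.range_comp, Subgroup.range_subtype]; exact hcyc
    exact congrArg Subtype.val
      (commutative_of_cyclic_center_quotient _ hker (⟨a, ha⟩ : H) ⟨b, hb⟩)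

end CfsgLib.SectRank
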