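import Cfsg.Agent.SectRank.Action

/-!
Finite 2-groups with an involutive automorphism with few fixed points, and 2-groups in which an
involution has a centraliser of order at most eight.
-/

set_option autoImplicit false

namespace CfsgLib.SectRank

universe u

variable {G : Type u} [Group G] [Finite G] {σ : G →* G}

theorem eq_one_of_fix_le_one (hG : IsPGroup 2 G) (hσ : Function.Involutive σ)
    (h : Nat.card (fixSub σ) ≤ 1) (g : G) : g = 1 := by
  by_contra hg
  obtain ⟨x, -, hx1, -, hx⟩ := exists_fixed_involution (K := (⊤ : Subgroup G)) hG hσ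
    (fun _ _ => Subgroup.mem_top _)
    (fun e => hg (Subgroup.mem_bot.1 (e ▸ Subgroup.mem_top g)))
  have hb : fixSub σ = ⊥ := Subgroup.eq_bot_of_card_le _ h
  exact hx1 (Subgroup.mem_bot.1 (hb ▸ (mem_fixSub.2 hx : x ∈ fixSub σ)))

theorem mem_of_quot_fix_le_one (hG : IsPGroup 2 G) (hσ : Function.Involutive σ) {N : Subgroup G}
    [N.Normal] {hN : ∀ x ∈ N, σ x ∈ N} (h : Nat.card (fixSub (quotHom σ N hN)) ≤ 1) (g : G) :
    g ∈ N :=
  (QuotientGroup.eq_one_iff g).1
    (eq_one_of_fix_le_one (hG.to_quotient N) (involutive_quotHom hσ hN) h _)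

/-- With at most two fixed points there is an inverted element generating a subgroup of index at
most two which contains all inverted elements. -/
theorem exists_inverted_generator (hG : IsPGroup 2 G) (hσ : Function.Involutive σ)
    (hfix : Nat.card (fixSub σ) ≤ 2) :
    ∃ v, σ v = v⁻¹ ∧ (Subgroup.zpowers v).index ≤ 2 ∧
      ∀ g, σ g = g⁻¹ → g ∈ Subgroup.zpowers v := by
  have : Fact (Nat.Prime 2) := ⟨Nat.prime_two⟩
  obtain ⟨W, ⟨hWn, hWσ, hWc⟩, hmax⟩ := Set.Finite.exists_maximal
    (Set.toFinite {W : Subgroup G | W.Normal ∧ (∀ x ∈ W, σ x ∈ W) ∧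
      ∀ a ∈ W, ∀ b ∈ W, a * b = b * a})
    ⟨⊥, Subgroup.normal_bot, fun x hx => by
      rw [Subgroup.mem_bot] at hx ⊢; rw [hx, map_one], fun a ha b hb => by
      rw [Subgroup.mem_bot] at ha hb; rw [ha, hb]⟩
  haveI := hWn
  have hC : Subgroup.centralizer (W : Set G) = W := by
    have hle : W ≤ Subgroup.centralizer (W : Set G) := fun a ha =>
      Subgroup.mem_centralizer_iff.2 fun b hb => hWc b hb a ha
    refine (le_antisymm hle ?_).symm
    by_contra hlt
    haveI : (Subgroup.centralizer (W : Set G)).Normal := Subgroup.normal_centralizer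
    obtain ⟨q, hqC, hqW, hq2, hqc, hqσ⟩ := exists_step hG hσ hWσ
      (fun x hx => map_mem_centralizer hσ hWσ hx) (lt_of_le_not_ge hle hlt)
    exact (lt_adjoin hqW).not_ge (hmax ⟨adjoin_normal hq2 hqc, adjoin_invariant hq2 hWσ hqσ,
      adjoin_comm hq2 hWc hqC⟩ (le_adjoin W q))
  have hinvol : ∀ x, σ x = x⁻¹ → x ^ 2 = 1 → x ∈ fixSub σ := fun x hx h2 =>
    fixed_of_inverted_of_sq hx h2
  by_cases hall : ∀ x ∈ W, σ x = x⁻¹
  · -- `W` is cyclic and every element is fixed modulo `W`
    obtain ⟨w, hw⟩ := (Subgroup.isCyclic_iff_exists_zpowers_eq_top W).1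
      (isCyclic_of_comm hG hWc fun a ha b hb ha2 hb2 ha1 hb1 => eq_of_card_le_two hfix
        (hinvol a (hall a ha) ha2) (hinvol b (hall b hb) hb2) ha1 hb1)
    have hwW : w ∈ W := hw ▸ Subgroup.mem_zpowers w
    have hδ : ∀ g, g⁻¹ * σ g ∈ W := fun g => hC ▸
      inv_mul_map_mem_centralizer (map_conj_of_inverted hall) hWσ hσ g
    have hidx : W.index ≤ 2 := by
      have h := card_fixSub_quotHom_mul_le hσ W hWσ W fun n hn _ => hn
      have htop : fixSub (quotHom σ W hWσ) = ⊤ := by
        rw [eq_top_iff]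
        intro q _
        induction q using QuotientGroup.induction_on with | _ g => ?_
        exact (mk_mem_fixSub_iff hWσ).2 (hδ g)
      rw [htop, Subgroup.card_top, ← Subgroup.index_eq_card] at h
      exact (Nat.le_of_mul_le_mul_right h Nat.card_pos).trans hfix
    refine ⟨w, hall w hwW, hw ▸ hidx, fun g hg => ?_⟩
    rw [hw]
    by_contra hgW
    have hg2 : g ^ 2 ∈ W := by
      rcases Nat.lt_or_ge W.index 2 with h | h
      · have hne := W.index_ne_zero_of_finite
        exact absurd (Subgroup.index_eq_one.1 (by omega : W.index = 1) ▸ Subgroup.mem_top g) hgW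
      · exact Subgroup.sq_mem_of_index_two (le_antisymm hidx h) g
    have hs : (g ^ 2)⁻¹ ∈ Subgroup.zpowers w := hw ▸ inv_mem hg2
    rcases mem_zpowers_sq_or_eq hG hs with h | h
    · obtain ⟨i, hi⟩ := Subgroup.mem_zpowers_iff.1 h
      set n := w ^ i with hn
      have hnW : n ∈ W := zpow_mem hwW i
      have hn2 : n * n = (g ^ 2)⁻¹ := by
        rw [← hi, hn, ← zpow_add, ← two_mul, zpow_mul, zpow_two, pow_two]
      have hfixed : n * g ∈ fixSub σ := by
        rw [mem_fixSub, map_mul, hall n hnW, hg]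
        calc n⁻¹ * g⁻¹ = n⁻¹ * ((g ^ 2)⁻¹ * g) := by rw [pow_two]; group
          _ = n⁻¹ * (n * n * g) := by rw [hn2]
          _ = n * g := by group
      have hWne : W ≠ ⊥ := fun e => by
        rw [e] at hC
        refine hgW ?_
        rw [e, ← hC, Subgroup.mem_centralizer_iff]
        intro b hb
        rw [SetLike.mem_coe, Subgroup.mem_bot] at hb
        rw [hb, one_mul, mul_one]
      obtain ⟨e, heW, he1, -, heσ⟩ := exists_fixed_involution hG hσ hWσ hWne
      have hng : n * g ≠ 1 := fun h => hgW (by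
        have hgn : g = n⁻¹ := eq_inv_of_mul_eq_one_right h
        rw [hgn]; exact inv_mem hnW)
      have := eq_of_card_le_two hfix hfixed heσ hng he1
      exact hgW (by simpa using mul_mem (inv_mem hnW) (this.symm ▸ heW : n * g ∈ W))
    · have hWg : W ≤ Subgroup.zpowers g := by
        rw [← hw, ← h, Subgroup.zpowers_le]
        exact inv_mem (pow_mem (Subgroup.mem_zpowers g) 2)
      refine hgW (hC ▸ Subgroup.mem_centralizer_iff.2 fun b hb => ?_)
      obtain ⟨i, rfl⟩ := Subgroup.mem_zpowers_iff.1 (hWg hb)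
      exact (Commute.zpow_self g i).eq
  · -- `G = W` is abelian
    push Not at hall
    obtain ⟨x, hxW, hx⟩ := hall
    set J := invSub σ W hWc with hJ
    have hxJ : x ∉ J := fun h => hx h.2
    have h2J := two_mul_card_le (invSub_le hWc) hxW hxJ
    have hcount := card_fixSub_quotHom_mul_le hσ W hWσ J fun n hn hσn => ⟨hn, hσn⟩
    have hone : Nat.card (fixSub (quotHom σ W hWσ)) ≤ 1 := by
      refine Nat.le_of_mul_le_mul_right ?_ (Nat.card_pos (α := W))
      calc _ ≤ Nat.card (fixSub σ) * Nat.card J := hcount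
        _ ≤ 2 * Nat.card J := Nat.mul_le_mul_right _ hfix
        _ ≤ 1 * Nat.card W := by rw [one_mul]; exact h2J
    have hmem : ∀ g, g ∈ W := mem_of_quot_fix_le_one hG hσ hone
    obtain ⟨v, hv⟩ := (Subgroup.isCyclic_iff_exists_zpowers_eq_top J).1
      (isCyclic_of_comm hG (fun a ha b hb => hWc a ha.1 b hb.1)
        fun a ha b hb ha2 hb2 ha1 hb1 => eq_of_card_le_two hfix (hinvol a ha.2 ha2)
          (hinvol b hb.2 hb2) ha1 hb1)
    refine ⟨v, (hv ▸ Subgroup.mem_zpowers v : v ∈ J).2, ?_, fun g hg => hv ▸ ⟨hmem g, hg⟩⟩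
    rw [hv]
    haveI : J.Normal := ⟨fun a ha g => by
      rw [hWc g (hmem g) a (hmem a), mul_inv_cancel_right]; exact ha⟩
    let N : G →* fixSub σ :=
      { toFun := fun g => ⟨g * σ g, by
          rw [mem_fixSub, map_mul, hσ g, hWc (σ g) (hmem _) g (hmem _)]⟩
        map_one' := Subtype.ext (by simp)
        map_mul' := fun a b => Subtype.ext (by
          show a * b * σ (a * b) = a * σ a * (b * σ b)
          rw [map_mul]
          exact Commute.mul_mul_mul_comm (hWc b (hmem _) (σ a) (hmem _)) a (σ b)) }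
    have hker : N.ker = J := by
      ext g
      rw [MonoidHom.mem_ker, hJ, mem_invSub]
      exact ⟨fun h => ⟨hmem g, eq_inv_of_mul_eq_one_right (congrArg Subtype.val h)⟩,
        fun h => Subtype.ext (by show g * σ g = 1; rw [h.2, mul_inv_cancel])⟩
    rw [← hker, Subgroup.index_ker]
    exact le_trans (Finite.card_subtype_le _) hfix

/-- At most two fixed points: gap at most four everywhere. -/
theorem hasRK_two_of_fix_le_two (hG : IsPGroup 2 G) (hσ : Function.Involutive σ)
    (hfix : Nat.card (fixSub σ) ≤ 2) : HasRK 2 G := by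
  obtain ⟨v, -, hidx, -⟩ := exists_inverted_generator hG hσ hfix
  intro H
  exact GapLE.of_index hidx (gapLE_of_isCyclic (isCyclic_of_injective
    (Subgroup.inclusion (inf_le_right : H ⊓ Subgroup.zpowers v ≤ _))
    (Subgroup.inclusion_injective _)))

/-- With at most two fixed points every subgroup of order above two contains the fixed one. -/
theorem fixed_mem_of_two_lt_card (hG : IsPGroup 2 G) (hσ : Function.Involutive σ)
    (hfix : Nat.card (fixSub σ) ≤ 2) {H : Subgroup G} (hH : 2 < Nat.card H) {z : G} (hz1 : z ≠ 1)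
    (hz : σ z = z) : z ∈ H := by
  obtain ⟨v, hv, hidx, -⟩ := exists_inverted_generator hG hσ hfix
  have hne : H ⊓ Subgroup.zpowers v ≠ ⊥ := fun e => by
    have h := card_le_index_mul_card_inf H (Subgroup.zpowers v)
    rw [e, Subgroup.card_bot, mul_one] at h
    omega
  obtain ⟨x, ⟨hxH, hxv⟩, hx⟩ := (Subgroup.bot_or_exists_ne_one _).resolve_left hne
  obtain ⟨n, h1, h2⟩ := exists_pow_involution hG hx
  obtain ⟨i, hi⟩ := Subgroup.mem_zpowers_iff.1 (pow_mem hxv n)
  have hfx : σ (x ^ n) = x ^ n :=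
    fixed_of_inverted_of_sq (hi ▸ map_inverted_zpow hv i) h2
  rw [eq_of_card_le_two hfix (mem_fixSub.2 hz) (mem_fixSub.2 hfx) hz1 h1]
  exact pow_mem hxH n

omit [Finite G] in
theorem eq_top_of_invariant_gap {H K : Subgroup G} (hKH : H ≤ K) (hH : ¬ GapLE H (2 ^ 4))
    (h : K ≠ ⊤ → HasRK 4 K) : K = ⊤ := by
  by_contra hK
  exact hH ((h hK).gapLE_of_le hKH)

/-- At most four fixed points: gap at most sixteen everywhere. -/
theorem hasRK_four_of_fix_le_four : ∀ {G : Type u} [Group G] [Finite G], IsPGroup 2 G →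
    ∀ {σ : G →* G}, Function.Involutive σ → Nat.card (fixSub σ) ≤ 4 → HasRK 4 G := by
  intro G _ _ hG σ hσ hfix
  induction hn : Nat.card G using Nat.strong_induction_on generalizing G with
  | _ n ih =>
  have : Fact (Nat.Prime 2) := ⟨Nat.prime_two⟩
  intro H
  by_contra hH
  -- proper invariant subgroups and quotients
  have hsub : ∀ K : Subgroup G, (∀ x ∈ K, σ x ∈ K) → H ≤ K → K = ⊤ := fun K hK hHK =>
    eq_top_of_invariant_gap hHK hH fun hne => ih _ (hn ▸ by
      refine lt_of_le_of_ne (Subgroup.card_le_card_group K) fun e => hne ?_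
      exact Subgroup.eq_top_of_card_eq K e) (hG.to_subgroup K) (involutive_subHom hσ hK)
      ((card_fixSub_subHom_le σ K hK).trans hfix) rfl
  have hquo : ∀ N : Subgroup G, N.Normal → (∀ x ∈ N, σ x ∈ N) → N ≤ sqSub H → N = ⊥ := by
    intro N hNn hN hle
    by_contra hne
    refine hH (gapLE_of_le_sqSub hle (ih _ ?_ (hG.to_quotient N) (involutive_quotHom hσ hN)
      ((card_fixSub_quotHom_le hσ N hN).trans hfix) rfl _))
    rw [← hn, ← N.index_mul_card, ← Subgroup.index_eq_card]
    exact lt_mul_of_one_lt_right (Nat.pos_of_ne_zero N.index_ne_zero_of_finite)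
      (N.one_lt_card_iff_ne_bot.2 hne)
  -- an inverted abelian subgroup, as large as possible
  obtain ⟨W, ⟨hWn, hWσ, hWc⟩, hmax⟩ := Set.Finite.exists_maximal
    (Set.toFinite {W : Subgroup G | W.Normal ∧ (∀ x ∈ W, σ x = x⁻¹) ∧
      ∀ a ∈ W, ∀ b ∈ W, a * b = b * a})
    ⟨⊥, Subgroup.normal_bot, fun x hx => by
      rw [Subgroup.mem_bot] at hx; rw [hx, map_one, inv_one], fun a ha b hb => by
      rw [Subgroup.mem_bot] at ha hb; rw [ha, hb]⟩
  haveI := hWn
  have hWinv : ∀ x ∈ W, σ x ∈ W := fun x hx => by rw [hWσ x hx]; exact inv_mem hx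
  have hWF : ∀ x ∈ W, x ^ 2 = 1 → x ∈ fixSub σ := fun x hx h2 =>
    fixed_of_inverted_of_sq (hWσ x hx) h2
  set C := Subgroup.centralizer (W : Set G) with hCdef
  have hCn : C.Normal := Subgroup.normal_centralizer
  have hWC : W ≤ C := fun a ha => Subgroup.mem_centralizer_iff.2 fun b hb => hWc b hb a ha
  rcases eq_or_lt_of_le hWC with hC | hC
  · -- every element is fixed modulo `W`
    have htop : fixSub (quotHom σ W hWinv) = ⊤ := by
      rw [eq_top_iff]
      intro q _
      induction q using QuotientGroup.induction_on with | _ g => ?_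
      refine (mk_mem_fixSub_iff hWinv).2 ?_
      rw [hC]
      exact inv_mul_map_mem_centralizer (map_conj_of_inverted hWσ) hWinv hσ g
    have h := card_fixSub_quotHom_mul_le hσ W hWinv W fun n hn _ => hn
    rw [htop, Subgroup.card_top] at h
    have h4 : Nat.card (G ⧸ W) ≤ 4 := (Nat.le_of_mul_le_mul_right h Nat.card_pos).trans hfix
    refine hH (gapLE_of_normal W (a := 4) (b := 4) ?_ (gapLE_of_card_le
      ((Subgroup.card_le_card_group _).trans h4)))
    exact ((gapLE_of_comm (H := H ⊓ W) (E := fixSub σ) (fun a ha b hb => hWc a ha.2 b hb.2)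
      fun x hx h2 => hWF x hx.2 h2).mono hfix).card_inf
  obtain ⟨q, hqC, hqW, hq2, hqc, hqσ⟩ := exists_step hG hσ hWinv
    (fun x hx => map_mem_centralizer hσ hWinv hx) hC
  set K := adjoin W q with hK
  haveI hKn : K.Normal := adjoin_normal hq2 hqc
  have hKσ : ∀ x ∈ K, σ x ∈ K := adjoin_invariant hq2 hWinv hqσ
  have hKc := adjoin_comm hq2 hWc hqC
  have hnot : ∃ x ∈ K, σ x ≠ x⁻¹ := by
    by_contra hall
    push Not at hall
    exact (lt_adjoin hqW).not_ge (hmax ⟨hKn, hall, hKc⟩ (le_adjoin W q))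
  obtain ⟨x, hxK, hx⟩ := hnot
  have hfK : Nat.card (fixSub (quotHom σ K hKσ)) ≤ 2 := by
    refine Nat.le_of_mul_le_mul_right ?_ (Nat.card_pos (α := K))
    calc _ ≤ Nat.card (fixSub σ) * Nat.card (invSub σ K hKc) :=
          card_fixSub_quotHom_mul_le hσ K hKσ _ fun n hn hσn => ⟨hn, hσn⟩
      _ ≤ 4 * Nat.card (invSub σ K hKc) := Nat.mul_le_mul_right _ hfix
      _ ≤ 2 * Nat.card K := by
          have : 2 * Nat.card (invSub σ K hKc) ≤ Nat.card K :=
            two_mul_card_le (invSub_le hKc) hxK fun h => hx h.2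
          omega
  have hbK : GapLE (H.map (QuotientGroup.mk' K)) (2 ^ 2) :=
    hasRK_two_of_fix_le_two (hG.to_quotient K) (involutive_quotHom hσ hKσ) hfK _
  have hgapK : ¬ Nat.card ↥(H ⊓ K) ≤ 4 * Nat.card ↥(sqSub H ⊓ K) := fun h =>
    hH ((gapLE_of_normal K h hbK).mono (by norm_num))
  -- the square roots of one in `K`
  let E : Subgroup G :=
    { carrier := {y | y ∈ K ∧ y ^ 2 = 1}
      one_mem' := ⟨one_mem K, one_pow 2⟩
      mul_mem' := fun {a b} ha hb => ⟨mul_mem ha.1 hb.1, by
        rw [Commute.mul_pow (hKc a ha.1 b hb.1), ha.2, hb.2, one_mul]⟩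
      inv_mem' := fun {a} ha => ⟨inv_mem ha.1, by rw [inv_pow, ha.2, inv_one]⟩ }
  have hEc : ∀ a ∈ E, ∀ b ∈ E, a * b = b * a := fun a ha b hb => hKc a ha.1 b hb.1
  haveI hEn : E.Normal := ⟨fun a ha g => ⟨hKn.conj_mem a ha.1 g, by
    rw [conj_pow, ha.2, mul_one, mul_inv_cancel]⟩⟩
  have hEσ : ∀ y ∈ E, σ y ∈ E := fun y hy => ⟨hKσ y hy.1, by rw [← map_pow, hy.2, map_one]⟩
  have hEinv : ∀ y ∈ E, σ y = y⁻¹ → y ∈ fixSub σ := fun y hy h =>
    fixed_of_inverted_of_sq h hy.2
  -- `E` has order eight and `W` contains all the fixed points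
  have hgapC : GapLE (H ⊓ K) (Nat.card ↥(H ⊓ E)) :=
    gapLE_of_comm (fun a ha b hb => hKc a ha.2 b hb.2) fun y hy h2 => ⟨hy.1, hy.2, h2⟩
  have hE5 : 4 < Nat.card ↥(H ⊓ E) := by
    by_contra h
    push Not at h
    exact hgapK ((hgapC.mono h).card_inf)
  have hEW : Nat.card E ≤ 2 * Nat.card ↥(E ⊓ W) := by
    have h1 := (W.subgroupOf K).card_mul_index
    have h2 : Nat.card (W.subgroupOf K) = Nat.card W :=
      Nat.card_congr (Subgroup.subgroupOfEquivOfLe (le_adjoin W q)).toEquiv
    have h3 : (W.subgroupOf K).index = 2 := by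
      have hc : Nat.card K = 2 * Nat.card W := card_adjoin hq2 hqW
      have hW := Nat.card_pos (α := W)
      rw [h2, hc] at h1
      exact Nat.eq_of_mul_eq_mul_left hW (h1.trans (mul_comm _ _))
    have := card_le_index_mul_card_inf (E.subgroupOf K) (W.subgroupOf K)
    rw [h3] at this
    have hEK : E ≤ K := fun y hy => hy.1
    have e1 : Nat.card (E.subgroupOf K) = Nat.card E :=
      Nat.card_congr (Subgroup.subgroupOfEquivOfLe hEK).toEquiv
    have e2 : Nat.card ↥(E.subgroupOf K ⊓ W.subgroupOf K) = Nat.card ↥(E ⊓ W) := by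
      rw [show E.subgroupOf K ⊓ W.subgroupOf K = (E ⊓ W).subgroupOf K from rfl]
      exact Nat.card_congr (Subgroup.subgroupOfEquivOfLe (inf_le_left.trans hEK)).toEquiv
    omega
  have hEWF : E ⊓ W ≤ fixSub σ := fun y hy => hWF y hy.2 hy.1.2
  have hF4 : Nat.card ↥(E ⊓ W) ≤ 4 := (Subgroup.card_le_of_le hEWF).trans hfix
  have hHE8 : Nat.card ↥(H ⊓ E) ≤ Nat.card E := Subgroup.card_le_of_le inf_le_right
  have hE8 : Nat.card E = 8 := by
    obtain ⟨k, hk⟩ := IsPGroup.iff_card.1 (hG.to_subgroup E)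
    have h8 : Nat.card E ≤ 8 := by omega
    have hk3 : k < 4 := by
      by_contra h
      have : 2 ^ 4 ≤ 2 ^ k := Nat.pow_le_pow_right two_pos (by omega)
      omega
    interval_cases k <;> omega
  have hHE : E ≤ H := by
    have h : H ⊓ E = E := by
      refine Subgroup.eq_of_le_of_card_ge inf_le_right ?_
      obtain ⟨k, hk⟩ := IsPGroup.iff_card.1 (hG.to_subgroup (H ⊓ E))
      have hk3 : k < 4 := by
        by_contra h
        have : 2 ^ 4 ≤ 2 ^ k := Nat.pow_le_pow_right two_pos (by omega)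
        omega
      interval_cases k <;> omega
    exact h ▸ inf_le_left
  have hFE : fixSub σ = E ⊓ W :=
    (Subgroup.eq_of_le_of_card_ge hEWF (by omega)).symm
  have hsqK : sqSub H ⊓ K ≤ sqSub (H ⊓ K) := by
    intro y hy
    by_contra hne
    have h2 := two_mul_card_le (le_inf (sqSub_mono inf_le_left)
      ((sqSub_le_self _).trans inf_le_right) : sqSub (H ⊓ K) ≤ sqSub H ⊓ K) hy hne
    refine hgapK ?_
    have h8 : Nat.card ↥(H ⊓ K) ≤ 8 * Nat.card ↥(sqSub (H ⊓ K)) :=
      hgapC.mono (hHE8.trans hE8.le)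
    omega
  have hsqW : ∀ y ∈ K, y ^ 2 ∈ W := fun y hy => by
    rcases (mem_adjoin hq2).1 hy with h | h
    · exact pow_mem h 2
    · have e : y = y * q⁻¹ * q := by group
      rw [e, Commute.mul_pow (hKc _ (le_adjoin W q h) q (self_mem_adjoin W q))]
      exact mul_mem (pow_mem h 2) hq2
  have hΛ : sqSub H ⊓ K = ⊥ := by
    by_contra hne
    obtain ⟨y, hy, hy1⟩ := (Subgroup.bot_or_exists_ne_one _).resolve_left hne
    obtain ⟨m, hf1, hf2⟩ := exists_pow_involution hG hy1
    set f := y ^ m with hfdef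
    have hfΛ : f ∈ sqSub H ⊓ K := pow_mem hy m
    have hfW : f ∈ W := (sqSub_le_iff (H := H ⊓ K) (K := W)).2 (fun h hh => hsqW h hh.2) (hsqK hfΛ)
    have hfF : f ∈ fixSub σ := hWF f hfW hf2
    by_cases hFsub : fixSub σ ≤ sqSub H
    · haveI : (fixSub σ).Normal := by rw [hFE]; infer_instance
      have := hquo (fixSub σ) inferInstance (fun y hy => by rw [mem_fixSub.1 hy]; exact hy) hFsub
      exact hf1 (Subgroup.mem_bot.1 (this ▸ hfF))
    · -- `f` is central
      have hinf : Nat.card ↥(fixSub σ ⊓ sqSub H) ≤ 2 := by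
        obtain ⟨g, hg, hgs⟩ := SetLike.not_le_iff_exists.1 hFsub
        have := two_mul_card_le (inf_le_left : fixSub σ ⊓ sqSub H ≤ fixSub σ) hg fun h => hgs h.2
        omega
      have hfH : H ≤ Subgroup.centralizer ({f} : Set G) := fun h hh => by
        rw [Subgroup.mem_centralizer_singleton_iff]
        have hc1 : h * f * h⁻¹ ∈ fixSub σ := by
          rw [hFE] at hfF ⊢
          exact Subgroup.Normal.conj_mem inferInstance f hfF h
        have := eq_of_card_le_two hinf ⟨hc1, conj_mem_sqSub hh hfΛ.1⟩ ⟨hfF, hfΛ.1⟩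
          (fun e => hf1 (by
            calc f = h⁻¹ * (h * f * h⁻¹) * h := by group
              _ = 1 := by rw [e]; group)) hf1
        calc h * f = h * f * h⁻¹ * h := by group
          _ = f * h := by rw [this]
      have htop := hsub _ (fun y hy => map_mem_centralizer hσ (by
        rintro s rfl; rw [mem_fixSub.1 hfF]; rfl) hy) hfH
      have hcen : f ∈ Subgroup.center G := Subgroup.mem_center_iff.2 fun g =>
        Subgroup.mem_centralizer_singleton_iff.1 (htop ▸ Subgroup.mem_top g)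
      haveI : (Subgroup.zpowers f).Normal := ⟨fun a ha g => by
        have hac : a ∈ Subgroup.center G := (Subgroup.zpowers_le.2 hcen) ha
        rwa [Subgroup.mem_center_iff.1 hac g, mul_inv_cancel_right]⟩
      have := hquo (Subgroup.zpowers f) inferInstance (fun a ha => by
        obtain ⟨i, rfl⟩ := Subgroup.mem_zpowers_iff.1 ha
        rw [map_zpow, mem_fixSub.1 hfF]
        exact ha) (Subgroup.zpowers_le.2 hfΛ.1)
      exact hf1 (Subgroup.zpowers_eq_bot.1 this)
  have hsqE : ∀ y ∈ sqSub H, y ∈ E → y = 1 := fun y hy hyE =>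
    Subgroup.mem_bot.1 (hΛ ▸ ⟨hy, hyE.1⟩)
  -- `E` is central
  have hEcen : ∀ e ∈ E, ∀ g, g * e = e * g := by
    intro e he g
    have hHC : H ≤ Subgroup.centralizer (E : Set G) := fun h hh => by
      rw [Subgroup.mem_centralizer_iff]
      intro a ha
      have h1 := hsqE _ (comm_mem_sqSub hh (hHE ha))
        (mul_mem (hEn.conj_mem a ha h) (inv_mem ha))
      calc a * h = h * a * h⁻¹ * a⁻¹ * a * h := by rw [h1, one_mul]
        _ = h * a := by group
    have htop := hsub _ (fun y hy => map_mem_centralizer hσ hEσ hy) hHC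
    exact (Subgroup.mem_centralizer_iff.1 (htop ▸ Subgroup.mem_top g) e he).symm
  have hfE : Nat.card (fixSub (quotHom σ E hEσ)) ≤ 2 := by
    have h := card_fixSub_quotHom_mul_le hσ E hEσ (fixSub σ) hEinv
    rw [hE8] at h
    have := Nat.mul_le_mul hfix hfix
    omega
  set π := QuotientGroup.mk' E with hπ
  have hHbar : Nat.card (H.map π) * 8 = Nat.card H := by
    rw [← card_inf_mul_card_map_mk E H, inf_eq_right.2 hHE, hE8, mul_comm, hπ]
  have hbad : 16 * Nat.card (sqSub H) < Nat.card H := not_le.1 hH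
  have hH2 : 2 < Nat.card (H.map π) := by
    have := Nat.card_pos (α := sqSub H)
    omega
  have hP := hG.to_quotient E
  have hσP := involutive_quotHom hσ hEσ
  have hGE : (Subgroup.center (G ⧸ E)) ≠ ⊥ := by
    haveI : Nontrivial (G ⧸ E) := by
      rw [← Finite.one_lt_card_iff_nontrivial]
      have := Subgroup.card_le_card_group (H.map π)
      omega
    exact (Subgroup.nontrivial_iff_ne_bot _).1 hP.center_nontrivial
  obtain ⟨zb, hzc, hz1, hz2, hzσ⟩ := exists_fixed_involution hP hσP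
    (fun x hx => map_mem_center hσP hx) hGE
  obtain ⟨φ, hφH, hφπ, hφ2, hφc⟩ : ∃ φ ∈ H, π φ = zb ∧ φ ^ 2 = 1 ∧
      ∀ h ∈ H, h * φ = φ * h := by
    rcases eq_or_ne (sqSub H) ⊥ with hsq | hsq
    · obtain ⟨φ, hφH, hφ⟩ := fixed_mem_of_two_lt_card hP hσP hfE hH2 hz1 hzσ
      have h2 := sqSub_eq_bot_iff.1 hsq
      refine ⟨φ, hφH, hφ, h2 φ hφH, fun h hh => ?_⟩
      have hc := comm_mem_sqSub hh hφH
      rw [hsq, Subgroup.mem_bot] at hc
      calc h * φ = h * φ * h⁻¹ * φ⁻¹ * φ * h := by group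
        _ = φ * h := by rw [hc, one_mul]
    · obtain ⟨v, hv, hvidx, -⟩ := exists_inverted_generator hP hσP hfE
      have hsqle : (sqSub H).map π ≤ Subgroup.zpowers v := by
        rw [map_sqSub, sqSub_le_iff]
        intro y _
        rcases Nat.lt_or_ge (Subgroup.zpowers v).index 2 with h | h
        · have hne := (Subgroup.zpowers v).index_ne_zero_of_finite
          rw [Subgroup.index_eq_one.1 (by omega : (Subgroup.zpowers v).index = 1)]
          exact Subgroup.mem_top _
        · exact Subgroup.sq_mem_of_index_two (le_antisymm hvidx h) y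
      have hne : (sqSub H).map π ≠ ⊥ := by
        rw [Ne, Subgroup.map_eq_bot_iff, QuotientGroup.ker_mk']
        exact fun h => hsq (Subgroup.eq_bot_iff_forall _ |>.2 fun y hy => hsqE y hy (h hy))
      obtain ⟨y, hy, hy1⟩ := (Subgroup.bot_or_exists_ne_one _).resolve_left hne
      obtain ⟨m, hm1, hm2⟩ := exists_pow_involution hP hy1
      obtain ⟨i, hi⟩ := Subgroup.mem_zpowers_iff.1 (hsqle (pow_mem hy m))
      have hym : y ^ m = zb := eq_of_card_le_two hfE
        (mem_fixSub.2 (fixed_of_inverted_of_sq (hi ▸ map_inverted_zpow hv i) hm2))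
        (mem_fixSub.2 hzσ) hm1 hz1
      obtain ⟨φ, hφ, hφy⟩ := pow_mem hy m
      rw [hym] at hφy
      have hφk : ∀ t ∈ sqSub H, π t = 1 → t = 1 := fun t ht h1 =>
        hsqE t ht ((QuotientGroup.eq_one_iff t).1 h1)
      refine ⟨φ, sqSub_le_self H hφ, hφy, hφk _ (pow_mem hφ 2) (by rw [map_pow, hφy, hz2]),
        fun h hh => ?_⟩
      have hc := hφk (h * φ * h⁻¹ * φ⁻¹) (mul_mem (conj_mem_sqSub hh hφ) (inv_mem hφ)) (by
        rw [map_mul, map_mul, map_mul, map_inv, map_inv, hφy, Subgroup.mem_center_iff.1 hzc]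
        group)
      calc h * φ = h * φ * h⁻¹ * φ⁻¹ * φ * h := by group
        _ = φ * h := by rw [hc, one_mul]
  have hφσ : φ⁻¹ * σ φ ∈ E := by
    refine (mk_mem_fixSub_iff hEσ).1 ?_
    show (φ : G ⧸ E) ∈ _
    rw [mem_fixSub, show (φ : G ⧸ E) = zb from hφπ, hzσ]
  have hφcen : ∀ g, g * φ = φ * g := by
    have hφH' : H ≤ Subgroup.centralizer ({φ} : Set G) := fun h hh =>
      Subgroup.mem_centralizer_singleton_iff.2 (hφc h hh)
    have htop := hsub _ (fun y hy => by
      rw [Subgroup.mem_centralizer_singleton_iff] at hy ⊢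
      have h1 : σ y * σ φ = σ φ * σ y := by rw [← map_mul, ← map_mul, hy]
      obtain ⟨k, hk, e⟩ : ∃ k ∈ E, σ φ = φ * k := ⟨_, hφσ, by group⟩
      rw [e, ← mul_assoc, mul_assoc φ, ← hEcen k hk (σ y), ← mul_assoc] at h1
      exact mul_right_cancel h1) hφH'
    exact fun g => Subgroup.mem_centralizer_singleton_iff.1 (htop ▸ Subgroup.mem_top g)
  have hφE : φ ∉ E := fun h => hz1 (hφπ ▸ (QuotientGroup.eq_one_iff φ).2 h)
  have hφ2E : φ ^ 2 ∈ E := by rw [hφ2]; exact one_mem E
  set D := adjoin E φ with hD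
  haveI : D.Normal := adjoin_normal hφ2E fun g => by
    rw [hφcen g]; group; exact one_mem E
  have hDσ : ∀ x ∈ D, σ x ∈ D := adjoin_invariant hφ2E hEσ hφσ
  have hDcard : Nat.card D = 16 := by rw [hD, card_adjoin hφ2E hφE, hE8]
  have hDinv : ∀ y ∈ D, σ y = y⁻¹ → y ∈ fixSub σ := fun y hy h => by
    refine fixed_of_inverted_of_sq h ?_
    rcases (mem_adjoin hφ2E).1 hy with hy | hy
    · exact hy.2
    · have e : y = y * φ⁻¹ * φ := by group
      rw [e, Commute.mul_pow (hφcen (y * φ⁻¹)), hy.2, hφ2, one_mul]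
  have hone : Nat.card (fixSub (quotHom σ D hDσ)) ≤ 1 := by
    have h := card_fixSub_quotHom_mul_le hσ D hDσ (fixSub σ) hDinv
    rw [hDcard] at h
    have := Nat.mul_le_mul hfix hfix
    omega
  have hGD : Nat.card G ≤ 16 := by
    rw [← hDcard, ← Subgroup.card_top (G := G)]
    exact Subgroup.card_le_of_le fun g _ => mem_of_quot_fix_le_one hG hσ hone g
  exact hH (gapLE_of_card_le ((Subgroup.card_le_card_group H).trans hGD))

/-- The conjugation by `x`. -/
def conjHom (x : G) : G →* G := (MulAut.conj x).toMonoidHom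

omit [Finite G] in
@[simp] theorem conjHom_apply (x g : G) : conjHom x g = x * g * x⁻¹ := rfl

omit [Finite G] in
theorem involutive_conjHom {x : G} (hx : x ^ 2 = 1) : Function.Involutive (conjHom x) :=
  fun g => by
    have e : x * (x * g * x⁻¹) * x⁻¹ = x ^ 2 * g * (x ^ 2)⁻¹ := by rw [pow_two]; group
    rw [conjHom_apply, conjHom_apply, e, hx, one_mul, inv_one, mul_one]

omit [Finite G] in
theorem fixSub_conjHom (x : G) : fixSub (conjHom x) = Subgroup.centralizer ({x} : Set G) := by
  ext g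
  rw [mem_fixSub, conjHom_apply, Subgroup.mem_centralizer_singleton_iff, mul_inv_eq_iff_eq_mul,
    eq_comm]

/-- An involution with centraliser of order at most eight. -/
theorem hasRK_four_of_centralizer_le_eight : ∀ {G : Type u} [Group G] [Finite G], IsPGroup 2 G →
    ∀ {x : G}, x ^ 2 = 1 → Nat.card (Subgroup.centralizer ({x} : Set G)) ≤ 8 → HasRK 4 G := by
  intro G _ _ hG x hx hC
  induction hn : Nat.card G using Nat.strong_induction_on generalizing G with
  | _ n ih =>
  have : Fact (Nat.Prime 2) := ⟨Nat.prime_two⟩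
  intro H
  rcases eq_top_or_exists_le_coatom H with rfl | ⟨T, hT, hHT⟩
  · exact (gapLE_top_of_centralizer x).mono (hC.trans (by norm_num))
  have hidx : T.index = 2 := PGroup.index_of_coatom hG hT
  haveI : T.Normal := Subgroup.normal_of_index_eq_two hidx
  refine HasRK.gapLE_of_le ?_ hHT
  by_cases hxT : x ∈ T
  · have hlt : Nat.card T < n := by
      have := T.card_mul_index
      rw [hidx] at this
      have := Nat.card_pos (α := T)
      omega
    have hle : Nat.card (Subgroup.centralizer ({⟨x, hxT⟩} : Set T)) ≤ 8 := by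
      refine le_trans ?_ hC
      refine Nat.card_le_card_of_injective (fun g : Subgroup.centralizer ({⟨x, hxT⟩} : Set T) =>
        (⟨((g : T) : G), Subgroup.mem_centralizer_singleton_iff.2 (congrArg Subtype.val
          (Subgroup.mem_centralizer_singleton_iff.1 g.2))⟩ :
            Subgroup.centralizer ({x} : Set G))) fun a b e => ?_
      exact Subtype.ext (Subtype.ext (congrArg (fun w : Subgroup.centralizer ({x} : Set G) =>
        (w : G)) e))
    exact ih _ hlt (hG.to_subgroup T) (x := ⟨x, hxT⟩) (Subtype.ext hx) hle rfl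
  · have hinv : ∀ t ∈ T, conjHom x t ∈ T := fun t ht => Subgroup.Normal.conj_mem inferInstance t ht x
    refine hasRK_four_of_fix_le_four (hG.to_subgroup T)
      (involutive_subHom (involutive_conjHom hx) hinv) ?_
    rw [card_fixSub_subHom, fixSub_conjHom]
    have h2 := two_mul_card_le (inf_le_left : Subgroup.centralizer ({x} : Set G) ⊓ T ≤ _)
      (Subgroup.mem_centralizer_singleton_iff.2 rfl) fun h => hxT h.2
    omega

end CfsgLib.SectRank
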