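import Cfsg.Agent.SectRank.FreeFour

/-!
Tools for Harada's theorem on self-centralising elementary subgroups of order eight.
-/

set_option autoImplicit false

namespace CfsgLib.SectRank

universe u

variable {G : Type u} [Group G]

/-- An elementary abelian self-centralising subgroup of order eight. -/
structure SelfEight (A : Subgroup G) : Prop where
  sq : ∀ a ∈ A, a ^ 2 = 1
  card : Nat.card A = 8
  self : Subgroup.centralizer (A : Set G) = A

theorem inv_eq_self_of_sq {a : G} (h : a ^ 2 = 1) : a⁻¹ = a :=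
  inv_eq_of_mul_eq_one_right (by rw [← pow_two, h])

theorem mul_comm_of_sq {A : Subgroup G} (h : ∀ a ∈ A, a ^ 2 = 1) :
    ∀ a ∈ A, ∀ b ∈ A, a * b = b * a := fun a ha b hb => by
  calc a * b = (a * b)⁻¹ := (inv_eq_self_of_sq (h _ (mul_mem ha hb))).symm
    _ = b * a := by rw [mul_inv_rev, inv_eq_self_of_sq (h a ha), inv_eq_self_of_sq (h b hb)]

theorem SelfEight.comm {A : Subgroup G} (hA : SelfEight A) : ∀ a ∈ A, ∀ b ∈ A, a * b = b * a :=
  mul_comm_of_sq hA.sq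

theorem SelfEight.center_le {A : Subgroup G} (hA : SelfEight A) : Subgroup.center G ≤ A := by
  calc Subgroup.center G ≤ Subgroup.centralizer (A : Set G) := Subgroup.center_le_centralizer _
    _ = A := hA.self

theorem eq_one_or_eq_of_mem_zpowers {z : G} (hz : z ^ 2 = 1) {x : G}
    (hx : x ∈ Subgroup.zpowers z) : x = 1 ∨ x = z := by
  obtain ⟨i, rfl⟩ := Subgroup.mem_zpowers_iff.1 hx
  rcases Int.even_or_odd i with ⟨r, rfl⟩ | ⟨r, rfl⟩
  · exact Or.inl (by rw [← two_mul, zpow_mul, zpow_two, ← pow_two, hz, one_zpow])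
  · exact Or.inr (by rw [zpow_add_one, zpow_mul, zpow_two, ← pow_two, hz, one_zpow, one_mul])

theorem zpowers_normal_of_center {z : G} (hz : z ∈ Subgroup.center G) :
    (Subgroup.zpowers z).Normal :=
  ⟨fun a ha g => by
    have hac : a ∈ Subgroup.center G := (Subgroup.zpowers_le.2 hz) ha
    rwa [Subgroup.mem_center_iff.1 hac g, mul_inv_cancel_right]⟩

theorem card_zpowers_le_two [Finite G] {z : G} (hz : z ^ 2 = 1) :
    Nat.card (Subgroup.zpowers z) ≤ 2 := by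
  rw [Nat.card_zpowers]
  exact Nat.le_of_dvd two_pos (orderOf_dvd_of_pow_eq_one hz)

theorem card_le_two_mul_of_cover [Finite G] {H K : Subgroup G} (q : G)
    (h : ∀ x ∈ H, x ∈ K ∨ x * q⁻¹ ∈ K) : Nat.card H ≤ 2 * Nat.card K := by
  have hsub : (H : Set G) ⊆ (K : Set G) ∪ (fun n => n * q) '' (K : Set G) := fun x hx => by
    rcases h x hx with h | h
    · exact Or.inl h
    · exact Or.inr ⟨_, h, inv_mul_cancel_right x q⟩
  have h := (Set.ncard_le_ncard hsub (Set.toFinite _)).trans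
    ((Set.ncard_union_le _ _).trans (Nat.add_le_add_left (Set.ncard_image_le (Set.toFinite _)) _))
  rw [← Nat.card_coe_set_eq, ← Nat.card_coe_set_eq] at h
  simp only [SetLike.coe_sort_coe] at h
  omega

theorem card_le_two_mul_card_inf [Finite G] {H M : Subgroup G}
    (h : ∀ a ∈ H, ∀ b ∈ H, a ∉ M → b ∉ M → a * b⁻¹ ∈ M) :
    Nat.card H ≤ 2 * Nat.card ↥(H ⊓ M) := by
  by_cases hH : H ≤ M
  · rw [inf_eq_left.2 hH]; omega
  obtain ⟨q, hq, hqM⟩ := SetLike.not_le_iff_exists.1 hH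
  refine card_le_two_mul_of_cover q fun x hx => ?_
  by_cases hxM : x ∈ M
  · exact Or.inl ⟨hx, hxM⟩
  · exact Or.inr ⟨H.mul_mem hx (H.inv_mem hq), h x hx q hq hxM hqM⟩

theorem GapLE.of_cover [Finite G] {H M : Subgroup G} {a : ℕ}
    (hcov : ∀ a ∈ H, ∀ b ∈ H, a ∉ M → b ∉ M → a * b⁻¹ ∈ M) (h : GapLE (H ⊓ M) a) :
    GapLE H (2 * a) := by
  unfold GapLE at h ⊢
  calc Nat.card H ≤ 2 * Nat.card ↥(H ⊓ M) := card_le_two_mul_card_inf hcov
    _ ≤ 2 * (a * Nat.card (sqSub (H ⊓ M))) := Nat.mul_le_mul_left _ h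
    _ ≤ 2 * (a * Nat.card (sqSub H)) := Nat.mul_le_mul_left _ (Nat.mul_le_mul_left _
        (Subgroup.card_le_of_le (sqSub_mono inf_le_left)))
    _ = _ := by ring

theorem mem_sup_zpowers {H : Subgroup G} {q : G} (hq2 : q ^ 2 ∈ H)
    (hn : ∀ h ∈ H, q * h * q⁻¹ ∈ H) {x : G} (hx : x ∈ H ⊔ Subgroup.zpowers q) :
    x ∈ H ∨ x * q⁻¹ ∈ H := by
  have hn' : ∀ h ∈ H, q⁻¹ * h * q ∈ H := fun h hh => by
    have e : q⁻¹ * h * q = (q ^ 2)⁻¹ * (q * h * q⁻¹) * q ^ 2 := by rw [pow_two]; group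
    rw [e]
    exact mul_mem (mul_mem (inv_mem hq2) (hn h hh)) hq2
  let L : Subgroup G :=
    { carrier := {x | x ∈ H ∨ x * q⁻¹ ∈ H}
      one_mem' := Or.inl (one_mem H)
      mul_mem' := by
        rintro a b (ha | ha) (hb | hb)
        · exact Or.inl (mul_mem ha hb)
        · exact Or.inr (by rw [mul_assoc]; exact mul_mem ha hb)
        · right
          have e : a * b * q⁻¹ = a * q⁻¹ * (q * b * q⁻¹) := by group
          rw [e]; exact mul_mem ha (hn b hb)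
        · left
          have e : a * b = a * q⁻¹ * (q * (b * q⁻¹) * q⁻¹) * q ^ 2 := by rw [pow_two]; group
          rw [e]; exact mul_mem (mul_mem ha (hn _ hb)) hq2
      inv_mem' := by
        rintro a (ha | ha)
        · exact Or.inl (inv_mem ha)
        · right
          have e : a⁻¹ * q⁻¹ = q⁻¹ * (a * q⁻¹)⁻¹ * q * (q ^ 2)⁻¹ := by rw [pow_two]; group
          rw [e]; exact mul_mem (hn' _ (inv_mem ha)) (inv_mem hq2) }
  exact (sup_le (c := L) (fun h hh => Or.inl hh)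
    (Subgroup.zpowers_le.2 (Or.inr (by rw [mul_inv_cancel]; exact one_mem H)))) hx

theorem card_sup_zpowers_le [Finite G] {H : Subgroup G} {q : G} (hq2 : q ^ 2 ∈ H)
    (hn : ∀ h ∈ H, q * h * q⁻¹ ∈ H) :
    Nat.card ↥(H ⊔ Subgroup.zpowers q) ≤ 2 * Nat.card H :=
  card_le_two_mul_of_cover q fun _ hx => mem_sup_zpowers hq2 hn hx

/-- A maximal bad subgroup absorbs every element adding only little to its squares. -/
theorem mem_of_maximal_bad [Finite G] {H : Subgroup G} {a : ℕ}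
    (hH : Maximal (fun K : Subgroup G => ¬ GapLE K a) H) {q : G} (hq2 : q ^ 2 ∈ H)
    (hn : ∀ h ∈ H, q * h * q⁻¹ ∈ H) {K : Subgroup G} (hHK : sqSub H ≤ K)
    (hK : ∀ h ∈ H, (h * q) ^ 2 ∈ K) (hcard : Nat.card K ≤ 2 * Nat.card (sqSub H)) : q ∈ H := by
  by_contra hq
  set H' := H ⊔ Subgroup.zpowers q with hH'
  have hqH' : q ∈ H' := Subgroup.mem_sup_right (Subgroup.mem_zpowers q)
  have hlt : ¬ H' ≤ H := fun h => hq (h hqH')
  refine hlt (hH.2 (fun hgap => hH.1 ?_) le_sup_left)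
  have h2 : 2 * Nat.card H ≤ Nat.card H' := two_mul_card_le le_sup_left hqH' hq
  have hsq : sqSub H' ≤ K := sqSub_le_iff.2 fun x hx => by
    rcases mem_sup_zpowers hq2 hn hx with h | h
    · exact hHK (sq_mem_sqSub h)
    · have := hK _ h
      rwa [inv_mul_cancel_right] at this
  unfold GapLE at hgap ⊢
  have h3 := Nat.mul_le_mul_left a ((Subgroup.card_le_of_le hsq).trans hcard)
  have h4 : a * (2 * Nat.card (sqSub H)) = 2 * (a * Nat.card (sqSub H)) := by ring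
  omega

theorem index_centralizer_le [Finite G] (x : G) (N : Subgroup G)
    (hN : ∀ g : G, g * x * g⁻¹ * x⁻¹ ∈ N) :
    (Subgroup.centralizer ({x} : Set G)).index ≤ Nat.card N := by
  have h := card_le_card_mul_card_centralizer x N hN
  rw [← (Subgroup.centralizer ({x} : Set G)).index_mul_card] at h
  exact Nat.le_of_mul_le_mul_right h Nat.card_pos

theorem card_le_of_isPGroup_two [Finite G] (hG : IsPGroup 2 G) {J K : Subgroup G} {k : ℕ}
    (hJK : J ≤ K) (hne : ¬ K ≤ J) (hK : Nat.card K ≤ 2 ^ (k + 1)) : Nat.card J ≤ 2 ^ k := by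
  obtain ⟨x, hxK, hxJ⟩ := SetLike.not_le_iff_exists.1 hne
  have := two_mul_card_le hJK hxK hxJ
  rw [pow_succ] at hK
  omega

theorem mk_conjHom {N : Subgroup G} [N.Normal] (x g : G) :
    QuotientGroup.mk' N (conjHom x g) = conjHom (QuotientGroup.mk' N x) (QuotientGroup.mk' N g) := by
  simp

/-- The fixed points in a subgroup of the quotient are few. -/
theorem card_fix_map_mul_le [Finite G] {x : G} (hx : x ^ 2 = 1) (M N : Subgroup G) [N.Normal]
    (hNM : N ≤ M) (J : Subgroup G) (hJ : ∀ n ∈ N, x * n * x⁻¹ = n⁻¹ → n ∈ J) :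
    Nat.card ↥(Subgroup.centralizer ({QuotientGroup.mk' N x} : Set (G ⧸ N)) ⊓
        M.map (QuotientGroup.mk' N)) * Nat.card N ≤
      Nat.card ↥(Subgroup.centralizer ({x} : Set G) ⊓ M) * Nat.card J := by
  set π := QuotientGroup.mk' N with hπ
  set Q := Subgroup.centralizer ({π x} : Set (G ⧸ N)) ⊓ M.map π with hQ
  set P := Q.comap π with hP
  have hNP : N ≤ P := fun n hn => by
    rw [hP, Subgroup.mem_comap, show π n = 1 from (QuotientGroup.eq_one_iff n).2 hn]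
    exact one_mem _
  have hcP := card_inf_mul_card_map_mk N P
  rw [inf_eq_right.2 hNP, Subgroup.map_comap_eq_self_of_surjective
    (QuotientGroup.mk'_surjective N), mul_comm] at hcP
  rw [hcP, ← Nat.card_prod]
  have hPM : ∀ p : P, (p : G) ∈ M := fun p => by
    obtain ⟨m, hm, e⟩ := p.2.2
    have : m⁻¹ * (p : G) ∈ N := QuotientGroup.eq.1 e
    simpa using mul_mem hm (hNM this)
  have hmem : ∀ p : P, (p : G)⁻¹ * (x * (p : G) * x⁻¹) ∈ J := fun p => by
    refine hJ _ ?_ ?_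
    · have h1 : π x * π (p : G) = π (p : G) * π x :=
        (Subgroup.mem_centralizer_singleton_iff.1 p.2.1).symm
      rw [← QuotientGroup.eq_one_iff (N := N)]
      show π ((p : G)⁻¹ * (x * (p : G) * x⁻¹)) = 1
      rw [map_mul, map_mul, map_mul, map_inv, map_inv, h1]
      group
    · exact map_inv_mul_self (σ := conjHom x) (involutive_conjHom hx) (p : G)
  let δ : P → J := fun p => ⟨_, hmem p⟩
  haveI : Nonempty P := ⟨1⟩
  have hfib : ∀ p : P, (p : G) * ((Function.invFun δ (δ p) : P) : G)⁻¹ ∈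
      Subgroup.centralizer ({x} : Set G) ⊓ M := fun p => by
    refine ⟨?_, M.mul_mem (hPM p) (M.inv_mem (hPM _))⟩
    have e : ((Function.invFun δ (δ p) : P) : G)⁻¹ * (x * ((Function.invFun δ (δ p) : P) : G) * x⁻¹)
        = (p : G)⁻¹ * (x * (p : G) * x⁻¹) :=
      congrArg Subtype.val (Function.invFun_eq (f := δ) ⟨p, rfl⟩)
    revert e
    generalize ((Function.invFun δ (δ p) : P) : G) = s
    intro e
    refine Subgroup.mem_centralizer_singleton_iff.2 ?_
    calc (p : G) * s⁻¹ * x = (p : G) * (s⁻¹ * (x * s * x⁻¹)) * (x * s⁻¹ * x⁻¹) * x := by group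
      _ = (p : G) * ((p : G)⁻¹ * (x * (p : G) * x⁻¹)) * (x * s⁻¹ * x⁻¹) * x := by rw [e]
      _ = x * ((p : G) * s⁻¹) := by group
  refine Nat.card_le_card_of_injective (fun p : P => (⟨_, hfib p⟩, δ p) :
    P → ↥(Subgroup.centralizer ({x} : Set G) ⊓ M) × J) fun p r hpr => ?_
  obtain ⟨h1, h2⟩ := Prod.mk.injEq _ _ _ _ ▸ hpr
  have e := congrArg Subtype.val h1
  simp only at e
  rw [h2] at e
  exact Subtype.ext (mul_right_cancel e)

/-- An element acting as `v ↦ v ^ (1 + 4 ℤ)` nontrivially, with square centralising `v`, multiplies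
`v` by the involution. -/
theorem conj_eq_mul_involution (hG : IsPGroup 2 G) {n y : G}
    (hconj : n * y * n⁻¹ ∈ Subgroup.zpowers y) (hn2 : n ^ 2 * y = y * n ^ 2) {m : ℕ}
    (hm2 : (y ^ m) ^ 2 ≠ 1) (hm4 : (y ^ m) ^ 4 = 1) (hmn : n * y ^ m = y ^ m * n)
    (hny : n * y ≠ y * n) : n * y * n⁻¹ = (y ^ m) ^ 2 * y := by
  obtain ⟨k, hk⟩ := Subgroup.mem_zpowers_iff.1 hconj
  have hy1 : y ≠ 1 := fun h => hny (by rw [h]; group)
  have hk2 : y ^ (k * k) = y := by
    calc y ^ (k * k) = (n * y * n⁻¹) ^ k := by rw [zpow_mul, hk]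
      _ = n * y ^ k * n⁻¹ := conj_zpow
      _ = n ^ 2 * y * (n ^ 2)⁻¹ := by rw [hk, pow_two]; group
      _ = y := by rw [hn2, mul_inv_cancel_right]
  obtain ⟨r, hr⟩ : Odd k := by
    refine (Int.even_or_odd k).resolve_left ?_
    rintro ⟨r, rfl⟩
    refine hy1 (eq_one_of_odd_zpow hG (n := (r + r) * (r + r) - 1) ⟨2 * r * r - 1, by ring⟩ ?_)
    rw [zpow_sub_one, hk2, mul_inv_cancel]
  have h1 : (y ^ m) ^ k = y ^ m := by
    calc (y ^ m) ^ k = (y ^ k) ^ m := by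
          rw [← zpow_natCast y m, ← zpow_natCast (y ^ k) m, ← zpow_mul, ← zpow_mul, mul_comm]
      _ = n * y ^ m * n⁻¹ := by rw [hk, conj_pow]
      _ = y ^ m := by rw [hmn, mul_inv_cancel_right]
  have hc2 : ((y ^ m) ^ 2) ^ 2 = 1 := by rw [← pow_mul]; exact hm4
  obtain ⟨t, ht⟩ : Odd (r + 1) := by
    rcases Int.even_or_odd r with ⟨t, ht⟩ | ⟨t, ht⟩
    · exact ⟨t, by omega⟩
    exfalso
    rw [hr, zpow_add_one, mul_eq_right, zpow_mul, zpow_two, ← pow_two, ht, zpow_add_one, zpow_mul,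
      zpow_two, ← pow_two, hc2, one_zpow, one_mul] at h1
    exact hm2 h1
  set d := y ^ (2 * r) with hd
  have hd' : n * y * n⁻¹ = d * y := by rw [← hk, hr, zpow_add_one]
  have hd2 : d ^ 2 = 1 := by
    refine eq_one_of_odd_zpow hG (n := r + 1) ⟨t, ht⟩ ?_
    have h3 : y ^ (k * k - 1) = 1 := by rw [zpow_sub_one, hk2, mul_inv_cancel]
    rw [hd, ← zpow_natCast (y ^ (2 * r)) 2, ← zpow_mul, ← zpow_mul, ← h3, hr]
    congr 1
    push_cast
    ring
  have hd1 : d ≠ 1 := fun h => hny (by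
    rw [h, one_mul, mul_inv_eq_iff_eq_mul] at hd'; exact hd')
  have hdy : d ∈ Subgroup.zpowers y := Subgroup.zpow_mem_zpowers y (2 * r)
  rw [hd', eq_of_involutions_mem_zpowers hG hdy
    (pow_mem (pow_mem (Subgroup.mem_zpowers y) m) 2) hd1 hm2 hd2 hc2]

theorem not_mem_zpowers_sq (hG : IsPGroup 2 G) {y : G} (hy : y ≠ 1) :
    y ∉ Subgroup.zpowers (y ^ 2) := fun h => by
  obtain ⟨i, hi⟩ := Subgroup.mem_zpowers_iff.1 h
  refine hy (eq_one_of_odd_zpow hG (n := 2 * i - 1) ⟨i - 1, by ring⟩ ?_)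
  rw [zpow_sub_one, zpow_mul, zpow_two, ← pow_two, hi, mul_inv_cancel]

section Cyclic

variable [Finite G]

/-- On a cyclic 2-group an endomorphism fixing an element of order four sends `b` to `b ^ (1 + 4ℤ)`. -/
theorem sq_mem_zpowers_mul_map (hG : IsPGroup 2 G) [hc : IsCyclic G] (ψ : G →* G) {c : G}
    (hc2 : c ^ 2 ≠ 1) (hc4 : c ^ 4 = 1) (hψ : ψ c = c) {b : G} (hb : ∀ r : G, r ^ 2 ≠ b) (y : G) :
    y ^ 2 ∈ Subgroup.zpowers (b * ψ b) := by
  obtain ⟨g, hg⟩ := hc.exists_generator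
  obtain ⟨i, hi⟩ := Subgroup.mem_zpowers_iff.1 (hg b)
  obtain ⟨j, hj⟩ := Subgroup.mem_zpowers_iff.1 (hg (ψ g))
  obtain ⟨m, hm⟩ := Subgroup.mem_zpowers_iff.1 (hg c)
  have hio : Odd i := by
    refine (Int.even_or_odd i).resolve_left ?_
    rintro ⟨r, rfl⟩
    exact hb (g ^ r) (by rw [pow_two, ← zpow_add, hi])
  have hcj : c ^ (j - 1) = 1 := by
    have h : ψ c = c ^ j := by
      rw [← hm, map_zpow, ← hj, ← zpow_mul, ← zpow_mul, mul_comm]
    rw [zpow_sub_one, ← h, hψ, mul_inv_cancel]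
  obtain ⟨t, ht⟩ : ∃ t, j + 1 = 2 * (2 * t + 1) := by
    rcases Int.even_or_odd (j - 1) with ⟨s, hs⟩ | hodd
    · rcases Int.even_or_odd s with ⟨t, ht⟩ | hodd'
      · exact ⟨t, by omega⟩
      · exfalso
        rw [hs, ← two_mul, zpow_mul, zpow_two, ← pow_two] at hcj
        exact hc2 (eq_one_of_odd_zpow hG hodd' hcj)
    · exact absurd (eq_one_of_odd_zpow hG hodd hcj) fun h => hc2 (by rw [h, one_pow])
  have he : b * ψ b = (g ^ 2) ^ (i * (2 * t + 1)) := by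
    rw [← hi, map_zpow, ← hj, ← zpow_mul, ← zpow_add, ← zpow_natCast g 2, ← zpow_mul]
    congr 1
    push_cast
    calc i + j * i = i * (j + 1) := by ring
      _ = _ := by rw [ht]; ring
  rw [he, zpowers_zpow_odd hG (hio.mul ⟨t, by ring⟩)]
  obtain ⟨l, hl⟩ := Subgroup.mem_zpowers_iff.1 (hg y)
  exact ⟨l, by
    show (g ^ 2) ^ l = y ^ 2
    rw [← hl, ← zpow_natCast g 2, ← zpow_natCast _ 2, ← zpow_mul, ← zpow_mul, mul_comm]⟩

/-- On a cyclic 2-group an automorphism moves every element by a square. -/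
theorem exists_sq_eq_map_mul_inv (hG : IsPGroup 2 G) [hc : IsCyclic G] (ψ : G →* G)
    (hψ : Function.Injective ψ) (y : G) : ∃ r : G, r ^ 2 = ψ y * y⁻¹ := by
  obtain ⟨g, hg⟩ := hc.exists_generator
  obtain ⟨j, hj⟩ := Subgroup.mem_zpowers_iff.1 (hg (ψ g))
  obtain ⟨l, hl⟩ := Subgroup.mem_zpowers_iff.1 (hg y)
  obtain ⟨g', hg'⟩ := (Finite.injective_iff_surjective.1 hψ) g
  obtain ⟨i, hi⟩ := Subgroup.mem_zpowers_iff.1 (hg g')
  rcases eq_or_ne g 1 with h1 | h1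
  · exact ⟨1, by rw [← hl, h1]; simp⟩
  obtain ⟨s, hs⟩ : Odd j := by
    refine (Int.even_or_odd j).resolve_left ?_
    rintro ⟨s, rfl⟩
    refine not_mem_zpowers_sq hG h1 ⟨s * i, ?_⟩
    show (g ^ 2) ^ (s * i) = g
    conv_rhs => rw [← hg', ← hi, map_zpow, ← hj, ← zpow_mul]
    rw [← zpow_natCast g 2, ← zpow_mul]
    congr 1
    push_cast
    ring
  refine ⟨g ^ (s * l), ?_⟩
  rw [← hl, map_zpow, ← hj, ← zpow_natCast _ 2, ← zpow_mul, ← zpow_mul, ← zpow_neg, ← zpow_add, hs]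
  congr 1
  push_cast
  ring

/-- A subgroup which reaches every element modulo squares of an abelian 2-group is everything. -/
theorem le_of_mod_squares (hG : IsPGroup 2 G) {X B : Subgroup G} (hB : B ≤ X)
    (hc : ∀ a ∈ X, ∀ b ∈ X, a * b = b * a) (h : ∀ w ∈ X, ∃ r ∈ X, (r ^ 2)⁻¹ * w ∈ B) :
    X ≤ B := by
  have : Fact (Nat.Prime 2) := ⟨Nat.prime_two⟩
  have hk : ∀ k : ℕ, ∀ w ∈ X, ∃ r ∈ X, (r ^ 2 ^ k)⁻¹ * w ∈ B := by
    intro k
    induction k with
    | zero => exact fun w hw => ⟨w, hw, by simp [one_mem]⟩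
    | succ k ih =>
      intro w hw
      obtain ⟨r, hr, hrw⟩ := ih w hw
      obtain ⟨s, hs, hsr⟩ := h r hr
      refine ⟨s, hs, ?_⟩
      have e : r ^ 2 ^ k = (s ^ 2) ^ 2 ^ k * ((s ^ 2)⁻¹ * r) ^ 2 ^ k := by
        rw [← Commute.mul_pow (hc _ (pow_mem hs 2) _ (hB hsr)), mul_inv_cancel_left]
      have e2 : (s ^ 2 ^ (k + 1))⁻¹ * w = ((s ^ 2)⁻¹ * r) ^ 2 ^ k * ((r ^ 2 ^ k)⁻¹ * w) := by
        rw [e, pow_succ', pow_mul]; group
      rw [e2]
      exact mul_mem (pow_mem hsr _) hrw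
  intro w hw
  obtain ⟨n, hn⟩ := IsPGroup.iff_card.1 hG
  obtain ⟨r, -, hrw⟩ := hk n w hw
  rwa [← hn, pow_card_eq_one', inv_one, one_mul] at hrw

end Cyclic

end CfsgLib.SectRank
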